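import Cfsg.Agent.H18.Pair
import Cfsg.Agent.H21.Real
import Cfsg.Agent.H17.Square

/-! Groups with `χ(1) - χ(u) = 4` or `χ(u) = 0`: the types of characters. -/

set_option autoImplicit false
set_option linter.unusedSectionVars false
open H17 Cfsg H15 CF H21 Finset
open scoped ComplexConjugate Classical

namespace H18.Bz

variable {G : Type*} [Group G] [Finite G] {u : G} {φ ψ χ θ : G → ℂ}

local notation "IG" => Irr (⊤ : Subgroup G)

theorem cube (hp : commutator G = ⊤) (h : IsChar ⊤ χ) (h3 : χ 1 = 3) (g : G) :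
    χ (g * g) = χ g ^ 2 - 2 * conj (χ g) := by
  rw [h.conj_apply]
  obtain ⟨n, ρ, rfl⟩ := isChar_top.1 h
  have := Fintype.ofFinite G
  obtain rfl : n = 3 := by
    rw [Representation.char_one] at h3
    simp only [Module.finrank_fintype_fun_eq_card, Fintype.card_fin] at h3
    exact_mod_cast h3
  have hd : (mx ρ g).det = 1 := by
    have := Abelianization.commutator_subset_ker (Matrix.detMonoidHom.comp (mx ρ)).toHomUnits
      (hp ▸ Subgroup.mem_top g)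
    exact congrArg Units.val this
  have hi : mx ρ g⁻¹ = (mx ρ g).adjugate := by
    have h1 : (mx ρ g).adjugate * mx ρ g = 1 := by rw [Matrix.adjugate_mul, hd, one_smul]
    rw [← one_mul (mx ρ g⁻¹), ← h1, mul_assoc, ← map_mul, mul_inv_cancel, map_one, mul_one]
  simp only [Representation.character, ← trace_mx]
  rw [hi, map_mul, Matrix.adjugate_fin_three]
  simp [Matrix.trace_fin_three, Matrix.mul_apply, Fin.sum_univ_three]
  ring

theorem pair3 (x g : G) : ∃ r : ℝ, 0 ≤ r ∧ ∑ χ ∈ IG, χ x ^ 2 * conj (χ g) / χ 1 = r ∧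
    (r ≠ 0 → ∃ a b, g = a * x * a⁻¹ * (b * x * b⁻¹)) := by
  have h2 : ((ccls x).ncard : ℂ) ≠ 0 := by
    rw [ncard_ccls]; exact_mod_cast Subgroup.index_ne_zero_of_finite
  let N : G → ℕ := fun y => if ∃ t ∈ (⊤ : Subgroup G), t * y * t⁻¹ = g then
    Nat.card ↥((⊤ : Subgroup G) ⊓ Subgroup.centralizer {y}) else 0
  have h1 : pairSum x x (∑ χ ∈ IG, conj (χ g) • χ) =
      (∑ a ∈ fs (ccls x), ∑ b ∈ fs (ccls x), N (a * b) : ℕ) := by
    rw [pairSum_apply]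
    push_cast
    refine sum_congr rfl fun a _ => sum_congr rfl fun b _ => ?_
    simp only [Finset.sum_apply, Pi.smul_apply, smul_eq_mul, mul_comm (conj _)]
    rw [column_orth (Subgroup.mem_top _)]
    simp only [N]
    split_ifs <;> simp
  rw [map_sum, sum_congr rfl fun χ hχ => by rw [map_smul, pairSum_irr hχ]] at h1
  refine ⟨(∑ a ∈ fs (ccls x), ∑ b ∈ fs (ccls x), N (a * b) : ℕ) / (ccls x).ncard ^ 2,
    by positivity, ?_, fun h => ?_⟩
  · rw [Complex.ofReal_div, Complex.ofReal_natCast, ← h1, eq_div_iff (by simpa using h2), sum_mul]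
    refine sum_congr rfl fun χ _ => ?_
    simp only [smul_eq_mul, Complex.ofReal_pow, Complex.ofReal_natCast]
    ring
  · by_contra! hn
    refine h ?_
    have : ∑ a ∈ fs (ccls x), ∑ b ∈ fs (ccls x), N (a * b) = 0 := by
      refine sum_fs_eq_zero fun _ ⟨a, ha⟩ => sum_fs_eq_zero fun _ ⟨b, hb⟩ => if_neg ?_
      rintro ⟨t, -, rfl⟩
      exact hn (t * a) (t * b) (by rw [← ha, ← hb]; group)
    rw [this]
    simp

/-- the multiplicity -/
noncomputable def mu (φ ψ : G → ℂ) : ℕ := ⌊(dot ⊤ φ ψ).re⌋₊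

theorem mu_cast (h : IsChar ⊤ φ) (h' : IsChar ⊤ ψ) : (mu φ ψ : ℂ) = dot ⊤ φ ψ := by
  obtain ⟨n, hn⟩ := h.dot_nat h'
  simp [mu, hn]

theorem mu_ne (h : IsChar ⊤ φ) (h' : IsChar ⊤ ψ) : mu φ ψ ≠ 0 ↔ dot ⊤ φ ψ ≠ 0 := by
  rw [← mu_cast h h', Nat.cast_ne_zero]

theorem mu_comm (h : IsChar ⊤ φ) (h' : IsChar ⊤ ψ) : mu φ ψ = mu ψ φ := by
  rw [mu, mu, h.dot_comm h']

theorem mu_star (φ ψ : G → ℂ) : mu (star φ) (star ψ) = mu ψ φ := by
  rw [mu, mu, dot_star_star]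

theorem mu_mul (φ θ ψ : G → ℂ) : mu (φ * θ) ψ = mu φ (ψ * star θ) := by
  rw [mu, mu, dot_mul_left]

theorem mu_add (h : IsChar ⊤ φ) (h1 : IsChar ⊤ θ) (h' : IsChar ⊤ ψ) :
    mu (φ + θ) ψ = mu φ ψ + mu θ ψ := by
  apply Nat.cast_injective (R := ℂ)
  rw [Nat.cast_add, mu_cast h h', mu_cast h1 h', mu_cast (h.add h1) h', dot_add_left]

theorem mu_irr (h : φ ∈ IG) (h' : ψ ∈ IG) : mu φ ψ = if φ = ψ then 1 else 0 := by
  rw [mu, dot_irr h h']; split_ifs <;> simp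

theorem one_irr : (1 : G → ℂ) ∈ IG := one_top (G := G) ▸ one_mem_Irr ⊤

theorem mu_sum (h : IsChar ⊤ φ) (g : G) : φ g = ∑ χ ∈ IG, mu φ χ * χ g := by
  rw [cf_apply_eq_sum h.cf]
  exact sum_congr rfl fun χ hχ => by rw [mu_cast h (irr_char hχ)]

theorem mu_mul_one (h : φ ∈ IG) (h' : ψ ∈ IG) :
    mu (φ * ψ) 1 = if φ = star ψ then 1 else 0 := by
  rw [mu_mul, one_mul, mu_irr h (star_mem_Irr h')]

/-- the hypothesis -/
structure Hy (u : G) : Prop where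
  ne : u ≠ 1
  perf : commutator G = ⊤
  val : ∀ χ ∈ IG, χ ≠ 1 → χ u = χ 1 - 4 ∨ χ u = 0

namespace Hy

theorem ker (h : Hy u) (hχ : χ ∈ IG) (e : χ u = χ 1) : χ = 1 := by
  by_contra h1
  rcases h.val χ hχ h1 with h2 | h2
  · rw [e] at h2; norm_num [eq_sub_iff_add_eq] at h2
  · exact irr_one_ne hχ (e ▸ h2)

theorem deg (h : Hy u) (hχ : χ ∈ IG) (h1 : χ ≠ 1) (h2 : χ u ≠ 0) :
    ∃ d : ℕ, χ 1 = d ∧ χ u = d - 4 ∧ (d = 3 ∨ 5 ≤ d) := by
  obtain ⟨d, d0, hd⟩ := irr_pos_one hχ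
  have e := (h.val χ hχ h1).resolve_right h2
  refine ⟨d, hd, hd ▸ e, ?_⟩
  rw [hd] at e
  have a1 : d ≠ 1 := by
    rintro rfl
    refine h1 ((irr_eq_one_of_le_cfker hχ ?_).trans one_top)
    rw [← h.perf]
    exact (irr_one_eq_one_iff hχ).1 (by simpa using hd)
  have a4 : d ≠ 4 := by
    rintro rfl
    exact h2 (by rw [e]; norm_num)
  have a2 : d ≠ 2 := by
    rintro rfl
    have c := (irr_char hχ).mul (irr_char hχ).star
    have c1 : u ∈ cfker (χ * star χ) := c.mem_cfker.2 (by simp [e, hd]; norm_num)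
    have c2 := mu_sum c 1
    rw [sum_eq_single 1 (fun ψ a b => ?_) (fun a => (a one_irr).elim),
      mu_mul_one hχ (star_mem_Irr hχ)] at c2
    · simp [hd] at c2; norm_num at c2
    · by_contra a'
      refine b (h.ker a ((irr_mem_cfker a).1 (c.cfker_le_of_dot a ?_ c1)))
      rw [← mu_cast c (irr_char a)]
      exact left_ne_zero_of_mul a'
  omega

theorem ell (h : Hy u) (hφ : IsChar ⊤ φ) : 0 ≤ (φ 1 + 3 * φ u).re := by
  refine hφ.induction_on (P := fun φ => 0 ≤ (φ 1 + 3 * φ u).re) (by simp) (fun ψ a => ?_)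
    fun φ ψ _ _ a b => ?_
  · by_cases h1 : ψ = 1
    · rw [h1]; norm_num
    by_cases h2 : ψ u = 0
    · simpa [h2] using (irr_one_re_pos a).le
    obtain ⟨d, e1, e2, e3⟩ := h.deg a h1 h2
    have : (3 : ℝ) ≤ d := by exact_mod_cast (by omega : 3 ≤ d)
    simp [e1, e2]; linarith
  · simp only [Pi.add_apply, Complex.add_re, mul_add] at a b ⊢
    linarith

theorem exists_neg (h : Hy u) (F : (G → ℂ) → ℝ) (hF : ∀ χ ∈ IG, 0 ≤ F χ)
    (e : (∑ χ ∈ IG, F χ * χ u).re < F 1) : ∃ χ ∈ IG, F χ ≠ 0 ∧ χ 1 = 3 ∧ χ u = -1 := by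
  by_contra! hn
  refine e.not_ge ?_
  rw [Complex.re_sum]
  refine le_trans (by simp) (single_le_sum (f := fun χ : G → ℂ => (F χ * χ u).re)
    (fun χ a => ?_) one_irr)
  rw [Complex.re_ofReal_mul]
  by_cases h0 : F χ = 0
  · simp [h0]
  refine mul_nonneg (hF χ a) ?_
  by_cases h1 : χ = 1
  · simp [h1]
  by_cases h2 : χ u = 0
  · simp [h2]
  obtain ⟨d, e1, e2, rfl | e3⟩ := h.deg a h1 h2
  · exact (hn χ a h0 (by simpa using e1) (by rw [e2]; norm_num)).elim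
  · have : (5 : ℝ) ≤ d := by exact_mod_cast e3
    simp [e2]; linarith

theorem exists_three (h : Hy u) : ∃ χ ∈ IG, χ 1 = 3 ∧ χ u = -1 := by
  obtain ⟨χ, a, -, b⟩ := h.exists_neg (fun χ => (χ 1).re) (fun χ a => (irr_one_re_pos a).le) (by
    rw [sum_congr rfl fun χ a => by rw [(irr_char a).one_ofReal], sum_irr_one_mul _ h.ne]; simp)
  exact ⟨χ, a, b⟩

theorem cases (h : Hy u) (hψ : ψ ∈ IG) : ψ = 1 ∨ (ψ 1 = 3 ∧ ψ u = -1) ∨ (ψ 1 = 5 ∧ ψ u = 1) ∨
    (ψ 1 = 6 ∧ ψ u = 2) ∨ ψ u = 0 := by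
  by_cases h1 : ψ = 1
  · exact Or.inl h1
  by_cases h2 : ψ u = 0
  · simp [h2]
  obtain ⟨d, e1, e2, rfl | e3⟩ := h.deg hψ h1 h2
  · exact Or.inr (Or.inl ⟨by simpa using e1, by rw [e2]; norm_num⟩)
  have d5 : (5 : ℝ) ≤ d := by exact_mod_cast e3
  obtain ⟨χ, a, b, c⟩ := h.exists_three
  have c1 := (irr_char hψ).mul (irr_char a)
  obtain ⟨θ, a', h0, b', c'⟩ := h.exists_neg (fun θ => mu (ψ * χ) θ) (fun _ _ => by positivity) (by
    simp only [Complex.ofReal_natCast]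
    rw [← mu_sum c1]
    refine lt_of_lt_of_le ?_ (Nat.cast_nonneg _)
    simp [e2, c]; linarith)
  have c2 := (irr_char a').mul (irr_char a).star
  rw [Nat.cast_ne_zero, mu_mul, mu_comm (irr_char hψ) c2, mu_ne c2 (irr_char hψ)] at h0
  have := h.ell (c2.sub_irr hψ h0)
  simp [b, c, b', c', e1, e2] at this
  have d6 : d ≤ 6 := by exact_mod_cast (by linarith : (d : ℝ) ≤ 6)
  interval_cases d
  · exact Or.inr (Or.inr (Or.inl ⟨by simpa using e1, by rw [e2]; norm_num⟩))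
  · exact Or.inr (Or.inr (Or.inr (Or.inl ⟨by simpa using e1, by rw [e2]; norm_num⟩)))

end Hy

/-- irreducible characters with given degree and value -/
noncomputable def ty (u : G) (d v : ℂ) : Finset (G → ℂ) := (IG).filter fun χ => χ 1 = d ∧ χ u = v

/-- irreducible characters vanishing at `u` -/
noncomputable def tz (u : G) : Finset (G → ℂ) := (IG).filter fun χ => χ u = 0

theorem mem_ty {d v : ℂ} : χ ∈ ty u d v ↔ χ ∈ IG ∧ χ 1 = d ∧ χ u = v := mem_filter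

theorem mem_tz : χ ∈ tz u ↔ χ ∈ IG ∧ χ u = 0 := mem_filter

theorem star_ty {d : ℕ} {v : ℤ} (h : χ ∈ ty u d v) : star χ ∈ ty u d v := by
  rw [mem_ty] at h ⊢
  exact ⟨star_mem_Irr h.1, by simp [h.2.1], by simp [h.2.2]⟩

theorem Hy.split (h : Hy u) {M : Type*} [AddCommMonoid M] (F : (G → ℂ) → M) :
    ∑ χ ∈ IG, F χ = F 1 + ∑ χ ∈ ty u 3 (-1), F χ + ∑ χ ∈ ty u 5 1, F χ + ∑ χ ∈ ty u 6 2, F χ +
      ∑ χ ∈ tz u, F χ := by
  have e : F 1 = ∑ χ ∈ IG, if χ = 1 then F χ else 0 := by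
    rw [sum_ite_eq', if_pos one_irr]
  simp only [ty, tz, sum_filter, e, ← sum_add_distrib]
  refine sum_congr rfl fun χ a => ?_
  rcases h.cases a with rfl | ⟨b, c⟩ | ⟨b, c⟩ | ⟨b, c⟩ | c
  · norm_num
  all_goals
    have : χ ≠ 1 := by rintro rfl; simp at *
    norm_num [*]

end H18.Bz
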