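import Cfsg.Agent.H18.Bz1
import Cfsg.Agent.H21.CD1

/-! Groups with `χ(1) - χ(u) = 4` or `χ(u) = 0`: the centralizer of `u` has order four. -/

set_option autoImplicit false
set_option linter.unusedSectionVars false
open H17 Cfsg H15 CF H21 Finset
open scoped ComplexConjugate Classical

namespace H18.Bz

variable {G : Type*} [Group G] [Finite G] {u : G} {φ ψ χ θ π : G → ℂ}

local notation "IG" => Irr (⊤ : Subgroup G)

theorem sum_ty {d v : ℂ} {F : (G → ℂ) → ℂ} {c : ℂ} (h : ∀ χ : G → ℂ, χ 1 = d → χ u = v → F χ = c) :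
    ∑ χ ∈ ty u d v, F χ = (ty u d v).card * c := by
  rw [sum_congr rfl fun χ a => h χ (mem_ty.1 a).2.1 (mem_ty.1 a).2.2, sum_const, nsmul_eq_mul]

theorem sum_tz {F : (G → ℂ) → ℂ} (h : ∀ χ : G → ℂ, χ u = 0 → F χ = 0) :
    ∑ χ ∈ tz u, F χ = 0 := sum_eq_zero fun χ a => h χ (mem_tz.1 a).2

namespace Hy

theorem rel1 (h : Hy u) : 1 + 5 * (ty u 5 1).card + 12 * (ty u 6 2).card = 3 * (ty u 3 (-1)).card := by
  have := sum_irr_one_mul (⊤ : Subgroup G) h.ne
  rw [h.split, sum_ty (c := -3) fun χ a b => by rw [a, b]; norm_num,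
    sum_ty (c := 5) fun χ a b => by rw [a, b]; norm_num,
    sum_ty (c := 12) fun χ a b => by rw [a, b]; norm_num, sum_tz fun χ a => by simp [a]] at this
  apply Nat.cast_injective (R := ℂ)
  simp only [Pi.one_apply] at this
  push_cast
  linear_combination this

theorem rel2 (h : Hy u) : (ty u 5 1).card = 1 ∧ ∃ a b, u = a * u * a⁻¹ * (b * u * b⁻¹) := by
  obtain ⟨r, r0, e, hr⟩ := pair3 u u
  rw [h.split, sum_ty (c := -1 / 3) fun χ a b => by rw [a, b]; norm_num,
    sum_ty (c := 1 / 5) fun χ a b => by rw [a, b]; norm_num,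
    sum_ty (c := 4 / 3) fun χ a b => by rw [a, b, show conj (2 : ℂ) = 2 from map_ofNat _ 2]; norm_num,
    sum_tz fun χ a => by simp [a]] at e
  have e1 := congrArg Complex.re e
  have e2 := congrArg (Nat.cast : ℕ → ℝ) h.rel1
  have e3 := h.rel1
  push_cast at e2
  norm_num at e1
  have c2 : (ty u 5 1).card < 3 := by
    have : ((ty u 5 1).card : ℝ) < 3 := by linarith
    exact_mod_cast this
  have c1 : (ty u 5 1).card = 1 := by omega
  refine ⟨c1, hr (ne_of_gt ?_)⟩
  rw [c1] at e1 e2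
  push_cast at e1 e2
  linarith

theorem cnt (h : Hy u) (hπ : ty u 5 1 = {π}) (hφ : IsChar ⊤ φ) {D : ℕ} {V : ℤ} (h1 : φ 1 = D)
    (h2 : φ u = V) : V + (∑ χ ∈ ty u 3 (-1), mu φ χ : ℕ) =
      (mu φ 1 + mu φ π + 2 * ∑ χ ∈ ty u 6 2, mu φ χ : ℕ) ∧
    ∃ z, D = mu φ 1 + 3 * ∑ χ ∈ ty u 3 (-1), mu φ χ + 5 * mu φ π + 6 * ∑ χ ∈ ty u 6 2, mu φ χ + z ∧
      ∀ θ ∈ tz u, mu φ θ * charDegree θ ≤ z := by
  have p := mem_ty.1 (hπ ▸ mem_singleton_self π : π ∈ ty u 5 1)
  have e1 := mu_sum hφ 1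
  have e2 := mu_sum hφ u
  rw [h.split, hπ, sum_singleton, sum_congr rfl fun χ a => by rw [(mem_ty.1 a).2.1],
    sum_congr (s₁ := ty u 6 2) rfl fun χ a => by rw [(mem_ty.1 a).2.1], ← sum_mul, ← sum_mul,
    sum_congr (s₁ := tz u) rfl fun χ a => by rw [← deg_cast (mem_tz.1 a).1], p.2.1, h1] at e1
  rw [h.split, hπ, sum_singleton, sum_congr rfl fun χ a => by rw [(mem_ty.1 a).2.2],
    sum_congr (s₁ := ty u 6 2) rfl fun χ a => by rw [(mem_ty.1 a).2.2], ← sum_mul, ← sum_mul,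
    sum_tz fun χ a => by simp [a], p.2.2, h2] at e2
  simp only [Pi.one_apply] at e1 e2
  refine ⟨Int.cast_injective (α := ℂ) ?_, ∑ θ ∈ tz u, mu φ θ * charDegree θ,
    Nat.cast_injective (R := ℂ) ?_, fun θ a =>
      single_le_sum (f := fun θ => mu φ θ * charDegree θ) (fun _ _ => Nat.zero_le _) a⟩
  · push_cast
    linear_combination e2
  · push_cast
    linear_combination e1

theorem sym (h : Hy u) (hπ : ty u 5 1 = {π}) (hχ : χ ∈ ty u 3 (-1)) :
    (∃ ψ ∈ ty u 6 2, χ * χ = ψ + star χ) ∨ (χ * χ = 1 + π + χ ∧ star χ = χ) := by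
  have p := mem_ty.1 (hπ ▸ mem_singleton_self π : π ∈ ty u 5 1)
  obtain ⟨a, b, c⟩ := mem_ty.1 hχ
  obtain ⟨S, A, s1, -, s2, s3⟩ := (isChar_top.1 (irr_char a)).exists_sym_alt
  rw [← isChar_top] at s1
  have e : χ * χ = S + star χ := funext fun g => by
    have := cube h.perf (irr_char a) b g
    simp only [Pi.mul_apply, Pi.add_apply, Pi.star_apply, RCLike.star_def]
    linear_combination (s2 g) / 2 + (s3 g) / 2 - this / 2
  have e1 : S 1 = (6 : ℕ) := by
    have := congrFun e 1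
    simp [b] at this
    push_cast
    linear_combination -this
  have e2 : S u = (2 : ℤ) := by
    have := congrFun e u
    simp [c] at this
    push_cast
    linear_combination -this
  have e3 := mu_mul_one a a
  rw [e, mu_add s1 (irr_char a).star (irr_char one_irr)] at e3
  obtain ⟨k1, z, k2, -⟩ := h.cnt hπ s1 e1 e2
  by_cases hn : ∑ χ ∈ ty u 6 2, mu S χ = 0
  · right
    have t1 : mu S 1 ≤ 1 := by split_ifs at e3 <;> omega
    have t2 : mu S 1 = 1 ∧ mu S π ≠ 0 := by omega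
    have t3 : star χ = χ := by
      split_ifs at e3 with h1
      · exact h1.symm
      · omega
    refine ⟨?_, t3⟩
    have s4 := s1.sub_irr p.1 ((mu_ne s1 (irr_char p.1)).1 t2.2)
    have s5 := s4.eq_irr_of_degree one_irr (by
      rw [dot_sub_left, ← mu_cast s1 (irr_char one_irr), t2.1, dot_irr_ne p.1 one_irr (by
        rintro rfl; norm_num at p)]
      simp) (by simp [e1, p.2.1]; norm_num)
    rw [e, t3, ← s5, sub_add_cancel]
  · left
    obtain ⟨ψ, a1, a2⟩ := exists_ne_zero_of_sum_ne_zero hn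
    have a3 := mem_ty.1 a1
    refine ⟨ψ, a1, ?_⟩
    rw [e, s1.eq_irr_of_degree a3.1 ((mu_ne s1 (irr_char a3.1)).1 a2) (by simp [e1, a3.2.1])]

theorem kpi (h : Hy u) (hπ : ty u 5 1 = {π}) (hχ : χ ∈ ty u 3 (-1)) :
    ∑ θ ∈ ty u 3 (-1), mu (π * χ) θ ≤ 2 + ∑ θ ∈ ty u 6 2, mu (π * χ) θ ∧
    ∑ θ ∈ ty u 3 (-1), mu (π * χ) θ ≤ 3 := by
  have p := mem_ty.1 (hπ ▸ mem_singleton_self π : π ∈ ty u 5 1)
  obtain ⟨a, b, c⟩ := mem_ty.1 hχ
  obtain ⟨k1, z, k2, -⟩ := h.cnt hπ ((irr_char p.1).mul (irr_char a)) (D := 15) (V := -1)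
    (by simp [b, p.2.1]; norm_num) (by simp [c, p.2.2])
  rw [mu_mul_one p.1 a, if_neg (fun e => by have := congrFun e 1; norm_num [b, p.2.1] at this)]
    at k1 k2
  omega

theorem nonreal (h : Hy u) (hπ : ty u 5 1 = {π}) (hχ : χ ∈ ty u 3 (-1)) {ψ₀ : G → ℂ}
    (h0 : ψ₀ ∈ ty u 6 2) (e : χ * χ = ψ₀ + star χ) :
    1 + ∑ θ ∈ ty u 6 2, mu (π * star χ) θ ≤ ∑ θ ∈ ty u 6 2, mu (π * χ) θ := by
  have p' : π ∈ ty u 5 1 := hπ ▸ mem_singleton_self π
  have p := mem_ty.1 p'
  have ps : star π = π := by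
    have := star_ty (d := 5) (v := 1) (by simpa using p')
    simpa [hπ] using this
  obtain ⟨a, b, c⟩ := mem_ty.1 hχ
  have q := mem_ty.1 h0
  have c1 := (irr_char a).mul (irr_char a).star
  have d1 : dot ⊤ (χ * star χ) 1 = 1 := by
    rw [← mu_cast c1 (irr_char one_irr), mu_mul_one a (star_mem_Irr a)]; simp
  have d2 : dot ⊤ (χ * star χ) (χ * star χ) = 2 := by
    rw [dot_mul_left, star_star, mul_right_comm, ← dot_mul_left, e, dot_self_add_of_orth
      (dot_irr_ne q.1 (star_mem_Irr a) fun e => by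
        have := congrFun e 1; norm_num [b, q.2.1] at this), dot_irr_self q.1,
      dot_irr_self (star_mem_Irr a)]
    norm_num
  have c2 := c1.sub_irr one_irr (by simp [d1])
  have c3 : χ * star χ - 1 ∈ tz u := mem_tz.2 ⟨c2.mem_Irr (by
    rw [dot_sub_left, dot_sub_right, dot_sub_right, d1, d2, dot_irr_self one_irr,
      (irr_char one_irr).dot_comm c1, d1]; norm_num), by simp [c]⟩
  have c4 : charDegree (χ * star χ - 1) = 8 := by
    apply Nat.cast_injective (R := ℂ)
    rw [deg_cast (mem_tz.1 c3).1]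
    norm_num [b]
  have c5 : mu (ψ₀ * χ) (χ * star χ - 1) ≠ 0 := by
    have e' : star χ * star χ = star ψ₀ + χ := by rw [← star_mul', e, star_add, star_star]
    have c6 := (irr_char a).mul (irr_char q.1).star
    rw [mu_mul, show (χ * star χ - 1) * star χ = χ * star ψ₀ + ψ₀ by
      linear_combination χ * e' + e, mu_comm (irr_char q.1) (c6.add (irr_char q.1)),
      mu_add c6 (irr_char q.1) (irr_char q.1), mu_irr q.1 q.1]
    simp
  have k6 : ∀ ψ ∈ ty u 6 2, ∑ θ ∈ ty u 3 (-1), mu (ψ * χ) θ + mu (π * star χ) ψ +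
      (if ψ = ψ₀ then 2 else 0) ≤ 4 := fun ψ a1 => by
    have a2 := mem_ty.1 a1
    obtain ⟨k1, z, k2, k3⟩ := h.cnt hπ ((irr_char a2.1).mul (irr_char a)) (D := 18) (V := -2)
      (by simp [b, a2.2.1]; norm_num) (by simp [c, a2.2.2])
    rw [mu_mul_one a2.1 a, if_neg (fun e => by have := congrFun e 1; norm_num [b, a2.2.1] at this),
      mu_mul ψ χ π, mu_comm (irr_char a2.1) ((irr_char p.1).mul (irr_char a).star)] at k1 k2
    split_ifs with h1
    · have := k3 _ c3
      rw [c4, h1] at this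
      omega
    · omega
  have k3 : ∀ θ ∈ ty u 3 (-1), 1 ≤ mu (π * χ) θ + ∑ ψ ∈ ty u 6 2, mu (ψ * χ) θ +
      (if θ = χ then 1 else 0) := fun θ a1 => by
    have a2 := mem_ty.1 a1
    split_ifs with h1
    · omega
    obtain ⟨k1, -⟩ := h.cnt hπ ((irr_char a2.1).mul (irr_char a).star) (D := 9) (V := 1)
      (by simp [b, a2.2.1]; norm_num) (by simp [c, a2.2.2])
    rw [mu_mul_one a2.1 (star_mem_Irr a), star_star, if_neg h1, mu_mul θ, star_star,
      mu_comm (irr_char a2.1) ((irr_char p.1).mul (irr_char a)),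
      sum_congr (s₁ := ty u 6 2) rfl fun ψ a3 => by rw [mu_mul θ, star_star,
        mu_comm (irr_char a2.1) ((irr_char (mem_ty.1 a3).1).mul (irr_char a))]] at k1
    omega
  have s6 := sum_le_sum k6
  have s3 := sum_le_sum k3
  simp only [sum_add_distrib, sum_ite_eq', h0, hχ, if_true, sum_const, smul_eq_mul] at s3 s6
  rw [sum_comm] at s3
  have := h.rel1
  have := (h.kpi hπ hχ).1
  rw [hπ, card_singleton] at *
  omega

theorem main (h : Hy u) : Nat.card (Subgroup.centralizer {u}) = 4 := by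
  obtain ⟨π, hπ⟩ := card_eq_one.1 h.rel2.1
  have p := mem_ty.1 (hπ ▸ mem_singleton_self π : π ∈ ty u 5 1)
  have r : ∀ χ ∈ ty u 3 (-1), χ * χ = 1 + π + χ ∧ star χ = χ := fun χ a => by
    refine (h.sym hπ a).resolve_left fun ⟨ψ, b, e⟩ => ?_
    have h1 := h.nonreal hπ a b e
    have h2 := h.nonreal hπ (χ := star χ) (ψ₀ := star ψ)
      (by simpa using star_ty (d := 3) (v := -1) (by simpa using a))
      (by simpa using star_ty (d := 6) (v := 2) (by simpa using b))
      (by rw [← star_mul', e, star_add])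
    rw [star_star] at h2
    omega
  obtain ⟨χ, hχ⟩ := h.exists_three
  rw [← mem_ty] at hχ
  have k : ∀ θ ∈ ty u 3 (-1), 1 ≤ mu (π * χ) θ := fun θ a => by
    have e : π * χ = π * θ := funext fun g => by
      have e1 := fun x => congrFun (r χ hχ).1 x
      have e2 := fun x => congrFun (r θ a).1 x
      have e3 := cube h.perf (irr_char (mem_ty.1 hχ).1) (mem_ty.1 hχ).2.1 g
      have e4 := cube h.perf (irr_char (mem_ty.1 a).1) (mem_ty.1 a).2.1 g
      rw [show conj (χ g) = χ g from congrFun (r χ hχ).2 g] at e3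
      rw [show conj (θ g) = θ g from congrFun (r θ a).2 g] at e4
      simp only [Pi.mul_apply, Pi.add_apply, Pi.one_apply] at e1 e2 ⊢
      by_cases h1 : χ g = θ g
      · rw [h1]
      have h2 : χ g + θ g = 1 := by
        apply mul_left_cancel₀ (sub_ne_zero.2 h1)
        linear_combination e1 g - e2 g
      have h3 : χ (g * g) + θ (g * g) = 1 := by
        apply mul_left_cancel₀ (sub_ne_zero.2 h1)
        have e5 : χ (g * g) - θ (g * g) = -(χ g - θ g) := by
          linear_combination e3 - e4 + e1 g - e2 g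
        linear_combination (χ (g * g) + θ (g * g) - 1) * e5 - e1 (g * g) + e2 (g * g)
      have h4 : π g = 0 := by
        linear_combination (h3 - e3 - e4 - e1 g - e2 g + h2) / 2
      rw [h4, zero_mul, zero_mul]
    have b := (mem_ty.1 a).1
    have c1 := (irr_char one_irr).add (irr_char p.1)
    rw [e, mu_mul, (r θ a).2, (r θ a).1, mu_comm (irr_char p.1) (c1.add (irr_char b)),
      mu_add c1 (irr_char b) (irr_char p.1), mu_add (irr_char one_irr) (irr_char p.1) (irr_char p.1),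
      mu_irr p.1 p.1, if_pos rfl]
    omega
  have s := sum_le_sum k
  have s1 := (h.kpi hπ hχ).2
  have s2 := h.rel1
  have s3 := h.rel2.1
  rw [sum_const, smul_eq_mul] at s
  have s4 : (ty u 3 (-1)).card = 2 ∧ (ty u 6 2).card = 0 := by omega
  have := column_orth (H := ⊤) (g := u) (h := u) trivial
  rw [if_pos ⟨1, trivial, by simp⟩, top_inf_eq, h.split,
    sum_ty (c := 1) fun χ a b => by rw [b]; norm_num,
    sum_ty (c := 1) fun χ a b => by rw [b]; norm_num,
    sum_ty (c := 2 * conj 2) fun χ a b => by rw [b],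
    sum_tz fun χ a => by simp [a], s3, s4.1, s4.2] at this
  apply Nat.cast_injective (R := ℂ)
  rw [← this]
  norm_num

theorem sq_ker (h : Hy u) : ∃ χ ∈ IG, χ ≠ 1 ∧ χ (u * u) = χ 1 := by
  obtain ⟨χ, a, b, c⟩ := h.exists_three
  refine ⟨χ, a, by rintro rfl; norm_num at b, ?_⟩
  rw [cube h.perf (irr_char a) b, b, c]
  norm_num

end Hy

end H18.Bz
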