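import Cfsg.Agent.H18.Bz2
import Cfsg.Agent.H18.Four
import Cfsg.Agent.H25.SL25
import Cfsg.Agent.H19.BS3
import Cfsg.Agent.S0494

/-! Groups with `χ(1) - χ(u) = 4` or `χ(u) = 0`: the structure. -/

set_option autoImplicit false
set_option linter.unusedSectionVars false
open H17 Cfsg H15 CF H21 Subgroup
open scoped ComplexConjugate Classical

namespace H18.Bz

variable {G : Type*} [Group G] [Finite G] {u : G} {K : Subgroup G}

theorem Hy.quot (h : Hy u) (N : Subgroup G) [N.Normal] (hN : N ≠ ⊤) : Hy (u : G ⧸ N) := by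
  have key : ∀ χ ∈ Irr (⊤ : Subgroup (G ⧸ N)), χ ≠ 1 →
      (fun g : G => χ g) ∈ Irr (⊤ : Subgroup G) ∧ (fun g : G => χ g) ≠ 1 := fun χ a b =>
    ⟨mem_Irr_top.2 (mem_Irr_top.1 a).inflate, fun e => b (funext fun x => by
      obtain ⟨x, rfl⟩ := QuotientGroup.mk_surjective x
      exact congrFun e x)⟩
  refine ⟨fun e => ?_, ?_, fun χ a b => h.val _ (key χ a b).1 (key χ a b).2⟩
  · have := QuotientGroup.nontrivial_iff.2 hN
    obtain ⟨χ, a, b⟩ := exists_Irr_not_le (H := (⊤ : Subgroup (G ⧸ N))) (A := ⊤) top_ne_bot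
    have c : χ ≠ 1 := fun e => b (by rw [e, ← one_top, cfker_one])
    exact (key χ a c).2 (h.ker (key χ a c).1 (by simp [e]))
  · rw [commutator_def, ← map_top_of_surjective _ (QuotientGroup.mk'_surjective N),
      ← map_commutator, ← commutator_def, h.perf]

theorem four_eq {C : Subgroup G} (hC : Nat.card C = 4) {a b : G} (ha : a ∈ C) (hb : b ∈ C)
    (h1 : a ≠ 1) (h2 : b ≠ 1) (h3 : a * b ≠ 1) (h4 : a ≠ b) {c : G} (hc : c ∈ C) :
    c = 1 ∨ c = a ∨ c = b ∨ c = a * b := by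
  have : ({1, a, b, a * b} : Set G) = C := by
    refine Set.eq_of_subset_of_ncard_le (by
      rintro _ (rfl | rfl | rfl | rfl)
      exacts [C.one_mem, ha, hb, C.mul_mem ha hb]) ?_
    rw [Set.ncard_insert_of_notMem (by simp [h1.symm, h2.symm, h3.symm]),
      Set.ncard_insert_of_notMem (by simp [h4, h2]), Set.ncard_pair (by simp [h1])]
    exact hC.le
  rwa [← SetLike.mem_coe, ← this] at hc

theorem Hy.simple [IsSimpleGroup G] (h : Hy u) : Nonempty (G ≃* alternatingGroup (Fin 5)) ∧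
    u * u = 1 ∧ ∀ g, g ≠ 1 → g * g = 1 → g ∈ ccls u := by
  have h2 : u * u = 1 := by
    obtain ⟨χ, a, b, c⟩ := h.sq_ker
    have n : (cfker χ).Normal := normalizer_eq_top_iff.1 (top_le_iff.1 (le_norm_cfker (irr_cf a)))
    rcases n.eq_bot_or_eq_top with e | e
    · exact mem_bot.1 (e ▸ (irr_mem_cfker a).2 c)
    · exact (b ((irr_eq_one_of_le_cfker a e.ge).trans one_top)).elim
  obtain ⟨-, a, b, e⟩ := h.rel2
  have ha := conj_mem_ccls u a
  have hb := conj_mem_ccls u b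
  generalize a * u * a⁻¹ = x at *
  generalize b * u * b⁻¹ = y at *
  have o : orderOf u = 2 := orderOf_eq_prime (by rw [sq, h2]) h.ne
  have sq : ∀ z ∈ ccls u, z * z = 1 ∧ z ≠ 1 := fun z hz => by
    have := (orderOf_of_ccls hz).trans o
    exact ⟨by rw [← sq, ← this, pow_orderOf_eq_one], by rintro rfl; simp at this⟩
  have cm : x * y = y * x := by
    rw [← mul_inv_eq_one, mul_inv_rev, inv_eq_of_mul_eq_one_right (sq x ha).1,
      inv_eq_of_mul_eq_one_right (sq y hb).1, ← e, h2]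
  have k : ∀ c ∈ centralizer {u}, c = 1 ∨ c ∈ ccls u := fun c hc => by
    rcases four_eq h.main (a := x) (b := y) (mem_centralizer_singleton_iff.2 (by
      rw [e, mul_assoc, ← cm])) (mem_centralizer_singleton_iff.2 (by rw [e, ← mul_assoc, ← cm]))
      (sq x ha).2 (sq y hb).2 (e ▸ h.ne) (fun e' => h.ne (by rw [e, e', (sq y hb).1])) hc
      with rfl | rfl | rfl | rfl
    exacts [Or.inl rfl, Or.inr ha, Or.inr hb, Or.inr (e ▸ self_mem_ccls u)]
  have : Nontrivial (centralizer {u}) := Finite.one_lt_card_iff_nontrivial.1 (by rw [h.main]; omega)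
  have hK : IsKleinFour (centralizer {u}) := ⟨h.main, (Monoid.exponent_eq_prime_iff Nat.prime_two).2
    fun c hc => by
      rw [← orderOf_coe, orderOf_of_ccls ((k c c.2).resolve_left fun e => hc (Subtype.ext e)), o]⟩
  obtain ⟨f⟩ := a5_of_normal_four o hK (H10.isSylowIn_of_not_dvd le_rfl (H6.kleinFour_isPGroup hK)
    (by simp)) le_normalizer
  refine ⟨⟨f⟩, h2, fun g g1 g2 => ?_⟩
  have c60 : Nat.card G = 60 := by
    rw [Nat.card_congr f.toEquiv, nat_card_alternatingGroup]; simp [Nat.factorial]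
  let S : Sylow 2 G := Sylow.ofCard (centralizer {u}) (by
    rw [h.main, c60, show 60 = 2 ^ 2 * 15 from rfl, Nat.factorization_mul (by simp) (by simp),
      Nat.prime_two.factorization_pow]
    simp [Nat.factorization_eq_zero_of_not_dvd])
  obtain ⟨R, hR⟩ := (IsPGroup.of_card (p := 2) (n := 1) (G := zpowers g) (by
    rw [Nat.card_zpowers, pow_one]; exact orderOf_eq_prime (by rw [pow_two, g2]) g1)).exists_le_sylow
  obtain ⟨t, ht⟩ := MulAction.exists_smul_eq G R S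
  have : t * g * t⁻¹ ∈ (S : Subgroup G) := ht ▸ ⟨g, hR (mem_zpowers g), rfl⟩
  rcases k _ this with e | e
  · exact (g1 (by simpa using e)).elim
  · simpa [mul_assoc] using ccls_conj e t⁻¹

/-- the group-theoretic situation -/
structure St (u : G) (K : Subgroup G) [K.Normal] : Prop where
  iso : Nonempty (G ⧸ K ≃* alternatingGroup (Fin 5))
  cj : ∀ g, g ∉ K → g * g ∈ K → g ∈ ccls u
  nm : u ∉ K
  sq : u * u ∈ K
  four : Nat.card (centralizer {u}) = 4

theorem Hy.st (h : Hy u) : ∃ (K : Subgroup G) (_ : K.Normal), St u K := by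
  have : Nontrivial G := ⟨⟨u, 1, h.ne⟩⟩
  obtain ⟨N, ⟨h1, h2⟩, hm'⟩ := (wellFounded_gt (α := Subgroup G)).has_min
    {N | N.Normal ∧ N ≠ ⊤} ⟨⊥, inferInstance, bot_ne_top⟩
  have hm : ∀ Z : Subgroup G, Z.Normal ∧ Z ≠ ⊤ → N ≤ Z → Z = N := fun Z hZ hle =>
    by_contra fun hne => hm' Z hZ (lt_of_le_of_ne hle (Ne.symm hne))
  have : Nontrivial (G ⧸ N) := QuotientGroup.nontrivial_iff.2 h2
  have : IsSimpleGroup (G ⧸ N) := ⟨fun M hM => by
    rw [or_iff_not_imp_right]
    intro hM'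
    have := hm (M.comap (QuotientGroup.mk' N)) ⟨hM.comap _, fun e' => hM' (by
      rw [← map_comap_eq_self_of_surjective (QuotientGroup.mk'_surjective N) M, e',
        map_top_of_surjective _ (QuotientGroup.mk'_surjective N)])⟩
      (QuotientGroup.le_comap_mk' N M)
    rw [← map_comap_eq_self_of_surjective (QuotientGroup.mk'_surjective N) M, this,
      QuotientGroup.map_mk'_self]⟩
  have q := h.quot N h2
  obtain ⟨a, b, c⟩ := q.simple
  refine ⟨N, h1, a, fun g g1 g2 => ?_, fun e => q.ne ((QuotientGroup.eq_one_iff u).2 e),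
    (QuotientGroup.eq_one_iff _).1 b, h.main⟩
  have e : ccls u = QuotientGroup.mk ⁻¹' ccls (u : G ⧸ N) := by
    refine Set.eq_of_subset_of_ncard_le (fun _ ⟨t, ht⟩ => ⟨t, by rw [← ht]; rfl⟩) (le_of_eq ?_)
    have e1 := card_mul_ncard_ccls u
    have e2 := card_mul_ncard_ccls (u : G ⧸ N)
    rw [h.main, card_eq_card_quotient_mul_card_subgroup N, ← e2, q.main] at e1
    rw [← Nat.card_coe_set_eq, QuotientGroup.card_preimage_mk, Nat.card_coe_set_eq]
    linarith
  rw [e]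
  exact c _ (fun e => g1 ((QuotientGroup.eq_one_iff g).1 e)) ((QuotientGroup.eq_one_iff _).2 g2)

theorem inv3 {x y n : G} (h1 : x * n * x⁻¹ = n⁻¹) (h2 : y * n * y⁻¹ = n⁻¹)
    (h3 : x * y * n * (x * y)⁻¹ = n⁻¹) : n * n = 1 := by
  rw [show x * y * n * (x * y)⁻¹ = x * (y * n * y⁻¹) * x⁻¹ by group, h2,
    show x * n⁻¹ * x⁻¹ = (x * n * x⁻¹)⁻¹ by group, h1, inv_inv] at h3
  exact mul_eq_one_iff_eq_inv.2 h3

theorem inv_of_sq {x n : G} (h : x * n * (x * n) = x * x) : x * n * x⁻¹ = n⁻¹ := by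
  have : n * (x * n) = x := mul_left_cancel (a := x) (by simpa [mul_assoc] using h)
  rw [mul_inv_eq_iff_eq_mul, eq_inv_mul_iff_mul_eq, this]

theorem ex235 : ∃ a b : Equiv.Perm (Fin 5), a.sign = 1 ∧ b.sign = 1 ∧ a ^ 3 = 1 ∧ b ^ 5 = 1 ∧
    a * b ≠ 1 ∧ a * b * (a * b) = 1 := by decide +kernel

namespace St

variable [K.Normal]

theorem c60 (h : St u K) : Nat.card (G ⧸ K) = 60 := by
  rw [Nat.card_congr h.iso.some.toEquiv, nat_card_alternatingGroup]; simp [Nat.factorial]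

theorem cent (h : St u K) {x : G} (hx : x ∈ ccls u) : Nat.card (centralizer {x}) = 4 := by
  have e1 := card_mul_ncard_ccls x
  rw [ccls_eq hx, ← card_mul_ncard_ccls u, h.four] at e1
  exact Nat.eq_of_mul_eq_mul_right (by rw [ncard_ccls]; exact Nat.pos_of_ne_zero index_ne_zero_of_finite) e1

theorem cls (h : St u K) {x k : G} (hx : x ∉ K) (h2 : x * x ∈ K) (hk : k ∈ K) : x * k ∈ ccls u :=
  h.cj _ (fun e => hx ((K.mul_mem_cancel_right hk).1 e)) (by
    rw [show x * k * (x * k) = x * k * x⁻¹ * (x * x) * k by group]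
    exact K.mul_mem (K.mul_mem (‹K.Normal›.conj_mem k hk x) h2) hk)

theorem syl (h : St u K) (P : Sylow 2 G) : (∀ x ∈ (P : Subgroup G), x * x ∈ K) ∧
    ∃ x ∈ (P : Subgroup G), ∃ y ∈ (P : Subgroup G), x ∉ K ∧ y ∉ K ∧ x * y ∉ K := by
  let R := P.mapSurjective (QuotientGroup.mk'_surjective K)
  have c : Nat.card R = 4 := by
    rw [R.card_eq_multiplicity, h.c60, show 60 = 2 ^ 2 * 15 from rfl,
      Nat.factorization_mul (by simp) (by simp), Nat.prime_two.factorization_pow]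
    simp [Nat.factorization_eq_zero_of_not_dvd]
  have s : ∀ x ∈ (P : Subgroup G), x * x ∈ K := fun x hx => by
    have h4 : (x : G ⧸ K) ^ 4 = 1 := by
      have := pow_card_eq_one' (G := R) (x := ⟨x, x, hx, rfl⟩)
      rw [c] at this
      exact congrArg Subtype.val this
    obtain ⟨f⟩ := h.iso
    have : ∀ a : Equiv.Perm (Fin 5), a.sign = 1 → a ^ 4 = 1 → a * a = 1 := by decide +kernel
    rw [← QuotientGroup.eq_one_iff, QuotientGroup.mk_mul, ← f.map_eq_one_iff, map_mul]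
    refine Subtype.ext (this _ (f x).2 ?_)
    rw [← SubgroupClass.coe_pow, ← map_pow, h4, map_one, OneMemClass.coe_one]
  refine ⟨s, ?_⟩
  have := Fintype.ofFinite R
  obtain ⟨a, b, d, h1, h2, h3⟩ := (Fintype.two_lt_card_iff (α := R)).1 (by
    rw [← Nat.card_eq_fintype_card, c]; omega)
  obtain ⟨⟨_, x, hx, rfl⟩, ⟨_, y, hy, rfl⟩, x1, y1, xy⟩ : ∃ x y : R, x ≠ 1 ∧ y ≠ 1 ∧ x ≠ y :=
    ⟨a⁻¹ * b, a⁻¹ * d, by simpa [inv_mul_eq_one], by simpa [inv_mul_eq_one], by simpa⟩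
  refine ⟨x, hx, y, hy, fun e => x1 (Subtype.ext ((QuotientGroup.eq_one_iff x).2 e)),
    fun e => y1 (Subtype.ext ((QuotientGroup.eq_one_iff y).2 e)), fun e => xy (Subtype.ext
      (QuotientGroup.eq.2 ?_))⟩
  rw [show x⁻¹ * y = (x * x)⁻¹ * (x * y) by group]
  exact K.mul_mem (K.inv_mem (s x hx)) e

theorem two (h : St u K) (h2 : u * u = 1) : K = ⊥ := by
  have sq : ∀ x ∈ ccls u, x * x = 1 := by
    rintro _ ⟨t, rfl⟩
    rw [show t * u * t⁻¹ * (t * u * t⁻¹) = t * (u * u) * t⁻¹ by group, h2]; simp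
  obtain ⟨P⟩ : Nonempty (Sylow 2 G) := inferInstance
  obtain ⟨s, x, hx, y, hy, h1, h2, h3⟩ := h.syl P
  have iv : ∀ z ∈ (P : Subgroup G), z ∉ K → ∀ k ∈ K, z * k * z⁻¹ = k⁻¹ := fun z a b k c =>
    inv_of_sq (by rw [sq _ (h.cls b (s z a) c), sq _ (h.cj z b (s z a))])
  have sx := sq _ (h.cj x h1 (s x hx))
  have sy := sq _ (h.cj y h2 (s y hy))
  have sxy := sq _ (h.cj _ h3 (s _ (mul_mem hx hy)))
  refine eq_bot_iff.2 fun k hk => ?_
  have k2 := inv3 (iv x hx h1 k hk) (iv y hy h2 k hk) (iv _ (mul_mem hx hy) h3 k hk)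
  rcases four_eq (h.cent (h.cj x h1 (s x hx))) (a := x) (b := y) (c := k)
    (mem_centralizer_singleton_iff.2 rfl) (mem_centralizer_singleton_iff.2 (by
      rw [← inv_eq_of_mul_eq_one_right sxy, mul_inv_rev, inv_eq_of_mul_eq_one_right sx,
        inv_eq_of_mul_eq_one_right sy]))
    (fun e => h1 (e ▸ K.one_mem)) (fun e => h2 (e ▸ K.one_mem)) (fun e => h3 (e ▸ K.one_mem))
    (fun e => h3 (e ▸ s x hx)) (mem_centralizer_singleton_iff.2 (mul_inv_eq_iff_eq_mul.1
      ((iv x hx h1 k hk).trans (inv_eq_of_mul_eq_one_right k2))).symm) with rfl | rfl | rfl | rfl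
  exacts [mem_bot.2 rfl, (h1 hk).elim, (h2 hk).elim, (h3 hk).elim]

theorem ord4 (h : St u K) (h2 : u * u ≠ 1) : orderOf u = 4 := by
  have d : orderOf u ∣ 2 ^ 2 := by
    have := orderOf_dvd_natCard (⟨u, mem_centralizer_singleton_iff.2 rfl⟩ : centralizer {u})
    rwa [h.four, ← orderOf_coe] at this
  obtain ⟨i, hi, e⟩ := (Nat.dvd_prime_pow Nat.prime_two).1 d
  interval_cases i
  · exact (h.nm (by rw [orderOf_eq_one_iff.1 e]; exact K.one_mem)).elim
  · exact (h2 (by rw [← pow_two, ← pow_orderOf_eq_one u, e, pow_one])).elim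
  · exact e

theorem cyc (h : St u K) (h2 : u * u ≠ 1) {x c : G} (hx : x ∈ ccls u) (hc : c * x = x * c) :
    c ∈ zpowers x ∧ (c * c = 1 → c = 1 ∨ c = x * x) := by
  have o := (orderOf_of_ccls hx).trans (h.ord4 h2)
  have e : zpowers x = centralizer {x} := eq_of_le_of_card_ge
    (zpowers_le.2 (mem_centralizer_singleton_iff.2 rfl)) (by rw [h.cent hx, Nat.card_zpowers, o])
  have m : c ∈ zpowers x := e ▸ mem_centralizer_singleton_iff.2 hc
  refine ⟨m, fun c2 => ?_⟩
  rw [mem_zpowers_iff_mem_range_orderOf, o, Finset.mem_image] at m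
  obtain ⟨i, hi, rfl⟩ := m
  rw [Finset.mem_range] at hi
  rw [← pow_add, ← orderOf_dvd_iff_pow_eq_one, o] at c2
  interval_cases i
  · simp
  · omega
  · simp [pow_two]
  · omega

theorem exz (h : St u K) (h2 : u * u ≠ 1) (P : Sylow 2 G) : ∃ z ∈ K, z ≠ 1 ∧ z * z = 1 ∧
    (∀ x ∈ (P : Subgroup G), x ∉ K → x * x = z) ∧ ∀ t ∈ (P : Subgroup G), t ∈ K → t = 1 ∨ t = z := by
  obtain ⟨s, x, hx, y, hy, h1, h3, h4⟩ := h.syl P
  have : Nontrivial P := ⟨⟨⟨x, hx⟩, 1, fun e => h1 (by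
    rw [show x = 1 from congrArg Subtype.val e]; exact K.one_mem)⟩⟩
  have := P.2.center_nontrivial
  obtain ⟨z, hz, oz⟩ := H10.exists_orderOf_eq_of_ne_bot (P.2.to_subgroup (center P))
    ((nontrivial_iff_ne_bot _).1 this)
  rw [← orderOf_coe] at oz
  have z1 : (z : G) ≠ 1 := fun e => by simp [e] at oz
  have z2 : (z : G) * z = 1 := (pow_two _).symm.trans (orderOf_dvd_iff_pow_eq_one.1 oz.dvd)
  have k : ∀ x ∈ (P : Subgroup G), x ∉ K → x * x = z := fun x a b =>
    (((h.cyc h2 (h.cj x b (s x a)) (congrArg Subtype.val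
      (mem_center_iff.1 hz ⟨x, a⟩)).symm).2 z2).resolve_left z1).symm
  refine ⟨z, k x hx h1 ▸ s x hx, z1, z2, k, fun t a b => ?_⟩
  have iv : ∀ x ∈ (P : Subgroup G), x ∉ K → x * t * x⁻¹ = t⁻¹ := fun x c d =>
    inv_of_sq (by rw [k x c d, k _ (mul_mem c a) fun e => d ((K.mul_mem_cancel_right b).1 e)])
  have k2 := inv3 (iv x hx h1) (iv y hy h3) (iv _ (mul_mem hx hy) h4)
  rw [← k x hx h1]
  exact (h.cyc h2 (h.cj x h1 (s x hx)) (mul_inv_eq_iff_eq_mul.1
    ((iv x hx h1).trans (inv_eq_of_mul_eq_one_right k2))).symm).2 k2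

theorem odd_le (h : St u K) : oddCore G ≤ K := by
  have := h.iso.some.isSimpleGroup
  rcases (Normal.map (H := oddCore G) inferInstance _
    (QuotientGroup.mk'_surjective K)).eq_bot_or_eq_top with e | e
  · rwa [Subgroup.map_eq_bot_iff, QuotientGroup.ker_mk'] at e
  · have := card_dvd_of_surjective _ ((QuotientGroup.mk' K).subgroupMap_surjective (oddCore G))
    rw [e, card_top, h.c60] at this
    exact (H1.not_dvd_card_pPrimeCore Nat.prime_two (Dvd.dvd.trans (by norm_num) this)).elim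

theorem odd_sq {n : G} (hn : n ∈ oddCore G) (h : n * n = 1) : n = 1 := by
  by_contra h1
  have := orderOf_dvd_natCard (⟨n, hn⟩ : oddCore G)
  rw [← orderOf_coe, orderOf_eq_prime (p := 2) (by rw [pow_two, h]) h1] at this
  exact H1.not_dvd_card_pPrimeCore Nat.prime_two this

theorem abel (h : St u K) (h2 : u * u ≠ 1) : IsMulCommutative (oddCore G) := by
  obtain ⟨P⟩ : Nonempty (Sylow 2 G) := inferInstance
  obtain ⟨s, x, hx, y, hy, h1, h3, h4⟩ := h.syl P
  obtain ⟨z, -, -, z2, k, -⟩ := h.exz h2 P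
  have fp : MonoidHom.FixedPointFree (MulAut.conjNormal (H := oddCore G) z) := fun n hn => by
    have c : z * n = n * z := mul_inv_eq_iff_eq_mul.1 (congrArg Subtype.val hn)
    have iv : ∀ x ∈ (P : Subgroup G), x ∉ K → x * n * x⁻¹ = (n : G)⁻¹ := fun x a b => by
      have o := (orderOf_of_ccls (h.cls b (s x a) (h.odd_le n.2))).trans (h.ord4 h2)
      have e := pow_orderOf_eq_one (x * n)
      have m : x⁻¹ * n * x * n ∈ oddCore G :=
        mul_mem (by simpa using Normal.conj_mem inferInstance _ n.2 x⁻¹) n.2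
      have cz : Commute z x := by rw [← k x a b]; exact (Commute.refl x).mul_left (Commute.refl x)
      have cm : Commute z (x⁻¹ * n * x * n) :=
        ((cz.inv_right.mul_right c).mul_right cz).mul_right c
      have e1 : x * n * (x * n) = z * (x⁻¹ * n * x * n) := by rw [← k x a b]; group
      rw [o, show (4 : ℕ) = 2 * 2 from rfl, pow_mul, pow_two (x * n), e1, cm.mul_pow, pow_two, z2,
        one_mul, pow_two] at e
      exact inv_of_sq (by rw [e1, odd_sq m e, mul_one, k x a b])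
    exact Subtype.ext (odd_sq n.2 (inv3 (iv x hx h1) (iv y hy h3) (iv _ (mul_mem hx hy) h4)))
  exact ⟨⟨fun a b => fp.commute_all_of_involutive (fun n => by
    rw [← MulAut.mul_apply, ← map_mul, z2, map_one, MulAut.one_apply]) a b⟩⟩

theorem sl (h : St u K) (h2 : u * u ≠ 1) (hO : oddCore G = ⊥) : Nonempty (G ≃* H25.SL25) := by
  obtain ⟨R⟩ : Nonempty (Sylow 2 K) := inferInstance
  obtain ⟨P, hP⟩ := (R.2.map K.subtype).exists_le_sylow
  obtain ⟨z, zK, z1, z2, -, k⟩ := h.exz h2 P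
  have cy : IsCyclic R := by
    refine ⟨?_⟩
    by_cases e : ∀ r : R, r = 1
    · exact ⟨1, fun r => ⟨0, (zpow_zero _).trans (e r).symm⟩⟩
    obtain ⟨r, hr⟩ := not_forall.1 e
    refine ⟨r, fun t => ?_⟩
    rcases k t (hP ⟨t, t.2, rfl⟩) t.1.2 with a | a
    · rw [show t = 1 from Subtype.ext (Subtype.ext a)]; exact ⟨0, zpow_zero _⟩
    · rw [show t = r from Subtype.ext (Subtype.ext (a.trans ((k r (hP ⟨r, r.2, rfl⟩)
        r.1.2).resolve_left fun e => hr (Subtype.ext (Subtype.ext e))).symm))]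
      exact mem_zpowers r
  have p2 := H19.isPGroup_of_npc (H19.npc_of_isCyclic R cy) (H19.pPrimeCore_normal_eq_bot hO K)
  have kk : ∀ t ∈ K, t = 1 ∨ t = z := fun t a =>
    k t (((H1.le_pCore p2).trans (H1.pCore_le_sylow P)) a) a
  have cz : ∀ g, Commute z g := fun g => by
    rcases kk _ (‹K.Normal›.conj_mem z zK g) with e | e
    · exact (z1 (by simpa using e)).elim
    · exact (mul_inv_eq_iff_eq_mul.1 e).symm
  have kq : ∀ t ∈ K, t ^ 2 = 1 ∧ ∀ g, Commute t g := fun t a => by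
    rcases kk t a with rfl | rfl
    exacts [⟨one_pow _, Commute.one_left⟩, ⟨(pow_two _).trans z2, cz⟩]
  obtain ⟨f⟩ := h.iso
  obtain ⟨a0, b0, s1, s2, s3, s4, s5, s6⟩ := ex235
  obtain ⟨a, ha⟩ := QuotientGroup.mk_surjective (f.symm ⟨a0, s1⟩)
  obtain ⟨b, hb⟩ := QuotientGroup.mk_surjective (f.symm ⟨b0, s2⟩)
  have m : ∀ g : G, g ∈ K ↔ ((f g : alternatingGroup (Fin 5)) : Equiv.Perm (Fin 5)) = 1 := fun g => by
    rw [← QuotientGroup.eq_one_iff, ← f.map_eq_one_iff, OneMemClass.coe_eq_one]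
  have a3 : a ^ 3 ∈ K := by rw [m]; simpa [ha] using s3
  have b5 : b ^ 5 ∈ K := by rw [m]; simpa [hb] using s4
  have ab : a * b ∉ K := by rw [m]; simpa [ha, hb] using s5
  have ab2 : a * b * (a * b) ∈ K := by rw [m]; simpa [ha, hb] using s6
  have e : (a * b) ^ 2 = z := by
    rw [pow_two]
    refine (kk _ ab2).resolve_left fun e => ?_
    have := (orderOf_of_ccls (h.cj _ ab ab2)).trans (h.ord4 h2)
    have h3 := orderOf_dvd_of_pow_eq_one ((pow_two _).trans e)
    rw [this] at h3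
    omega
  obtain ⟨φ, -, -, hφ⟩ := H25.exists_hom_sl25 (a ^ 3 * a) (b ^ 5 * b) z
    (by rw [← pow_succ, ← pow_mul, show (3 + 1) * 3 = 3 * 2 * 2 from rfl, pow_mul, pow_mul, (kq _ a3).1, one_pow])
    (by rw [← pow_succ, ← pow_mul, show (5 + 1) * 5 = 5 * 2 * 3 from rfl, pow_mul, pow_mul, (kq _ b5).1, one_pow])
    ((pow_two _).trans z2) (cz _) (cz _) (by
      rw [mul_assoc, ← mul_assoc a, ← ((kq _ b5).2 a).eq, mul_assoc, ((kq _ a3).2 _).mul_pow,
        ((kq _ b5).2 _).mul_pow, (kq _ a3).1, (kq _ b5).1, e, one_mul, one_mul])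
  have cK : Nat.card K = 2 := by
    rw [show K = zpowers z from le_antisymm (fun t a => by
      rcases kk t a with rfl | rfl
      exacts [one_mem _, mem_zpowers _]) (zpowers_le.2 zK), Nat.card_zpowers]
    exact orderOf_eq_prime ((pow_two _).trans z2) z1
  exact ⟨(MulEquiv.ofBijective φ ((Nat.bijective_iff_injective_and_card φ).2
    ⟨H25.sl25_injective φ (hφ ▸ z1), by
      rw [H25.card_sl25, card_eq_card_quotient_mul_card_subgroup K, h.c60, cK]⟩)).symm⟩

end St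

theorem psl_a5 : Nonempty (Matrix.ProjectiveSpecialLinearGroup (Fin 2) (ZMod 5) ≃*
    alternatingGroup (Fin 5)) := by
  have := H22.PSL_fin_isSimpleGroup (F := ZMod 5) 2 le_rfl (by simp)
  refine Agent.S0494.result ?_
  have := card_eq_card_quotient_mul_card_subgroup (center H25.SL25)
  rw [H25.card_sl25, H25.card_center_sl25] at this
  exact Nat.eq_of_mul_eq_mul_right two_pos this.symm

theorem Hy.final (h : Hy u) : IsMulCommutative (oddCore G) ∧
    ((Nonempty (G ⧸ oddCore G ≃* Matrix.ProjectiveSpecialLinearGroup (Fin 2) (ZMod 5)) ∧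
      orderOf u = 2) ∨ (Nonempty (G ⧸ oddCore G ≃* H25.SL25) ∧ orderOf u = 4)) := by
  obtain ⟨K, _, s⟩ := h.st
  by_cases h2 : u * u = 1
  · have e := s.two h2
    have e' : oddCore G = K := le_antisymm s.odd_le (e ▸ bot_le)
    refine ⟨by rw [e', e]; infer_instance, Or.inl ⟨⟨(QuotientGroup.quotientMulEquivOfEq e').trans
      (s.iso.some.trans psl_a5.some.symm)⟩, orderOf_eq_prime ((pow_two _).trans h2) h.ne⟩⟩
  · refine ⟨s.abel h2, Or.inr ⟨?_, s.ord4 h2⟩⟩
    obtain ⟨K', _, s'⟩ := (h.quot (oddCore G) fun e => s.nm (s.odd_le (e ▸ mem_top u))).st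
    refine s'.sl (fun e => h2 (St.odd_sq ((QuotientGroup.eq_one_iff _).1 e) ?_))
      (H1.pPrimeCore_quotient_pPrimeCore 2)
    rw [← pow_orderOf_eq_one u, s.ord4 h2]
    simp [pow_succ, mul_assoc]

end H18.Bz
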