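/-
Characters induced from maximal subgroups of solvable sections; Berger's theorem.
-/
import Cfsg.Agent.H18.CG1
import Cfsg.Agent.H21.Isa1
import Cfsg.Agent.H21.Trip

set_option autoImplicit false
set_option linter.unusedSectionVars false
open H17 Cfsg H15 CF H21
open scoped ComplexConjugate commutatorElement
open H9 (centMod)

namespace H18

universe u
variable {G : Type u} [Group G] [Finite G] {P H K L M N U T : Subgroup G}
  {χ ψ θ φ η β ϑ γ : G → ℂ} {p n : ℕ}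

/-- the configuration around a maximal subgroup `H` with core `L` -/
structure MaxC (H L K : Subgroup G) : Prop where
  nL : L.Normal
  nK : K.Normal
  lt : L < K
  sup : K ⊔ H = ⊤
  inf : K ⊓ H = L
  cent : ∀ x ∈ H, (∀ k ∈ K, ⁅x, k⁆ ∈ L) → x ∈ L
  top : (L.relIndex K).Prime ∨
    ∃ M : Subgroup G, M.Normal ∧ K < M ∧ (L.relIndex K).Coprime (K.relIndex M)

theorem exists_maxC [N.Normal] (hs : QSol ⊤ N) (hN : N ≤ H) (hH : IsCoatom H) :
    ∃ L K, N ≤ L ∧ MaxC H L K := by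
  set L := H.normalCore with hL
  have nL : L.Normal := inferInstance
  have hc : ∀ X : Subgroup G, ⊤ ≤ 𝒩(X) → X ≤ H → X ≤ L := fun X a b => by
    have := normal_of_top a
    exact Subgroup.normal_le_normalCore.2 b
  have hNL : N ≤ L := hc N (top_le_norm N) hN
  have hLH : L ≤ H := H.normalCore_le
  obtain ⟨K, a1, -, a2, a3⟩ := exists_chief_above (M := ⊤) (hLH.trans_lt hH.lt_top)
    (top_le_norm ⊤)
  have nK := normal_of_top a2
  have hd := (chief_sol a1 (top_le_norm L) a2 le_top (hs.mono le_top hNL) a3).1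
  have b1 : K ⊔ H = ⊤ := hH.2 _ (lt_of_le_of_ne le_sup_right fun e =>
    a1.not_ge (hc K a2 (e ▸ le_sup_left)))
  have b2 : K ⊓ H = L := le_antisymm (hc _ (b1 ▸ sup_le
    (H16.norm_of_der_le (hd.trans (le_inf a1.le hLH)) inf_le_left)
    (H16.norm_inf (le_top.trans a2) (H16.le_norm H))) inf_le_right) (le_inf a1.le hLH)
  have nC := centMod_normal (K := L) K
  have b3 : H ⊓ centMod L (K : Set G) ≤ L := by
    refine hc _ (b1 ▸ sup_le (H16.norm_of_comm_le ?_)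
      (H16.norm_inf (H16.le_norm H) (le_top.trans (top_le_norm _)))) inf_le_left
    exact (le_cm.1 inf_le_right).trans (le_inf hLH (H9.le_centMod L _))
  refine ⟨L, K, hNL, nL, nK, a1, b1, b2, fun x hx h => b3 ⟨hx, h⟩, ?_⟩
  rcases eq_top_or_lt_top K with e | e
  · left
    rw [e, top_inf_eq] at b2
    have : H.Normal := b2 ▸ nL
    rw [e, Subgroup.relIndex_top_right, ← b2]
    exact H9.index_prime_of_coatom hH
  obtain ⟨M, c1, -, c2, c3⟩ := exists_chief_above (M := ⊤) e (top_le_norm ⊤)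
  have nM := normal_of_top c2
  refine Or.inr ⟨M, nM, c1, ?_⟩
  obtain ⟨p, a, hp, ha⟩ := chief_pow a1 (top_le_norm L) a2 le_top (hs.mono le_top hNL) a3
  obtain ⟨q, b, hq, hb⟩ := chief_pow c1 a2 c2 le_top (hs.mono le_top (hNL.trans a1.le)) c3
  rw [ha, hb]
  refine Nat.coprime_pow_primes _ _ hp hq ?_
  rintro rfl
  have := Fact.mk hp
  set f := QuotientGroup.mk' L
  have d1 : IsPGroup p (M.map f) := IsPGroup.iff_card.2 ⟨a + b, by
    rw [H1.card_map_mk'_eq_relIndex, ← Subgroup.relIndex_mul_relIndex L K M a1.le c1.le, ha, hb,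
      pow_add]⟩
  have d2 : (K.map f).Normal := nK.map f (QuotientGroup.mk'_surjective L)
  have d3 := H16.nil_inf_cent_ne_bot (N := K.map f) d1.isNilpotent (Subgroup.map_mono c1.le)
    (le_top.trans (top_le_norm _)) (fun h => a1.not_ge (by
      rwa [Subgroup.map_eq_bot_iff, QuotientGroup.ker_mk'] at h))
  obtain ⟨_, ⟨⟨x, hx, rfl⟩, h1⟩, h2⟩ := H16.exists_ne_one d3
  have nC' := centMod_normal (K := L) M
  rcases a3 (K ⊓ centMod L (M : Set G)) (le_inf a1.le (H9.le_centMod L _)) inf_le_left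
    (top_le_norm _) with h | h
  · refine h2 ((QuotientGroup.eq_one_iff x).2 (h.le ⟨hx, fun m hm => ?_⟩))
    rw [← QuotientGroup.eq_one_iff]
    change f ⁅x, m⁆ = 1
    rw [map_commutatorElement, commutatorElement_eq_one_iff_mul_comm]
    exact (H16.mem_cent.1 h1 _ ⟨m, hm, rfl⟩).symm
  · have h3 : M ⊓ H ≤ L := le_trans (le_inf inf_le_right (inf_le_left.trans
      (le_cm'.2 (le_cm.1 (inf_eq_left.1 h))))) b3
    refine c1.not_ge ?_
    rw [← inf_top_eq M, ← b1, H16.modl' c1.le (Or.inr (le_top.trans a2))]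
    exact sup_le le_rfl (h3.trans a1.le)

namespace MaxC
variable (h : MaxC H L K)
include h

theorem le : L ≤ H := h.inf ▸ inf_le_right

theorem mul (g : G) : ∃ k ∈ K, ∃ a ∈ H, g = k * a := by
  have := h.nK
  exact exists_mul_of_sup_eq_top h.sup g

theorem index : H.index = L.relIndex K := by
  have := h.nK
  rw [← Subgroup.relIndex_top_right, ← h.sup, H16.relIndex_sup_r
    (Or.inl (le_top.trans (top_le_norm K))), ← h.inf, Subgroup.inf_relIndex_left]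

theorem sup_inf (hM : K ≤ M) : K ⊔ (M ⊓ H) = M := by
  have := h.nK
  rw [← H16.modl' hM (Or.inr (le_top.trans (top_le_norm K))), h.sup, inf_top_eq]

theorem relIndex (hM : K ≤ M) : K.relIndex M = L.relIndex (M ⊓ H) := by
  have := h.nK
  conv_lhs => rw [← h.sup_inf hM, Subgroup.relIndex_sup_left]
  rw [← Subgroup.inf_relIndex_right K, ← inf_assoc, inf_eq_left.2 hM, h.inf]

theorem relIndex' (hM : K ≤ M) : (M ⊓ H).relIndex M = L.relIndex K := by
  have := h.nK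
  conv_lhs => arg 2; rw [← h.sup_inf hM]
  rw [H16.relIndex_sup_r (Or.inl (le_top.trans (top_le_norm K))), ← Subgroup.inf_relIndex_left,
    ← inf_assoc, inf_eq_left.2 hM, h.inf]

theorem Res_Ind (hϑ : ϑ ∈ cf H) (hM : K ≤ M) :
    Res (M : Set G) (Ind ⊤ H ϑ) = Ind M (M ⊓ H) ϑ :=
  Res_Ind_of_mul le_top le_top (fun g _ => by
    obtain ⟨k, hk, a, ha, e⟩ := h.mul g
    exact ⟨k, hM hk, a, ha, e⟩) hϑ

/-- the chief factor `K / L` is fully ramified -/
theorem ram (hϑ : ϑ ∈ cf H) (hχ : Ind ⊤ H ϑ ∈ Irr ⊤) (hφ : φ ∈ Irr L) (hψ : ψ ∈ Irr K) {d e : ℕ}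
    (h1 : Res (L : Set G) (Ind ⊤ H ϑ) = (d : ℂ) • φ)
    (h2 : Res (K : Set G) (Ind ⊤ H ϑ) = (e : ℂ) • ψ) :
    (∀ g, g ∉ L → ψ g = 0) ∧ ∃ a : ℕ, Res (L : Set G) ψ = (a : ℂ) • φ ∧ a ^ 2 = L.relIndex K := by
  have := h.nK
  have := h.nL
  have e0 : (e : ℂ) ≠ 0 := fun e0 => irr_one_ne hχ (by simpa [e0] using congrFun h2 1)
  have d0 : (d : ℂ) ≠ 0 := fun e0 => irr_one_ne hχ (by simpa [e0] using congrFun h1 1)
  have hv : ∀ g, g ∉ L → ψ g = 0 := fun g hg => by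
    have h3 := Ind_mem_supp_normal (K := K) (H := L) le_rfl (le_top.trans (top_le_norm L)) ϑ g hg
    rw [← h.inf, ← h.Res_Ind hϑ le_rfl, h2] at h3
    simpa [e0] using h3
  have h4 : dot L ψ φ ≠ 0 := fun h0 => d0 (by
    rw [← (H9.dot_of_Res_eq hφ h1).1, ← dot_Res_left_of_le h.lt.le, h2, dot_smul_left, h0, mul_zero])
  have h5 := H9.le_stab_of_Res_eq (top_le_norm L) (irr_cf hχ) d0 h1
  obtain ⟨a, ha⟩ := (irr_char hψ).dot_nat_of_le h.lt.le (irr_char hφ)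
  have h6 := Res_eq_smul_of_le_stab h.lt.le (le_top.trans (top_le_norm L)) hψ hφ
    (le_top.trans h5) h4
  rw [ha] at h6
  exact ⟨hv, a, h6, (H9.sq_eq_iff_vanish h.lt.le hψ hφ h6).2 hv⟩

theorem exists_top {a : ℕ} (ha : a ^ 2 = L.relIndex K) :
    1 < a ∧ ∃ M : Subgroup G, M.Normal ∧ K < M ∧ a.Coprime (K.relIndex M) := by
  refine ⟨?_, ?_⟩
  · by_contra h1
    have h2 := H16.relIndex_pos L K
    have h3 : L.relIndex K ≠ 1 := fun e => h.lt.not_ge (Subgroup.relIndex_eq_one.1 e)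
    rw [← ha] at h2 h3
    have : a = 0 ∨ a = 1 := by omega
    rcases this with rfl | rfl
    · simp at h2
    · simp at h3
  rcases h.top with h1 | ⟨M, h1, h2, h3⟩
  · rw [← ha] at h1
    exact absurd h1.eq_one_of_pow (by norm_num)
  · exact ⟨M, h1, h2, (ha ▸ h3).coprime_dvd_left (dvd_pow_self a two_ne_zero)⟩

end MaxC

/-- homogeneous restriction -/
def Hom (N : Subgroup G) (χ : G → ℂ) : Prop := ∃ θ ∈ Irr N, ∃ e : ℕ, Res (N : Set G) χ = (e : ℂ) • θ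

theorem coef_ne (hχ : χ ∈ Irr K) {e : ℂ} (h : Res (N : Set G) χ = e • θ) : e ≠ 0 :=
  fun e0 => irr_one_ne hχ (by simpa [e0] using congrFun h 1)

theorem deg_of_Res (hχ : χ ∈ Irr K) (hθ : θ ∈ Irr N) {e : ℕ} (h : Res (N : Set G) χ = (e : ℂ) • θ) :
    charDegree χ = e * charDegree θ := by
  have := congrFun h 1
  rw [Res_one, Pi.smul_apply, smul_eq_mul, ← deg_cast hχ, ← deg_cast hθ] at this
  exact_mod_cast this

theorem dot_ne_of_smul (hMN : M ≤ N) {e : ℂ} (h : Res (N : Set G) χ = e • θ) (h1 : dot M χ φ ≠ 0) :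
    dot M θ φ ≠ 0 := fun h0 => h1 (by
  rw [← dot_Res_left_of_le hMN, h, dot_smul_left, h0, mul_zero])

theorem eq_of_dot_of_smul (hθ : θ ∈ Irr N) (hφ : φ ∈ Irr N) {e : ℂ} (h : Res (N : Set G) χ = e • θ)
    (h1 : dot N χ φ ≠ 0) : θ = φ := irr_eq_of_dot_ne hθ hφ (dot_ne_of_smul le_rfl h h1)

/-- Isaacs (11.32) -/
theorem MaxC.not_hom (h : MaxC H L K) (hϑ : ϑ ∈ Irr H) (hL : Res (L : Set G) ϑ ∈ Irr L)
    (hχ : Ind ⊤ H ϑ ∈ Irr ⊤) (hh : ∀ M : Subgroup G, M.Normal → L ≤ M → Hom M (Ind ⊤ H ϑ)) :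
    False := by
  have := h.nK
  have := h.nL
  obtain ⟨φ, hφ, d, h1⟩ := hh L h.nL le_rfl
  obtain ⟨ψ, hψ, e, h2⟩ := hh K h.nK h.lt.le
  obtain ⟨-, a, a1, a2⟩ := h.ram (irr_cf hϑ) hχ hφ hψ h1 h2
  obtain ⟨-, M, hM, b1, b2⟩ := h.exists_top a2
  obtain ⟨η, hη, b, h3⟩ := hh M hM (h.lt.le.trans b1.le)
  have hLQ : L ≤ M ⊓ H := le_inf (h.lt.le.trans b1.le) h.le
  set ξ := Res ((M ⊓ H : Subgroup G) : Set G) ϑ with hξd
  have c0 : Res (L : Set G) ξ = Res (L : Set G) ϑ := Res_Res_of_le hLQ ϑ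
  have hξ : ξ ∈ Irr (M ⊓ H) := ((irr_char hϑ).Res inf_le_right).mem_Irr_of_Res hLQ (c0 ▸ hL)
  have c1 : Ind M (M ⊓ H) ξ = (b : ℂ) • η := by
    rw [Ind_Res, ← h.Res_Ind (irr_cf hϑ) b1.le, h3]
  have c2 : dot (M ⊓ H) η ξ = b := by
    rw [← dot_Ind_right inf_le_left _ (irr_cf hη), c1, dot_natCast_smul_right, dot_irr_self hη,
      mul_one]
  have c3 : dot K η ψ ≠ 0 := dot_ne_of_smul b1.le h3 (by
    rw [(H9.dot_of_Res_eq hψ h2).1]; exact coef_ne hχ h2)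
  obtain ⟨m, m1, m2⟩ := deg_over b1.le (le_top.trans (top_le_norm K)) hψ (mem_over.2 ⟨hη, c3⟩)
  have c4 : φ = Res (L : Set G) ϑ := by
    refine eq_of_dot_of_smul hφ hL h1 ?_
    have h4 : dot H (Ind ⊤ H ϑ) ϑ ≠ 0 := by
      rw [← dot_Ind_right le_top _ (irr_cf hχ), dot_irr_self hχ]; exact one_ne_zero
    have h5 := dot_re_le_of_irr_constituent h.le ((irr_char hχ).Res le_top) hϑ (irr_char hL)
      (by rwa [dot_Res_left_of_le le_rfl])
    rw [← dot_Res_left_of_le le_rfl, dot_irr_self hL, dot_Res_left_of_le h.le] at h5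
    intro h0
    rw [h0] at h5
    norm_num at h5
  have d1 : charDegree ϑ = charDegree φ := deg_congr (by rw [c4, Res_one])
  have d2 := deg_Ind le_top hϑ
  rw [deg_of_Res hχ hη h3, m2, deg_of_Res hψ hφ a1, Subgroup.relIndex_top_right, h.index, ← a2,
    d1] at d2
  have d3 := deg_pos hφ
  have d4 : a ≠ 0 := by exact_mod_cast coef_ne hψ a1
  have d5 : b * m = a := by
    refine mul_right_cancel₀ (mul_ne_zero d4 d3.ne') ?_
    linear_combination d2
  have d6 : m = 1 := Nat.eq_one_of_dvd_coprimes b2 (Dvd.intro_left _ d5) m1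
  rw [d6, mul_one] at d5
  rw [d6, one_mul, deg_of_Res hψ hφ a1] at m2
  have c5 : Res ((M ⊓ H : Subgroup G) : Set G) η = (b : ℂ) • ξ := by
    have h4 := ((irr_char hη).Res (inf_le_left (b := H))).sub_smul_irr hξ
    rw [dot_Res_left_of_le le_rfl, c2] at h4
    refine sub_eq_zero.1 (h4.eq_zero_of_one ?_)
    rw [Pi.sub_apply, Res_one, Pi.smul_apply, hξd, Res_one, ← deg_cast hη, ← deg_cast hϑ, m2, d1, d5]
    simp
  have c6 := (H9.sq_eq_iff_vanish inf_le_left hη hξ c5).1 (by rw [h.relIndex' b1.le, d5, a2])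
  have c7 := (H9.sq_eq_iff_vanish (e := 1) hLQ hξ hL (by rw [c0]; simp)).2 fun y hy => by
    by_contra h0
    have hyQ : y ∈ M ⊓ H := by by_contra h'; exact h0 (cf_zero (irr_cf hξ) h')
    have h4 : η y ≠ 0 := by
      rw [← Res_of_mem η hyQ, c5]
      exact mul_ne_zero (coef_ne hη c5) h0
    refine hy (h.cent y hyQ.2 fun k hk => h.inf.le ⟨?_, ?_⟩)
    · rw [commutatorElement_def]
      exact K.mul_mem (h.nK.conj_mem k hk y) (K.inv_mem hk)
    · have h5 : k * y * k⁻¹ ∈ M ⊓ H := by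
        by_contra h'
        exact h4 (by rw [← cf_conj (irr_cf hη) y (b1.le hk), c6 _ h'])
      have : ⁅y, k⁆ = y * (k * y * k⁻¹)⁻¹ := by group
      rw [this]
      exact H.mul_mem hyQ.2 (H.inv_mem h5.2)
  rw [← h.relIndex b1.le] at c7
  exact b1.not_ge (Subgroup.relIndex_eq_one.1 (by simpa using c7.symm))

/-! ### pull-back along a homomorphism -/

section pull
variable {Γ : Type*} [Group Γ] [Finite Γ] (π : Γ →* G) {X Y : Subgroup Γ}

/-- `π` on the top subgroup -/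
def tf : (⊤ : Subgroup Γ) →* G := π.comp (Subgroup.subtype ⊤)

theorem img_tf (X : Subgroup Γ) : img (tf π) X = X.map π := by
  ext g
  rw [mem_img]
  exact ⟨fun ⟨x, a, b⟩ => ⟨x, a, b⟩, fun ⟨x, a, b⟩ => ⟨⟨x, trivial⟩, a, b⟩⟩

theorem infl_tf (X : Subgroup Γ) (ψ : G → ℂ) : infl (tf π) X ψ = Res (X : Set Γ) (ψ ∘ π) :=
  infl_ext _ le_top (Res_mem_supp _ _) fun _ hx => Res_of_mem _ hx

theorem pb_irr (h : ψ ∈ Irr (X.map π)) : Res (X : Set Γ) (ψ ∘ π) ∈ Irr X :=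
  infl_tf π X ψ ▸ infl_mem_Irr _ le_top (by rwa [img_tf])

theorem pb_irr_top (hπ : Function.Surjective π) (h : ψ ∈ Irr ⊤) : ψ ∘ π ∈ Irr ⊤ :=
  mem_Irr_top.2 ((mem_Irr_top.1 h).comp_of_surjective π hπ)

theorem pb_irr_comap (hπ : Function.Surjective π) (h : ψ ∈ Irr H) :
    Res (H.comap π : Set Γ) (ψ ∘ π) ∈ Irr (H.comap π) :=
  pb_irr π (by rwa [Subgroup.map_comap_eq_self_of_surjective hπ])

theorem pb_Ind (hπ : Function.Surjective π) (ψ : G → ℂ) :
    Ind ⊤ (H.comap π) (Res (H.comap π : Set Γ) (ψ ∘ π)) = Ind ⊤ H ψ ∘ π := by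
  have h := Ind_infl (tf π) (H := H.comap π) (K := ⊤) le_top le_rfl (fun x hx => by
    have : π x = 1 := (mem_kerf (tf π) (x := ⟨x, trivial⟩)).1 hx.2
    change π x ∈ H
    rw [this]; exact one_mem _) ψ
  rw [infl_tf, infl_tf, img_tf, img_tf, Subgroup.map_comap_eq_self_of_surjective hπ,
    Subgroup.map_top_of_surjective π hπ] at h
  rw [h]
  exact Res_eq_self fun x hx => absurd trivial hx

theorem Hom.pb (h : Hom (X.map π) χ) : Hom X (χ ∘ π) := by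
  obtain ⟨θ, hθ, e, h⟩ := h
  refine ⟨_, pb_irr π hθ, e, ?_⟩
  rw [← map_smul, Res_eq_iff]
  intro x hx
  have := congrFun h (π x)
  rwa [Res_of_mem _ (Subgroup.mem_map_of_mem π hx)] at this

theorem comm_eq_of_central (hc : π.ker ≤ Subgroup.center Γ) {x x' y y' : Γ} (hx : π x = π x')
    (hy : π y = π y') : ⁅x, y⁆ = ⁅x', y'⁆ := by
  have h1 : ∀ a b : Γ, π a = π b → ∃ z ∈ Subgroup.center Γ, a = b * z := fun a b e =>
    ⟨b⁻¹ * a, hc (by rw [MonoidHom.mem_ker, map_mul, map_inv, e, inv_mul_cancel]), by group⟩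
  obtain ⟨z, hz, rfl⟩ := h1 x x' hx
  obtain ⟨w, hw, rfl⟩ := h1 y y' hy
  have a := Subgroup.mem_center_iff.1 hz
  have b := Subgroup.mem_center_iff.1 hw
  simp only [commutatorElement_def, mul_inv_rev]
  calc x' * z * (y' * w) * (z⁻¹ * x'⁻¹) * (w⁻¹ * y'⁻¹)
      = x' * (z * (y' * w)) * z⁻¹ * x'⁻¹ * w⁻¹ * y'⁻¹ := by group
    _ = x' * y' * (w * x'⁻¹) * w⁻¹ * y'⁻¹ := by rw [← a]; group
    _ = _ := by rw [← b]; group

end pull

/-- quasi-primitive -/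
def QP (χ : G → ℂ) : Prop := ∀ N : Subgroup G, N.Normal → Hom N χ

theorem irr_of_mul (hβ : IsChar H β) (hγ : IsChar H γ) (h : β * γ ∈ Irr H) : γ ∈ Irr H := by
  have h0 := irr_one_ne h
  rw [Pi.mul_apply] at h0
  obtain ⟨ω, hω, h1⟩ := exists_dot_ne_zero hγ.cf (fun e => h0 (by simp [e]))
  have h2 := hγ.sub_irr hω h1
  have h3 := hβ.mul (irr_char hω)
  obtain ⟨ξ, hξ, h4⟩ := exists_dot_ne_zero h3.cf (fun e => mul_ne_zero (left_ne_zero_of_mul h0)
    (irr_one_ne hω) (congrFun e 1))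
  have h5 : dot H (β * γ) ξ ≠ 0 := by
    have e : β * γ = β * ω + β * (γ - ω) := by ring
    obtain ⟨a, ha⟩ := h3.dot_nat (irr_char hξ)
    obtain ⟨b, hb⟩ := (hβ.mul h2).dot_nat (irr_char hξ)
    rw [e, dot_add_left, ha, hb]
    rw [ha] at h4
    have : a ≠ 0 := by exact_mod_cast h4
    exact_mod_cast (by omega : a + b ≠ 0)
  rw [← irr_eq_of_dot_ne h hξ h5] at h4
  have h6 := h3.irr_degree_le h h4
  obtain ⟨b, hb⟩ := hβ.exists_nat_one
  obtain ⟨c, hc⟩ := h2.exists_nat_one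
  obtain ⟨d, -, hd⟩ := irr_pos_one hω
  have h7 : γ 1 = d + c := by rw [← hc, ← hd]; simp
  rw [Pi.mul_apply, Pi.mul_apply, hb, h7, hd] at h6
  norm_cast at h6
  have h8 : b ≠ 0 := by rintro rfl; exact h0 (by simp [hb])
  have h9 : c = 0 := by
    have := Nat.le_of_mul_le_mul_left h6 (Nat.pos_of_ne_zero h8)
    omega
  rw [sub_eq_zero.1 (h2.eq_zero_of_one (by rw [hc, h9, Nat.cast_zero]))]
  exact hω

/-- a factor in a Gallagher factorisation of a quasi-primitive character -/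
theorem QP.factor [N.Normal] (hη : IsChar ⊤ η) (hr : Res (N : Set G) η ∈ Irr N)
    (hβ : β ∈ IrrQ ⊤ N) (h : QP (β * η)) : QP β := by
  intro M hM
  obtain ⟨ξ, hξ, e, he⟩ := h (N ⊔ M) inferInstance
  have hβ' := mem_IrrQ.1 hβ
  have key : ∀ γ ∈ Irr (N ⊔ M), dot (N ⊔ M) β γ ≠ 0 → γ ∈ IrrQ (N ⊔ M) N ∧ γ * η = ξ := by
    intro γ hγ h0
    have h1 : N ≤ cfker γ := le_cfker_of_under le_top le_sup_left (irr_char hβ'.1) hγ h0 hβ'.2
    have h2 := gall1_irr (K := N ⊔ M) le_sup_left (le_top.trans (top_le_norm N)) (hη.Res le_top)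
      (by rwa [Res_Res_of_le le_sup_left]) (mem_IrrQ.2 ⟨hγ, h1⟩)
    rw [← Res_mul_right, Res_eq_self (mul_mem_supp_left (irr_cf hγ).1 η)] at h2
    refine ⟨mem_IrrQ.2 ⟨hγ, h1⟩, (eq_of_dot_of_smul hξ h2 he ?_).symm⟩
    rwa [dot_mul_ext le_top (top_le_norm N) hη hr le_sup_left le_top hβ'.2 h1]
  obtain ⟨γ, hγ, h0⟩ := exists_under (H := N ⊔ M) le_top hβ'.1
  obtain ⟨a, ha⟩ := (irr_char hβ'.1).dot_nat_of_le le_top (irr_char hγ)
  have h1 : Res ((N ⊔ M : Subgroup G) : Set G) β = (a : ℂ) • γ := by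
    refine cf_ext_dot (Res_mem_cf le_top (irr_cf hβ'.1)) ((cf _).smul_mem _ (irr_cf hγ))
      fun ω hω => ?_
    rw [dot_Res_left_of_le le_rfl, dot_smul_left]
    by_cases e : γ = ω
    · rw [← e, ha, dot_irr_self hγ, mul_one]
    rw [dot_irr_ne hγ hω e, mul_zero]
    by_contra h2
    obtain ⟨a1, a2⟩ := key γ hγ h0
    obtain ⟨b1, b2⟩ := key ω hω h2
    refine e (gall1_inj le_sup_left (le_top.trans (top_le_norm N)) (hη.Res le_top)
      (by rwa [Res_Res_of_le le_sup_left]) a1 b1 ?_)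
    rw [← Res_mul_right, ← Res_mul_right, a2, b2]
  refine ⟨Res (M : Set G) γ, Res_irr_of_sup (le_antisymm
    (sup_le (irr_cfker_le hγ) le_sup_right)
    (sup_le_sup_right (mem_IrrQ.1 (key γ hγ h0).1).2 M)) hγ, a, ?_⟩
  rw [← map_smul, ← h1, Res_Res_of_le le_sup_right]

/-- factorisation in a central extension -/
theorem exists_factor [hN : N.Normal] (hs : Group.IsSolvable G) (hχ : χ ∈ Irr ⊤) (hq : QP χ)
    (hθ : θ ∈ Irr N) {e : ℕ} (he : Res (N : Set G) χ = (e : ℂ) • θ) :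
    ∃ (Γ : Type u) (_ : Group Γ) (_ : Finite Γ) (π : Γ →* G) (N' : Subgroup Γ) (η β : Γ → ℂ),
      Group.IsSolvable Γ ∧ Function.Surjective π ∧ π.ker ≤ Subgroup.center Γ ∧ N'.Normal ∧
      N'.map π = N ∧ η ∈ Irr ⊤ ∧ Res (N' : Set Γ) η ∈ Irr N' ∧ (∀ x ∈ N', η x = θ (π x)) ∧
      β ∈ IrrQ ⊤ N' ∧ β * η = χ ∘ π ∧ QP β := by
  have hst := H9.le_stab_of_Res_eq (top_le_norm N) (irr_cf hχ) (coef_ne hχ he) he
  obtain ⟨Γ, _, _, π, s, η, h1, h2, h3, h4, h5, h6⟩ := exists_cover (irr_res hθ)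
    (fun g n => mem_stab_iff.1 (hst (Subgroup.mem_top g)) n)
  have a1 : s.range.map π = N := by
    ext x
    exact ⟨by rintro ⟨_, ⟨n, rfl⟩, rfl⟩; rw [h3]; exact n.2,
      fun hx => ⟨s ⟨x, hx⟩, ⟨_, rfl⟩, h3 _⟩⟩
  have a2 : ∀ x ∈ s.range, η x = θ (π x) := by
    rintro _ ⟨n, rfl⟩
    rw [h6, h3]; rfl
  have a3 : Res (s.range : Set Γ) η = Res (s.range : Set Γ) (θ ∘ π) := Res_eq_iff.2 a2
  have a4 : Res (s.range : Set Γ) η ∈ Irr s.range := a3 ▸ pb_irr π (a1.symm ▸ hθ)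
  have a5 := mem_Irr_top.2 h5
  obtain ⟨β, b1, b2⟩ := (gall1_mem le_top (top_le_norm _) (irr_char a5) a4).1
    (mem_over.2 ⟨pb_irr_top π h1 hχ, by
      have : Res (s.range : Set Γ) (χ ∘ π) = (e : ℂ) • Res (s.range : Set Γ) η := by
        rw [a3, ← map_smul, Res_eq_iff]
        intro x hx
        have := congrFun he (π x)
        rwa [Res_of_mem _ (a1.le (Subgroup.mem_map_of_mem π hx))] at this
      rw [(H9.dot_of_Res_eq a4 this).1]
      exact coef_ne hχ he⟩)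
  refine ⟨Γ, _, inferInstance, π, s.range, η, β, ?_, h1, h2, h4, a1, a5, a4, a2, b1, b2,
    QP.factor (irr_char a5) a4 b1 (b2 ▸ fun M hM => Hom.pb π (hq _ (hM.map π h1)))⟩
  have := H16.sol_of_comm (H := Subgroup.center Γ) inferInstance
  exact solvable_of_ker_le_range (Subgroup.center Γ).subtype π (by rwa [Subgroup.range_subtype])

theorem ind_factor [N.Normal] (hη : η ∈ Irr ⊤) (hr : Res (N : Set G) η ∈ Irr N)
    (hβ : β ∈ IrrQ ⊤ N) (hNH : N ≤ H) (hϑ : ϑ ∈ Irr H) (h : Ind ⊤ H ϑ = β * η) :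
    ∃ γ, IsChar H γ ∧ Ind ⊤ H γ = β := by
  have hn := top_le_norm N
  have h1 := (gall1_mem le_top hn (irr_char hη) hr).2 ⟨β, hβ, rfl⟩
  have h2 := (mem_over.1 h1).1
  have h3 := over_of_under hNH le_top hn hr (le_stab_Res hn (irr_cf hη)) h1 hϑ (by
    rw [← dot_Ind_right le_top _ (irr_cf h2), h, dot_irr_self h2]; exact one_ne_zero)
  rw [← Res_Res_of_le hNH] at h3
  obtain ⟨γ, a1, a2⟩ := (gall1_mem hNH (le_top.trans hn) ((irr_char hη).Res le_top)
    (by rwa [Res_Res_of_le hNH])).1 h3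
  have a3 := mem_IrrQ.1 a1
  rw [← a2, Ind_mul_Res _ (irr_cf hη)] at h
  have a4 := Ind_irr_char le_top a3.1
  have a5 : N ≤ cfker (Ind ⊤ H γ) := le_cfker_Ind hNH hn a3.2
  have a6 := mem_IrrQ.1 hβ
  refine ⟨γ, irr_char a3.1, irr_eq_of_dot_ne (a4.mem_Irr ?_) a6.1 ?_⟩
  · rw [← dot_mul_ext le_top hn (irr_char hη) hr le_top le_rfl a5 a5, h, dot_irr_self h2]
  · rw [← dot_mul_ext le_top hn (irr_char hη) hr le_top le_rfl a5 a6.2, h, dot_irr_self h2]
    exact one_ne_zero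

theorem Prim.not_res [N.Normal] (h : Prim ⊤ β) (hβ : β ∈ IrrQ ⊤ N) (hH : N ⊔ H = ⊤)
    (h1 : N ⊓ H ≤ T) (h2 : T < H) (hγ : IsChar T γ) : Ind H T γ ≠ Res (H : Set G) β := by
  intro e
  have a := mem_IrrQ.1 hβ
  have hn := top_le_norm N
  have a1 : Res (H : Set G) β ∈ Irr H :=
    Res_irr_of_sup (top_le_iff.1 (hH ▸ sup_le_sup_right a.2 H)) a.1
  have a2 : γ ∈ Irr T := hγ.mem_Irr_of_Ind h2.le (e ▸ a1)
  have a3 : H ⊓ (N ⊔ T) = T := by
    rw [H16.modr' h2.le (Or.inr (le_top.trans hn)), inf_comm]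
    exact sup_eq_right.2 h1
  obtain ⟨ω, hω, b1, b2⟩ := exists_irr_between (H := T) (T := N ⊔ T) (θ := γ) le_sup_right
    (Res_mem_cf le_top (irr_cf a.1)) (by
      rw [dot_Res_left_of_le le_sup_right, ← dot_Res_left_of_le h2.le,
        ← dot_Ind_right h2.le _ (irr_cf a1), e, dot_irr_self a1]
      exact one_ne_zero)
  rw [dot_Res_left_of_le le_rfl] at b1
  have b3 : N ≤ cfker ω := le_cfker_of_under le_top le_sup_left (irr_char a.1) hω b1 a.2
  have b4 : Res (T : Set G) ω = γ := irr_eq_of_dot_ne (Res_irr_of_sup (le_antisymm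
    (sup_le (irr_cfker_le hω) le_sup_right) (sup_le_sup_right b3 T)) hω) a2
    (by rwa [dot_Res_left_of_le le_rfl])
  have b5 := Res_Ind_of_mul (K := ⊤) (H := N ⊔ T) (N := H) le_top le_top (fun g _ => by
    obtain ⟨x, hx, y, hy, e⟩ := (H16.mem_sup_r (le_top.trans hn)).1
      ((sup_comm N H ▸ hH).ge (Subgroup.mem_top g))
    exact ⟨x, hx, y, Subgroup.mem_sup_left hy, e.symm⟩) (irr_cf hω)
  rw [a3, ← Ind_Res (H := T), b4, e] at b5
  refine h (N ⊔ T) (lt_top_iff_ne_top.2 fun e => h2.ne (by rw [← a3, e, inf_top_eq])) ω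
    (irr_char hω) ((Ind_irr_char le_top hω).eq_irr_of_degree a.1 ?_ (by simpa using congrFun b5 1))
  rw [dot_Ind_left le_top _ (irr_cf a.1)]
  exact fun e => b1 (dot_symm_zero e)

theorem berger_aux (n : ℕ) : ∀ (G : Type u) [Group G] [Finite G], Group.IsSolvable G →
    ∀ χ ∈ Irr (⊤ : Subgroup G), charDegree χ = n → QP χ → Prim ⊤ χ := by
  induction n using Nat.strong_induction_on with
  | _ n ih =>
  intro G _ _ hs χ hχ hn hq T hT ζ hζ e
  obtain ⟨H, hH, hTH⟩ := (eq_top_or_exists_le_coatom T).resolve_left hT.ne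
  set ϑ := Ind H T ζ
  have e1 : Ind ⊤ H ϑ = χ := by rw [← e]; exact Ind_Ind hTH le_top ζ
  have hϑ : ϑ ∈ Irr H := (hζ.Ind hTH).mem_Irr_of_Ind le_top (e1 ▸ hχ)
  obtain ⟨L, K, -, h⟩ := exists_maxC (N := ⊥) (qsol_of_sol inferInstance ⊥) bot_le hH
  have := h.nK
  have := h.nL
  obtain ⟨φ, hφ, d, h1⟩ := hq L h.nL
  have hlt : ∀ {Γ : Type u} [Group Γ] (π : Γ →* G), Function.Surjective π → H.comap π < ⊤ :=
    fun π hπ => lt_top_iff_ne_top.2 fun e => hH.1 (by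
      rw [← Subgroup.map_comap_eq_self_of_surjective hπ H, e, Subgroup.map_top_of_surjective π hπ])
  have hdeg : ∀ {Γ : Type u} [Group Γ] [Finite Γ] (π : Γ →* G) {η β : Γ → ℂ}, η ∈ Irr ⊤ →
      β ∈ Irr ⊤ → β * η = χ ∘ π → charDegree β * charDegree η = n := fun π η β a b c => by
    rw [← deg_mul b a, c, ← hn]
    exact deg_congr (by simp)
  by_cases hl : charDegree φ = 1
  swap
  · obtain ⟨Γ, _, _, π, L', η, β, a1, a2, -, a4, a5, a6, a7, a8, a9, a10, a11⟩ :=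
      exists_factor hs hχ hq hφ h1
    have b0 := (mem_IrrQ.1 a9).1
    have b1 := hdeg π a6 b0 a10
    have b2 : charDegree η = charDegree φ := deg_congr (by simpa using a8 1 (one_mem _))
    have b3 := deg_pos hφ
    have b4 := deg_pos b0
    obtain ⟨γ, c1, c2⟩ := ind_factor (H := H.comap π) a6 a7 a9
      (Subgroup.map_le_iff_le_comap.1 (a5 ▸ h.le)) (pb_irr_comap π a2 hϑ)
      (by rw [pb_Ind π a2, e1, a10])
    exact ih _ (by rw [← b1, b2]; nlinarith [show 2 ≤ charDegree φ by omega]) Γ a1 β b0 rfl a11 _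
      (hlt π a2) γ c1 c2
  obtain ⟨ψ, hψ, e', h2⟩ := hq K h.nK
  obtain ⟨hv, a, h3, h4⟩ := h.ram (irr_cf hϑ) (e1 ▸ hχ) hφ hψ (e1 ▸ h1) (e1 ▸ h2)
  obtain ⟨ha, M, hM, h5, h6⟩ := h.exists_top h4
  obtain ⟨Γ, _, _, π, K', η, β, a1, a2, a3, a4, a5, a6, a7, a8, a9, a10, a11⟩ :=
    exists_factor hs hχ hq hψ h2
  have b0 := (mem_IrrQ.1 a9).1
  have b1 := hdeg π a6 b0 a10
  have b2 : charDegree η = a := by
    rw [← mul_one a, ← hl, ← deg_of_Res hψ hφ h3]
    exact deg_congr (by simpa using a8 1 (one_mem _))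
  have b4 := deg_pos b0
  have hp := ih _ (by rw [← b1, b2]; nlinarith) Γ a1 β b0 rfl a11
  set H' := H.comap π
  set ϑ' := Res (H' : Set Γ) (ϑ ∘ π)
  have c1 : ϑ' ∈ Irr H' := pb_irr_comap π a2 hϑ
  have c2 : Ind ⊤ H' ϑ' = β * η := by rw [pb_Ind π a2, e1, a10]
  have c3 : K' ⊔ H' = ⊤ := by
    rw [eq_top_iff]
    intro x _
    obtain ⟨k, hk, y, hy, e⟩ := h.mul (π x)
    obtain ⟨k', hk', rfl⟩ := a5.ge hk
    rw [← mul_inv_cancel_left k' x]
    refine Subgroup.mul_mem_sup hk' ?_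
    change π _ ∈ H
    rwa [map_mul, map_inv, e, inv_mul_cancel_left]
  have c4 : Res (H' : Set Γ) β ∈ Irr H' :=
    Res_irr_of_sup (top_le_iff.1 (c3 ▸ sup_le_sup_right (mem_IrrQ.1 a9).2 H')) b0
  set W := Res (H' : Set Γ) η with hW
  have c5 : IsChar H' W := (irr_char a6).Res le_top
  have c6 : ϑ' * star W = Res (H' : Set Γ) β := by
    refine ((irr_char c1).mul c5.star).eq_irr_of_degree c4 ?_ ?_
    · have h7 : β * η ∈ Irr ⊤ := a10 ▸ pb_irr_top π a2 hχ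
      rw [dot_mul_left, star_star, ← Res_mul, dot_Res_right_of_le le_rfl,
        ← dot_Ind_left le_top _ (irr_cf h7), c2, dot_irr_self h7]
      exact one_ne_zero
    · have h7 := deg_Ind le_top c1
      rw [c2, deg_mul b0 a6, b2, Subgroup.relIndex_top_right,
        Subgroup.index_comap_of_surjective _ a2, h.index, ← h4] at h7
      have h8 : charDegree β = charDegree ϑ' * a := by
        refine mul_right_cancel₀ (b := a) (by omega) ?_
        linear_combination h7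
      rw [Pi.mul_apply, Res_one, Pi.star_apply, hW, Res_one, ← deg_cast c1, ← deg_cast a6,
        ← deg_cast b0, h8, b2]
      simp
  have c7 : W ∈ Irr H' := star_mem_Irr_iff.1 (irr_of_mul (irr_char c1) c5.star (c6 ▸ c4))
  set Q' := (M ⊓ H).comap π
  have d1 : Q' ≤ H' := Subgroup.comap_mono inf_le_right
  have d2 : H' ≤ 𝒩(Q') := H16.le_norm_iff.2 fun x hx y hy => by
    change π _ ∈ M ⊓ H
    rw [map_mul, map_mul, map_inv]
    exact ⟨hM.conj_mem _ hy.1 _, H.mul_mem (H.mul_mem hx hy.2) (H.inv_mem hx)⟩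
  have hLQ : L ≤ M ⊓ H := le_inf (h.lt.le.trans h5.le) h.le
  rcases homogeneous_or_induced d1 d2 c7 with ⟨μ, hμ, -, f, -, hf⟩ | ⟨T, t1, t2, ω, hω, t3⟩
  swap
  · refine hp.not_res a9 c3 (T := T) (γ := star ω * Res (T : Set Γ) ϑ') (le_trans ?_ t1) t2
      ((irr_char hω).star.mul ((irr_char c1).Res t2.le)) ?_
    · exact fun x hx => ⟨h5.le (a5.le (Subgroup.mem_map_of_mem π hx.1)), hx.2⟩
    · rw [Ind_mul_Res _ (irr_cf c1), Ind_star, t3, mul_comm, c6]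
  rw [hW, Res_Res_of_le d1] at hf
  set L' := L.comap π
  have d3 : L' ≤ Q' := Subgroup.comap_mono hLQ
  have hL' : L'.Normal := inferInstance
  obtain ⟨ν, hν, d4⟩ := exists_under d3 hμ
  have hφl := lin_of_deg hφ hl
  have d5 : ⁅L', L'⁆ ≤ cfker η := by
    rw [Subgroup.commutator_le]
    intro x hx y hy
    obtain ⟨x', hx', ex⟩ := a5.ge (h.lt.le hx)
    obtain ⟨y', hy', ey⟩ := a5.ge (h.lt.le hy)
    have h7 : π ⁅x', y'⁆ ∈ ⁅L, L⁆ := by
      rw [map_commutatorElement, ex, ey]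
      exact Subgroup.commutator_mem_commutator hx hy
    rw [comm_eq_of_central π a3 ex.symm ey.symm, irr_mem_cfker a6,
      a8 _ (H16.der_le K' (Subgroup.commutator_mem_commutator hx' hy')), a8 1 (one_mem _), map_one,
      ← Res_of_mem ψ (H16.der_le L h7), ← Res_of_mem ψ L.one_mem, h3, Pi.smul_apply, Pi.smul_apply,
      cfker_apply (hφl.commutator_le h7)]
  have d6 : IsLin L' ν := isLin_of_le_cfker hν (le_cfker_of_under le_top (H16.der_le L')
    (irr_char a6) hν (by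
      rw [← dot_Res_left_of_le d3, hf, dot_smul_left]
      exact mul_ne_zero (coef_ne a6 hf) d4) d5)
  obtain ⟨m, m1, m2⟩ := deg_over d3 (le_top.trans (top_le_norm L')) hν (mem_over.2 ⟨hμ, d4⟩)
  rw [deg_lin d6, mul_one] at m2
  rw [Subgroup.relIndex_comap, Subgroup.map_comap_eq_self_of_surjective a2, ← h.relIndex h5.le] at m1
  have d7 : m = 1 := Nat.eq_one_of_dvd_coprimes h6
    (by rw [← b2, deg_of_Res a6 hμ hf, m2]; exact dvd_mul_left _ _) m1
  obtain ⟨d8, d9⟩ := norm_eq_of_Res_eq_lin (lin_of_deg hμ (m2.trans d7)) hf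
  have a6' := mem_Irr_top.1 a6
  have d10 : M ⊓ H ≤ L := fun y hy => h.cent y hy.2 fun k hk => by
    obtain ⟨y', rfl⟩ := a2 y
    obtain ⟨k', hk', rfl⟩ := a5.ge hk
    have h7 := apply_eq_of_mem_charKer (a6'.mem_charCenter_iff.1
      ((a6'.isCharacter.mem_charCenter' d8).2 (d9 y' hy)) k')
    rw [a8 _ (mul_mem (a4.conj_mem k' hk' y') (inv_mem hk'))] at h7
    by_contra h8
    refine irr_one_ne a6 (h7 ▸ hv _ ?_)
    simpa [commutatorElement_def] using h8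
  exact h5.not_ge (h.sup_inf h5.le ▸ sup_le le_rfl (d10.trans h.lt.le))

/-- Berger's theorem -/
theorem berger (hs : Group.IsSolvable G) (hχ : χ ∈ Irr ⊤) (hq : QP χ) : Prim ⊤ χ :=
  berger_aux _ G hs χ hχ rfl hq

theorem hom_iff : Hom N χ ↔
    ∃ (φ : N → ℂ) (e : ℕ), IsIrrCharacter N φ ∧ (fun m : N => χ m) = (e : ℂ) • φ := by
  constructor
  · rintro ⟨θ, hθ, e, h⟩
    refine ⟨res N θ, e, irr_res hθ, ?_⟩
    rw [← res_smul, ← h, res_Res_of_le le_rfl]; rfl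
  · rintro ⟨φ, e, h1, h2⟩
    refine ⟨_, ext0_mem_Irr.2 h1, e, ?_⟩
    rw [← ext0_res, ← CF.ext0_apply, ← CF.ext0_apply, ← map_smul, ← h2]; rfl

end H18
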