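import Mathlib

/-! Subsets of `ZMod p` whose `p`-fold convolution power is constant off zero. -/

set_option autoImplicit false

namespace H18.DP

open Finset

variable {p : ℕ} [hp : Fact p.Prime]

theorem psi_val (j : ZMod p) :
    ZMod.stdAddChar j = (ZMod.stdAddChar (1 : ZMod p)) ^ j.val := by
  rw [← AddChar.map_nsmul_eq_pow, nsmul_one, ZMod.natCast_zmod_val]

theorem psi_prim : IsPrimitiveRoot (ZMod.stdAddChar (1 : ZMod p)) p := by
  rw [IsPrimitiveRoot.iff_def]
  refine ⟨?_, fun l hl => ?_⟩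
  · rw [← AddChar.map_nsmul_eq_pow, nsmul_one, ZMod.natCast_self, AddChar.map_zero_eq_one]
  · rw [← AddChar.map_nsmul_eq_pow, nsmul_one, ← AddChar.map_zero_eq_one (ZMod.stdAddChar (N := p))] at hl
    exact (ZMod.natCast_eq_zero_iff l p).1 (ZMod.injective_stdAddChar hl)

theorem lin_indep (α : ZMod p → ℤ) (h : ∑ j, (α j : ℂ) * ZMod.stdAddChar j = 0) (i j : ZMod p) :
    α i = α j := by
  have hz := psi_prim (p := p)
  rw [Finset.sum_congr rfl fun j _ => by rw [psi_val j]] at h
  generalize ZMod.stdAddChar (1 : ZMod p) = ζ at hz h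
  have hpp := hp.out
  obtain ⟨n, rfl⟩ : ∃ n, p = n + 1 := ⟨p - 1, by have := hpp.pos; omega⟩
  exact (IsPrimitiveRoot.sum_eq_zero_iff_forall_eq_int hpp hz α).1 h i j

theorem sum_ind (D : Finset (ZMod p)) (F : ZMod p → ℂ) :
    ∑ j, ((if j ∈ D then 1 else 0 : ℤ) : ℂ) * F j = ∑ j ∈ D, F j := by
  rw [← Finset.sum_ite_mem_eq D F]
  refine Finset.sum_congr rfl fun j _ => ?_
  split_ifs <;> simp

theorem eq_of_sum (D E : Finset (ZMod p)) (hc : D.card = E.card)
    (h : ∑ j ∈ D, ZMod.stdAddChar j = ∑ j ∈ E, ZMod.stdAddChar j) : D = E := by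
  have h1 := lin_indep (fun j => (if j ∈ D then 1 else 0) - (if j ∈ E then 1 else 0)) (by
    simp only [Int.cast_sub, sub_mul, Finset.sum_sub_distrib]
    rw [sum_ind, sum_ind, h, sub_self])
  by_contra hne
  have hDE : ¬ D ⊆ E := fun hs => hne (Finset.eq_of_subset_of_card_le hs hc.ge)
  have hED : ¬ E ⊆ D := fun hs => hne (Finset.eq_of_subset_of_card_le hs hc.le).symm
  obtain ⟨a, ha, ha'⟩ := Finset.not_subset.1 hDE
  obtain ⟨b, hb, hb'⟩ := Finset.not_subset.1 hED
  have := h1 a b
  simp [ha, ha', hb, hb'] at this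

theorem diffset (D : Finset (ZMod p)) (h0 : D.Nonempty) (h1 : D ≠ univ) (f : ℕ → ZMod p → ℤ)
    (hf0 : ∀ j, f 0 j = if j = 0 then 1 else 0)
    (hfs : ∀ n a, f (n + 1) a = ∑ c, if a - c ∈ D then f n c else 0)
    (hc : ∀ j, j ≠ 0 → f p j = f p 1) : ∃ b, D = {b} ∨ D = univ.erase b := by
  set ψ : AddChar (ZMod p) ℂ := ZMod.stdAddChar with hψ
  have hF : ∀ (m : ZMod p) (n : ℕ),
      ∑ j, (f n j : ℂ) * ψ (m * j) = (∑ j ∈ D, ψ (m * j)) ^ n := by
    intro m n
    induction n with
    | zero => simp [hf0]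
    | succ n ih =>
      rw [pow_succ, ← ih, Finset.sum_mul]
      simp only [hfs, Int.cast_sum, Finset.sum_mul]
      rw [Finset.sum_comm]
      refine Finset.sum_congr rfl fun c _ => ?_
      rw [← Equiv.sum_comp (Equiv.addRight c), Finset.mul_sum, ← Finset.sum_ite_mem_eq D]
      refine Finset.sum_congr rfl fun d _ => ?_
      simp only [Equiv.coe_addRight, add_sub_cancel_right]
      split_ifs
      · rw [mul_add, AddChar.map_add_eq_mul]; ring
      · simp
  have hA : ∀ m : ZMod p, m ≠ 0 → (∑ j ∈ D, ψ (m * j)) ^ p = (f p 0 : ℂ) - f p 1 := by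
    intro m hm
    rw [← hF]
    have hs : ∑ j, ψ (j * m) = 0 := by
      rw [AddChar.sum_mulShift m (ZMod.isPrimitive_stdAddChar p), if_neg hm, Nat.cast_zero]
    have : ∀ j, (f p j : ℂ) * ψ (m * j) =
        (if j = 0 then (f p 0 : ℂ) - f p 1 else 0) + f p 1 * ψ (j * m) := by
      intro j
      by_cases hj : j = 0
      · subst hj; simp
      · rw [if_neg hj, hc j hj, mul_comm m j, zero_add]
    simp only [this, Finset.sum_add_distrib, ← Finset.mul_sum, hs, mul_zero, add_zero]
    simp
  have hd1 : ∑ j ∈ D, ψ j ≠ 0 := by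
    intro h
    have := lin_indep (fun j => if j ∈ D then 1 else 0) (by rw [sum_ind]; exact h)
    obtain ⟨a, ha⟩ := h0
    obtain ⟨b, hb⟩ : ∃ b, b ∉ D := by
      by_contra hb; push Not at hb; exact h1 (Finset.eq_univ_of_forall hb)
    have := this a b
    simp [ha, hb] at this
  have hm : ∀ m : ZMod p, m ≠ 0 → ∃ k, D.image (m * ·) = D.image (· + k) := by
    intro m hm
    have e1 := hA m hm
    have e2 := hA 1 one_ne_zero
    simp only [one_mul] at e2
    have : ((∑ j ∈ D, ψ (m * j)) / ∑ j ∈ D, ψ j) ^ p = 1 := by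
      rw [div_pow, e1, ← e2, div_self (pow_ne_zero _ hd1)]
    obtain ⟨i, hi, hi'⟩ := (psi_prim (p := p)).eq_pow_of_pow_eq_one this
    have inj1 : Function.Injective (fun j : ZMod p => m * j) := mul_right_injective₀ hm
    have inj2 : Function.Injective (fun j : ZMod p => j + (i : ZMod p)) := add_left_injective _
    refine ⟨i, eq_of_sum _ _ ?_ ?_⟩
    · rw [Finset.card_image_of_injective _ inj1, Finset.card_image_of_injective _ inj2]
    · rw [Finset.sum_image fun a _ b _ h => inj1 h, Finset.sum_image fun a _ b _ h => inj2 h]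
      simp only [AddChar.map_add_eq_mul, ← Finset.sum_mul]
      rw [psi_val (i : ZMod p), ZMod.val_natCast, Nat.mod_eq_of_lt hi, hi']
      exact (mul_div_cancel₀ _ hd1).symm
  have hcard : (D.card : ZMod p) ≠ 0 := by
    intro h
    have h2 := (ZMod.natCast_eq_zero_iff _ _).1 h
    have h3 : D.card < p := by
      have := Finset.card_lt_card (Finset.ssubset_univ_iff.2 h1)
      rwa [Finset.card_univ, ZMod.card] at this
    exact absurd (Nat.le_of_dvd h0.card_pos h2) (by omega)
  set b := (∑ j ∈ D, j) / D.card with hb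
  have key : ∀ m : ZMod p, m ≠ 0 → ∀ d ∈ D, m * (d - b) + b ∈ D := by
    intro m hm0 d hd
    obtain ⟨k, hk⟩ := hm m hm0
    have inj1 : Function.Injective (fun j : ZMod p => m * j) := mul_right_injective₀ hm0
    have inj2 : Function.Injective (fun j : ZMod p => j + k) := add_left_injective _
    have hs := congrArg (fun E : Finset (ZMod p) => ∑ j ∈ E, j) hk
    rw [Finset.sum_image fun a _ b _ h => inj1 h, Finset.sum_image fun a _ b _ h => inj2 h,
      ← Finset.mul_sum, Finset.sum_add_distrib, Finset.sum_const, nsmul_eq_mul] at hs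
    have hk' : k = (m - 1) * b := by
      rw [hb]; field_simp; linear_combination -hs
    have : m * d ∈ D.image (· + k) := hk ▸ Finset.mem_image_of_mem _ hd
    obtain ⟨d', hd', he⟩ := Finset.mem_image.1 this
    have : m * (d - b) + b = d' := by rw [hk'] at he; linear_combination -he
    rwa [this]
  refine ⟨b, ?_⟩
  by_cases hD : ∃ d ∈ D, d ≠ b
  · obtain ⟨d, hd, hdb⟩ := hD
    have hall : ∀ j, j ≠ b → j ∈ D := by
      intro j hj
      have := key ((j - b) / (d - b)) (div_ne_zero (sub_ne_zero.2 hj) (sub_ne_zero.2 hdb)) d hd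
      rwa [div_mul_cancel₀ _ (sub_ne_zero.2 hdb), sub_add_cancel] at this
    right
    ext j
    simp only [Finset.mem_erase, Finset.mem_univ, and_true]
    refine ⟨fun hj hjb => h1 (Finset.eq_univ_of_forall fun i => ?_), hall j⟩
    by_cases hi : i = b
    · rw [hi, ← hjb]; exact hj
    · exact hall i hi
  · left
    push Not at hD
    obtain ⟨a, ha⟩ := h0
    ext j
    simp only [Finset.mem_singleton]
    exact ⟨hD j, fun h => by rw [h, ← hD a ha]; exact ha⟩

end H18.DP
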