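import Mathlib

/-! Doubly transitive groups of degree `p ^ 2 + 1`: basic lemmas. -/

set_option autoImplicit false

namespace H18.DP

open Subgroup MulAction

section gen
variable {G : Type*} [Group G]

theorem max_of_card [Finite G] {p : ℕ} (hp : p.Prime) {A T C : Subgroup G} (h1 : A ≤ T)
    (h2 : T ≤ C) (hc : Nat.card C = p * Nat.card A) : T = A ∨ T = C := by
  obtain ⟨a, ha⟩ := card_dvd_of_le h1
  obtain ⟨c, hc'⟩ := card_dvd_of_le h2
  have hA : 0 < Nat.card A := Nat.card_pos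
  have : p = a * c := by
    rw [hc', ha] at hc
    refine Nat.eq_of_mul_eq_mul_left hA ?_
    rw [← mul_assoc, hc, mul_comm]
  rcases (Nat.prime_mul_iff.1 (this ▸ hp)) with ⟨-, h⟩ | ⟨-, h⟩
  · exact Or.inr (eq_of_le_of_card_ge h2 (by rw [hc', h, mul_one]))
  · exact Or.inl (eq_of_le_of_card_ge h1 (by rw [ha, h, mul_one])).symm

/-- Elements of `T` all of whose `T`-conjugates lie in `A`. -/
def core (T A : Subgroup G) : Subgroup G where
  carrier := {k | k ∈ T ∧ ∀ g ∈ T, g⁻¹ * k * g ∈ A}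
  one_mem' := ⟨T.one_mem, fun g _ => by simpa using A.one_mem⟩
  mul_mem' := fun {a b} ha hb => ⟨T.mul_mem ha.1 hb.1, fun g hg => by
    have := A.mul_mem (ha.2 g hg) (hb.2 g hg)
    rwa [show g⁻¹ * a * g * (g⁻¹ * b * g) = g⁻¹ * (a * b) * g by group] at this⟩
  inv_mem' := fun {a} ha => ⟨T.inv_mem ha.1, fun g hg => by
    have := A.inv_mem (ha.2 g hg)
    rwa [show (g⁻¹ * a * g)⁻¹ = g⁻¹ * a⁻¹ * g by group] at this⟩

theorem mem_core {T A : Subgroup G} {k : G} :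
    k ∈ core T A ↔ k ∈ T ∧ ∀ g ∈ T, g⁻¹ * k * g ∈ A := Iff.rfl

theorem core_le (T A : Subgroup G) : core T A ≤ A := fun k hk => by
  simpa using hk.2 1 T.one_mem

theorem core_conj {T A : Subgroup G} {k g : G} (hk : k ∈ core T A) (hg : g ∈ T) :
    g * k * g⁻¹ ∈ core T A :=
  ⟨T.mul_mem (T.mul_mem hg hk.1) (T.inv_mem hg), fun t ht => by
    have := hk.2 (g⁻¹ * t) (T.mul_mem (T.inv_mem hg) ht)
    rwa [show (g⁻¹ * t)⁻¹ * k * (g⁻¹ * t) = t⁻¹ * (g * k * g⁻¹) * t by group] at this⟩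

theorem core_conj' {T A : Subgroup G} {k g : G} (hk : k ∈ core T A) (hg : g ∈ T) :
    g⁻¹ * k * g ∈ core T A := by
  simpa using core_conj hk (T.inv_mem hg)

theorem mem_norm [Finite G] {A : Subgroup G} {g : G} (h : ∀ a ∈ A, g * a * g⁻¹ ∈ A) :
    g ∈ normalizer (A : Set G) :=
  mem_normalizer_fintype (S := (A : Set G)) h

theorem norm_conj {A : Subgroup G} {g a : G} (h : g ∈ normalizer (A : Set G)) (ha : a ∈ A) :
    g * a * g⁻¹ ∈ A := (mem_normalizer_iff.1 h a).1 ha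

theorem norm_conj' {A : Subgroup G} {g a : G} (h : g ∈ normalizer (A : Set G)) (ha : a ∈ A) :
    g⁻¹ * a * g ∈ A := by
  simpa using norm_conj (inv_mem h) ha

theorem pl [Finite G] {p : ℕ} (hp : p.Prime) {A T : Subgroup G} (h : A ≤ T)
    (hc : Nat.card T = p * Nat.card A) {q : G} (hq : q ∈ A) {k : ℕ} (hk : q ^ p ^ k = 1) :
    q ∈ core T A := by
  haveI := Fact.mk hp
  have hX : Nat.card (T ⧸ A.subgroupOf T) = p := by
    have h1 := card_eq_card_quotient_mul_card_subgroup (A.subgroupOf T)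
    rw [Nat.card_congr (subgroupOfEquivOfLe h).toEquiv, hc] at h1
    exact (Nat.eq_of_mul_eq_mul_right Nat.card_pos h1).symm
  set z : T := ⟨q, h hq⟩ with hz
  have hZ : IsPGroup p (zpowers z) := by
    have hzk : z ^ p ^ k = 1 := Subtype.ext hk
    obtain ⟨j, -, hj⟩ := (Nat.dvd_prime_pow hp).1 (orderOf_dvd_of_pow_eq_one hzk)
    exact IsPGroup.of_card (by rw [Nat.card_zpowers, hj])
  have h1 := hZ.card_modEq_card_fixedPoints (T ⧸ A.subgroupOf T)
  have hne : (QuotientGroup.mk 1 : T ⧸ A.subgroupOf T) ∈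
      fixedPoints (zpowers z) (T ⧸ A.subgroupOf T) := by
    rintro ⟨w, hw⟩
    change (QuotientGroup.mk (w * 1) : T ⧸ A.subgroupOf T) = QuotientGroup.mk 1
    rw [QuotientGroup.eq]
    have : zpowers z ≤ A.subgroupOf T := by rw [zpowers_le]; exact hq
    simpa using this hw
  have hpos : 0 < Nat.card (fixedPoints (zpowers z) (T ⧸ A.subgroupOf T)) :=
    Nat.card_pos_iff.2 ⟨⟨⟨_, hne⟩⟩, inferInstance⟩
  have hdvd : p ∣ Nat.card (fixedPoints (zpowers z) (T ⧸ A.subgroupOf T)) := by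
    rw [hX] at h1
    exact (Nat.modEq_zero_iff_dvd.1 (h1.symm.trans (Nat.modEq_zero_iff_dvd.2 dvd_rfl)))
  have hall : fixedPoints (zpowers z) (T ⧸ A.subgroupOf T) = Set.univ := by
    refine Set.eq_of_subset_of_ncard_le (Set.subset_univ _) ?_ (Set.toFinite _)
    rw [Set.ncard_univ, hX]
    exact Nat.le_of_dvd hpos hdvd
  refine ⟨h hq, fun g hg => ?_⟩
  have h2 : (QuotientGroup.mk ⟨g, hg⟩ : T ⧸ A.subgroupOf T) ∈
      fixedPoints (zpowers z) (T ⧸ A.subgroupOf T) := hall ▸ Set.mem_univ _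
  have h3 := h2 ⟨z, mem_zpowers z⟩
  change (QuotientGroup.mk (z * ⟨g, hg⟩) : T ⧸ A.subgroupOf T) = QuotientGroup.mk _ at h3
  rw [QuotientGroup.eq, mem_subgroupOf] at h3
  have := A.inv_mem h3
  simpa [hz, mul_assoc] using this

variable {Ω : Type*} [MulAction G Ω]

/-- The orbit of a point under a subgroup. -/
def orb (S : Subgroup G) (a : Ω) : Set Ω := {γ | ∃ s ∈ S, s • a = γ}

theorem mem_orb {S : Subgroup G} {a γ : Ω} : γ ∈ orb S a ↔ ∃ s ∈ S, s • a = γ := Iff.rfl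

theorem smul_mem_orb {S : Subgroup G} (a : Ω) {s : G} (hs : s ∈ S) : s • a ∈ orb S a :=
  ⟨s, hs, rfl⟩

theorem self_mem_orb (S : Subgroup G) (a : Ω) : a ∈ orb S a := ⟨1, S.one_mem, one_smul _ _⟩

theorem smul_orb {S : Subgroup G} {a γ : Ω} {s : G} (hs : s ∈ S) (h : γ ∈ orb S a) :
    s • γ ∈ orb S a := by
  obtain ⟨t, ht, rfl⟩ := h
  exact ⟨s * t, S.mul_mem hs ht, mul_smul _ _ _⟩

theorem orb_eq (S : Subgroup G) (a : Ω) : orb S a = orbit S a := by
  ext γ
  exact ⟨fun ⟨s, hs, h⟩ => ⟨⟨s, hs⟩, h⟩, fun ⟨s, h⟩ => ⟨s, s.2, h⟩⟩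

theorem card_orb (S : Subgroup G) (a : Ω) :
    Nat.card S = (orb S a).ncard * Nat.card ↥(S ⊓ stabilizer G a) := by
  rw [← Nat.card_congr (orbitProdStabilizerEquivGroup S a), Nat.card_prod, orb_eq,
    ← Nat.card_coe_set_eq]
  congr 1
  have : stabilizer S a = (S ⊓ stabilizer G a).subgroupOf S := by
    ext s
    simp [mem_subgroupOf, Subgroup.smul_def]
  rw [this]
  exact Nat.card_congr (subgroupOfEquivOfLe inf_le_left).toEquiv

theorem ncard_conj {S T : Subgroup G} (g : G) (h : ∀ s, s ∈ S ↔ g * s * g⁻¹ ∈ T) (a : Ω) :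
    (orb T (g • a)).ncard = (orb S a).ncard := by
  rw [← Set.ncard_image_of_injective (orb S a) (MulAction.injective g)]
  congr 1
  ext γ
  constructor
  · rintro ⟨t, ht, rfl⟩
    refine ⟨(g⁻¹ * t * g) • a, ⟨_, (h _).2 (by simpa [mul_assoc] using ht), rfl⟩, ?_⟩
    simp [mul_smul]
  · rintro ⟨_, ⟨s, hs, rfl⟩, rfl⟩
    exact ⟨_, (h s).1 hs, by simp [mul_smul]⟩

/-- The subgroup of elements mapping a set into itself. -/
def setStab [Finite G] (F : Set Ω) : Subgroup G where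
  carrier := {g | ∀ γ ∈ F, g • γ ∈ F}
  one_mem' := fun γ h => by simpa using h
  mul_mem' := fun {a b} ha hb γ h => by rw [mul_smul]; exact ha _ (hb _ h)
  inv_mem' := fun {a} ha γ h => by
    have h1 : ∀ n : ℕ, a ^ n • γ ∈ F := fun n => by
      induction n with
      | zero => simpa using h
      | succ n ih => rw [pow_succ', mul_smul]; exact ha _ ih
    have h2 : a⁻¹ = a ^ (orderOf a - 1) := by
      rw [inv_eq_iff_mul_eq_one, ← pow_succ', Nat.sub_add_cancel (orderOf_pos a),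
        pow_orderOf_eq_one]
    rw [h2]; exact h1 _

theorem ncard_mod [Finite G] [Finite Ω] {p : ℕ} (hp : p.Prime) {x : G} (hx : orderOf x = p)
    (X : Set Ω) (hX : ∀ γ ∈ X, x • γ ∈ X) {α : Ω} (hα : α ∈ X) (hxα : x • α = α)
    (hfix : ∀ γ, x • γ = γ → γ = α) : X.ncard ≡ 1 [MOD p] := by
  haveI := Fact.mk hp
  have hZ : IsPGroup p (zpowers x) := IsPGroup.of_card (by rw [Nat.card_zpowers, hx, pow_one])
  have hle : zpowers x ≤ setStab X := by rw [zpowers_le]; exact hX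
  let Y : SubMulAction (zpowers x) Ω := ⟨X, fun c γ h => hle c.2 γ h⟩
  have h1 := hZ.card_modEq_card_fixedPoints Y
  have h2 : fixedPoints (zpowers x) Y = {⟨α, hα⟩} := by
    ext ⟨γ, hγ⟩
    simp only [Set.mem_singleton_iff, Subtype.mk.injEq]
    constructor
    · intro h
      exact hfix γ (congrArg Subtype.val (h ⟨x, mem_zpowers x⟩))
    · rintro rfl ⟨w, hw⟩
      have : zpowers x ≤ stabilizer G γ := by rw [zpowers_le]; exact hxα
      exact Subtype.ext (this hw)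
  rw [h2, Nat.card_coe_set_eq ({⟨α, hα⟩} : Set Y), Set.ncard_singleton] at h1
  exact h1

end gen

end H18.DP
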