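import Cfsg.Agent.H18.DPb

/-! Doubly transitive groups of degree `p ^ 2 + 1`: blocks of a point stabiliser. -/

set_option autoImplicit false

namespace H18.DP

open Subgroup MulAction
open scoped Pointwise

/-- The standing hypotheses. -/
structure Ctx (G Ω : Type*) [Group G] [MulAction G Ω] (p : ℕ) (α β : Ω) : Prop where
  hp : p.Prime
  card : Nat.card Ω = p ^ 2 + 1
  ne : β ≠ α
  t2 : ∀ a b c d : Ω, a ≠ b → c ≠ d → ∃ g : G, g • a = c ∧ g • b = d
  faith : ∀ g : G, (∀ x : Ω, g • x = x) → g = 1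

/-- One-point stabiliser. -/
abbrev BB (G : Type*) {Ω : Type*} [Group G] [MulAction G Ω] (α : Ω) : Subgroup G := stabilizer G α

/-- Two-point stabiliser. -/
abbrev HH (G : Type*) {Ω : Type*} [Group G] [MulAction G Ω] (α β : Ω) : Subgroup G :=
  stabilizer G α ⊓ stabilizer G β

variable {G Ω : Type*} [Group G] [MulAction G Ω]

/-- A subgroup strictly between the two-point and the one-point stabiliser. -/
structure Blk (α β : Ω) (R : Subgroup G) : Prop where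
  le1 : HH G α β ≤ R
  le2 : R ≤ BB G α
  ne1 : R ≠ HH G α β
  ne2 : R ≠ BB G α

theorem orb_sup [Finite G] {p : ℕ} (hp : p.Prime) {N T : Subgroup G} {β : Ω} (h : N ≤ T)
    (hc : Nat.card T = p * Nat.card ↥(T ⊓ stabilizer G β))
    (hn : ∀ t ∈ T, ∀ n ∈ N, t * n * t⁻¹ ∈ N) (hN : ¬ N ≤ stabilizer G β) :
    orb N β = orb T β := by
  have h1 := max_of_card hp (A := T ⊓ stabilizer G β) (T := N ⊔ (T ⊓ stabilizer G β)) le_sup_right
    (sup_le h inf_le_left) hc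
  have h2 : N ⊔ (T ⊓ stabilizer G β) = T :=
    h1.resolve_left fun h' => hN ((le_sup_left.trans h'.le).trans inf_le_right)
  have h3 := coe_mul_of_right_le_normalizer_left N (T ⊓ stabilizer G β)
    fun t ht => mem_norm (hn t ht.1)
  rw [h2] at h3
  ext γ
  refine ⟨fun ⟨s, hs, e⟩ => ⟨s, h hs, e⟩, fun ⟨s, hs, e⟩ => ?_⟩
  have : s ∈ (N : Set G) * ((T ⊓ stabilizer G β : Subgroup G) : Set G) := by
    rw [← h3]; exact hs
  obtain ⟨n, hn, a, ha, rfl⟩ := this
  exact ⟨n, hn, by rw [← e, mul_smul, show a • β = β from ha.2]⟩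

variable [Finite G] [Finite Ω] {p : ℕ} {α β : Ω}

theorem mem_HH {g : G} : g ∈ HH G α β ↔ g • α = α ∧ g • β = β := Iff.rfl

omit [Finite G] [Finite Ω] in
theorem hh_mk {g : G} (h1 : g ∈ BB G α) (h2 : g • β = β) : g ∈ HH G α β := ⟨h1, h2⟩

omit [Finite G] [Finite Ω] in
theorem fix_conj {g l : G} : (g⁻¹ * l * g) • β = β ↔ l • g • β = g • β := by
  rw [mul_smul, mul_smul, inv_smul_eq_iff]

theorem smul_ne {g : G} (hg : g ∈ BB G α) {γ : Ω} (h : γ ≠ α) : g • γ ≠ α := fun e =>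
  h (MulAction.injective g (e.trans (show g • α = α from hg).symm))

namespace Ctx

theorem trans (c : Ctx G Ω p α β) {γ : Ω} (h : γ ≠ α) : ∃ g ∈ BB G α, g • β = γ := by
  obtain ⟨g, h1, h2⟩ := c.t2 α β α γ c.ne.symm h.symm
  exact ⟨g, h1, h2⟩

theorem swap (c : Ctx G Ω p α β) : ∃ σ : G, σ • α = β ∧ σ • β = α := c.t2 α β β α c.ne.symm c.ne

theorem cardB (c : Ctx G Ω p α β) : Nat.card (BB G α) = p ^ 2 * Nat.card (HH G α β) := by
  rw [card_orb (BB G α) β]
  congr 1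
  have : orb (BB G α) β = {α}ᶜ := by
    ext γ
    exact ⟨fun ⟨g, hg, e⟩ => e ▸ smul_ne hg c.ne, fun h => c.trans h⟩
  have h := Set.ncard_add_ncard_compl ({α} : Set Ω)
  rw [Set.ncard_singleton, c.card] at h
  rw [this]; omega

theorem cardG (c : Ctx G Ω p α β) : Nat.card G = (p ^ 2 + 1) * Nat.card (BB G α) := by
  have h := card_orb (⊤ : Subgroup G) α
  have : orb (⊤ : Subgroup G) α = Set.univ := by
    refine Set.eq_univ_of_forall fun γ => ?_
    by_cases hγ : γ = α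
    · exact hγ ▸ self_mem_orb _ _
    · obtain ⟨g, h1, -⟩ := c.t2 α β γ α c.ne.symm hγ
      exact ⟨g, mem_top _, h1⟩
  rwa [this, Set.ncard_univ, c.card, top_inf_eq, card_top] at h

theorem triv (c : Ctx G Ω p α β) {l : G} (hl : l ∈ core (BB G α) (HH G α β)) : l = 1 := by
  refine c.faith l fun γ => ?_
  by_cases hγ : γ = α
  · rw [hγ]; exact hl.1
  · obtain ⟨g, hg, rfl⟩ := c.trans hγ
    exact fix_conj.1 (hl.2 g hg).2

theorem triv' (c : Ctx G Ω p α β) {N : Subgroup G} (h1 : N ≤ HH G α β)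
    (h2 : ∀ g ∈ BB G α, ∀ n ∈ N, g * n * g⁻¹ ∈ N) {l : G} (hl : l ∈ N) : l = 1 :=
  c.triv ⟨(h1 hl).1, fun g hg => h1 (by simpa using h2 g⁻¹ (inv_mem hg) l hl)⟩

theorem swap_conj {σ : G} (h1 : σ • α = β) (h2 : σ • β = α) (s : G) :
    s ∈ HH G α β ↔ σ * s * σ⁻¹ ∈ HH G α β := by
  have h3 : σ⁻¹ • α = β := by rw [inv_smul_eq_iff, h2]
  have h4 : σ⁻¹ • β = α := by rw [inv_smul_eq_iff, h1]
  simp only [mem_HH, mul_smul, h3, h4]
  constructor
  · rintro ⟨a, b⟩; rw [a, b]; exact ⟨h2, h1⟩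
  · rintro ⟨a, b⟩
    exact ⟨MulAction.injective σ (b.trans h1.symm), MulAction.injective σ (a.trans h2.symm)⟩

variable {R : Subgroup G}

theorem cardR (c : Ctx G Ω p α β) (hR : Blk α β R) :
    Nat.card R = p * Nat.card (HH G α β) ∧ Nat.card (BB G α) = p * Nat.card R := by
  obtain ⟨a, ha⟩ := card_dvd_of_le hR.le1
  obtain ⟨b, hb⟩ := card_dvd_of_le hR.le2
  have h := c.cardB
  have hab : a * b = p ^ 2 := by
    rw [hb, ha, mul_assoc, mul_comm] at h
    exact Nat.eq_of_mul_eq_mul_right Nat.card_pos h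
  have ha1 : a ≠ 1 := fun e => hR.ne1 (eq_of_le_of_card_ge hR.le1 (by rw [ha, e, mul_one])).symm
  have hb1 : b ≠ 1 := fun e => hR.ne2 (eq_of_le_of_card_ge hR.le2 (by rw [hb, e, mul_one]))
  obtain ⟨rfl, rfl⟩ := (c.hp.mul_eq_prime_sq_iff ha1 hb1).1 hab
  exact ⟨by rw [ha, mul_comm], by rw [hb, mul_comm]⟩

omit [Finite G] [Finite Ω] in
theorem inf_stab (hR : Blk α β R) : R ⊓ stabilizer G β = HH G α β :=
  le_antisymm (inf_le_inf_right _ hR.le2) (le_inf hR.le1 inf_le_right)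

theorem ncardR (c : Ctx G Ω p α β) (hR : Blk α β R) : (orb R β).ncard = p := by
  have h := card_orb R β
  rw [inf_stab hR, (c.cardR hR).1] at h
  exact (Nat.eq_of_mul_eq_mul_right Nat.card_pos h).symm

omit [Finite G] [Finite Ω] in
theorem mem_R (hR : Blk α β R) {g : G} (hg : g ∈ BB G α) (h : g • β ∈ orb R β) : g ∈ R := by
  obtain ⟨r, hr, e⟩ := h
  have : r⁻¹ * g ∈ HH G α β :=
    hh_mk (mul_mem (inv_mem (hR.le2 hr)) hg) (by rw [mul_smul, ← e, inv_smul_smul])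
  simpa using mul_mem hr (hR.le1 this)

theorem ne_of_orb (c : Ctx G Ω p α β) (hR : Blk α β R) {γ : Ω} (h : γ ∈ orb R β) : γ ≠ α := by
  obtain ⟨r, hr, rfl⟩ := h
  exact smul_ne (hR.le2 hr) c.ne

theorem design (c : Ctx G Ω p α β) (hR : Blk α β R) {s : G}
    (hs : ∀ γ ∈ insert α (orb R β), s • γ ∈ insert α (orb R β)) : s • α = α := by
  by_contra hne
  set S : Subgroup G := setStab (insert α (orb R β)) with hS
  have hRS : R ≤ S := fun r hr γ hγ => by
    rcases hγ with rfl | hγ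
    · exact Or.inl (hR.le2 hr)
    · exact Or.inr (smul_orb hr hγ)
  have h1 : S ⊓ stabilizer G α = R := by
    refine le_antisymm (fun g hg => mem_R hR hg.2 ?_) (le_inf hRS hR.le2)
    exact (hg.1 β (Or.inr (self_mem_orb _ _))).resolve_left (smul_ne hg.2 c.ne)
  have h2 : orb S α = insert α (orb R β) := by
    ext γ
    refine ⟨fun ⟨g, hg, e⟩ => e ▸ hg α (Or.inl rfl), fun h => ?_⟩
    rcases h with rfl | ⟨r, hr, rfl⟩
    · exact self_mem_orb _ _
    · obtain ⟨r', hr', e⟩ := (hs α (Or.inl rfl)).resolve_left hne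
      refine ⟨r * r'⁻¹ * s, mul_mem (mul_mem (hRS hr) (inv_mem (hRS hr'))) hs, ?_⟩
      rw [mul_smul, mul_smul, ← e, inv_smul_smul]
  have h3 := card_orb S α
  rw [h1, h2, Set.ncard_insert_of_notMem (fun h => c.ne_of_orb hR h rfl), c.ncardR hR] at h3
  have h4 := card_subgroup_dvd_card S
  rw [h3, c.cardG, (c.cardR hR).2, ← mul_assoc] at h4
  have h5 := Nat.dvd_of_mul_dvd_mul_right Nat.card_pos h4
  have h6 : (p + 1 : ℤ) ∣ 2 := by
    have : (p + 1 : ℤ) ∣ (p ^ 2 + 1) * p := by exact_mod_cast h5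
    have e : (2 : ℤ) = (p + 1) * (p ^ 2 - p + 2) - (p ^ 2 + 1) * p := by ring
    rw [e]; exact dvd_sub (dvd_mul_right _ _) this
  have := Int.le_of_dvd (by norm_num) h6
  have := c.hp.two_le
  omega

omit [Finite G] [Finite Ω] in
theorem fix_of_L {l : G} (hl : l ∈ core R (HH G α β)) {γ : Ω} (h : γ ∈ orb R β) : l • γ = γ := by
  obtain ⟨r, hr, rfl⟩ := h
  exact fix_conj.1 (hl.2 r hr).2

omit [Finite G] [Finite Ω] in
theorem L_of_fix (hR : Blk α β R) {l : G} (hl : l ∈ BB G α) (h : ∀ γ ∈ orb R β, l • γ = γ) :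
    l ∈ core R (HH G α β) :=
  ⟨hR.le1 ⟨hl, h β (self_mem_orb _ _)⟩, fun r hr =>
    hh_mk (mul_mem (mul_mem (inv_mem (hR.le2 hr)) hl) (hR.le2 hr))
      (fix_conj.2 (h _ (smul_mem_orb _ hr)))⟩

theorem orbK (c : Ctx G Ω p α β) (hR : Blk α β R) {k : G} (hk : k ∈ core (BB G α) R)
    (hk1 : k ≠ 1) : orb (core (BB G α) R) β = orb R β := by
  refine orb_sup c.hp (core_le _ _) (by rw [inf_stab hR]; exact (c.cardR hR).1)
    (fun t ht n hn => core_conj hn (hR.le2 ht)) fun h => hk1 ?_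
  exact c.triv' (N := core (BB G α) R) (fun n hn => ⟨hn.1, h hn⟩)
    (fun g hg n hn => core_conj hn hg) hk

theorem cardK (c : Ctx G Ω p α β) (hR : Blk α β R) {k : G} (hk : k ∈ core (BB G α) R)
    (hk1 : k ≠ 1) :
    Nat.card (core (BB G α) R) = p * Nat.card ↥(core (BB G α) R ⊓ stabilizer G β) := by
  rw [card_orb _ β, c.orbK hR hk hk1, c.ncardR hR]

theorem K0 (c : Ctx G Ω p α β) (hR : Blk α β R) {k : G} (hk : k ∈ core (BB G α) R)
    (hl : k ∈ core R (HH G α β)) : k = 1 := by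
  by_contra hk1
  set K := core (BB G α) R with hK
  set K0 := K ⊓ core R (HH G α β) with hK0
  have hK0H : K0 ≤ HH G α β := inf_le_right.trans (core_le _ _)
  have hRn : ∀ r ∈ R, ∀ n ∈ K0, r * n * r⁻¹ ∈ K0 := fun r hr n hn =>
    ⟨core_conj hn.1 (hR.le2 hr), core_conj hn.2 hr⟩
  have hT : BB G α ⊓ normalizer (K0 : Set G) = R := by
    refine (max_of_card c.hp (le_inf hR.le2 fun r hr => mem_norm (hRn r hr)) inf_le_left
      (c.cardR hR).2).resolve_right fun h => hk1 ?_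
    exact c.triv' hK0H (fun g hg n hn => norm_conj (h.ge hg).2 hn) ⟨hk, hl⟩
  have big : ∀ γ, γ ≠ α → γ ∉ orb R β → p ≤ (orb (HH G α β) γ).ncard := by
    intro γ h1 h2
    obtain ⟨g, hg, rfl⟩ := c.trans h1
    set K1 : Subgroup G := K0.comap (MulAut.conj g).toMonoidHom with hK1
    have mK1 : ∀ s, s ∈ K1 ↔ g * s * g⁻¹ ∈ K0 := fun s => Iff.rfl
    have hle : K1 ≤ K := fun s hs => by
      simpa [mul_assoc] using core_conj' ((mK1 s).1 hs).1 hg
    have hn : ∀ t ∈ K, ∀ n ∈ K1, t * n * t⁻¹ ∈ K1 := fun t ht n hn => by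
      have := hRn _ (core_le _ _ (core_conj ht hg)) _ ((mK1 n).1 hn)
      rw [mK1]
      rwa [show g * t * g⁻¹ * (g * n * g⁻¹) * (g * t * g⁻¹)⁻¹ = g * (t * n * t⁻¹) * g⁻¹ by group]
        at this
    have hN : ¬ K1 ≤ stabilizer G β := fun h => by
      have h3 : ∀ n ∈ K0, g⁻¹ * n * g⁻¹⁻¹ ∈ K0 := fun n hn' => by
        have hn1 : g⁻¹ * n * g⁻¹⁻¹ ∈ K1 := by rw [mK1]; simpa [mul_assoc] using hn'
        refine ⟨hle hn1, L_of_fix hR (hle hn1).1 fun δ hδ => ?_⟩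
        rw [← c.orbK hR hk hk1] at hδ
        obtain ⟨t, ht, rfl⟩ := hδ
        have := h (hn t⁻¹ (inv_mem ht) _ hn1)
        rwa [mem_stabilizer_iff, inv_inv t, mul_smul, mul_smul, inv_smul_eq_iff] at this
      have h4 : g⁻¹ ∈ R := hT.le (mem_inf.2 ⟨inv_mem hg, mem_norm h3⟩)
      exact h2 (smul_mem_orb _ (by simpa using inv_mem h4))
    have h5 := orb_sup c.hp hle (c.cardK hR hk hk1) hn hN
    have h6 := ncard_conj g mK1 β
    rw [h5, c.orbK hR hk hk1, c.ncardR hR] at h6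
    rw [← h6]
    exact Set.ncard_le_ncard (fun δ ⟨s, hs, e⟩ => ⟨s, hK0H hs, e⟩) (Set.toFinite _)
  obtain ⟨σ, h1, h2⟩ := c.swap
  refine c.ne (h1.symm.trans (c.design hR fun γ hγ => ?_))
  rcases hγ with rfl | hγ
  · exact Or.inr (h1 ▸ self_mem_orb _ _)
  by_cases hb : γ = β
  · exact Or.inl (hb ▸ h2)
  by_contra hc
  have h3 := big (σ • γ) (fun e => hc (Or.inl e)) fun e => hc (Or.inr e)
  rw [ncard_conj σ (swap_conj h1 h2) γ] at h3
  have h4 : orb (HH G α β) γ ⊂ orb R β := by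
    refine ⟨fun δ ⟨s, hs, e⟩ => e ▸ smul_orb (hR.le1 hs) hγ, fun h => ?_⟩
    obtain ⟨s, hs, e⟩ := h (self_mem_orb R β)
    exact hb (MulAction.injective s (e.trans (show s • β = β from hs.2).symm))
  have := Set.ncard_lt_ncard h4 (Set.toFinite _)
  rw [c.ncardR hR] at this
  omega

theorem comm_KL (c : Ctx G Ω p α β) (hR : Blk α β R) {k l : G} (hk : k ∈ core (BB G α) R)
    (hl : l ∈ core R (HH G α β)) : k * l = l * k := by
  have h := c.K0 hR (k := k * l * k⁻¹ * l⁻¹)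
    (by rw [mul_assoc, mul_assoc, ← mul_assoc l]
        exact mul_mem hk (core_conj (inv_mem hk) (hR.le2 hl.1)))
    (mul_mem (core_conj hl (core_le _ _ hk)) (inv_mem hl))
  rw [mul_inv_eq_one, mul_inv_eq_iff_eq_mul] at h
  exact h

theorem pH (c : Ctx G Ω p α β) (hR : Blk α β R) {h : G} (hh : h ∈ HH G α β) {k : ℕ}
    (hk : h ^ p ^ k = 1) : h = 1 :=
  c.K0 hR (pl c.hp hR.le2 (c.cardR hR).2 (hR.le1 hh) hk) (pl c.hp hR.le1 (c.cardR hR).1 hh hk)

theorem not_dvd (c : Ctx G Ω p α β) (hR : Blk α β R) : ¬ p ∣ Nat.card (HH G α β) := fun h => by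
  haveI := Fact.mk c.hp
  obtain ⟨x, hx⟩ := exists_prime_orderOf_dvd_card' p h
  have h1 : (x : G) = 1 := c.pH hR x.2 (k := 1) (by
    rw [pow_one, ← hx, ← Subgroup.coe_pow, pow_orderOf_eq_one, coe_one])
  rw [← Subgroup.orderOf_coe, h1, orderOf_one] at hx
  exact c.hp.one_lt.ne hx

theorem semireg (c : Ctx G Ω p α β) (hR : Blk α β R) {q : G} (hq : q ∈ BB G α) {k : ℕ}
    (hk : q ^ p ^ k = 1) {γ : Ω} (hγ : γ ≠ α) (h : q • γ = γ) : q = 1 := by
  obtain ⟨g, hg, rfl⟩ := c.trans hγ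
  have := c.pH hR (h := g⁻¹ * q * g) (hh_mk (mul_mem (mul_mem (inv_mem hg) hq) hg) (fix_conj.2 h))
    (k := k) (by simpa [hk] using conj_pow (a := g⁻¹) (b := q) (i := p ^ k))
  calc q = g * (g⁻¹ * q * g) * g⁻¹ := by group
    _ = 1 := by rw [this]; simp

theorem exists_x (c : Ctx G Ω p α β) (hR : Blk α β R) :
    ∃ x ∈ core (BB G α) R, orderOf x = p := by
  haveI := Fact.mk c.hp
  obtain ⟨x, hx⟩ := exists_prime_orderOf_dvd_card' (G := R) p
    (by rw [(c.cardR hR).1]; exact dvd_mul_right _ _)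
  rw [← Subgroup.orderOf_coe] at hx
  exact ⟨x, pl c.hp hR.le2 (c.cardR hR).2 x.2 (k := 1)
    (by rw [pow_one, ← hx, pow_orderOf_eq_one]), hx⟩

theorem KL (c : Ctx G Ω p α β) (hR : Blk α β R) {σ : G} (h1 : σ • α = β)
    (h : ∀ l ∈ core R (HH G α β), σ * l * σ⁻¹ ∈ core R (HH G α β)) {l : G}
    (hl : l ∈ core R (HH G α β)) : l = 1 := by
  by_contra hl1
  set N := normalizer (core R (HH G α β) : Set G) with hN
  have hT : N ⊓ BB G α = R := by
    refine (max_of_card c.hp (le_inf (fun r hr => mem_norm fun a ha => core_conj ha hr) hR.le2)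
      inf_le_right (c.cardR hR).2).resolve_right fun h => hl1 ?_
    exact c.triv' (core_le _ _) (fun g hg n hn => norm_conj (h.ge hg).1 hn) hl
  obtain ⟨x, hx, hxo⟩ := c.exists_x hR
  have hx1 : x ≠ 1 := fun e => c.hp.one_lt.ne (by rw [← hxo, e, orderOf_one])
  have h3 := ncard_mod c.hp hxo (orb N α) (fun γ hγ => smul_orb (hT.ge (core_le _ _ hx)).1 hγ)
    (self_mem_orb _ _) hx.1 fun γ hγ => by
      by_contra hne
      exact hx1 (c.semireg hR hx.1 (k := 1) (by rw [pow_one, ← hxo, pow_orderOf_eq_one]) hne hγ)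
  have h4 := card_orb N α
  have h5 := card_subgroup_dvd_card N
  rw [h4, show N ⊓ stabilizer G α = R from hT, c.cardG, (c.cardR hR).2, ← mul_assoc] at h5
  have h6 := Nat.dvd_of_mul_dvd_mul_right Nat.card_pos h5
  have h7 : 1 < (orb N α).ncard := by
    rw [Set.one_lt_ncard (Set.toFinite _)]
    exact ⟨α, self_mem_orb _ _, β, ⟨σ, mem_norm h, h1⟩, c.ne.symm⟩
  have h8 : (orb N α).ncard = p ^ 2 + 1 := by
    generalize (orb N α).ncard = n at h3 h6 h7
    have hp := c.hp.two_le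
    obtain ⟨j, hj⟩ := (Nat.modEq_iff_dvd' h7.le).1 h3.symm
    obtain rfl : n = p * j + 1 := by omega
    have hcop : (p * j + 1).Coprime p := by simp
    obtain ⟨m, hm⟩ := hcop.dvd_of_dvd_mul_right h6
    have hj0 : j ≠ 0 := by rintro rfl; omega
    have hm1 : m ≡ 1 [MOD p] := by
      have e1 : p ^ 2 + 1 ≡ 1 [MOD p] := by
        rw [pow_two]; simp [Nat.ModEq]
      have e2 : (p * j + 1) * m ≡ m [MOD p] := by
        rw [add_mul, mul_assoc]; simp [Nat.ModEq]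
      exact e2.symm.trans (hm ▸ e1)
    have hm0 : 1 ≤ m := by
      rcases Nat.eq_zero_or_pos m with rfl | h
      · omega
      · exact h
    obtain ⟨k, hk⟩ := (Nat.modEq_iff_dvd' hm0).1 hm1.symm
    obtain rfl : m = p * k + 1 := by omega
    rcases Nat.eq_zero_or_pos k with rfl | hk0
    · simpa using hm.symm
    · have : 1 ≤ j * k := Nat.mul_pos (Nat.pos_of_ne_zero hj0) hk0
      nlinarith [Nat.pos_of_ne_zero hj0]
  have h9 : orb N α = Set.univ :=
    Set.eq_of_subset_of_ncard_le (Set.subset_univ _) (by rw [Set.ncard_univ, c.card, h8])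
  refine hl1 (c.faith l fun γ => ?_)
  obtain ⟨n, hn, rfl⟩ : γ ∈ orb N α := h9 ▸ Set.mem_univ _
  exact fix_conj.1 (core_le _ _ (norm_conj' hn hl)).1

end Ctx

end H18.DP
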