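import Cfsg.Agent.H18.DPa
import Cfsg.Agent.H18.DPc
import Cfsg.Agent.S0675

/-! Doubly transitive groups of degree `p ^ 2 + 1`: the kernel on a block system. -/

set_option autoImplicit false

namespace H18.DP

open Subgroup MulAction

section ee
variable {G : Type*} [Group G] {p : ℕ} [hp : Fact p.Prime] {x : G}

/-- Powers indexed by `ZMod p`. -/
def ee (x : G) (j : ZMod p) : G := x ^ j.val

theorem ee_nat (hx : orderOf x = p) (n : ℕ) : ee x (n : ZMod p) = x ^ n := by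
  rw [ee, ZMod.val_natCast, ← hx, pow_mod_orderOf]

theorem ee_add (hx : orderOf x = p) (a b : ZMod p) : ee x (a + b) = ee x a * ee x b := by
  rw [ee, ee, ee, ← pow_add, ZMod.val_add]
  generalize a.val + b.val = n
  rw [← hx, pow_mod_orderOf]

theorem ee_zero : ee x (0 : ZMod p) = 1 := by simp [ee]

theorem ee_one : ee x (1 : ZMod p) = x := by simp [ee, ZMod.val_one]

theorem ee_neg (hx : orderOf x = p) (a : ZMod p) : ee x (-a) = (ee x a)⁻¹ := by
  rw [eq_inv_iff_mul_eq_one, ← ee_add hx, neg_add_cancel, ee_zero]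

theorem ee_mem {A : Subgroup G} (h : x ∈ A) (j : ZMod p) : ee x j ∈ A := pow_mem h _

theorem ee_pow (j : ZMod p) (hx : orderOf x = p) : ee x j ^ p ^ 1 = 1 := by
  have : x ^ p = 1 := by rw [← hx, pow_orderOf_eq_one]
  rw [pow_one, ee, ← pow_mul, mul_comm, pow_mul, this, one_pow]

theorem ee_eq_one (hx : orderOf x = p) {j : ZMod p} (h : ee x j = 1) : j = 0 := by
  have h1 := orderOf_dvd_of_pow_eq_one h
  rw [hx] at h1
  exact (ZMod.val_eq_zero j).1 (Nat.eq_zero_of_dvd_of_lt h1 j.val_lt)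

theorem ee_surj [Finite G] (hx : orderOf x = p) {y : G} (h : y ∈ zpowers x) :
    ∃ j : ZMod p, ee x j = y := by
  obtain ⟨n, rfl⟩ := (mem_powers_iff_mem_zpowers.2 h)
  exact ⟨n, ee_nat hx n⟩

theorem ee_comm {g : G} (h : g * x = x * g) (j : ZMod p) : g * ee x j = ee x j * g :=
  (Commute.pow_right h _).eq

theorem ee_conj [Finite G] (hx : orderOf x = p) {y : G} (h : y * x * y⁻¹ ∈ zpowers x) :
    ∃ m : ZMod p, ∀ j, y * ee x j = ee x (m * j) * y := by
  obtain ⟨n, hn⟩ := (mem_powers_iff_mem_zpowers.2 h)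
  refine ⟨n, fun j => ?_⟩
  rw [← mul_inv_eq_iff_eq_mul, ee, ← conj_pow, ← hn]
  change (x ^ n) ^ j.val = _
  rw [← pow_mul, ← ee_nat hx, Nat.cast_mul, ZMod.natCast_zmod_val]

end ee

theorem exists_ab {K : Type*} [Group K] [Finite K] [Nontrivial K] [Group.IsSolvable K] :
    ∃ A : Subgroup K, A.Normal ∧ A ≠ ⊥ ∧ ∀ a ∈ A, ∀ b ∈ A, a * b = b * a := by
  obtain ⟨A, ⟨h1, h2⟩, h3⟩ := (wellFounded_lt (α := Subgroup K)).has_min
    {A | A.Normal ∧ A ≠ ⊥} ⟨⊤, inferInstance, top_ne_bot⟩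
  refine ⟨A, h1, h2, fun a ha b hb => ?_⟩
  have : ⁅A, A⁆ = ⊥ := by
    by_contra h
    exact h3 _ ⟨inferInstance, h⟩ (Group.IsSolvable.commutator_lt_of_ne_bot h2)
  exact (commutator_eq_bot_iff_le_centralizer.1 this hb a ha)

variable {G Ω : Type*} [Group G] [MulAction G Ω] [Finite G] [Finite Ω] {p : ℕ} [hp : Fact p.Prime]
  {α β : Ω} {R : Subgroup G} {x : G}

namespace Ctx

theorem ee_inj (c : Ctx G Ω p α β) (hR : Blk α β R) (hxB : x ∈ BB G α) (hx : orderOf x = p)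
    {γ : Ω} (hγ : γ ≠ α) {a b : ZMod p} (h : ee x a • γ = ee x b • γ) : a = b := by
  have h1 : ee x (-b + a) • γ = γ := by
    rw [ee_add hx, ee_neg hx, mul_smul, h, inv_smul_smul]
  have := ee_eq_one hx (c.semireg hR (ee_mem hxB _) (ee_pow _ hx) hγ h1)
  linear_combination this

theorem ee_blk (c : Ctx G Ω p α β) (hR : Blk α β R) (hxK : x ∈ core (BB G α) R)
    (hx : orderOf x = p) {g : G} (hg : g ∈ BB G α) {γ : Ω} (hγ : γ ∈ orb R β) :
    ∃ j : ZMod p, g • γ = ee x j • g • β := by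
  have h1 : Set.range (fun j : ZMod p => (g⁻¹ * ee x j * g) • β) = orb R β := by
    refine Set.eq_of_subset_of_ncard_le ?_ ?_ (Set.toFinite _)
    · rintro _ ⟨j, rfl⟩
      exact smul_mem_orb _ ((ee_mem hxK j).2 g hg)
    · rw [c.ncardR hR, Set.ncard_range_of_injective, Nat.card_zmod]
      intro a b h
      simp only [mul_smul] at h
      exact c.ee_inj hR hxK.1 hx (smul_ne hg c.ne) (MulAction.injective _ h)
  obtain ⟨j, hj⟩ : γ ∈ Set.range (fun j : ZMod p => (g⁻¹ * ee x j * g) • β) := h1 ▸ hγ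
  exact ⟨j, by rw [← hj]; simp [mul_smul]⟩

theorem ee_blk1 (c : Ctx G Ω p α β) (hR : Blk α β R) (hxK : x ∈ core (BB G α) R)
    (hx : orderOf x = p) {γ : Ω} (hγ : γ ∈ orb R β) : ∃ j : ZMod p, γ = ee x j • β := by
  simpa using c.ee_blk hR hxK hx (one_mem _) hγ

theorem ee_blkK (c : Ctx G Ω p α β) (hR : Blk α β R) (hxK : x ∈ core (BB G α) R)
    (hx : orderOf x = p) {g : G} (hg : g ∈ BB G α) {k : G} (hk : k ∈ core (BB G α) R) :
    ∃ j : ZMod p, k • g • β = ee x j • g • β := by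
  simpa [mul_smul] using c.ee_blk hR hxK hx hg (smul_mem_orb β (hk.2 g hg))

theorem cent_L (c : Ctx G Ω p α β) (hR : Blk α β R) (hxK : x ∈ core (BB G α) R)
    (hx : orderOf x = p) {h : G} (hh : h ∈ HH G α β) (hc : h * x = x * h) :
    h ∈ core R (HH G α β) := by
  refine L_of_fix hR hh.1 fun γ hγ => ?_
  obtain ⟨j, rfl⟩ := c.ee_blk1 hR hxK hx hγ
  rw [← mul_smul, ee_comm hc, mul_smul, show h • β = β from hh.2]

theorem cent_K (c : Ctx G Ω p α β) (hR : Blk α β R) (hxK : x ∈ core (BB G α) R)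
    (hx : orderOf x = p) {k : G} (hk : k ∈ core (BB G α) R) (hc : k * x = x * k) :
    ∃ j : ZMod p, k = ee x j := by
  obtain ⟨j, hj⟩ := c.ee_blk1 hR hxK hx (smul_mem_orb β (core_le _ _ hk))
  have h1 : (ee x j)⁻¹ * k ∈ core (BB G α) R := mul_mem (inv_mem (ee_mem hxK j)) hk
  have h2 := c.K0 hR h1 (c.cent_L hR hxK hx (hh_mk h1.1 (by rw [mul_smul, hj, inv_smul_smul])) (by
    rw [mul_assoc, hc, ← ee_neg hx, ← mul_assoc, ← ee_comm rfl, mul_assoc]))
  exact ⟨j, (inv_mul_eq_one.1 h2).symm⟩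

omit hp in
theorem normK (c : Ctx G Ω p α β) (hR : Blk α β R) {N : Subgroup G} (h1 : N ≤ core (BB G α) R)
    (h2 : ∀ k ∈ core (BB G α) R, ∀ n ∈ N, k * n * k⁻¹ ∈ N) {n : G} (hn : n ∈ N) (hn1 : n ≠ 1) :
    orb N β = orb R β := by
  rw [← c.orbK hR (h1 hn) hn1]
  refine orb_sup c.hp h1 (c.cardK hR (h1 hn) hn1) h2 fun h => hn1 (c.K0 hR (h1 hn) ?_)
  refine L_of_fix hR (h1 hn).1 fun δ hδ => ?_
  rw [← c.orbK hR (h1 hn) hn1] at hδ
  obtain ⟨t, ht, rfl⟩ := hδ
  exact fix_conj.1 (by simpa using h (h2 t⁻¹ (inv_mem ht) _ hn))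

theorem dich (c : Ctx G Ω p α β) (hR : Blk α β R) :
    (∃ x ∈ core (BB G α) R, orderOf x = p ∧ ∀ k ∈ core (BB G α) R, k * x * k⁻¹ ∈ zpowers x) ∨
    ∀ γ ∈ orb R β, ∀ δ ∈ orb R β, γ ≠ β → δ ≠ β →
      ∃ u ∈ core (BB G α) R, u • β = β ∧ u • γ = δ := by
  classical
  set K := core (BB G α) R with hK
  obtain ⟨x0, hx0, hx0o⟩ := c.exists_x hR
  have hx1 : x0 ≠ 1 := fun e => c.hp.one_lt.ne (by rw [← hx0o, e, orderOf_one])
  have ho : orbit K β = orb R β := by rw [← orb_eq, c.orbK hR hx0 hx1]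
  letI : Fintype (orbit K β) := Fintype.ofFinite _
  have hcard : (Fintype.card (orbit K β)).Prime := by
    rw [← Nat.card_eq_fintype_card, Nat.card_coe_set_eq, ho, c.ncardR hR]; exact c.hp
  set φ := MulAction.toPermHom K (orbit K β) with hφ
  haveI : IsPretransitive φ.range (orbit K β) := ⟨fun a b => by
    obtain ⟨k, hk⟩ := exists_smul_eq K a b
    exact ⟨⟨φ k, k, rfl⟩, hk⟩⟩
  rcases Cfsg.Agent.S0675.result hcard φ.range with hs | ht
  · left
    have hinj : Function.Injective φ := by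
      rw [injective_iff_map_eq_one]
      intro k hk
      refine Subtype.ext (c.K0 hR k.2 (L_of_fix hR k.2.1 fun γ hγ => ?_))
      exact congrArg Subtype.val (Equiv.congr_fun hk ⟨γ, ho ▸ hγ⟩)
    haveI : Group.IsSolvable K :=
      Group.isSolvable_of_isSolvable_injective (f := φ.rangeRestrict)
        (fun a b h => hinj (congrArg Subtype.val h))
    haveI : Nontrivial K := ⟨⟨⟨x0, hx0⟩, 1, fun h => hx1 (congrArg Subtype.val h)⟩⟩
    obtain ⟨A, hA, hA0, hAc⟩ := exists_ab (K := K)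
    set N := A.map K.subtype with hN
    have h1 : N ≤ K := map_subtype_le _
    have h2 : ∀ k ∈ K, ∀ n ∈ N, k * n * k⁻¹ ∈ N := by
      rintro k hk _ ⟨a, ha, rfl⟩
      exact ⟨_, hA.conj_mem a ha ⟨k, hk⟩, rfl⟩
    obtain ⟨a, ha, ha1⟩ := (A.bot_or_exists_ne_one).resolve_left hA0
    have h3 := c.normK hR h1 h2 (n := a) ⟨a, ha, rfl⟩ (fun h => ha1 (Subtype.ext h))
    have h4 : N ⊓ stabilizer G β = ⊥ := by
      rw [eq_bot_iff]
      rintro _ ⟨⟨n, hn, rfl⟩, hnb⟩
      refine mem_bot.2 (c.K0 hR n.2 (L_of_fix hR n.2.1 fun δ hδ => ?_))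
      rw [← h3] at hδ
      obtain ⟨_, ⟨t, ht, rfl⟩, rfl⟩ := hδ
      have := congrArg Subtype.val (hAc n hn t ht)
      simp only [coe_mul] at this
      simp only [coe_subtype]
      rw [← mul_smul, this, mul_smul, show (n : G) • β = β from hnb]
    have h5 := card_orb N β
    rw [h3, h4, c.ncardR hR, card_bot, mul_one] at h5
    obtain ⟨x, hx⟩ := exists_prime_orderOf_dvd_card' (G := N) p (by rw [h5])
    rw [← Subgroup.orderOf_coe] at hx
    have h6 : zpowers (x : G) = N :=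
      eq_of_le_of_card_ge (by rw [zpowers_le]; exact x.2) (by rw [h5, Nat.card_zpowers, hx])
    exact ⟨x, h1 x.2, hx, fun k hk => h6.ge (h2 k hk x x.2)⟩
  · right
    intro γ hγ δ hδ h1 h2
    have hb : β ∈ orbit K β := mem_orbit_self _
    have ht' : ∀ {a b c d : orbit K β} (_ : a ≠ b) (_ : c ≠ d),
        ∃ g : φ.range, g • a = c ∧ g • b = d := is_two_pretransitive_iff.1 ht
    obtain ⟨⟨_, k, rfl⟩, e1, e2⟩ := ht' (a := ⟨β, hb⟩)
      (b := ⟨γ, ho ▸ hγ⟩) (c := ⟨β, hb⟩) (d := ⟨δ, ho ▸ hδ⟩)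
      (fun h => h1 (congrArg Subtype.val h).symm) (fun h => h2 (congrArg Subtype.val h).symm)
    exact ⟨k, k.2, congrArg Subtype.val e1, congrArg Subtype.val e2⟩

theorem exists_y (c : Ctx G Ω p α β) (hR : Blk α β R) (hxK : x ∈ core (BB G α) R)
    (hx : orderOf x = p) {u : G} (hu : u ∈ core (BB G α) R) (hub : u • β = β) (hu1 : u ≠ 1) :
    ∃ y ∈ core (BB G α) R, y • β = β ∧ y ≠ 1 ∧ y * x * y⁻¹ ∈ zpowers x := by
  set K := core (BB G α) R with hK
  have hc := c.cardK hR hu hu1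
  have hnd : ¬ p ∣ Nat.card ↥(K ⊓ stabilizer G β) := fun h => c.not_dvd hR
    (h.trans (card_dvd_of_le (inf_le_inf_right _ fun k hk => hk.1)))
  set x' : K := ⟨x, hxK⟩ with hx'
  have hx'o : orderOf x' = p := by rw [← Subgroup.orderOf_coe]; exact hx
  have hP1 : IsPGroup p (zpowers x') := IsPGroup.of_card (by rw [Nat.card_zpowers, hx'o, pow_one])
  have hi : (zpowers x').index = Nat.card ↥(K ⊓ stabilizer G β) := by
    have := (zpowers x').card_mul_index
    rw [Nat.card_zpowers, hx'o, hc] at this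
    exact Nat.eq_of_mul_eq_mul_left c.hp.pos this
  set P : Sylow p K := hP1.toSylow (hi ▸ hnd) with hP
  by_cases hN : normalizer (P : Set K) ≤ centralizer (P : Set K)
  · exfalso
    set A := (MonoidHom.transferSylow P hN).ker with hA
    have h1 := (MonoidHom.ker_transferSylow_isComplement' P hN).index_eq_card
    have h2 := MonoidHom.not_dvd_card_ker_transferSylow P hN
    have h3 : A ≠ ⊥ := fun h => by
      rw [← hA, h, card_bot] at h1
      have h4 : Nat.card ↥(K ⊓ stabilizer G β) = 1 := hi.symm.trans h1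
      exact hu1 (mem_bot.1 (card_eq_one.1 h4 ▸ mem_inf.2 ⟨hu, hub⟩))
    obtain ⟨a, ha, ha1⟩ := (A.bot_or_exists_ne_one).resolve_left h3
    have h5 := c.normK hR (N := A.map K.subtype) (map_subtype_le _) (by
      rintro k hk _ ⟨a, ha, rfl⟩
      exact ⟨_, (MonoidHom.normal_ker _).conj_mem a ha ⟨k, hk⟩, rfl⟩) (n := a) ⟨a, ha, rfl⟩
      (fun h => ha1 (Subtype.ext h))
    have h6 := card_orb (A.map K.subtype) β
    rw [h5, c.ncardR hR, card_map_of_injective K.subtype_injective] at h6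
    exact h2 (h6 ▸ dvd_mul_right _ _)
  · obtain ⟨y, hy, hy'⟩ := SetLike.not_le_iff_exists.1 hN
    have hxP : x' ∈ P := mem_zpowers x'
    have h1 : (y : G) * x * (y : G)⁻¹ ∈ zpowers x := by
      obtain ⟨n, hn⟩ : y * x' * y⁻¹ ∈ zpowers x' := (mem_normalizer_iff.1 hy x').1 hxP
      exact ⟨n, by simpa [hx'] using congrArg Subtype.val hn⟩
    obtain ⟨j, hj⟩ := c.ee_blk1 hR hxK hx (smul_mem_orb β (core_le _ _ y.2))
    refine ⟨(ee x j)⁻¹ * y, mul_mem (inv_mem (ee_mem hxK j)) y.2,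
      by rw [mul_smul, hj, inv_smul_smul], fun h => hy' ?_, ?_⟩
    · rintro _ ⟨n, rfl⟩
      refine Subtype.ext ?_
      have : (y : G) = ee x j := (inv_mul_eq_one.1 h).symm
      simp only [coe_mul, this, hx', SubgroupClass.coe_zpow]
      exact ((Commute.refl x).zpow_left n).pow_right _
    · have := mul_mem (mul_mem (inv_mem (ee_mem (mem_zpowers x) j)) h1) (ee_mem (mem_zpowers x) j)
      rwa [show (ee x j)⁻¹ * (y * x * (y : G)⁻¹) * ee x j =
        (ee x j)⁻¹ * y * x * ((ee x j)⁻¹ * y)⁻¹ by group] at this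

theorem exists_g (c : Ctx G Ω p α β) (hR : Blk α β R) (hxK : x ∈ core (BB G α) R)
    (hx : orderOf x = p) {y : G} (hy : y ∈ core (BB G α) R) {m : ZMod p} (hm : m ≠ 1)
    (hyx : ∀ j, y * ee x j = ee x (m * j) * y) :
    ∃ g ∈ BB G α, g ∉ R ∧ g * x = x * g ∧ g * y = y * g ∧ g ^ p = 1 := by
  set x' : BB G α := ⟨x, hxK.1⟩ with hx'
  have hx'o : orderOf x' = p := by rw [← Subgroup.orderOf_coe]; exact hx
  have hP1 : IsPGroup p (zpowers x') := IsPGroup.of_card (by rw [Nat.card_zpowers, hx'o, pow_one])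
  obtain ⟨P, hP⟩ := hP1.exists_le_sylow
  have hc : Nat.card (P : Subgroup (BB G α)) = p ^ 2 := by
    rw [P.card_eq_multiplicity, c.cardB, Nat.factorization_mul (pow_ne_zero _ c.hp.ne_zero)
      Nat.card_pos.ne', Finsupp.add_apply, Nat.factorization_eq_zero_of_not_dvd (c.not_dvd hR),
      c.hp.factorization_pow, Finsupp.single_eq_same, add_zero]
  have hcomm := IsPGroup.isMulCommutative_of_card_eq_prime_sq (p := p) hc
  have hn : ¬ (P : Subgroup (BB G α)).map (BB G α).subtype ≤ R := fun h => by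
    have := card_dvd_of_le h
    rw [card_map_of_injective (BB G α).subtype_injective, hc, (c.cardR hR).1, pow_two] at this
    exact c.not_dvd hR (Nat.dvd_of_mul_dvd_mul_left c.hp.pos this)
  obtain ⟨_, ⟨g0, hg0, rfl⟩, hg0R⟩ := SetLike.not_le_iff_exists.1 hn
  simp only [coe_subtype] at hg0R
  have h1 : (g0 : G) * x = x * g0 := congrArg (fun z : P => ((z : BB G α) : G))
    (hcomm.is_comm.comm ⟨g0, hg0⟩ ⟨x', hP (mem_zpowers x')⟩)
  have hm0 : m ≠ 0 := by
    rintro rfl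
    have := hyx 1
    rw [zero_mul, ee_zero, one_mul, mul_eq_left] at this
    exact one_ne_zero (ee_eq_one hx this)
  have h2 : y * g0 * y⁻¹ * (g0 : G)⁻¹ ∈ core (BB G α) R := by
    rw [mul_assoc, mul_assoc, ← mul_assoc (g0 : G)]
    exact mul_mem hy (core_conj (inv_mem hy) g0.2)
  have h3 : y * g0 * y⁻¹ * x = x * (y * g0 * y⁻¹) := by
    have e := hyx m⁻¹
    rw [mul_inv_cancel₀ hm0, ee_one] at e
    have e' : x = y * ee x m⁻¹ * y⁻¹ := by rw [e]; group
    calc y * g0 * y⁻¹ * x = y * (g0 * ee x m⁻¹) * y⁻¹ := by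
          conv_lhs => rw [e']
          group
      _ = y * ee x m⁻¹ * y⁻¹ * (y * g0 * y⁻¹) := by rw [ee_comm h1]; group
      _ = _ := by rw [← e']
  obtain ⟨t, ht⟩ := c.cent_K hR hxK hx h2 (by
    have : (g0 : G)⁻¹ * x = x * (g0 : G)⁻¹ := (Commute.inv_left h1).eq
    rw [mul_assoc, this, ← mul_assoc, h3, mul_assoc])
  set j := t / (1 - m) with hj
  have hjt : m * j + t = j := by
    have : (1 - m) ≠ 0 := sub_ne_zero.2 hm.symm
    rw [hj]; field_simp; ring
  have h4 : ee x j * g0 * y = y * (ee x j * g0) := by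
    have e : y * g0 = ee x t * g0 * y := by rw [← ht]; group
    rw [← mul_assoc y, hyx, mul_assoc _ y, e, ← mul_assoc, ← mul_assoc, ← ee_add hx, hjt]
  have h5 : ee x j * g0 * x = x * (ee x j * g0) := by
    rw [mul_assoc, h1, ← mul_assoc, ← ee_comm rfl, mul_assoc]
  have hgB : ee x j * g0 ∈ BB G α := mul_mem (ee_mem hxK.1 j) g0.2
  refine ⟨ee x j * g0, hgB, fun h => hg0R ?_, h5, h4, ?_⟩
  · simpa using mul_mem (inv_mem (core_le _ _ (ee_mem hxK j))) h
  · set g := ee x j * g0 with hg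
    have hgP : (⟨g, hgB⟩ : BB G α) ∈ (P : Subgroup (BB G α)) :=
      mul_mem (pow_mem (hP (mem_zpowers x')) j.val) hg0
    have h6 : (g ^ p) ^ p ^ 1 = 1 := by
      have := congrArg (fun z : (P : Subgroup (BB G α)) => ((z : BB G α) : G))
        (pow_card_eq_one' (x := (⟨_, hgP⟩ : (P : Subgroup (BB G α)))))
      rw [hc] at this
      rw [pow_one, ← pow_mul, ← pow_two]
      simpa using this
    have h7 : g ^ p ∈ R := by
      have hX : Nat.card (BB G α ⧸ R.subgroupOf (BB G α)) = p := by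
        have h1 := card_eq_card_quotient_mul_card_subgroup (R.subgroupOf (BB G α))
        rw [Nat.card_congr (subgroupOfEquivOfLe hR.le2).toEquiv, (c.cardR hR).2] at h1
        exact (Nat.eq_of_mul_eq_mul_right Nat.card_pos h1).symm
      obtain ⟨n, h0, hn, hn'⟩ := exists_pow_mem_of_index_ne_zero
        (H := R.subgroupOf (BB G α)) (by rw [index, hX]; exact c.hp.ne_zero) ⟨g, hgB⟩
      rw [index, hX] at hn
      rcases hn.lt_or_eq with hn | rfl
      · have hcop : n.Coprime (orderOf g) := by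
          refine Nat.Coprime.coprime_dvd_right (orderOf_dvd_of_pow_eq_one
            (by rw [pow_one, ← pow_mul] at h6; exact h6)) ?_
          have := (Nat.coprime_of_lt_prime h0.ne' hn c.hp).symm
          exact Nat.Coprime.mul_right this this
        obtain ⟨k, hk⟩ := exists_pow_eq_self_of_coprime hcop
        exact pow_mem (hk ▸ pow_mem (show g ^ n ∈ R from hn') k) p
      · exact hn'
    obtain ⟨s, hs⟩ := c.cent_K hR hxK hx (pl c.hp hR.le2 (c.cardR hR).2 h7 h6)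
      (Commute.pow_left h5 p).eq
    have h8 : y * ee x s = ee x s * y := hs ▸ (Commute.pow_left h4 p).eq.symm
    rw [hyx, mul_left_inj, ← mul_inv_eq_one, ← ee_neg hx, ← ee_add hx] at h8
    have h9 : (m - 1) * s = 0 := by linear_combination ee_eq_one hx h8
    rw [hs, (mul_eq_zero.1 h9).resolve_left (sub_ne_zero.2 hm), ee_zero]

end Ctx

end H18.DP
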