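import Cfsg.Agent.H18.DPd

/-! Doubly transitive groups of degree `p ^ 2 + 1`: the kernel on a block system is semiregular. -/

set_option autoImplicit false

namespace H18.DP

open Subgroup MulAction

theorem comm_of_norm {G : Type*} [Group G] {p : ℕ} [Fact p.Prime] {x y u : G} {m m' : ZMod p}
    (hy : ∀ j, y * ee x j = ee x (m * j) * y) (hu : ∀ j, u * ee x j = ee x (m' * j) * u) :
    (y * u)⁻¹ * (u * y) * x = x * ((y * u)⁻¹ * (u * y)) := by
  have h1 : u * y * x = ee x (m' * (m * 1)) * (u * y) := by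
    rw [← mul_assoc _ u, ← hu, mul_assoc, mul_assoc, ← hy, ee_one]
  have h2 : y * u * x = ee x (m' * (m * 1)) * (y * u) := by
    rw [mul_left_comm, ← mul_assoc _ y, ← hy, mul_assoc, mul_assoc, ← hu, ee_one]
  calc (y * u)⁻¹ * (u * y) * x = (y * u)⁻¹ * (ee x (m' * (m * 1)) * (y * u)) *
        ((y * u)⁻¹ * (u * y)) := by rw [mul_assoc, h1]; group
    _ = _ := by rw [← h2]; group

/-- Convolution powers of the indicator function of `D`. -/
def cv {p : ℕ} [Fact p.Prime] (D : Finset (ZMod p)) : ℕ → ZMod p → ℤ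
  | 0, j => if j = 0 then 1 else 0
  | n + 1, a => ∑ c, if a - c ∈ D then cv D n c else 0

variable {G Ω : Type*} [Group G] [MulAction G Ω] [Finite G] [Finite Ω] {p : ℕ} [hp : Fact p.Prime]
  {α β : Ω} {R : Subgroup G} {x : G}

namespace Ctx

theorem m_ne (c : Ctx G Ω p α β) (hR : Blk α β R) (hxK : x ∈ core (BB G α) R)
    (hx : orderOf x = p) {y : G} (hy : y ∈ HH G α β) (hyL : y ∉ core R (HH G α β)) {m : ZMod p}
    (hyx : ∀ j, y * ee x j = ee x (m * j) * y) : m ≠ 1 := by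
  rintro rfl
  have := hyx 1
  rw [one_mul, ee_one] at this
  exact hyL (c.cent_L hR hxK hx hy this)

theorem fix_two (c : Ctx G Ω p α β) (hR : Blk α β R) (hxK : x ∈ core (BB G α) R)
    (hx : orderOf x = p) {g : G} (hg : g ∈ BB G α) (hgx : g * x = x * g) (hgp : g ^ p = 1)
    (ht : ∀ γ ∈ orb R β, ∀ δ ∈ orb R β, γ ≠ β → δ ≠ β →
      ∃ u ∈ core (BB G α) R, u • β = β ∧ u • γ = δ) :
    ∃ b : ZMod p, ∀ u ∈ core (BB G α) R, u • β = β → u • ee x b • g • β = ee x b • g • β := by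
  classical
  set K := core (BB G α) R with hK
  set D : Finset (ZMod p) :=
    Finset.univ.filter fun j => ∃ u ∈ K, u • β = β ∧ u • g • β = ee x j • g • β with hD
  have mD : ∀ j, j ∈ D ↔ ∃ u ∈ K, u • β = β ∧ u • g • β = ee x j • g • β := fun j => by simp [hD]
  have hcm : ∀ (n : ℕ) (j : ZMod p), g ^ n * ee x j = ee x j * g ^ n := fun n j =>
    ee_comm (Commute.pow_left hgx n).eq j
  have hne : ∀ n : ℕ, g ^ n • β ≠ α := fun n => smul_ne (pow_mem hg n) c.ne
  have hO : ∀ (n : ℕ) (a d : ZMod p), a - d ∈ D ↔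
      ∃ k ∈ K, k • g ^ n • β = ee x d • g ^ n • β ∧
        k • g ^ (n + 1) • β = ee x a • g ^ (n + 1) • β := by
    intro n a d
    rw [mD]
    constructor
    · rintro ⟨u, hu, h1, h2⟩
      refine ⟨ee x d * (g ^ n * u * (g ^ n)⁻¹),
        mul_mem (ee_mem hxK d) (core_conj hu (pow_mem hg n)), ?_, ?_⟩
      · simp only [mul_smul, inv_smul_smul, h1]
      · rw [pow_succ]
        simp only [mul_smul, inv_smul_smul, h2]
        rw [← mul_smul (g ^ n), hcm, ← mul_smul, ← mul_assoc, ← ee_add hx, add_sub_cancel,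
          mul_smul]
    · rintro ⟨k, hk, h1, h2⟩
      refine ⟨(g ^ n)⁻¹ * ((ee x d)⁻¹ * k) * g ^ n,
        core_conj' (mul_mem (inv_mem (ee_mem hxK d)) hk) (pow_mem hg n), ?_, ?_⟩
      · simp only [mul_smul, h1, inv_smul_smul]
      · rw [pow_succ, mul_smul] at h2
        simp only [mul_smul, h2]
        rw [inv_smul_eq_iff, ← mul_smul (g ^ n) (ee x (a - d)), hcm, ← ee_neg hx, ← mul_smul,
          ← ee_add hx, mul_smul, neg_add_eq_sub]
  have hinv : ∀ u ∈ K, u • β = β → ∀ (n : ℕ) (a b : ZMod p),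
      u • ee x a • g ^ n • β = ee x b • g ^ n • β → cv D n a = cv D n b := by
    intro u hu hub n
    induction n with
    | zero =>
      intro a b h
      simp only [pow_zero, one_smul] at h
      have : a = 0 ↔ b = 0 := by
        constructor
        · rintro rfl
          rw [ee_zero, one_smul, hub] at h
          exact (c.ee_inj hR hxK.1 hx c.ne (a := 0) (by rw [ee_zero, one_smul]; exact h)).symm
        · rintro rfl
          rw [ee_zero, one_smul] at h
          refine c.ee_inj hR hxK.1 hx c.ne (b := 0) ?_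
          rw [ee_zero, one_smul]
          exact MulAction.injective u (h.trans hub.symm)
      simp only [cv, this]
    | succ n ih =>
      intro a b h
      have hex : ∀ d : ZMod p, ∃ e : ZMod p, u • ee x d • g ^ n • β = ee x e • g ^ n • β :=
        fun d => by
          simpa [mul_smul] using c.ee_blkK hR hxK hx (pow_mem hg n) (mul_mem hu (ee_mem hxK d))
      choose π hπ using hex
      have hinj : Function.Injective π := fun d e hde =>
        c.ee_inj hR hxK.1 hx (hne n) (MulAction.injective u (by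
          show u • _ = u • _
          rw [hπ, hπ, hde]))
      simp only [cv]
      rw [← Equiv.sum_comp (Equiv.ofBijective π (Finite.injective_iff_bijective.1 hinj))
        (fun e => if b - e ∈ D then cv D n e else 0)]
      refine Finset.sum_congr rfl fun d _ => ?_
      have hiff : a - d ∈ D ↔ b - π d ∈ D := by
        rw [hO n, hO n]
        constructor
        · rintro ⟨k, hk, h1, h2⟩
          exact ⟨u * k, mul_mem hu hk, by rw [mul_smul, h1, hπ], by rw [mul_smul, h2, h]⟩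
        · rintro ⟨k, hk, h1, h2⟩
          exact ⟨u⁻¹ * k, mul_mem (inv_mem hu) hk, by rw [mul_smul, h1, ← hπ, inv_smul_smul],
            by rw [mul_smul, h2, ← h, inv_smul_smul]⟩
      simp only [Equiv.ofBijective_apply, hiff, ih d (π d) (hπ d)]
  have h0 : (0 : ZMod p) ∈ D := (mD 0).2 ⟨1, one_mem _, one_smul _ _, by rw [ee_zero]⟩
  have h1 : D ≠ Finset.univ := fun h => by
    have e : orb (K ⊓ stabilizer G β) (g • β) = Set.range fun j : ZMod p => ee x j • g • β := by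
      ext γ
      constructor
      · rintro ⟨u, hu, rfl⟩
        obtain ⟨j, hj⟩ := c.ee_blkK hR hxK hx hg hu.1
        exact ⟨j, hj.symm⟩
      · rintro ⟨j, rfl⟩
        obtain ⟨u, hu, e1, e2⟩ := (mD j).1 (h ▸ Finset.mem_univ _)
        exact ⟨u, mem_inf.2 ⟨hu, e1⟩, e2⟩
    have e2 := card_orb (K ⊓ stabilizer G β) (g • β)
    rw [e, Set.ncard_range_of_injective (fun a b h => c.ee_inj hR hxK.1 hx (smul_ne hg c.ne) h),
      Nat.card_zmod] at e2
    refine c.not_dvd hR ((Dvd.intro _ e2.symm).trans ?_)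
    exact card_dvd_of_le (inf_le_inf_right _ fun k hk => hk.1)
  have hb : ∀ j : ZMod p, j ≠ 0 → ee x j • β ≠ β := fun j hj h =>
    hj (c.ee_inj hR hxK.1 hx c.ne (b := 0) (by rw [ee_zero, one_smul]; exact h))
  obtain ⟨b, hb⟩ := diffset D ⟨0, h0⟩ h1 (cv D) (fun _ => rfl) (fun _ _ => rfl) fun j hj => by
    obtain ⟨u, hu, e1, e2⟩ := ht _ (smul_mem_orb β (core_le _ _ (ee_mem hxK j))) _
      (smul_mem_orb β (core_le _ _ (ee_mem hxK (1 : ZMod p)))) (hb j hj) (hb 1 one_ne_zero)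
    exact hinv u hu e1 p j 1 (by rw [hgp, one_smul]; exact e2)
  refine ⟨b, fun u hu hub => ?_⟩
  rcases hb with hb | hb
  · obtain rfl : 0 = b := Finset.mem_singleton.1 (hb ▸ h0)
    obtain ⟨j, hj⟩ := c.ee_blkK hR hxK hx hg hu
    obtain rfl : j = 0 := Finset.mem_singleton.1 (hb ▸ (mD j).2 ⟨u, hu, hub, hj⟩)
    rw [ee_zero, one_smul] at hj ⊢
    exact hj
  · obtain ⟨j, hj⟩ := c.ee_blkK hR hxK hx hg (mul_mem hu (ee_mem hxK b))
    rw [mul_smul] at hj
    by_cases hjb : j = b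
    · rw [hj, hjb]
    · obtain ⟨v, hv, e1, e2⟩ := (mD j).1 (hb ▸ Finset.mem_erase.2 ⟨hjb, Finset.mem_univ _⟩)
      have : b ∈ D := (mD b).2 ⟨u⁻¹ * v, mul_mem (inv_mem hu) hv,
        by rw [mul_smul, e1, inv_smul_eq_iff, hub], by rw [mul_smul, e2, ← hj, inv_smul_smul]⟩
      rw [hb] at this
      exact absurd rfl (Finset.mem_erase.1 this).1

theorem fix_other (c : Ctx G Ω p α β) (hR : Blk α β R) {y : G} (hy : y ∈ core (BB G α) R)
    (hyb : y • β = β) (hy1 : y ≠ 1) :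
    ∃ g ∈ BB G α, g ∉ R ∧ ∀ u ∈ core (BB G α) R, u • β = β → u • g • β = g • β := by
  rcases c.dich hR with ⟨x, hxK, hx, hn⟩ | ht
  · obtain ⟨m, hm⟩ := ee_conj hx (hn y hy)
    have hm1 := c.m_ne hR hxK hx (hh_mk hy.1 hyb) (fun h => hy1 (c.K0 hR hy h)) hm
    obtain ⟨g, hg, hgR, -, hgy, -⟩ := c.exists_g hR hxK hx hy hm1 hm
    refine ⟨g, hg, hgR, fun u hu hub => ?_⟩
    obtain ⟨m', hm'⟩ := ee_conj hx (hn u hu)
    have hw : (y * u)⁻¹ * (u * y) ∈ core (BB G α) R :=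
      mul_mem (inv_mem (mul_mem hy hu)) (mul_mem hu hy)
    have h1 := c.K0 hR hw (c.cent_L hR hxK hx (hh_mk hw.1 (by
      rw [mul_smul, inv_smul_eq_iff, mul_smul, mul_smul, hyb, hub, hyb])) (comm_of_norm hm hm'))
    rw [inv_mul_eq_one] at h1
    have h2 : y • g • β = g • β := by rw [← mul_smul, ← hgy, mul_smul, hyb]
    obtain ⟨j, hj⟩ := c.ee_blkK hR hxK hx hg hu
    have h3 : ee x (m * j) • g • β = ee x j • g • β := by
      rw [← hj, ← h2, ← mul_smul, ← hm, mul_smul, ← hj, ← mul_smul, h1, mul_smul]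
    have h4 : (m - 1) * j = 0 := by
      linear_combination c.ee_inj hR hxK.1 hx (smul_ne hg c.ne) h3
    rw [hj, (mul_eq_zero.1 h4).resolve_left (sub_ne_zero.2 hm1), ee_zero, one_smul]
  · obtain ⟨x, hxK, hx⟩ := c.exists_x hR
    obtain ⟨z, hz, hzb, hz1, hn⟩ := c.exists_y hR hxK hx hy hyb hy1
    obtain ⟨m, hm⟩ := ee_conj hx hn
    have hm1 := c.m_ne hR hxK hx (hh_mk hz.1 hzb) (fun h => hz1 (c.K0 hR hz h)) hm
    obtain ⟨g, hg, hgR, hgx, -, hgp⟩ := c.exists_g hR hxK hx hz hm1 hm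
    obtain ⟨b, hb⟩ := c.fix_two hR hxK hx hg hgx hgp ht
    refine ⟨ee x b * g, mul_mem (ee_mem hxK.1 b) hg, fun h => hgR ?_, fun u hu hub => ?_⟩
    · simpa using mul_mem (inv_mem (core_le _ _ (ee_mem hxK b))) h
    · rw [mul_smul]; exact hb u hu hub

omit hp in
theorem sig_card (c : Ctx G Ω p α β) (hR : Blk α β R) (σ : G) :
    ((σ • ·) '' (insert α (orb R β) \ {β})).ncard = p := by
  rw [Set.ncard_image_of_injective _ (MulAction.injective σ),
    Set.ncard_diff_singleton_of_mem (Set.mem_insert_of_mem α (self_mem_orb R β)),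
    Set.ncard_insert_of_notMem (fun h => c.ne_of_orb hR h rfl), c.ncardR hR, Nat.add_sub_cancel]

omit hp in
theorem compl_surj (c : Ctx G Ω p α β) {T : Set Ω} (h1 : α ∉ T) (h2 : T.ncard = p * p) {γ : Ω}
    (hγ : γ ≠ α) : γ ∈ T := by
  have h := Set.ncard_add_ncard_compl ({α} : Set Ω)
  rw [Set.ncard_singleton, c.card] at h
  have : T = {α}ᶜ := Set.eq_of_subset_of_ncard_le (fun δ hδ e => h1 (e ▸ hδ))
    (by rw [h2, ← pow_two]; omega) (Set.toFinite _)
  rw [this]; exact hγ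

theorem U_triv (c : Ctx G Ω p α β) (hR : Blk α β R) {y : G} (hy : y ∈ core (BB G α) R)
    (hyb : y • β = β) : y = 1 := by
  by_contra hy1
  obtain ⟨g, hg, hgR, hgf⟩ := c.fix_other hR hy hyb hy1
  set K := core (BB G α) R with hK
  set U := K ⊓ stabilizer G β with hU
  have hUH : U ≤ HH G α β := inf_le_inf_right _ fun k hk => hk.1
  set R' := BB G α ⊓ normalizer (U : Set G) with hR'
  have hmem : ∀ t ∈ BB G α, (∀ u ∈ U, u • t • β = t • β) → t ∈ R' := fun t ht h =>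
    mem_inf.2 ⟨ht, by
      have : t⁻¹ ∈ normalizer (U : Set G) := mem_norm fun u hu => by
        rw [inv_inv]; exact mem_inf.2 ⟨core_conj' hu.1 ht, fix_conj.2 (h u hu)⟩
      simpa using inv_mem this⟩
  have hgR' : g ∈ R' := hmem g hg fun u hu => hgf u hu.1 hu.2
  have hB : Blk α β R' := by
    refine ⟨fun h hh => hmem h hh.1 fun u hu => ?_, inf_le_left, fun h => hgR (hR.le1 (h.le hgR')),
      fun h => hy1 ?_⟩
    · rw [show h • β = β from hh.2]; exact hu.2
    · exact c.triv' hUH (fun t ht n hn => norm_conj (h.ge ht).2 hn) (mem_inf.2 ⟨hy, hyb⟩)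
  have hF : ∀ γ, γ ∈ insert α (orb R' β) ↔ ∀ u ∈ U, u • γ = γ := fun γ => by
    constructor
    · rintro (rfl | ⟨r, hr, rfl⟩) u hu
      · exact (hUH hu).1
      · exact fix_conj.1 (norm_conj' hr.2 hu).2
    · intro h
      by_cases hγ : γ = α
      · exact Or.inl hγ
      · obtain ⟨t, ht, rfl⟩ := c.trans hγ
        exact Or.inr (smul_mem_orb _ (hmem t ht h))
  have hRR : R ⊓ R' = HH G α β := by
    refine (max_of_card c.hp (le_inf hR.le1 hB.le1) inf_le_left (c.cardR hR).1).resolve_right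
      fun h => ?_
    rcases max_of_card c.hp (h.ge.trans inf_le_right) hB.le2 (c.cardR hR).2 with h' | h'
    · exact hgR (h'.le hgR')
    · exact hB.ne2 h'
  have hKK : ∀ k ∈ K, ∀ k' ∈ core (BB G α) R', k * k' = k' * k := fun k hk k' hk' => by
    have h := c.triv' (N := K ⊓ core (BB G α) R')
      ((inf_le_inf (core_le _ _) (core_le _ _)).trans hRR.le)
      (fun t ht n hn => mem_inf.2 ⟨core_conj hn.1 ht, core_conj hn.2 ht⟩)
      (l := k * k' * k⁻¹ * k'⁻¹) (mem_inf.2 ⟨by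
        rw [mul_assoc, mul_assoc, ← mul_assoc k']
        exact mul_mem hk (core_conj (inv_mem hk) hk'.1),
        mul_mem (core_conj hk' hk.1) (inv_mem hk')⟩)
    rwa [mul_inv_eq_one, mul_inv_eq_iff_eq_mul] at h
  obtain ⟨x, hxK, hx⟩ := c.exists_x hR
  obtain ⟨x', hxK', hx'⟩ := c.exists_x hB
  obtain ⟨σ, hσ1, hσ2⟩ := c.swap
  set Φ : ZMod p × ZMod p → Ω := fun z => ee x z.1 • ee x' z.2 • β with hΦ
  have hinj : Function.Injective Φ := by
    rintro ⟨a, b⟩ ⟨a', b'⟩ h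
    simp only [hΦ] at h
    have h1 : ee x (-a' + a) • β = ee x' (-b + b') • β := by
      rw [ee_add hx, ee_add hx', ee_neg hx, ee_neg hx', mul_smul, mul_smul, eq_inv_smul_iff,
        ← mul_smul, ← mul_smul, ← hKK _ (inv_mem (ee_mem hxK a')) _ (ee_mem hxK' b), mul_assoc,
        ← hKK _ (ee_mem hxK a) _ (ee_mem hxK' b), mul_smul, mul_smul, h, inv_smul_smul]
    have h2 : ee x (-a' + a) ∈ HH G α β := hRR.le (mem_inf.2 ⟨core_le _ _ (ee_mem hxK _),
      mem_R hB (ee_mem hxK.1 _) (h1 ▸ smul_mem_orb _ (core_le _ _ (ee_mem hxK' _)))⟩)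
    have h3 : -a' + a = 0 := ee_eq_one hx (c.pH hR h2 (ee_pow _ hx))
    obtain rfl : a = a' := by linear_combination h3
    rw [c.ee_inj hR hxK'.1 hx' c.ne (MulAction.injective _ h)]
  have hne : ∀ z, Φ z ≠ α := fun z => smul_ne (ee_mem hxK.1 _) (smul_ne (ee_mem hxK'.1 _) c.ne)
  have hsurj : ∀ γ, γ ≠ α → ∃ z, Φ z = γ := fun γ hγ =>
    c.compl_surj (T := Set.range Φ) (fun ⟨z, hz⟩ => hne z hz)
      (by rw [Set.ncard_range_of_injective hinj, Nat.card_prod, Nat.card_zmod]) hγ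
  have hfix : ∀ h ∈ HH G α β, ∀ a b : ZMod p, h • Φ (a, b) = Φ (a, b) ↔
      h • ee x a • β = ee x a • β ∧ h • ee x' b • β = ee x' b • β := by
    intro h hh a b
    obtain ⟨a', ha'⟩ := c.ee_blk1 hR hxK hx
      (smul_orb (hR.le1 hh) (smul_mem_orb β (core_le _ _ (ee_mem hxK a))))
    obtain ⟨b', hb'⟩ := c.ee_blk1 hB hxK' hx'
      (smul_orb (hB.le1 hh) (smul_mem_orb β (core_le _ _ (ee_mem hxK' b))))
    have hb : h⁻¹ • β = β := by rw [inv_smul_eq_iff]; exact (show h • β = β from hh.2).symm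
    have e : h • Φ (a, b) = Φ (a', b') := by
      simp only [hΦ]
      calc h • ee x a • ee x' b • β = (h * ee x a * h⁻¹) • h • ee x' b • β := by simp [mul_smul]
        _ = ee x' b' • (h * ee x a * h⁻¹) • β := by
          rw [hb', ← mul_smul, hKK _ (core_conj (ee_mem hxK a) hh.1) _ (ee_mem hxK' b'), mul_smul]
        _ = _ := by
          rw [mul_smul, mul_smul, hb, ha', ← mul_smul, ← hKK _ (ee_mem hxK a') _ (ee_mem hxK' b'),
            mul_smul]
    rw [e, ha', hb']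
    constructor
    · intro h'
      obtain ⟨rfl, rfl⟩ := Prod.ext_iff.1 (hinj h')
      exact ⟨rfl, rfl⟩
    · rintro ⟨h1, h2⟩
      rw [c.ee_inj hR hxK.1 hx c.ne h1, c.ee_inj hR hxK'.1 hx' c.ne h2]
  have hW : ∀ u ∈ U, σ * u * σ⁻¹ ∈ HH G α β := fun u hu => (swap_conj hσ1 hσ2 u).1 (hUH hu)
  set FA := {a : ZMod p | ∀ u ∈ U, (σ * u * σ⁻¹) • ee x a • β = ee x a • β} with hFA
  set FB := {b : ZMod p | ∀ u ∈ U, (σ * u * σ⁻¹) • ee x' b • β = ee x' b • β} with hFB
  have hS : Φ '' (FA ×ˢ FB) = (σ • ·) '' (insert α (orb R' β) \ {β}) := by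
    ext γ
    constructor
    · rintro ⟨⟨a, b⟩, ⟨ha, hb⟩, rfl⟩
      refine ⟨σ⁻¹ • Φ (a, b), ⟨(hF _).2 fun u hu => ?_, fun h => hne (a, b) ?_⟩, smul_inv_smul _ _⟩
      · have := (hfix _ (hW u hu) a b).2 ⟨ha u hu, hb u hu⟩
        rwa [mul_smul, mul_smul, ← eq_inv_smul_iff] at this
      · rw [← hσ2, ← show σ⁻¹ • Φ (a, b) = β from h, smul_inv_smul]
    · rintro ⟨δ, ⟨h1, h2⟩, rfl⟩
      obtain ⟨⟨a, b⟩, hz⟩ := hsurj (σ • δ) fun h => h2 (MulAction.injective σ (h.trans hσ2.symm))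
      have : ∀ u ∈ U, (σ * u * σ⁻¹) • Φ (a, b) = Φ (a, b) := fun u hu => by
        rw [hz, mul_smul, mul_smul, inv_smul_smul, (hF δ).1 h1 u hu]
      exact ⟨(a, b), ⟨fun u hu => ((hfix _ (hW u hu) a b).1 (this u hu)).1,
        fun u hu => ((hfix _ (hW u hu) a b).1 (this u hu)).2⟩, hz⟩
  have hcnt : FA.ncard * FB.ncard = p := by
    rw [← Set.ncard_prod, ← Set.ncard_image_of_injective _ hinj, hS, c.sig_card hB]
  have huniv : ∀ F : Set (ZMod p), F.ncard = p → F = Set.univ := fun F h =>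
    Set.eq_of_subset_of_ncard_le (Set.subset_univ _) (by rw [Set.ncard_univ, Nat.card_zmod, h])
  have fin : ∀ {T : Subgroup G} {z : G}, Blk α β T → z ∈ core (BB G α) T → orderOf z = p →
      (∀ a : ZMod p, ∀ u ∈ U, (σ * u * σ⁻¹) • ee z a • β = ee z a • β) → False := by
    intro T z hT hz hzo h
    have h1 : ∀ u ∈ U, z * (σ * u * σ⁻¹) = σ * u * σ⁻¹ * z := fun u hu =>
      c.comm_KL hT hz (L_of_fix hT (hW u hu).1 fun γ hγ => by
        obtain ⟨j, rfl⟩ := c.ee_blk1 hT hz hzo hγ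
        exact h j u hu)
    have h2 := c.design hB (s := σ⁻¹ * z * σ) fun γ hγ => (hF _).2 fun u hu => by
      have e : u * (σ⁻¹ * z * σ) = σ⁻¹ * z * σ * u := by
        calc u * (σ⁻¹ * z * σ) = σ⁻¹ * (σ * u * σ⁻¹ * z) * σ := by group
          _ = _ := by rw [← h1 u hu]; group
      rw [← mul_smul, e, mul_smul, (hF γ).1 hγ u hu]
    rw [fix_conj, hσ1] at h2
    have := c.pH hT (hh_mk hz.1 h2) (k := 1) (by rw [pow_one, ← hzo, pow_orderOf_eq_one])
    rw [this, orderOf_one] at hzo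
    exact c.hp.one_lt.ne hzo
  rcases Nat.prime_mul_iff.1 (hcnt ▸ c.hp) with ⟨-, h⟩ | ⟨-, h⟩
  · rw [h, mul_one] at hcnt
    exact fin hR hxK hx fun a => show a ∈ FA from huniv _ hcnt ▸ Set.mem_univ _
  · rw [h, one_mul] at hcnt
    exact fin hB hxK' hx' fun a => show a ∈ FB from huniv _ hcnt ▸ Set.mem_univ _

end Ctx

end H18.DP
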