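import Cfsg.Agent.H18.DPe
import Cfsg.Agent.S0741
import Cfsg.Agent.S0054

/-! Doubly transitive groups of degree `p ^ 2 + 1` are doubly primitive for odd `p`. -/

set_option autoImplicit false

namespace H18.DP

open Subgroup MulAction

variable {G Ω : Type*} [Group G] [MulAction G Ω] [Finite G] [Finite Ω] {p : ℕ} [hp : Fact p.Prime]
  {α β : Ω} {R : Subgroup G} {x : G}

namespace Ctx

theorem K_eq (c : Ctx G Ω p α β) (hR : Blk α β R) (hxK : x ∈ core (BB G α) R)
    (hx : orderOf x = p) {k : G} (hk : k ∈ core (BB G α) R) : k ∈ zpowers x := by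
  obtain ⟨j, hj⟩ := c.ee_blk1 hR hxK hx (smul_mem_orb β (core_le _ _ hk))
  have := c.U_triv hR (mul_mem (inv_mem (ee_mem hxK j)) hk) (by rw [mul_smul, hj, inv_smul_smul])
  rw [← inv_mul_eq_one.1 this]
  exact ee_mem (mem_zpowers x) j

theorem L_triv (c : Ctx G Ω p α β) (hR : Blk α β R) {l : G} (hl : l ∈ core R (HH G α β)) :
    l = 1 := by
  obtain ⟨σ, hσ1, hσ2⟩ := c.swap
  refine c.KL hR hσ1 (fun l0 hl0 => ?_) hl
  by_contra hn
  set y := σ * l0 * σ⁻¹ with hy
  have hyH : y ∈ HH G α β := (swap_conj hσ1 hσ2 l0).1 (core_le _ _ hl0)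
  obtain ⟨x, hxK, hx⟩ := c.exists_x hR
  obtain ⟨m, hm⟩ := ee_conj hx (c.K_eq hR hxK hx (core_conj hxK hyH.1))
  have hm1 := c.m_ne hR hxK hx hyH hn hm
  set S := (σ • ·) '' (insert α (orb R β) \ {β}) with hS
  have hS1 : ∀ γ ∈ S, γ ≠ α ∧ y • γ = γ := by
    rintro _ ⟨δ, ⟨h1, h2⟩, rfl⟩
    refine ⟨fun h => h2 (MulAction.injective σ (h.trans hσ2.symm)), ?_⟩
    simp only [hy, mul_smul, inv_smul_smul]
    congr 1
    rcases h1 with rfl | h1
    · exact (core_le _ _ hl0).1
    · exact fix_of_L hl0 h1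
  set Ψ : S × ZMod p → Ω := fun z => ee x z.2 • (z.1 : Ω) with hΨ
  have hinj : Function.Injective Ψ := by
    rintro ⟨⟨γ, hγ⟩, i⟩ ⟨⟨δ, hδ⟩, j⟩ h
    simp only [hΨ] at h
    have h1 : δ = ee x (-j + i) • γ := by
      rw [ee_add hx, ee_neg hx, mul_smul, h, inv_smul_smul]
    have h2 : ee x (m * (-j + i)) • γ = ee x (-j + i) • γ := by
      rw [← h1, ← (hS1 δ hδ).2, h1, ← mul_smul, hm, mul_smul, (hS1 γ hγ).2]
    have h3 : (m - 1) * (-j + i) = 0 := by
      linear_combination c.ee_inj hR hxK.1 hx (hS1 γ hγ).1 h2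
    have h4 := (mul_eq_zero.1 h3).resolve_left (sub_ne_zero.2 hm1)
    rw [h4, ee_zero, one_smul] at h1
    obtain rfl : i = j := by linear_combination h4
    subst h1
    rfl
  have hK : y ∈ core (BB G α) R := ⟨hyH.1, fun g hg => by
    obtain ⟨⟨⟨γ, hγ⟩, j⟩, hz⟩ := c.compl_surj (T := Set.range Ψ)
      (fun ⟨z, hz⟩ => smul_ne (ee_mem hxK.1 _) (hS1 _ z.1.2).1 hz)
      (by rw [Set.ncard_range_of_injective hinj, Nat.card_prod, Nat.card_zmod,
        Nat.card_coe_set_eq, c.sig_card hR]) (smul_ne hg c.ne)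
    simp only [hΨ] at hz
    refine mem_R hR (mul_mem (mul_mem (inv_mem hg) hyH.1) hg)
      ⟨_, (ee_mem hxK (m * j + -j)).2 g hg, ?_⟩
    rw [mul_smul, mul_smul, mul_smul, mul_smul, ← hz, ← mul_smul y, hm, mul_smul, (hS1 γ hγ).2,
      ← mul_smul (ee x _), ← ee_add hx, neg_add_cancel_right]⟩
  exact hn (c.U_triv hR hK hyH.2 ▸ one_mem _)

theorem H_comm (c : Ctx G Ω p α β) (hR : Blk α β R) {a b : G} (ha : a ∈ HH G α β)
    (hb : b ∈ HH G α β) : a * b = b * a := by
  obtain ⟨x, hxK, hx⟩ := c.exists_x hR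
  obtain ⟨m, hm⟩ := ee_conj hx (c.K_eq hR hxK hx (core_conj hxK ha.1))
  obtain ⟨m', hm'⟩ := ee_conj hx (c.K_eq hR hxK hx (core_conj hxK hb.1))
  exact inv_mul_eq_one.1 (c.L_triv hR (c.cent_L hR hxK hx
    (mul_mem (inv_mem (mul_mem ha hb)) (mul_mem hb ha)) (comm_of_norm hm hm')))

theorem no3 (c : Ctx G Ω p α β) (hR : Blk α β R) {h : G} (hh : h ∈ HH G α β) {γ : Ω}
    (h1 : γ ≠ α) (h2 : γ ≠ β) (hγ : h • γ = γ) : h = 1 := by
  by_contra hne
  obtain ⟨g, hg, rfl⟩ := c.trans h1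
  have hg' : g⁻¹ * h * g ∈ HH G α β :=
    hh_mk (mul_mem (mul_mem (inv_mem hg) hh.1) hg) (fix_conj.2 hγ)
  by_cases hc : ∀ t ∈ HH G α β, g * t * g⁻¹ ∈ HH G α β
  · have hB : Blk α β (BB G α ⊓ normalizer (HH G α β : Set G)) :=
      ⟨le_inf inf_le_left le_normalizer, inf_le_left,
        fun e => h2 (e.le (mem_inf.2 ⟨hg, mem_norm hc⟩)).2,
        fun e => hne (c.triv' le_rfl (fun t ht n hn => norm_conj (e.ge ht).2 hn) hh)⟩
    exact hne (c.L_triv hB ⟨hB.le1 hh, fun t ht => norm_conj' ht.2 hh⟩)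
  · push Not at hc
    obtain ⟨t, ht, ht'⟩ := hc
    have key : ∀ s ∈ centralizer ({h} : Set G), s⁻¹ * h * s = h := fun s hs => by
      rw [mul_assoc, mem_centralizer_singleton_iff.1 hs |>.symm, inv_mul_cancel_left]
    have hB : Blk α β (BB G α ⊓ centralizer ({h} : Set G)) := by
      refine ⟨le_inf inf_le_left fun s hs => mem_centralizer_singleton_iff.2 (c.H_comm hR hs hh),
        inf_le_left, fun e => ht' (e.le (mem_inf.2 ⟨mul_mem (mul_mem hg ht.1) (inv_mem hg), ?_⟩)),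
        fun e => hne (c.triv ⟨hh.1, fun s hs => by rw [key s (e.ge hs).2]; exact hh⟩)⟩
      rw [mem_centralizer_singleton_iff]
      calc g * t * g⁻¹ * h = g * (t * (g⁻¹ * h * g)) * g⁻¹ := by group
        _ = _ := by rw [c.H_comm hR ht hg']; group
    exact hne (c.L_triv hB ⟨hB.le1 hh, fun s hs => by rw [key s hs.2]; exact hh⟩)

theorem cardH (c : Ctx G Ω p α β) (hR : Blk α β R) : Nat.card (HH G α β) < p := by
  obtain ⟨x, hxK, hx⟩ := c.exists_x hR
  have hγ : x • β ∈ orb R β := smul_mem_orb β (core_le _ _ hxK)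
  have hb : x • β ≠ β := fun h => by
    rw [c.U_triv hR hxK h, orderOf_one] at hx
    exact c.hp.one_lt.ne hx
  have h1 := card_orb (HH G α β) (x • β)
  have h2 : HH G α β ⊓ stabilizer G (x • β) = ⊥ :=
    eq_bot_iff.2 fun h hh => mem_bot.2 (c.no3 hR hh.1 (c.ne_of_orb hR hγ) hb hh.2)
  rw [h2, card_bot, mul_one] at h1
  have h4 : orb (HH G α β) (x • β) ⊂ orb R β := by
    refine ⟨fun δ ⟨s, hs, e⟩ => e ▸ smul_orb (hR.le1 hs) hγ, fun h => ?_⟩
    obtain ⟨s, hs, e⟩ := h (self_mem_orb R β)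
    exact hb (MulAction.injective s (e.trans (show s • β = β from hs.2).symm))
  have := Set.ncard_lt_ncard h4 (Set.toFinite _)
  rwa [c.ncardR hR, ← h1] at this

omit hp in
theorem card_trans (c : Ctx G Ω p α β) (N : Subgroup G) (h : IsPretransitive N Ω) :
    Nat.card N = (p ^ 2 + 1) * Nat.card ↥(N ⊓ stabilizer G α) := by
  rw [card_orb N α, orb_eq, orbit_eq_univ, Set.ncard_univ, c.card]

theorem main (c : Ctx G Ω p α β) (hR : Blk α β R) : p = 2 ∧ Nat.card G = 20 := by
  have hH := c.cardH hR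
  have hpos : 0 < Nat.card (HH G α β) := Nat.card_pos
  rcases c.hp.eq_two_or_odd' with rfl | hodd
  · refine ⟨rfl, ?_⟩
    rw [c.cardG, c.cardB, show Nat.card (HH G α β) = 1 by omega]
    norm_num
  exfalso
  have h2 : IsMultiplyPretransitive G Ω 2 :=
    is_two_pretransitive_iff.2 fun h h' => c.t2 _ _ _ _ h h'
  have hf : FaithfulSMul G Ω := ⟨fun {a b} h => by
    rw [← mul_inv_eq_one]
    exact c.faith _ fun γ => by rw [mul_smul, h, smul_inv_smul]⟩
  obtain ⟨q, hq⟩ := hodd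
  have hn : p ^ 2 + 1 = 4 * (q * q + q) + 2 := by rw [hq]; ring
  have hq0 : 0 < q := by have := c.hp.two_le; omega
  haveI : Fact (Nat.Prime 2) := ⟨Nat.prime_two⟩
  rcases Nat.even_or_odd (Nat.card (HH G α β)) with he | ho
  · letI := Fintype.ofFinite Ω
    have hZ : Cfsg.IsZassenhausGroup G Ω := by
      refine ⟨hf, h2, fun g a b d hab hbd had ha hb hd => ?_, ?_, fun N hN ht => ?_⟩
      · obtain ⟨t, t1, t2⟩ := c.t2 α β a b c.ne.symm hab
        have := c.no3 hR (h := t⁻¹ * g * t) ⟨fix_conj.2 (by rw [t1, ha]), fix_conj.2 (by rw [t2, hb])⟩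
          (γ := t⁻¹ • d) (fun e => had (by rw [← t1, ← e, smul_inv_smul]))
          (fun e => hbd (by rw [← t2, ← e, smul_inv_smul]))
          (fix_conj.2 (by rw [smul_inv_smul, hd]))
        calc g = t * (t⁻¹ * g * t) * t⁻¹ := by group
          _ = 1 := by rw [this]; simp
      · have : HH G α β ≠ ⊥ := fun h => by
          rw [h, card_bot] at he; exact absurd he (by decide)
        obtain ⟨g, hg, hg1⟩ := ((HH G α β).bot_or_exists_ne_one).resolve_left this
        exact ⟨g, hg1, α, β, c.ne.symm, hg.1, hg.2⟩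
      · by_contra hreg
        push Not at hreg
        haveI : Nonempty Ω := ⟨α⟩
        obtain ⟨-, r, hr, hrn⟩ := Cfsg.Agent.S0054.result h2 N ht hreg
        haveI := Fact.mk hr
        have hN : IsPGroup r N := fun n => ⟨1, Subtype.ext (by simpa using hrn n n.2)⟩
        obtain ⟨k, hk⟩ := IsPGroup.iff_card.1 hN
        have h3 : N ⊓ stabilizer G α = ⊥ := eq_bot_iff.2 fun n hn => by
          have : (⟨n, hn.1⟩ : N) ∈ stabilizer N α := hn.2
          rw [hreg α, mem_bot] at this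
          exact mem_bot.2 (congrArg Subtype.val this)
        rw [c.card_trans N ht, h3, card_bot, mul_one, hn] at hk
        obtain rfl : 2 = r := (Nat.prime_dvd_prime_iff_eq Nat.prime_two hr).1
          (Nat.prime_two.dvd_of_dvd_pow (n := k) (hk ▸ by omega))
        rcases k with _ | _ | k
        · omega
        · have := Nat.mul_pos hq0 hq0; omega
        · rw [pow_succ, pow_succ] at hk; omega
    have := Cfsg.Agent.S0741.result hZ c.ne.symm he
    rw [← Nat.card_eq_fintype_card, c.card, hn] at this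
    have h5 : Nat.card ↥(stabilizer G α ⊓ stabilizer G β) < p := hH
    have := Nat.mul_pos hq0 hq0
    omega
  · obtain ⟨P⟩ : Nonempty (Sylow 2 G) := inferInstance
    have hB : Odd (Nat.card (BB G α)) := by
      rw [c.cardB]; exact (Odd.pow ⟨q, hq⟩).mul ho
    have hG : Nat.card G = 2 * ((2 * (q * q + q) + 1) * Nat.card (BB G α)) := by
      rw [c.cardG, hn]; ring
    have hO : Odd ((2 * (q * q + q) + 1) * Nat.card (BB G α)) := (odd_two_mul_add_one _).mul hB
    have hmin : (Nat.card G).minFac = 2 := (Nat.minFac_eq_two_iff _).2 (hG ▸ dvd_mul_right _ _)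
    have hP : Nat.card (P : Subgroup G) ∣ 2 := by
      obtain ⟨k, hk⟩ := IsPGroup.iff_card.1 P.2
      have := card_subgroup_dvd_card (P : Subgroup G)
      rw [hG] at this
      refine Nat.Coprime.dvd_of_dvd_mul_right ?_ this
      rw [hk]
      exact Nat.Coprime.pow_left _ (Nat.coprime_two_left.2 hO)
    have hcyc : IsCyclic P := isCyclic_of_card_dvd_prime hP
    have hNC := IsCyclic.normalizer_le_centralizer hmin hcyc
    set N := (MonoidHom.transferSylow P hNC).ker with hN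
    have h3 := (MonoidHom.ker_transferSylow_isComplement' P hNC).symm.index_eq_card
    have h4 := MonoidHom.not_dvd_card_ker_transferSylow P hNC
    have h5 : N ≠ ⊥ := fun h => by
      rw [← hN, h, index_bot] at h3
      have := Nat.le_of_dvd two_pos (h3 ▸ hP)
      have h6 : 0 < Nat.card (BB G α) := Nat.card_pos
      nlinarith
    obtain ⟨n, hn', hn1⟩ := (N.bot_or_exists_ne_one).resolve_left h5
    haveI := isPreprimitive_of_is_two_pretransitive h2
    have ht : IsPretransitive N Ω := IsQuasiPreprimitive.isPretransitive_of_normal fun h =>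
      hn1 (c.faith n fun γ => (show γ ∈ fixedPoints N Ω from h ▸ Set.mem_univ _) ⟨n, hn'⟩)
    refine h4 ?_
    rw [← hN, c.card_trans N ht, hn]
    exact Dvd.dvd.mul_right (by omega) _

end Ctx

end H18.DP
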