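import Cfsg.Agent.H18.FX
import Cfsg.Agent.H14.Fac3

/-! The Camina-Herzog criterion for saturated 2-fusion systems. -/

set_option autoImplicit false
set_option linter.unusedSectionVars false

open Cfsg Cfsg.FusionSystem Equiv H13
open Subgroup (zpowers mem_zpowers)
open scoped commutatorElement

namespace H18.FY

universe u
variable {Ω : Type u} [Group Ω] {S : Subgroup Ω} [Finite S] {F : FusionSystem S}

/-- `m`-th powers of central elements of `E`. -/
def Pw (E : Subgroup Ω) (m : ℕ) : Subgroup Ω where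
  carrier := {u | ∃ z ∈ centralizerIn E E, z ^ m = u}
  mul_mem' := by
    rintro _ _ ⟨a, ha, rfl⟩ ⟨b, hb, rfl⟩
    exact ⟨a * b, mul_mem ha hb, Commute.mul_pow (hb.2 a ha.1) m⟩
  one_mem' := ⟨1, one_mem _, one_pow m⟩
  inv_mem' := by
    rintro _ ⟨a, ha, rfl⟩
    exact ⟨a⁻¹, inv_mem ha, inv_pow a m⟩

theorem pw_le (E : Subgroup Ω) (m : ℕ) : Pw E m ≤ centralizerIn E E := by
  rintro _ ⟨a, ha, rfl⟩
  exact pow_mem ha m

theorem exists_sq_mem {E N : Subgroup Ω} (hN : IsPGroup 2 N) (h : E < N) :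
    ∃ t ∈ N, t ∉ E ∧ t ^ 2 ∈ E := by
  classical
  obtain ⟨t, ht, htE⟩ := SetLike.exists_of_lt h
  have hex : ∃ k, t ^ 2 ^ k ∈ E := by
    obtain ⟨k, hk⟩ := isPGroup_iff_mem.1 hN t ht
    exact ⟨k, hk ▸ one_mem _⟩
  have h0 : Nat.find hex ≠ 0 := fun e => htE (by simpa [e] using Nat.find_spec hex)
  obtain ⟨j, hj⟩ := Nat.exists_eq_succ_of_ne_zero h0
  refine ⟨t ^ 2 ^ j, pow_mem ht _, Nat.find_min hex (by omega), ?_⟩
  rw [← pow_mul, ← pow_succ, ← Nat.succ_eq_add_one, ← hj]
  exact Nat.find_spec hex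

theorem sc_pw (hS : IsPGroup 2 S) (hF : F.IsSaturated 2) {m : ℕ}
    (hm : ∀ x ∈ S, x ^ (2 * m) = 1) : F.StronglyClosed (Pw S m) := by
  have : Fact (Nat.Prime 2) := ⟨Nat.prime_two⟩
  have hUS : Pw S m ≤ S := (pw_le S m).trans (centralizerIn_le S S)
  have := finite_of_le hUS
  have key : ∀ n k : ℕ, Nat.card S < n + k → ∀ (P : Subgroup Ω) (σ : Perm Ω), Mor F P σ →
      n ≤ Nat.card P → ∀ x ∈ P, x ∈ Pw S m → σ x ∈ Pw S m := by
    intro n k
    induction k generalizing n with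
    | zero =>
      intro h P σ hσ hn
      exact absurd (hn.trans (card_le_of_le hσ.le)) (by omega)
    | succ k ih =>
      intro h
      have ih' := ih (n + 1) (by omega)
      refine alperin_induction hS hF (C := fun P σ => n ≤ Nat.card P → ∀ x ∈ P, x ∈ Pw S m →
        σ x ∈ Pw S m) ?_ ?_ ?_
      · intro P R σ τ hτ hC hPR e hn x hx hxU
        have := hτ.finite
        rw [← e x hx]
        exact hC (hn.trans (card_le_of_le hPR)) x (hPR hx) hxU
      · intro P Q R σ τ hσ _ h1 h2 hn x hx hxU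
        exact h2 (hσ.card_eq ▸ hn) _ (hσ.mem hx) (h1 hn x hx hxU)
      · rintro E σ (rfl | hE) hσ hn x hx hxU
        · obtain ⟨z, hz, rfl⟩ := hxU
          exact ⟨σ z, FX.iso_cen hσ hz, (hσ.hom.map_pow hz.1 m).symm⟩
        have hlt := essential_lt hS hF hE
        have hES := hlt.le
        have := finite_of_le hES
        have := finite_autF_of_le F hES
        obtain ⟨hc, -, -, hU, hIU, hH⟩ :=
          spe_hf hS hF hlt hE.2.1 ((essential_iff_hf hS hF hlt hE.2.1).1 hE)
        have hcE : centralizerIn S E ≤ E := centric_le hc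
        have hZE : centralizerIn S S ≤ centralizerIn E E := fun z hz =>
          ⟨hcE ⟨hz.1, fun a ha => hz.2 a (hES ha)⟩, fun a ha => hz.2 a (hES ha)⟩
        have hUE : Pw S m ≤ Pw E m := by
          rintro _ ⟨z, hz, rfl⟩
          exact ⟨z, hZE hz, rfl⟩
        have hPE : Pw E m ≤ E := (pw_le E m).trans (centralizerIn_le E E)
        have hmap : ∀ β ∈ AutF F E, ∀ w ∈ Pw E m, β w ∈ Pw E m := by
          rintro β hβ _ ⟨z, hz, rfl⟩
          have h1 := homOn_of_mem_autF hβ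
          have h2 := maps_of_mem_autF hβ
          exact ⟨β z, ⟨h2.mem hz.1, h1.mem_centralizer le_rfl h2 hz.1 hz.2⟩,
            (h1.map_pow hz.1 m).symm⟩
        have hK : HF F E ≤ stab (Pw S m) := by
          refine (Subgroup.closure_le _).2 ?_
          rintro α ⟨hα, R, τ, hR, hτ, e⟩
          have := hτ.finite
          refine mem_stab.2 (((homOn_of_mem_autF hα).mono (hUE.trans hPE)).maps_of_mem
            fun y hy => ?_)
          rw [← e y (hPE (hUE hy))]
          exact ih' R τ hτ (lt_of_le_of_lt hn (card_lt_of_lt hR)) y (hR.le (hPE (hUE hy))) hy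
        let C : Subgroup (Perm Ω) :=
          { carrier := {α | α ∈ AutF F E ∧ ∀ w ∈ Pw E m, α w = w}
            mul_mem' := by
              rintro α β ⟨ha, ha'⟩ ⟨hb, hb'⟩
              exact ⟨mul_mem ha hb, fun w hw => by rw [mul_ap, hb' w hw, ha' w hw]⟩
            one_mem' := ⟨one_mem _, fun _ _ => rfl⟩
            inv_mem' := by
              rintro α ⟨ha, ha'⟩
              exact ⟨inv_mem ha, fun w hw => by rw [← ha' w hw, inv_ap, ha' w hw]⟩ }
        have hCA : C ≤ AutF F E := fun _ h => h.1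
        have := finite_of_le hCA
        have hCN : AutF F E ≤ Subgroup.normalizer (C : Set (Perm Ω)) :=
          le_normalizer_iff.2 fun β hβ α hα =>
            ⟨mul_mem (mul_mem hβ hα.1) (inv_mem hβ), fun w hw => by
              rw [mul_ap, mul_ap, hα.2 _ (hmap _ (inv_mem hβ) w hw), ap_inv]⟩
        obtain ⟨t, ht, htE, ht2⟩ := exists_sq_mem (hS.to_le (normalizerIn_le S E))
          (lt_normalizerIn hS le_rfl hlt)
        have htC : cr E t ∈ C := by
          refine ⟨cr_mem_autF F hES ht.1 ht.2, ?_⟩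
          rintro _ ⟨w, hw, rfl⟩
          rw [cr_apply ht.2 (pow_mem hw.1 m)]
          have hw' : t * w * t⁻¹ ∈ E := conj_mem_of_normalizer ht.2 hw.1
          have c1 : Commute (t * w * t⁻¹) w := hw.2 _ hw'
          have c2 : Commute (t ^ 2) w := hw.2 _ ht2
          have c3 : Commute (t ^ 2) (t * w * t⁻¹) :=
            (((Commute.refl t).pow_left 2).mul_right c2).mul_right
              ((Commute.refl t).pow_left 2).inv_right
          have e1 : (w * t) ^ 2 = (w * (t * w * t⁻¹)) * t ^ 2 := by simp only [pow_two]; group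
          have e2 := hm (w * t) (mul_mem (hES hw.1) ht.1)
          rw [pow_mul, e1, (c2.mul_right c3).symm.mul_pow, ← pow_mul, hm t ht.1, mul_one,
            c1.symm.mul_pow, conj_pow] at e2
          have e3 := hm w (hES hw.1)
          rw [two_mul, pow_add] at e3
          exact mul_left_cancel (e2.trans e3.symm)
        have hIC : AutBy E E ≤ C := by
          intro α hα
          obtain ⟨g, hg, hgN, rfl⟩ := mem_autBy.1 hα
          refine ⟨cr_mem_autF F hES (hES hg) hgN, fun w hw => ?_⟩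
          rw [cr_apply hgN (hPE hw), (pw_le E m hw).2 g hg, mul_inv_cancel_right]
        have hV : AutBy E E < AutBy S E ⊓ C := by
          refine lt_of_le_of_ne (le_inf hIU.le hIC) fun e => htE ?_
          exact mem_of_cr_mem_inn hES hcE ht.1 ht.2 (e ▸ ⟨cr_mem_autBy ht.1 ht.2, htC⟩)
        obtain ⟨c, hcC, hcN⟩ := (hU.inf_normal hCA hCN).frattini (hCN hσ.rs_mem)
        have h1 := (mem_stab.1 (hK (hH _ hV inf_le_left
          ⟨mul_mem hcC.1 hσ.rs_mem, hcN⟩))).mem hxU
        rw [mul_ap, hcC.2 _ (hmap _ hσ.rs_mem x (hUE hxU)), rs_apply hσ.maps hx] at h1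
        exact h1
  refine stronglyClosed_iff.2 ⟨hUS, fun P σ hσ => key 0 (Nat.card S + 1) (by omega) P σ hσ
    (Nat.zero_le _)⟩

theorem comm_of_conj (n : ℕ) : ∀ {Ω : Type u} [Group Ω] {S : Subgroup Ω} [Finite S]
    (F : FusionSystem S), Nat.card S = n → IsPGroup 2 S → F.IsSaturated 2 →
    (∀ x ∈ S, ∃ z ∈ centralizerIn S S, ∃ P f, Mor F P f ∧ x ∈ P ∧ f x = z) →
    ∀ a ∈ S, ∀ b ∈ S, Commute a b := by
  classical
  have : Fact (Nat.Prime 2) := ⟨Nat.prime_two⟩
  induction n using Nat.strong_induction_on with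
  | _ n ih =>
  intro Ω _ S _ F hn hS hF h
  have hex : ∃ k, ∀ x ∈ S, x ^ 2 ^ k = 1 := by
    obtain ⟨k, hk⟩ := IsPGroup.iff_card.1 hS
    exact ⟨k, fun x hx => congrArg Subtype.val (hk ▸ pow_card_eq_one' (x := (⟨x, hx⟩ : S)))⟩
  by_cases h0 : Nat.find hex = 0
  · have h1 := Nat.find_spec hex
    rw [h0] at h1
    intro a ha b _
    have : a = 1 := by simpa using h1 a ha
    rw [this]; exact Commute.one_left b
  obtain ⟨j, hj⟩ := Nat.exists_eq_succ_of_ne_zero h0
  have hm : ∀ x ∈ S, x ^ (2 * 2 ^ j) = 1 := by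
    rw [← pow_succ', ← Nat.succ_eq_add_one, ← hj]; exact Nat.find_spec hex
  have hne := Nat.find_min hex (show j < Nat.find hex by omega)
  push Not at hne
  obtain ⟨x0, hx0, hx1⟩ := hne
  have hsc := sc_pw hS hF hm
  set U := Pw S (2 ^ j) with hU
  have hUZ : U ≤ centralizerIn S S := pw_le _ _
  have hUne : U ≠ ⊥ := by
    obtain ⟨z, hz, P, f, hf, hxP, rfl⟩ := h x0 hx0
    intro e
    have h1 : f x0 ^ 2 ^ j ∈ U := ⟨_, hz, rfl⟩
    rw [e, Subgroup.mem_bot, ← hf.hom.map_pow hxP] at h1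
    exact hx1 (hf.hom.injOn_iff.1 hf.injOn _ (pow_mem hxP _) h1)
  have : (U.subgroupOf S).Normal := (normal_subgroupOf_iff hsc.1).2 (sc_le_normalizer hsc)
  obtain ⟨E, hE⟩ := H14.Fus.exists_quot hS hF hsc
  have hk := H14.Fus.ker_fn_mk U hsc.1
  set θ := fn (QuotientGroup.mk' (U.subgroupOf S)) with hθ
  have hlt : Nat.card (⊤ : Subgroup (S ⧸ U.subgroupOf S)) < n := by
    have h1 := hE.hom.card_eq_card_pre_bot_mul
    rw [hk, hE.img_eq, hn] at h1
    have := finite_of_le hsc.1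
    have h2 : 1 < Nat.card U := (Subgroup.one_lt_card_iff_ne_bot U).2 hUne
    have h3 : 0 < Nat.card (⊤ : Subgroup (S ⧸ U.subgroupOf S)) := Nat.card_pos
    rw [h1]
    exact (Nat.lt_mul_iff_one_lt_left h3).2 h2
  have hq := ih _ hlt E rfl (hE.isPGroup hS) (hE.saturated hS hF) (by
    intro y hy
    obtain ⟨x, hx, rfl⟩ := hE.surj hy
    obtain ⟨z, hz, P, f, hf, hxP, rfl⟩ := h x hx
    obtain ⟨f', hf', e⟩ := hE.down P f hf
    refine ⟨θ (f x), ⟨trivial, ?_⟩, _, f', hf', mem_img_of_mem θ hxP, e x hxP⟩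
    have := H14.Fus.mem_centralizer_img hE.hom le_rfl hz.1 hz.2
    rwa [hE.img_eq] at this)
  have hcomm : ∀ a ∈ S, ∀ b ∈ S, ⁅a, b⁆ ∈ U := by
    intro a ha b hb
    rw [← hk, H14.Fus.mem_ker hE.hom, hE.hom.map_commutator ha hb]
    exact ⟨mul_mem (mul_mem (mul_mem ha hb) (inv_mem ha)) (inv_mem hb),
      commutatorElement_eq_one_iff_commute.2 (hq _ trivial _ trivial)⟩
  have hno : ∀ Q, ¬ F.IsEssential 2 Q := by
    intro Q hQ
    obtain ⟨hc, hr, -⟩ := centric_radical_of_base hS hF (Or.inr hQ)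
    have hlt := essential_lt hS hF hQ
    have := finite_of_le hlt.le
    have hUQ : U ≤ Q := fun u hu => centric_le hc ⟨(hUZ hu).1, fun a ha => (hUZ hu).2 a (hlt.le ha)⟩
    refine hlt.not_ge fun g hg => ?_
    have hgN : g ∈ Subgroup.normalizer (Q : Set Ω) := normalizer_of_finite fun x hx => by
      have := Q.mul_mem (hUQ (hcomm g hg x (hlt.le hx))) hx
      rwa [commutatorElement_def, inv_mul_cancel_right] at this
    refine mem_of_cr_mem_op hc hr hg hgN (mem_op_of_chain2 (hS.to_le hlt.le) hUQ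
      (autF_le_autAll F Q) (fun α hα => sc_maps hsc (iso_of_mem_autF hlt.le hα).mor hUQ)
      (cr_mem_autF F hlt.le hg hgN) (fun x hx => ?_) fun x hx => ?_)
    · rw [cr_apply hgN (hUQ hx), (hUZ hx).2 g hg, mul_inv_cancel_right]
    · rw [cr_apply hgN hx]
      have := hcomm _ (inv_mem (hlt.le hx)) g hg
      rwa [commutatorElement_def, inv_inv, mul_assoc, mul_assoc, ← mul_assoc g] at this
  have hN := normal_top_of_no_essential hS hF hno
  intro a ha b hb
  obtain ⟨z, hz, P, f, hf, hxP, rfl⟩ := h b hb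
  obtain ⟨g, hg, e, -⟩ := (normal_iff_fun.1 hN).2 P f hf
  rw [sup_eq_right.2 hf.le] at hg
  refine hg.injOn (mul_mem ha hb) (mul_mem hb ha) ?_
  rw [hg.hom.map_mul ha hb, hg.hom.map_mul hb ha, e b hxP]
  exact hz.2 _ (hg.mem ha)

end H18.FY
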