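import Cfsg.Agent.H18.FX
import Cfsg.Agent.H14.Tate
import Cfsg.Agent.H14.Cons
import Cfsg.Agent.H3.Critical

/-! A nilpotency criterion for saturated fusion systems. -/

set_option autoImplicit false
set_option linter.unusedSectionVars false

open Cfsg Cfsg.FusionSystem Equiv H13
open Subgroup (zpowers mem_zpowers)
open scoped commutatorElement

namespace H18.FZ

universe u
variable {p : ℕ} [hp : Fact p.Prime]

theorem exists_between {Ω : Type*} [Group Ω] {A B : Subgroup Ω} [Finite B] (hB : IsPGroup p B)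
    (h : A ≤ B) {k : ℕ} (h1 : Nat.card A ≤ p ^ k) (h2 : p ^ k ≤ Nat.card B) :
    ∃ C, A ≤ C ∧ C ≤ B ∧ Nat.card C = p ^ k := by
  have := finite_of_le h
  obtain ⟨a, ha⟩ := IsPGroup.iff_card.1 (hB.to_le h)
  obtain ⟨b, hb⟩ := IsPGroup.iff_card.1 hB
  rw [ha, Nat.pow_le_pow_iff_right hp.out.one_lt] at h1
  rw [hb, Nat.pow_le_pow_iff_right hp.out.one_lt] at h2
  obtain ⟨K, hK, hle⟩ := Sylow.exists_subgroup_card_pow_prime_le p (G := B) (m := k)
    (hb ▸ pow_dvd_pow p h2) (A.subgroupOf B)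
    (by rw [Nat.card_congr (Subgroup.subgroupOfEquivOfLe h).toEquiv, ha]) h1
  refine ⟨K.map B.subtype, fun x hx => ⟨⟨x, h hx⟩, hle hx, rfl⟩, Subgroup.map_subtype_le K, ?_⟩
  rw [Subgroup.card_map_of_injective B.subtype_injective, hK]

def WH {Ω : Type*} [Group Ω] {S : Subgroup Ω} (F : FusionSystem S) (d : ℕ) : Prop :=
  ∀ Q : Subgroup Ω, Q ≤ S → Nat.card Q = d → ∃ P : Subgroup Ω, F.StronglyClosed P ∧
    F.StronglyClosed (Q ⊔ P) ∧ F.StronglyClosed (Q ⊓ P)

def NH {Ω : Type*} [Group Ω] {S : Subgroup Ω} (F : FusionSystem S) (p d : ℕ) : Prop :=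
  ∀ H R : Subgroup Ω, H ≤ R → R ≤ S → Nat.card H = d → R ≤ Subgroup.normalizer (H : Set Ω) →
    ∀ α ∈ AutF F R, (orderOf α).Coprime p → Maps H H α → ∀ x ∈ R, α x = x

section
variable {Ω Ω' : Type*} [Group Ω] [Group Ω'] {S : Subgroup Ω} {S' : Subgroup Ω'} [Finite S]
  {F : FusionSystem S} {E : FusionSystem S'} {θ : Ω → Ω'}

theorem wh_fac (h : H14.Fus.Fac F E θ) {d : ℕ} (hw : WH F (Nat.card (pre S θ ⊥) * d)) :
    WH E d := by
  intro Q' hQ' hc
  have hQ : pre S θ Q' ≤ S := pre_le _ _ _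
  obtain ⟨P, h1, h2, h3⟩ := hw _ hQ (by rw [H14.Fus.card_pre h.hom (h.img_eq ▸ hQ'), hc])
  refine ⟨img θ P, h.sc_img h1, ?_, ?_⟩
  · have := h.sc_img h2
    rwa [(h.hom.mono h2.1).img_sup, h.img_pre hQ'] at this
  · have := h.sc_img h3
    convert this using 1
    refine le_antisymm (fun y hy => ?_) (img_le_iff.2 fun x hx =>
      ⟨(h.hom.mem_pre.1 hx.1).2, mem_img_of_mem θ hx.2⟩)
    obtain ⟨x, hx, rfl⟩ := (h.hom.mono h1.1).mem_img.1 hy.2
    exact mem_img_of_mem θ ⟨h.hom.mem_pre.2 ⟨h1.1 hx, hy.1⟩, hx⟩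

theorem nh_fac (h : H14.Fus.Fac F E θ) {d : ℕ} (hn : NH F p (Nat.card (pre S θ ⊥) * d)) :
    NH E p d := by
  intro H' R' hHR hR' hc hN α' hα' hco hm y hy
  have hR : pre S θ R' ≤ S := pre_le _ _ _
  have hH : pre S θ H' ≤ S := pre_le _ _ _
  have hk := H14.Fus.ker_le_pre h.hom R'
  have := finite_autF_of_le F hR
  have hh := h.fHom.homOn_ind hR
  have e1 := h.img_ind_autF hR hk
  rw [h.img_pre hR'] at e1
  obtain ⟨α, hα, rfl⟩ := hh.mem_img.1 (e1 ▸ hα')
  obtain ⟨n, e2, hco'⟩ := exists_coprime_lift hh hα hco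
  have hβ := (AutF F _).pow_mem hα n
  have e3 := (h.fHom.ind_spec hR hβ).2
  rw [e2] at e3
  have := finite_of_le hH
  have hHR' := H14.Fus.pre_mono h.hom hHR
  have key := hn (pre S θ H') (pre S θ R') hHR' hR
    (by rw [H14.Fus.card_pre h.hom (h.img_eq ▸ hHR.trans hR'), hc])
    (fun g hg => H14.Fus.mem_normalizer_pre h.hom (hR hg) (hN (h.hom.mem_pre.1 hg).2))
    _ hβ hco' (((homOn_of_mem_autF hβ).mono hHR').maps_of_mem fun x hx =>
      h.hom.mem_pre.2 ⟨hR ((maps_of_mem_autF hβ).mem (hHR' hx)), by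
        rw [← e3 x (hHR' hx)]; exact hm.mem (h.hom.mem_pre.1 hx).2⟩)
  obtain ⟨x, hx, rfl⟩ := h.exists_pre hR' hy
  rw [e3 x hx, key x hx]

theorem nh_of (hS : IsPGroup p S) (hF : F.IsSaturated p) {d : ℕ}
    (h : ∀ H : Subgroup Ω, F.IsFullyNormalized H → Nat.card H = d →
      ∀ N : FusionSystem (normalizerIn S H), F.IsNormalizerSystem H N →
        ∀ P : Subgroup Ω, N.Hom P = (innerFusionSystem (normalizerIn S H)).Hom P) :
    NH F p d := by
  intro H R hHR hR hc hN α hα hco hm x hx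
  obtain ⟨Q, τ, hQ, h1, h2⟩ := exists_mor_normalizer' hS hF (hHR.trans hR)
  have hRN : R ≤ normalizerIn S H := fun g hg => ⟨hR hg, hN hg⟩
  have h3 := h1.iso_of_le hRN
  have hi := H14.Fus.hom_eq_inner_iff.1
    (h Q hQ (h2.card_eq ▸ hc) _ (isNormalizerSystem_nsys F Q hQ.1))
  have h4 := h3.conj_mem_autF hα
  have hQR : Q ≤ img τ R := h2.img_eq ▸ img_mono τ hHR
  have hRQ : img τ R ≤ normalizerIn S Q := img_le_iff.2 fun g hg =>
    h1.mem_normalizerIn (le_normalizerIn (hHR.trans hR)) h2.maps (hRN hg) (hN hg)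
  obtain ⟨s, hs, e⟩ := hi _ _ (mor_normalizer_of_le (isNormalizerSystem_nsys F Q hQ.1) hQR hRQ
    (iso_of_mem_autF h3.le' h4).mor ((h2.maps.mul hm).mul h2.maps.inv))
  obtain ⟨k, hk⟩ := isPGroup_iff_mem.1 hS s hs.1
  have e2 : ∀ j : ℕ, ∀ y ∈ R, τ ((α ^ j) y) = s ^ j * τ y * (s ^ j)⁻¹ := by
    intro j
    induction j with
    | zero => simp
    | succ j ih =>
      intro y hy
      have hy' := (maps_of_mem_autF ((AutF F R).pow_mem hα j)).mem hy
      have := e _ (h3.mem hy')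
      rw [mul_ap, mul_ap, inv_ap] at this
      rw [pow_succ', mul_ap, this, ih y hy, pow_succ']
      group
  have e3 : α ^ p ^ k = 1 := by
    refine perm_ext_on (fix_of_mem_autF ((AutF F R).pow_mem hα _)) (fun _ _ => rfl) fun y hy => ?_
    apply τ.injective
    rw [e2 _ y hy, hk]
    simp
  have e4 : α = 1 := orderOf_eq_one_iff.1 (Nat.eq_one_of_dvd_coprimes (hco.pow_right k) dvd_rfl
    (orderOf_dvd_of_pow_eq_one e3))
  rw [e4]; rfl

end

theorem hyp_bot (n : ℕ) : ∀ {Ω : Type u} [Group Ω] {S : Subgroup Ω} [Finite S]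
    (F : FusionSystem S) (k : ℕ), Nat.card S = n → IsPGroup p S → F.IsSaturated p →
    p ^ k < n → WH F (p ^ k) → NH F p (p ^ k) → F.hyperfocalSubgroup p = ⊥ := by
  induction n using Nat.strong_induction_on with
  | _ n ih =>
  intro Ω _ S _ F k hn hS hF hk hw hnh
  rcases Nat.eq_zero_or_pos k with rfl | hk0
  · refine le_bot_iff.1 (hyp_le_iff'.2 fun P hP α hα hco x hx => ?_)
    rw [hnh ⊥ P bot_le hP (by simp) (le_normalizer_iff.2 fun g _ y hy => by simp_all) α hα hco
      (((homOn_of_mem_autF hα).mono bot_le).maps_iff.2 (homOn_of_mem_autF hα).img_bot) x hx]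
    simp
  have hd1 : 1 < p ^ k := Nat.one_lt_pow hk0.ne' hp.out.one_lt
  set K := F.hyperfocalSubgroup p with hKdef
  have hKS : K ≤ S := hyp_le F p
  have := finite_of_le hKS
  have step1 : ∀ N : Subgroup Ω, F.StronglyClosed N → N ≠ ⊥ → Nat.card N ≤ p ^ k → K ≤ N := by
    intro N hN hne hc
    have := finite_of_le hN.1
    have : (N.subgroupOf S).Normal := (normal_subgroupOf_iff hN.1).2 (sc_le_normalizer hN)
    obtain ⟨E, hE⟩ := H14.Fus.exists_quot hS hF hN
    have hker := H14.Fus.ker_fn_mk N hN.1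
    obtain ⟨a, ha⟩ := IsPGroup.iff_card.1 (hS.to_le hN.1)
    rw [ha, Nat.pow_le_pow_iff_right hp.out.one_lt] at hc
    obtain ⟨b, rfl⟩ := Nat.exists_eq_add_of_le hc
    have h1 := hE.hom.card_eq_card_pre_bot_mul
    rw [hker, hE.img_eq, hn] at h1
    have h2 : 1 < Nat.card N := (Subgroup.one_lt_card_iff_ne_bot N).2 hne
    have h3 : 0 < Nat.card (⊤ : Subgroup (S ⧸ N.subgroupOf S)) := Nat.card_pos
    have h4 := ih _ (by rw [h1]; exact (Nat.lt_mul_iff_one_lt_left h3).2 h2) E b rfl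
      (hE.isPGroup hS) (hE.saturated hS hF)
      (by rw [h1, ha, pow_add] at hk; exact lt_of_mul_lt_mul_left hk (Nat.zero_le _))
      (wh_fac hE (by rwa [hker, ha, ← pow_add])) (nh_fac hE (by rwa [hker, ha, ← pow_add]))
    rw [← hE.img_hyp] at h4
    rw [← hker]
    exact (H14.Fus.le_pre_iff hE.hom hKS).2 h4.le
  have step2 : ∀ m, ∀ P : Subgroup Ω, Nat.card P = m → F.StronglyClosed P → P ≠ ⊥ → K ≤ P := by
    intro m
    induction m using Nat.strong_induction_on with
    | _ m ihm =>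
    intro N hm hN hne
    have := finite_of_le hN.1
    by_cases hc : Nat.card N ≤ p ^ k
    · exact step1 N hN hne hc
    push Not at hc
    obtain ⟨Q, -, hQN, hQc⟩ := exists_between (hS.to_le hN.1) (bot_le : ⊥ ≤ N) (k := k)
      (by simpa using hd1.le) hc.le
    have hQne : Q ≠ ⊥ := by rintro rfl; simp at hQc; omega
    have sub : ∀ T, F.StronglyClosed T → T ≠ ⊥ → T < N → K ≤ N := fun T hT h1 h2 =>
      (ihm _ (hm ▸ card_lt_of_lt h2) T rfl hT h1).trans h2.le
    have hQlt : Q < N := lt_of_le_of_ne hQN fun e => by rw [e] at hQc; omega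
    obtain ⟨P, h1, h2, h3⟩ := hw Q (hQN.trans hN.1) hQc
    by_cases hNP : N ≤ P
    · rw [inf_eq_left.2 (hQN.trans hNP)] at h3
      exact sub Q h3 hQne hQlt
    by_cases hPN : P ⊓ N = ⊥
    · refine sub Q ?_ hQne hQlt
      have h4 := sc_inf h2 hN
      convert h4 using 1
      refine le_antisymm (le_inf le_sup_left hQN) fun x hx => ?_
      obtain ⟨a, ha, b, hb, rfl⟩ := (mem_sup_of_normalizes
        ((hQN.trans hN.1).trans (sc_le_normalizer h1))).1 hx.1
      have h5 : b ∈ P ⊓ N := ⟨hb, (N.mul_mem_cancel_left (hQN ha)).1 hx.2⟩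
      rw [hPN, Subgroup.mem_bot] at h5
      rwa [h5, mul_one]
    · exact sub _ (sc_inf h1 hN) hPN (lt_of_le_of_ne inf_le_right fun e => hNP (e ▸ inf_le_left))
  have step3 : ∀ Q : Subgroup Ω, Q ≤ S → Nat.card Q = p ^ k → K ≤ Q ∨ Q ⊓ K = ⊥ := by
    intro Q hQ hc
    obtain ⟨P, h1, h2, h3⟩ := hw Q hQ hc
    by_cases h4 : Q ⊓ P = ⊥
    · by_cases h5 : P = ⊥
      · rw [h5, sup_bot_eq] at h2
        exact Or.inl (step2 _ Q rfl h2 (by rintro rfl; simp at hc; omega))
      · exact Or.inr (le_bot_iff.1 (h4 ▸ inf_le_inf_left Q (step2 _ P rfl h1 h5)))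
    · exact Or.inl ((step2 _ _ rfl h3 h4).trans inf_le_left)
  by_contra hKne
  have hKd : Nat.card K ≤ p ^ k := by
    by_contra hc
    push Not at hc
    obtain ⟨Q, -, hQN, hQc⟩ := exists_between (hS.to_le hKS) (bot_le : ⊥ ≤ K) (k := k)
      (by simpa using hd1.le) hc.le
    rcases step3 Q (hQN.trans hKS) hQc with h | h
    · have := finite_of_le hQN
      have := card_le_of_le h
      omega
    · rw [inf_eq_left.2 hQN] at h
      rw [h] at hQc; simp at hQc; omega
  have hKN : S ≤ Subgroup.normalizer (K : Set Ω) := le_normalizer_hyp F p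
  by_cases hKp : Nat.card K ≤ p
  · obtain ⟨z, hz, ho, hzc⟩ := exists_central_mem hS hKS hKne fun x hx g hg =>
      conj_mem_of_normalizer (hKN hg) hx
    have hzK : zpowers z = K := eq_of_le_of_card_le (Subgroup.zpowers_le.2 hz)
      (by rw [Nat.card_zpowers, ho]; exact hKp)
    have hCK : centralizerIn S K = S := le_antisymm (centralizerIn_le S K) fun s hs => ⟨hs, by
      rw [← hzK]
      rintro _ ⟨j, rfl⟩
      exact (Commute.zpow_left (hzc s hs).symm j).eq⟩
    have hfc : F.IsFullyCentralized K := fullyCentralized_iff.2 ⟨hKS, fun Q σ _ => by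
      rw [hCK]; exact card_le_of_le (centralizerIn_le S Q)⟩
    obtain ⟨H, hKH, hHS, hHc⟩ := exists_between hS hKS hKd (hn ▸ hk.le)
    have := finite_of_le hHS
    have fixK : ∀ γ ∈ AutF F K, (orderOf γ).Coprime p → ∀ x ∈ K, γ x = x := by
      intro γ hγ hco x hx
      obtain ⟨τ, h1, h2, -⟩ := receptive_extend_centralizer
        (receptive_of_fullyCentralized hS hF hfc) (iso_of_mem_autF hKS hγ)
      rw [hCK, sup_eq_right.2 hKS] at h1
      obtain ⟨β, hβ, hco', e⟩ := h1.iso_top.exists_coprime_ext hKS hγ h2 hco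
      have hm : Maps H H β := ((homOn_of_mem_autF hβ).mono hHS).maps_of_mem fun y hy => by
        have := H.mul_mem hy (hKH (mem_hyp' le_rfl hβ hco' (hHS hy)))
        rwa [mul_inv_cancel_left] at this
      have hi := (iso_of_mem_autF le_rfl hβ).restrict hHS hm
      have := hnh H H le_rfl hHS hHc Subgroup.le_normalizer _ hi.rs_mem
        (Nat.Coprime.coprime_dvd_left ((homOn_rs H).orderOf_dvd (mem_stab.2 hm)) hco')
        (maps_rs hm) x (hKH hx)
      rw [rs_apply hm (hKH hx), e x hx] at this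
      exact this
    refine hKne (le_bot_iff.1 (hyp_le_iff'.2 fun P hP α hα hco x hx => ?_))
    have h1 : ∀ y ∈ P, y⁻¹ * α y ∈ K := fun y hy => mem_hyp' hP hα hco hy
    by_cases hKP : K ≤ P
    · have hm : Maps K K α := sc_maps (sc_hyp hS hF) (iso_of_mem_autF hP hα).mor hKP
      have hi := (iso_of_mem_autF hP hα).restrict hKP hm
      rw [fix_of_fix_of_coprime (hS.to_le hP) hKP (homOn_of_mem_autF hα) (fun y hy => by
        rw [← rs_apply hm hy]
        exact fixK _ hi.rs_mem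
          (Nat.Coprime.coprime_dvd_left ((homOn_rs K).orderOf_dvd (mem_stab.2 hm)) hco) y hy)
        h1 hco (fun y _ => by rw [pow_orderOf_eq_one]; rfl) x hx]
      simp
    · by_contra hne
      obtain ⟨j, hj⟩ := H3.exists_pow_of_mem_zp (p := p) (z := z) (by rw [← ho, pow_orderOf_eq_one])
        (hzK ▸ h1 x hx) hne (mem_zpowers z)
      refine hKP (hzK ▸ Subgroup.zpowers_le.2 (hj ▸ P.pow_mem ?_ j))
      exact P.mul_mem (P.inv_mem hx) ((maps_of_mem_autF hα).mem hx)
  · push Not at hKp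
    have hKF : K ≤ (frattini S).map S.subtype := by
      intro x hx
      refine ⟨⟨x, hKS hx⟩, H3.mem_frattini_iff.2 fun M hM => ?_, rfl⟩
      set M' := M.map S.subtype with hM'
      have hM'S : M' ≤ S := Subgroup.map_subtype_le M
      have := finite_of_le hM'S
      have hMc : Nat.card M' * p = n := by
        rw [hM', Subgroup.card_map_of_injective S.subtype_injective, ← hn,
          ← H9.index_of_isCoatom hS hM, M.card_mul_index]
      have hrel : M'.relIndex S = p := by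
        rw [Subgroup.relIndex, hM', Subgroup.subgroupOf,
          Subgroup.comap_map_eq_self_of_injective S.subtype_injective]
        exact H9.index_of_isCoatom hS hM
      have h1 : p ^ k ≤ Nat.card M' := by
        obtain ⟨a, ha⟩ := IsPGroup.iff_card.1 (hS.to_le hM'S)
        rw [← hMc, ha, ← pow_succ, Nat.pow_lt_pow_iff_right hp.out.one_lt] at hk
        rw [ha]
        exact Nat.pow_le_pow_right hp.out.pos (by omega)
      have := finite_of_le (inf_le_right : M' ⊓ K ≤ K)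
      obtain ⟨Q, hQ1, hQ2, hQc⟩ := exists_between (hS.to_le hM'S) (inf_le_left : M' ⊓ K ≤ M')
        ((card_le_of_le inf_le_right).trans hKd) h1
      rcases step3 Q (hQ2.trans hM'S) hQc with h | h
      · obtain ⟨y, hy, e⟩ := hQ2 (h hx)
        rwa [show (⟨x, hKS hx⟩ : S) = y from Subtype.ext e.symm]
      · exfalso
        have h2 : M' ⊓ K = ⊥ := le_bot_iff.1 (h ▸ le_inf hQ1 inf_le_right)
        have h3 := card_mul_relIndex (inf_le_right : M' ⊓ K ≤ K)
        rw [Subgroup.inf_relIndex_right, h2, Subgroup.card_bot, one_mul] at h3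
        have h4 := Subgroup.relIndex_le_of_le_right hKS (hrel ▸ hp.out.ne_zero)
        omega
    exact hKne ((H14.Fus.isInner_of_foc_le_frattini hS hF (by
      rw [focal_eq hS hF]
      exact sup_le hKF (H14.Fus.comm_le_frattini hS))).hyp_eq_bot hS)

theorem main {Ω : Type u} [Group Ω] {S : Subgroup Ω} [Finite S] (hS : IsPGroup p S)
    (F : FusionSystem S) (hF : F.IsSaturated p) (hcard : p ^ 2 ≤ Nat.card S) :
    (∀ P : Subgroup Ω, F.Hom P = (innerFusionSystem S).Hom P) ↔ ∃ D : Subgroup Ω, ⊥ < D ∧ D < S ∧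
      WH F (Nat.card D) ∧ (∀ H : Subgroup Ω, F.IsFullyNormalized H → Nat.card H = Nat.card D →
        ∀ N : FusionSystem (normalizerIn S H), F.IsNormalizerSystem H N →
          ∀ P : Subgroup Ω, N.Hom P = (innerFusionSystem (normalizerIn S H)).Hom P) := by
  rw [H14.Fus.hom_eq_inner_iff]
  constructor
  · intro h
    have hb : (⊥ : Subgroup Ω) < S := bot_lt_iff_ne_bot.2 (by
      rintro rfl
      have := Nat.one_lt_pow (two_ne_zero) hp.out.one_lt
      rw [Subgroup.card_bot] at hcard; omega)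
    obtain ⟨M, -, hMS, -, hM, -⟩ := H14.Fus.exists_max_sub hS hb
    have hc := card_mul_relIndex hMS.le
    rw [hM] at hc
    refine ⟨M, bot_lt_iff_ne_bot.2 ?_, hMS, fun Q hQ hQc => ⟨⊥, sc_bot F, ?_, ?_⟩,
      fun H hH _ N hN => H14.Fus.hom_eq_inner_iff.2 fun P f hf => ?_⟩
    · rintro rfl
      rw [← hc, Subgroup.card_bot, one_mul] at hcard
      exact absurd hcard (not_le.2 (by
        simpa using Nat.pow_lt_pow_right hp.out.one_lt (show 1 < 2 by norm_num)))
    · rw [sup_bot_eq]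
      have h1 := card_mul_relIndex hQ
      rw [hQc, ← hc] at h1
      have := finite_of_le hMS.le
      have h2 : Q.relIndex S = p := Nat.eq_of_mul_eq_mul_left Nat.card_pos h1
      exact sc_of_normal (h.normal hQ ((normal_subgroupOf_iff hQ).1
        (H9.normal_of_index_eq_prime hS h2)))
    · rw [inf_bot_eq]; exact sc_bot F
    · obtain ⟨-, τ, h1, h2, h3⟩ := (mor_normalizer_iff hN).1 hf
      obtain ⟨s, hs, e⟩ := h _ _ h1
      have := finite_of_le hH.1
      refine ⟨s, ⟨hs, normalizer_of_finite fun x hx => ?_⟩, fun x hx => ?_⟩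
      · rw [← e x (Subgroup.mem_sup_right hx)]; exact h3.mem hx
      · rw [← h2 x hx, e x (Subgroup.mem_sup_left hx)]
  · rintro ⟨D, -, hD, h1, h2⟩
    have := finite_of_le hD.le
    obtain ⟨k, hk⟩ := IsPGroup.iff_card.1 (hS.to_le hD.le)
    have h3 := card_lt_of_lt hD
    rw [hk] at h1 h2 h3
    exact H14.Fus.isInner_of_hyp_bot hS hF (hyp_bot _ F k rfl hS hF h3 h1 (nh_of hS hF h2))

end H18.FZ
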