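import Cfsg.Agent.H5.CoresOf
import Cfsg.Agent.H1.HallTop
import Cfsg.Agent.H10.Act
import Cfsg.Agent.H6.Count
import Cfsg.Agent.H6.Inv2

/-! A coprime operator of prime order centralizing an involution centralizer: basic lemmas. -/

set_option autoImplicit false
open Cfsg Subgroup
open H10 (IsSylowIn)

namespace H18.Ga

variable {G : Type*} [Group G]

/-- `a` has odd prime order `r`, `K` is a normal `r`-complement, and `a` centralizes the
centralizer of the involution `s`. -/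
structure Hy (r : ℕ) (K : Subgroup G) (a s : G) : Prop where
  pr : r.Prime
  odd : r ≠ 2
  nK : K.Normal
  oa : orderOf a = r
  cop : ¬ r ∣ Nat.card K
  gen : ∀ g : G, ∃ i : ℕ, g * (a ^ i)⁻¹ ∈ K
  os : orderOf s = 2
  cen : ∀ g : G, Commute g s → Commute g a

theorem commute_conj_iff {x y : G} (g : G) : Commute (g * x * g⁻¹) (g * y * g⁻¹) ↔ Commute x y := by
  constructor
  · intro h
    have := h.map (MulAut.conj g⁻¹).toMonoidHom
    simpa [mul_assoc] using this
  · intro h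
    have := h.map (MulAut.conj g).toMonoidHom
    simpa using this

namespace Hy

variable {r : ℕ} {K : Subgroup G} {a s : G}

theorem conj (h : Hy r K a s) (g : G) : Hy r K (g * a * g⁻¹) (g * s * g⁻¹) where
  pr := h.pr
  odd := h.odd
  nK := h.nK
  oa := by rw [H6.orderOf_conj', h.oa]
  cop := h.cop
  gen := fun x => by
    obtain ⟨i, hi⟩ := h.gen (g⁻¹ * x * g)
    refine ⟨i, ?_⟩
    have := h.nK.conj_mem _ hi g
    rw [conj_pow]
    convert this using 1
    group
  os := H6.ord2_conj h.os g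
  cen := fun x hx => by
    have h1 : Commute (g⁻¹ * x * g⁻¹⁻¹) s := by
      rw [← commute_conj_iff g]
      convert hx using 1
      group
    have := (commute_conj_iff g).2 (h.cen _ h1)
    convert this using 1
    group

theorem mk_eq (h : Hy r K a s) (g : G) :
    ∃ i : ℕ, (haveI := h.nK; QuotientGroup.mk' K g = QuotientGroup.mk' K a ^ i) := by
  have := h.nK
  obtain ⟨i, hi⟩ := h.gen g
  refine ⟨i, ?_⟩
  rw [← map_pow, ← mul_inv_eq_one, ← map_inv, ← map_mul, QuotientGroup.mk'_apply,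
    QuotientGroup.eq_one_iff]
  exact hi

theorem comm_mem (h : Hy r K a s) (x y : G) : x * y * x⁻¹ * y⁻¹ ∈ K := by
  have := h.nK
  obtain ⟨i, hi⟩ := h.mk_eq x
  obtain ⟨j, hj⟩ := h.mk_eq y
  rw [← QuotientGroup.eq_one_iff, ← QuotientGroup.mk'_apply]
  simp only [map_mul, map_inv, hi, hj]
  rw [(Commute.pow_pow_self _ i j).eq, mul_inv_cancel_right, mul_inv_cancel]

variable [Finite G]

theorem eq_one_of_mem (h : Hy r K a s) {x : G} (hx : x ∈ zpowers a) (hK : x ∈ K) : x = 1 := by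
  have h1 : orderOf x ∣ r := by
    rw [← h.oa]; exact orderOf_dvd_of_mem_zpowers hx
  have h2 : orderOf x ∣ Nat.card K := K.orderOf_dvd_natCard hK
  rcases (Nat.dvd_prime h.pr).1 h1 with e | e
  · exact orderOf_eq_one_iff.1 e
  · exact absurd (e ▸ h2) h.cop

theorem eq_of_mem_zpowers (h : Hy r K a s) {b : G} (hb : IsConj a b) (hz : b ∈ zpowers a) :
    b = a := by
  obtain ⟨g, rfl⟩ := isConj_iff.1 hb
  rw [← mul_inv_eq_one]
  exact h.eq_one_of_mem (mul_mem hz (inv_mem (mem_zpowers a))) (h.comm_mem g a)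

theorem index_dvd (h : Hy r K a s) : K.index ∣ r := by
  have := h.nK
  have h1 : zpowers (QuotientGroup.mk' K a) = ⊤ := by
    rw [eq_top_iff]
    intro q _
    obtain ⟨g, rfl⟩ := QuotientGroup.mk'_surjective K q
    obtain ⟨i, hi⟩ := h.mk_eq g
    rw [hi]
    exact pow_mem (mem_zpowers _) i
  rw [Subgroup.index, ← card_top, ← h1, Nat.card_zpowers, ← h.oa]
  exact orderOf_map_dvd _ _

theorem isSylowIn (h : Hy r K a s) {N : Subgroup G} (ha : a ∈ N) : IsSylowIn r (zpowers a) N := by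
  have : Fact r.Prime := ⟨h.pr⟩
  refine H10.isSylowIn_of_not_dvd (zpowers_le.2 ha) (H10.isPGroup_zpowers_of_orderOf_eq h.oa)
    fun hd => h.cop ?_
  have h1 := H10.card_mul_relIndex (zpowers_le.2 ha)
  rw [Nat.card_zpowers, h.oa] at h1
  have h2 : r * r ∣ Nat.card K * r := by
    refine ((Nat.mul_dvd_mul_left r hd).trans ?_).trans (Nat.mul_dvd_mul_left _ h.index_dvd)
    rw [h1, K.card_mul_index]
    exact N.card_subgroup_dvd_card
  exact Nat.dvd_of_mul_dvd_mul_right h.pr.pos h2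

/-- Conjugates of `a` in a subgroup are conjugate inside it. -/
theorem exists_conj (h : Hy r K a s) {N : Subgroup G} {b c : G} (hb : IsConj a b) (hc : IsConj a c)
    (hbN : b ∈ N) (hcN : c ∈ N) : ∃ x ∈ N, x * b * x⁻¹ = c := by
  have : Fact r.Prime := ⟨h.pr⟩
  obtain ⟨g, rfl⟩ := isConj_iff.1 hb
  obtain ⟨u, rfl⟩ := isConj_iff.1 hc
  obtain ⟨x, hx, e⟩ := ((h.conj g).isSylowIn hbN).exists_cj ((h.conj u).isSylowIn hcN)
  refine ⟨x, hx, (h.conj u).eq_of_mem_zpowers ?_ (e ▸ H10.conj_mem_cj (mem_zpowers _))⟩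
  exact hc.symm.trans (hb.trans (isConj_iff.2 ⟨x, rfl⟩))

theorem eq_of_commute (h : Hy r K a s) {b : G} (hb : IsConj a b) (hc : Commute a b) : b = a := by
  obtain ⟨x, hx, e⟩ := h.exists_conj (N := centralizer {a}) (IsConj.refl a) hb
    (mem_centralizer_singleton_iff.2 rfl) (mem_centralizer_singleton_iff.2 hc.symm)
  rw [← e, mem_centralizer_singleton_iff.1 hx, mul_inv_cancel_right]

theorem uniq (h : Hy r K a s) {b : G} (hb : IsConj a b) (hc : Commute b s) : b = a :=
  h.eq_of_commute hb (h.cen b hc).symm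

theorem commute_as (h : Hy r K a s) : Commute s a := h.cen s (Commute.refl s)

theorem commute_of_two (h : Hy r K a s) {R : Subgroup G} (hR : IsPGroup 2 R) (hs : s ∈ R) {x : G}
    (hx : x ∈ R) : Commute x a := by
  by_contra hn
  have hlt : R ⊓ centralizer {a} < R := lt_of_le_of_ne inf_le_left fun e =>
    hn (mem_centralizer_singleton_iff.1 ((inf_eq_left.1 e) hx))
  obtain ⟨g, ⟨hg1, hg2⟩, hg3⟩ := SetLike.exists_of_lt (H10.lt_inf_NN hR hlt)
  refine hg3 ⟨hg1, mem_centralizer_singleton_iff.2 ?_⟩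
  have h1 : g * s * g⁻¹ ∈ R ⊓ centralizer {a} :=
    (mem_normalizer_iff.1 hg2 s).1 ⟨hs, mem_centralizer_singleton_iff.2 h.commute_as⟩
  have h2 := (h.conj g).uniq (isConj_iff.2 ⟨g, rfl⟩ : IsConj a _).symm
    (Commute.symm (mem_centralizer_singleton_iff.1 h1.2))
  exact mul_inv_eq_iff_eq_mul.1 h2.symm

theorem mem_of_two (h : Hy r K a s) {x : G} (hx : x * x = 1) : x ∈ K := by
  have := h.nK
  have h1 : orderOf (QuotientGroup.mk' K x) ∣ 2 := orderOf_dvd_of_pow_eq_one
    (by rw [← map_pow, pow_two, hx, map_one])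
  have h2 : orderOf (QuotientGroup.mk' K x) ∣ r := (_root_.orderOf_dvd_natCard _).trans h.index_dvd
  have h3 := Nat.dvd_gcd h1 h2
  rw [(Nat.coprime_primes Nat.prime_two h.pr).2 h.odd.symm, Nat.dvd_one, orderOf_eq_one_iff] at h3
  exact (QuotientGroup.eq_one_iff x).1 h3

/-- A subgroup containing `s` and a conjugate `b` of `a` conjugates `a` to `b`. -/
theorem exists_conj' (h : Hy r K a s) {N : Subgroup G} {b : G} (hb : IsConj a b) (hbN : b ∈ N)
    (hs : s ∈ N) : ∃ g ∈ N, g * a * g⁻¹ = b := by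
  have := h.nK
  obtain ⟨u, rfl⟩ := isConj_iff.1 hb
  have h1 : zpowers (u * a * u⁻¹) ≤ normalizer ((N ⊓ K : Subgroup G) : Set G) :=
    (zpowers_le.2 hbN).trans (H1.le_normalizer_inf le_normalizer le_normalizer_of_normal)
  obtain ⟨P, hP, hn⟩ := H1.exists_invariant_sylowOf 2 h1 (by
    rw [Nat.card_zpowers, (h.conj u).oa]
    exact (Nat.Prime.coprime_iff_not_dvd h.pr).2 fun hd =>
      h.cop (hd.trans (card_dvd_of_le inf_le_right))) (Or.inl inferInstance)
  obtain ⟨p1, p2, p3⟩ := H1.isPiHallOf_singleton_iff.1 hP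
  obtain ⟨g, hg, hle⟩ := (H10.isSylowIn_of_not_dvd p1 p2 p3).exists_cj_le
    (H10.isPGroup_zpowers_of_orderOf_eq h.os)
    (zpowers_le.2 ⟨hs, h.mem_of_two (H6.ord2_mul_self h.os)⟩)
  have h2 : g * s * g⁻¹ ∈ P := hle (H10.conj_mem_cj (mem_zpowers s))
  have h3 := (mem_normalizer_iff.1 (hn (mem_zpowers _)) _).1 h2
  have h4 := (h.conj g).commute_of_two p2 h2 h3
  have h5 := ((h.conj g).conj (u * a * u⁻¹)).uniq (isConj_iff.2 ⟨_, rfl⟩ : IsConj _ _).symm h4.symm
  refine ⟨g, hg.1, ((h.conj g).eq_of_commute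
    ((isConj_iff.2 ⟨g, rfl⟩ : IsConj a _).symm.trans hb) ?_).symm⟩
  exact (mul_inv_eq_iff_eq_mul.1 h5.symm).symm

/-- An element inverted by `s` and centralizing a conjugate of `a` centralizes `a`. -/
theorem commute_of_inv (h : Hy r K a s) {x b : G} (hx : s * x * s⁻¹ = x⁻¹) (hb : IsConj a b)
    (hc : Commute b x) : Commute a x := by
  obtain ⟨g, hg, e⟩ := h.exists_conj' (N := normalizer (zpowers x : Set G)) hb
    (centralizer_le_normalizer _ (mem_centralizer_iff.2 fun y hy => by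
      obtain ⟨k, rfl⟩ := hy
      exact (hc.zpow_right k).symm.eq))
    (H10.mem_NN_of_conj_mem fun y hy => by
      obtain ⟨k, rfl⟩ := hy
      rw [H6.conj_zpow_of_inverts hx]
      exact inv_mem (zpow_mem (mem_zpowers x) k))
  obtain ⟨k, hk⟩ := (mem_normalizer_iff.1 hg x).1 (mem_zpowers x)
  rw [← commute_conj_iff g, e, ← hk]
  exact hc.zpow_right k

omit [Finite G] in
theorem sub (h : Hy r K a s) {N : Subgroup G} (ha : a ∈ N) (hs : s ∈ N) :
    Hy r (K.subgroupOf N) (⟨a, ha⟩ : N) ⟨s, hs⟩ where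
  pr := h.pr
  odd := h.odd
  nK := h.nK.subgroupOf N
  oa := by rw [← h.oa, ← orderOf_coe]
  cop := fun hd => h.cop (hd.trans (card_comap_dvd_of_injective K N.subtype N.subtype_injective))
  gen := fun g => h.gen g
  os := by rw [← h.os, ← orderOf_coe]
  cen := fun g hg => Subtype.ext (h.cen g (congrArg Subtype.val hg.eq))

omit [Finite G] in
theorem quot (h : Hy r K a s) {Q : Type*} [Group Q] (f : G →* Q) (hf : Function.Surjective f)
    (ha : f a ≠ 1) (hs : f s ≠ 1) (hc : ∀ g, Commute (f g) (f s) → Commute (f g) (f a)) :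
    Hy r (K.map f) (f a) (f s) where
  pr := h.pr
  odd := h.odd
  nK := h.nK.map f hf
  oa := by
    have : Fact r.Prime := ⟨h.pr⟩
    exact orderOf_eq_prime (by rw [← map_pow, ← h.oa, pow_orderOf_eq_one, map_one]) ha
  cop := fun hd => h.cop (hd.trans (card_map_dvd K f))
  gen := fun q => by
    obtain ⟨g, rfl⟩ := hf q
    obtain ⟨i, hi⟩ := h.gen g
    exact ⟨i, by simpa using mem_map_of_mem f hi⟩
  os := H6.ord2_of (by rw [← map_mul, H6.ord2_mul_self h.os, map_one]) hs
  cen := fun q => by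
    obtain ⟨g, rfl⟩ := hf q
    exact hc g

end Hy

end H18.Ga
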