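import Cfsg.Agent.H18.Ga1
import Cfsg.Agent.H19.Kern

/-! A coprime operator centralizing an involution centralizer: the counting argument. -/

set_option autoImplicit false
open Cfsg Subgroup Finset
open H10 (IsSylowIn)
open H19 (ppart rpart)
open scoped Classical

namespace H18.Ga

theorem cls_sum {α : Type*} (T : Finset α) (κ : α → Finset α) (h1 : ∀ x ∈ T, x ∈ κ x)
    (h2 : ∀ x ∈ T, κ x ⊆ T) (h3 : ∀ x ∈ T, ∀ y ∈ κ x, κ y = κ x) {M : Type*} [AddCommMonoid M]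
    (F : α → M) : ∑ x ∈ T, F x = ∑ c ∈ T.image κ, ∑ x ∈ c, F x := by
  rw [← sum_fiberwise_of_maps_to (fun x hx => mem_image_of_mem κ hx)]
  refine sum_congr rfl fun c hc => sum_congr ?_ fun _ _ => rfl
  obtain ⟨y, hy, rfl⟩ := mem_image.1 hc
  ext x
  rw [mem_filter]
  exact ⟨fun h => h.2 ▸ h1 x h.1, fun h => ⟨h2 y hy h, h3 y hy x h⟩⟩

theorem cls_eq {α : Type*} (T : Finset α) (κ : α → Finset α) (h1 : ∀ x ∈ T, x ∈ κ x)
    (h2 : ∀ x ∈ T, κ x ⊆ T) (h3 : ∀ x ∈ T, ∀ y ∈ κ x, κ y = κ x) (p : α → Prop) {m n : ℕ}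
    (hle : ∀ x ∈ T, #(κ x) * m ≤ n * #((κ x).filter p)) (heq : #T * m = n * #(T.filter p)) :
    ∀ x ∈ T, #(κ x) * m = n * #((κ x).filter p) := by
  have e1 : #T * m = ∑ c ∈ T.image κ, #c * m := by
    rw [← sum_mul, card_eq_sum_ones, cls_sum T κ h1 h2 h3]
    simp
  have e2 : n * #(T.filter p) = ∑ c ∈ T.image κ, n * #(c.filter p) := by
    rw [← mul_sum, card_filter, cls_sum T κ h1 h2 h3]
    simp only [card_filter]
  have := (sum_eq_sum_iff_of_le (s := T.image κ) (f := fun c => #c * m)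
    (g := fun c => n * #(c.filter p)) fun c hc => by
      obtain ⟨y, hy, rfl⟩ := mem_image.1 hc
      exact hle y hy).1 (by rw [← e1, ← e2, heq])
  exact fun x hx => this _ (mem_image_of_mem κ hx)

theorem cls_sum_eq {α : Type*} (T : Finset α) (κ : α → Finset α) (h1 : ∀ x ∈ T, x ∈ κ x)
    (h2 : ∀ x ∈ T, κ x ⊆ T) (h3 : ∀ x ∈ T, ∀ y ∈ κ x, κ y = κ x) (p : α → Prop) {m n : ℕ}
    (he : ∀ x ∈ T, #(κ x) * m = n * #((κ x).filter p)) (F : α → ℂ)
    (hF : ∀ x ∈ T, ∀ y ∈ κ x, F y = F x) :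
    m * ∑ x ∈ T, F x = n * ∑ x ∈ T.filter p, F x := by
  rw [sum_filter, cls_sum T κ h1 h2 h3, cls_sum T κ h1 h2 h3, mul_sum, mul_sum]
  refine sum_congr rfl fun c hc => ?_
  obtain ⟨y, hy, rfl⟩ := mem_image.1 hc
  rw [← sum_filter, sum_congr rfl (hF y hy),
    sum_congr rfl fun x hx => hF y hy x (mem_filter.1 hx).1, sum_const, sum_const, nsmul_eq_mul,
    nsmul_eq_mul, ← mul_assoc, ← mul_assoc]
  congr 1
  exact_mod_cast (mul_comm _ _).trans (he y hy)

variable {G : Type*} [Group G]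

theorem card_filter_conj {c : Finset G} {u : G} (hc : ∀ x ∈ c, u * x * u⁻¹ ∈ c)
    (hc' : ∀ x ∈ c, u⁻¹ * x * u ∈ c) (b : G) :
    #(c.filter fun x => Commute x (u * b * u⁻¹)) = #(c.filter fun x => Commute x b) := by
  symm
  refine card_nbij' (fun x => u * x * u⁻¹) (fun x => u⁻¹ * x * u) (fun x hx => ?_) (fun x hx => ?_)
    (fun x _ => by simp [mul_assoc]) (fun x _ => by simp [mul_assoc])
  · simp only [coe_filter, Set.mem_setOf_eq] at hx ⊢
    exact ⟨hc x hx.1, (commute_conj_iff u).2 hx.2⟩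
  · simp only [coe_filter, Set.mem_setOf_eq] at hx ⊢
    refine ⟨hc' x hx.1, (commute_conj_iff u).1 ?_⟩
    simpa [mul_assoc] using hx.2

/-- The odd core of the normalizer of `⟨v⟩`. -/
def W (v : G) : Subgroup G :=
  H5.oppOf 2 (normalizer (zpowers v : Set G)) ⊓ centralizer (zpowers v : Set G)

theorem W_comm {v w : G} (hw : w ∈ W v) : Commute w v :=
  (mem_centralizer_iff.1 hw.2 v (mem_zpowers v)).symm

theorem le_norm_W (v : G) : normalizer (zpowers v : Set G) ≤ normalizer (W v : Set G) :=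
  H1.le_normalizer_inf (H5.self_le_normalizer_oppOf 2 _) (H10.NN_le_NN_CC _)

theorem mem_norm_of_comm {v x : G} (h : Commute x v) : x ∈ normalizer (zpowers v : Set G) :=
  centralizer_le_normalizer _ (mem_centralizer_iff.2 fun y hy => by
    obtain ⟨k, rfl⟩ := hy
    exact (h.zpow_right k).symm.eq)

theorem mul_pow_mem {N : Subgroup G} {y w : G} (hy : y ∈ normalizer (N : Set G)) (hw : w ∈ N)
    (n : ℕ) : (y ^ n)⁻¹ * (y * w) ^ n ∈ N := by
  induction n with
  | zero => simp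
  | succ n ih =>
    have := mul_mem ((mem_normalizer_iff.1 (inv_mem hy) _).1 ih) hw
    convert this using 1
    rw [pow_succ, pow_succ]
    group

variable [Finite G]

theorem mem_norm_of_inv {v x : G} (h : x * v * x⁻¹ = v⁻¹) : x ∈ normalizer (zpowers v : Set G) :=
  H10.mem_NN_of_conj_mem fun y hy => by
    obtain ⟨k, rfl⟩ := hy
    rw [H6.conj_zpow_of_inverts h]
    exact inv_mem (zpow_mem (mem_zpowers v) k)

theorem odd_W (v : G) : ¬ 2 ∣ Nat.card (W v) := fun h =>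
  H5.not_dvd_card_oppOf Nat.prime_two _ (h.trans (card_dvd_of_le inf_le_left))

theorem odd_mul {N : Subgroup G} (hN : ¬ 2 ∣ Nat.card N) {y w : G}
    (hy : y ∈ normalizer (N : Set G)) (hw : w ∈ N) (ho : ¬ 2 ∣ orderOf y) :
    ¬ 2 ∣ orderOf (y * w) := fun h => by
  have h1 := mul_pow_mem hy hw (orderOf y)
  rw [pow_orderOf_eq_one, inv_one, one_mul] at h1
  have h2 : (y * w) ^ (orderOf y * Nat.card N) = 1 := by
    rw [pow_mul]
    exact orderOf_dvd_iff_pow_eq_one.1 (N.orderOf_dvd_natCard h1)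
  rcases (Nat.Prime.dvd_mul Nat.prime_two).1 (h.trans (orderOf_dvd_of_pow_eq_one h2)) with e | e
  exacts [ho e, hN e]

theorem odd_rpart_mul {g w : G} (hw : w ∈ W (ppart 2 g)) : ¬ 2 ∣ orderOf (rpart 2 g * w) :=
  odd_mul (odd_W _) (le_norm_W _ (mem_norm_of_comm (H19.commute_ppart_rpart g).symm)) hw
    (H19.rpart_reg g)

theorem ppart_mul_W {g w : G} (hw : w ∈ W (ppart 2 g)) : ppart 2 (g * w) = ppart 2 g := by
  conv_lhs => rw [← H19.ppart_mul_rpart (p := 2) g, mul_assoc]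
  exact H19.ppart_mul (H19.ppart_isPElt g) (odd_rpart_mul hw)
    ((H19.commute_ppart_rpart g).mul_right (W_comm hw).symm)

/-- Data of a minimal counterexample. -/
structure Mn (r : ℕ) (K : Subgroup G) : Prop where
  ih : ∀ a s : G, Hy r K a s → ∀ N : Subgroup G, N ≠ ⊤ → a ∈ N → s ∈ N → a ∈ H5.oppOf 2 N
  core : pPrimeCore 2 G = ⊥
  cz : ∀ z : G, orderOf z = 2 → z ∉ center G

variable {r : ℕ} {K : Subgroup G} {a s t : G}

theorem inv_part (hs : orderOf s = 2) (ht : orderOf t = 2) {x : G} (hx : x ∈ zpowers (s * t)) :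
    s * x * s⁻¹ = x⁻¹ ∧ t * x * t⁻¹ = x⁻¹ := by
  obtain ⟨k, rfl⟩ := hx
  exact ⟨H6.conj_zpow_of_inverts (H6.inv_conj_mul (H6.ord2_mul_self hs) (H6.ord2_mul_self ht)) k,
    H6.conj_zpow_of_inverts (H6.inv_conj_mul' (H6.ord2_mul_self hs) (H6.ord2_mul_self ht)) k⟩

theorem ppart_mem (g : G) : ppart 2 g ∈ zpowers g := H19.isPPart_mem_zpowers (H19.isPPart_ppart g)

theorem Hy.commute_ppart (h : Hy r K a s) (ht : orderOf t = 2) : Commute (ppart 2 (s * t)) a := by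
  have h1 : zpowers s ≤ normalizer (zpowers (ppart 2 (s * t)) : Set G) :=
    zpowers_le.2 (mem_norm_of_inv (inv_part h.os ht (ppart_mem _)).1)
  obtain ⟨k, hk⟩ := H19.ppart_isPElt (p := 2) (s * t)
  exact h.commute_of_two (R := zpowers s ⊔ zpowers (ppart 2 (s * t)))
    (IsPGroup.to_sup_of_normal_right' (H10.isPGroup_zpowers_of_orderOf_eq h.os)
      (H10.isPGroup_zpowers_of_orderOf hk) h1) (mem_sup_left (mem_zpowers s))
    (mem_sup_right (mem_zpowers _))

theorem Mn.mem_W (M : Mn r K) (h : Hy r K a s) (ht : orderOf t = 2) (hn : ¬ IsConj s t) :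
    a ∈ W (ppart 2 (s * t)) := by
  have hc := h.commute_ppart ht
  refine ⟨M.ih a s h _ (fun e => ?_) (mem_norm_of_comm hc.symm)
    (mem_norm_of_inv (inv_part h.os ht (ppart_mem _)).1), mem_centralizer_iff.2 fun y hy => ?_⟩
  · have he : Even (orderOf (ppart 2 (s * t))) := by
      obtain ⟨k, hk⟩ := H19.ppart_isPElt (p := 2) (s * t)
      rcases k with _ | k
      · refine absurd (H6.isConj_of_odd (H6.ord2_mul_self h.os) (H6.ord2_mul_self ht) ?_) hn
        have := (H19.isPPart_eq_one_iff (H19.isPPart_ppart (p := 2) (s * t))).1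
          (orderOf_eq_one_iff.1 hk)
        exact Nat.odd_iff.2 (by omega)
      · rw [hk, pow_succ]; exact even_iff_two_dvd.2 (Dvd.intro_left _ rfl)
    have hz := H6.ord2_pow_half (orderOf_pos _).ne' he
    refine M.cz _ hz (mem_center_iff.2 fun g => ?_)
    have hg : g ∈ normalizer (zpowers (ppart 2 (s * t)) : Set G) := e ▸ mem_top g
    have := H6.ord2_unique_zpowers ((mem_normalizer_iff.1 hg _).1 (pow_mem (mem_zpowers _) _))
      (pow_mem (mem_zpowers _) _) (H6.ord2_conj hz g) hz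
    exact mul_inv_eq_iff_eq_mul.1 this
  · obtain ⟨k, rfl⟩ := hy
    exact (hc.zpow_left k).eq

theorem exists_decomp (hs : orderOf s = 2) (ht : orderOf t = 2) :
    ∃ u, Commute u (ppart 2 (s * t)) ∧ t = u * s * u⁻¹ * ppart 2 (s * t) := by
  have hw : rpart 2 (s * t) ∈ zpowers (s * t) := mul_mem (inv_mem (ppart_mem _)) (mem_zpowers _)
  obtain ⟨m, hm⟩ := H6.exists_sq_pow_of_odd (x := rpart 2 (s * t))
    (Nat.odd_iff.2 (by have := H19.rpart_reg (p := 2) (s * t); omega))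
  have hc := H19.commute_ppart_rpart (p := 2) (s * t)
  refine ⟨(rpart 2 (s * t) ^ m)⁻¹, (hc.symm.pow_left m).inv_left, ?_⟩
  rw [← (inv_part hs ht (pow_mem hw m)).1, mul_inv_rev, mul_inv_rev, inv_inv]
  have e : s * rpart 2 (s * t) ^ m * s⁻¹ * s * (s * ((rpart 2 (s * t) ^ m)⁻¹ * s⁻¹)) =
      s * rpart 2 (s * t) ^ m * (s * (rpart 2 (s * t) ^ m)⁻¹ * s⁻¹) := by group
  rw [e, (inv_part hs ht (inv_mem (pow_mem hw m))).1, inv_inv, mul_assoc s, hm, mul_assoc,
    ← hc.eq, H19.ppart_mul_rpart, H6.ord2_mul_mul hs]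

variable [Fintype G]

/-- The orbit of `t` under the core attached to `s * t`. -/
noncomputable def cl (s t : G) : Finset G :=
  univ.filter fun x => ∃ w ∈ W (ppart 2 (s * t)), w * t * w⁻¹ = x

theorem mem_cl {x : G} : x ∈ cl s t ↔ ∃ w ∈ W (ppart 2 (s * t)), w * t * w⁻¹ = x := by
  simp [cl]

theorem self_mem_cl : t ∈ cl s t := mem_cl.2 ⟨1, one_mem _, by simp⟩

theorem conj_mem_cl {x u : G} (hx : x ∈ cl s t) (hu : u ∈ W (ppart 2 (s * t))) :
    u * x * u⁻¹ ∈ cl s t := by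
  obtain ⟨w, hw, rfl⟩ := mem_cl.1 hx
  exact mem_cl.2 ⟨u * w, mul_mem hu hw, by group⟩

theorem exists_of_mem_cl (hs : orderOf s = 2) (ht : orderOf t = 2) {x : G} (hx : x ∈ cl s t) :
    ∃ w ∈ W (ppart 2 (s * t)), x = t * w := by
  obtain ⟨w, hw, rfl⟩ := mem_cl.1 hx
  have := (mem_normalizer_iff.1 (inv_mem (le_norm_W _
    (mem_norm_of_inv (inv_part hs ht (ppart_mem _)).2))) w).1 hw
  exact ⟨_, mul_mem this (inv_mem hw), by group⟩

theorem ppart_of_mem_cl (hs : orderOf s = 2) (ht : orderOf t = 2) {x : G} (hx : x ∈ cl s t) :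
    ppart 2 (s * x) = ppart 2 (s * t) := by
  obtain ⟨w, hw, rfl⟩ := exists_of_mem_cl hs ht hx
  rw [← mul_assoc, ppart_mul_W hw]

theorem cl_eq (hs : orderOf s = 2) (ht : orderOf t = 2) {x : G} (hx : x ∈ cl s t) :
    cl s x = cl s t := by
  have e := ppart_of_mem_cl hs ht hx
  obtain ⟨w, hw, rfl⟩ := mem_cl.1 hx
  ext y
  simp only [mem_cl, e]
  exact ⟨fun ⟨u, hu, h⟩ => ⟨u * w, mul_mem hu hw, by rw [← h]; group⟩,
    fun ⟨u, hu, h⟩ => ⟨u * w⁻¹, mul_mem hu (inv_mem hw), by rw [← h]; group⟩⟩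

/-- The conjugacy class as a finite set. -/
noncomputable def cc (a : G) : Finset G := univ.filter fun x => IsConj a x

theorem mem_cc {x : G} : x ∈ cc a ↔ IsConj a x := by simp only [cc, mem_filter, mem_univ, true_and]

theorem conj_mem_cc {x : G} (hx : x ∈ cc a) (u : G) : u * x * u⁻¹ ∈ cc a :=
  mem_cc.2 ((mem_cc.1 hx).trans (isConj_iff.2 ⟨u, rfl⟩))

theorem conj_mem_cc' {x : G} (hx : x ∈ cc a) (u : G) : u⁻¹ * x * u ∈ cc a := by
  simpa using conj_mem_cc hx u⁻¹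

theorem card_fix {x : G} (hx : x ∈ cc t) :
    #((cc a).filter fun b => Commute b x) = #((cc a).filter fun b => Commute b t) := by
  obtain ⟨u, rfl⟩ := isConj_iff.1 (mem_cc.1 hx)
  exact card_filter_conj (fun _ h => conj_mem_cc h u) (fun _ h => conj_mem_cc' h u) t

theorem total_eq (a t : G) : #(cc t) * #((cc a).filter fun b => Commute b t) =
    #(cc a) * #((cc t).filter fun x => Commute x a) := by
  refine card_mul_eq_card_mul (fun x b => Commute b x) (fun x hx => card_fix hx) fun b hb => ?_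
  rw [← card_fix hb]
  exact congrArg card (filter_congr fun _ _ => Commute.symm_iff)

theorem Mn.cl_le (M : Mn r K) (h : Hy r K a s) (ht : orderOf t = 2) (hn : ¬ IsConj s t) :
    #(cl s t) * #((cc a).filter fun b => Commute b t) ≤
      #(cc a) * #((cl s t).filter fun x => Commute x a) := by
  refine card_mul_le_card_mul (fun x b => Commute b x) (fun x hx => ?_) fun Q hQ => ?_
  · obtain ⟨w, -, rfl⟩ := mem_cl.1 hx
    exact (card_fix (mem_cc.2 (isConj_iff.2 ⟨w, rfl⟩))).ge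
  rcases ((cl s t).bipartiteBelow (fun x b => Commute b x) Q).eq_empty_or_nonempty with e | ⟨x, hx⟩
  · rw [e]; simp
  obtain ⟨hx1, hx2⟩ := mem_filter.1 hx
  obtain ⟨w, hw, rfl⟩ := mem_cl.1 hx1
  obtain ⟨u, hu, e⟩ := exists_decomp h.os ht
  have ha := M.mem_W h ht hn
  have h' := h.conj (w * u)
  have hc : Commute (w * u) (ppart 2 (s * t)) := (W_comm hw).mul_left hu
  have hP : w * u * a * (w * u)⁻¹ ∈ W (ppart 2 (s * t)) :=
    (mem_normalizer_iff.1 (le_norm_W _ (mem_norm_of_comm hc)) a).1 ha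
  obtain ⟨c, hcW, ec⟩ := h.exists_conj (IsConj.refl a) (isConj_iff.2 ⟨w * u, rfl⟩) ha hP
  rw [← card_filter_conj (fun y hy => conj_mem_cl hy hcW)
    (fun y hy => by simpa using conj_mem_cl hy (inv_mem hcW)) a, ec]
  refine card_le_card fun y hy => ?_
  obtain ⟨hy1, hy2⟩ := mem_filter.1 hy
  refine mem_filter.2 ⟨hy1, ?_⟩
  have hx3 := H6.ord2_conj ht w
  have e1 : w * t * w⁻¹ = w * u * s * (w * u)⁻¹ * ppart 2 (s * t) := by
    conv_lhs => rw [e]
    rw [mul_assoc (w * u * s), mul_inv_rev, mul_assoc u⁻¹, (W_comm hw).inv_left.eq]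
    group
  obtain ⟨z, hz, ez⟩ := exists_of_mem_cl h.os hx3 (cl_eq h.os ht hx1 ▸ hy1)
  rw [ppart_of_mem_cl h.os ht hx1] at hz
  have hy3 : orderOf y = 2 := by
    obtain ⟨w', -, rfl⟩ := mem_cl.1 hy1
    exact H6.ord2_conj ht w'
  have ez' : z = w * t * w⁻¹ * y := by rw [ez, H6.ord2_mul_mul hx3]
  have hi := H6.inv_conj_mul (H6.ord2_mul_self hx3) (H6.ord2_mul_self hy3)
  rw [← ez', e1, mul_inv_rev, mul_assoc _ (ppart 2 (s * t)), ← (W_comm hz).eq] at hi
  have hzP := h'.commute_of_inv (x := z) (by rw [← hi]; group)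
    ((isConj_iff.2 ⟨w * u, rfl⟩ : IsConj a _).symm.trans (mem_cc.1 hQ))
    (ez' ▸ Commute.mul_right hx2 hy2)
  rw [ez, e1]
  exact (h'.commute_as.mul_left (W_comm hP).symm).mul_left hzP.symm

theorem Mn.cl_eq' (M : Mn r K) (h : Hy r K a s) (ht : orderOf t = 2) (hn : ¬ IsConj s t) :
    ∀ x ∈ cc t, #(cl s x) * #((cc a).filter fun b => Commute b t) =
      #(cc a) * #((cl s x).filter fun x => Commute x a) := by
  have ho : ∀ x ∈ cc t, orderOf x = 2 := fun x hx => by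
    obtain ⟨u, rfl⟩ := isConj_iff.1 (mem_cc.1 hx)
    exact H6.ord2_conj ht u
  refine cls_eq (cc t) (cl s) (fun _ _ => self_mem_cl) (fun x hx y hy => ?_)
    (fun x hx y hy => cl_eq h.os (ho x hx) hy) _ (fun x hx => ?_) (total_eq a t)
  · obtain ⟨w, -, rfl⟩ := mem_cl.1 hy
    exact conj_mem_cc hx w
  · rw [← card_fix hx]
    exact M.cl_le h (ho x hx) fun e => hn (e.trans (mem_cc.1 hx).symm)

theorem Mn.sum_eq (M : Mn r K) (h : Hy r K a s) (ht : orderOf t = 2) (hn : ¬ IsConj s t)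
    (F : G → ℂ) (hF : ∀ g w, w ∈ W (ppart 2 g) → F (g * w) = F g) :
    #((cc a).filter fun b => Commute b t) * ∑ x ∈ cc t, F (s * x) =
      #(cc a) * ∑ x ∈ (cc t).filter fun x => Commute x a, F (s * x) := by
  have ho : ∀ x ∈ cc t, orderOf x = 2 := fun x hx => by
    obtain ⟨u, rfl⟩ := isConj_iff.1 (mem_cc.1 hx)
    exact H6.ord2_conj ht u
  refine cls_sum_eq (cc t) (cl s) (fun _ _ => self_mem_cl) (fun x hx y hy => ?_)
    (fun x hx y hy => cl_eq h.os (ho x hx) hy) _ (M.cl_eq' h ht hn) _ fun x hx y hy => ?_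
  · obtain ⟨w, -, rfl⟩ := mem_cl.1 hy
    exact conj_mem_cc hx w
  · obtain ⟨w, hw, rfl⟩ := exists_of_mem_cl h.os (ho x hx) hy
    rw [← mul_assoc, hF _ _ hw]

end H18.Ga
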