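import Cfsg.Agent.H18.Ga2
import Cfsg.Agent.H19.BS3
import Cfsg.Agent.H21.GBr
import Cfsg.Agent.S1220

/-! A coprime operator of prime order centralizing an involution centralizer lies in the core. -/

set_option autoImplicit false
open Cfsg Subgroup Finset H17
open H10 (IsSylowIn)
open H19
open scoped Classical ComplexConjugate

universe u

namespace H18.Ga

variable {G : Type*} [Group G]

theorem sum_orbit {L : Type*} [Group L] [Fintype L] (f : L →* G) {c : Finset G} {t : G}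
    (h1 : ∀ x ∈ c, ∀ l, f l * x * (f l)⁻¹ ∈ c) (h2 : ∀ x ∈ c, ∃ l, f l * t * (f l)⁻¹ = x)
    (F : G → ℂ) : Nat.card L * ∑ x ∈ c, F x = #c * ∑ l, F (f l * t * (f l)⁻¹) := by
  have e1 : ∀ l, ∑ x ∈ c, F (f l * x * (f l)⁻¹) = ∑ x ∈ c, F x := fun l =>
    sum_nbij' (fun x => f l * x * (f l)⁻¹) (fun x => f l⁻¹ * x * (f l⁻¹)⁻¹) (fun x hx => h1 x hx l)
      (fun x hx => h1 x hx l⁻¹) (fun x _ => by simp [mul_assoc]) (fun x _ => by simp [mul_assoc])
      fun _ _ => rfl
  have e2 : ∀ x ∈ c, ∑ l, F (f l * x * (f l)⁻¹) = ∑ l, F (f l * t * (f l)⁻¹) := fun x hx => by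
    obtain ⟨u, rfl⟩ := h2 x hx
    rw [← Equiv.sum_comp (Equiv.mulRight u) fun l => F (f l * t * (f l)⁻¹)]
    simp [mul_assoc]
  rw [← nsmul_eq_mul, ← nsmul_eq_mul, ← sum_const, ← sum_congr rfl e2, sum_comm,
    sum_congr rfl fun l _ => e1 l, sum_const, card_univ, Nat.card_eq_fintype_card]

variable [Finite G] {O : ValuationSubring ℂ} {r : ℕ} {K : Subgroup G} {a s t : G}

theorem B0_mul_W [CharP (kk O) 2] {χ : IrrCharacter G} (hχ : χ ∈ irr (B0 O G)) (g w : G)
    (hw : w ∈ W (ppart 2 g)) : (χ : G → ℂ) (g * w) = (χ : G → ℂ) g := by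
  have hn : ((W (ppart 2 g)).subgroupOf (centralizer {ppart 2 g})).Normal :=
    ⟨fun x hx u => (mem_normalizer_iff.1 (le_norm_W _ (mem_norm_of_comm
      (mem_centralizer_singleton_iff.1 u.2))) _).1 hx⟩
  have hy : rpart 2 g ∈ centralizer ({ppart 2 g} : Set G) :=
    mem_centralizer_singleton_iff.2 (commute_ppart_rpart g).symm
  have hw' : w ∈ centralizer ({ppart 2 g} : Set G) := mem_centralizer_singleton_iff.2 (W_comm hw)
  have := apply_eq_of_mem_RS (pr_shift_mem_RS_B0 (ppart_isPElt (p := 2) g) hχ)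
    (g := ⟨_, hy⟩ * ⟨_, hw'⟩) (g' := ⟨_, hy⟩) (by rw [← orderOf_coe]; exact odd_rpart_mul hw)
    (by rw [← orderOf_coe]; exact rpart_reg g) fun ψ hψ => by
      rw [classFun_mul_comm (irr_class ψ)]
      exact le_charKer_of_B0 (N := (W (ppart 2 g)).subgroupOf _) (fun hd => odd_W _ (hd.trans
        (card_comap_dvd_of_injective _ _ (subtype_injective _)))) hψ hw _
  simpa [← mul_assoc, ppart_mul_rpart] using this

theorem Hy.sup_eq (h : Hy r K a s) : K ⊔ zpowers a = ⊤ := by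
  rw [eq_top_iff]
  intro g _
  obtain ⟨i, hi⟩ := h.gen g
  have := mul_mem (mem_sup_left hi : _ ∈ K ⊔ zpowers a) (mem_sup_right (pow_mem (mem_zpowers a) i))
  simpa using this

theorem Hy.glau (h : Hy r K a s) (χ : IrrCharacter G) (h0 : (χ : G → ℂ) (s * a) ≠ 0) :
    ∃ (c : ℂ) (ψ : IrrCharacter ↥(K ⊓ centralizer {a})),
      ∀ x : ↥(K ⊓ centralizer {a}), (χ : G → ℂ) (x * a) = c * (ψ : _ → ℂ) x := by
  have := h.nK
  have hn : zpowers a ≤ normalizer (K : Set G) := le_normalizer_of_normal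
  have hc : (Nat.card K).Coprime (Nat.card (zpowers a)) := by
    rw [Nat.card_zpowers, h.oa]
    exact ((Nat.Prime.coprime_iff_not_dvd h.pr).2 h.cop).symm
  obtain ⟨ξ, h1, c, h2⟩ := H21.exists_canon_of_ne_zero rfl hn hc
    (by rw [h.sup_eq]; exact CF.mem_Irr_top.2 χ.2) (h.mem_of_two (H6.ord2_mul_self h.os)) h0
  obtain ⟨ε, -, β, hβ, e⟩ := h1.exists_sign hn hc (mem_zpowers a) rfl
    (by rw [H10.CC_zpowers]; exact inf_le_right)
  obtain ⟨ψ, rfl⟩ := H21.exists_ext0_eq hβ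
  refine ⟨c * ε, ψ, fun x => ?_⟩
  have := congrFun e x
  rw [H21.shf_apply x.2, Pi.smul_apply, H21.ext0_of_mem _ x.2, smul_eq_mul] at this
  rw [h2 _ x.2.1, this, mul_assoc]

theorem Hy.exists_conj_cent (h : Hy r K a s) (hta : Commute t a) {x : G} (hx : IsConj t x)
    (hxa : Commute x a) : ∃ l : ↥(K ⊓ centralizer {a}), l * t * (l : G)⁻¹ = x := by
  obtain ⟨g, rfl⟩ := isConj_iff.1 hx
  obtain ⟨c, hc, e⟩ := h.exists_conj (N := centralizer {g * t * g⁻¹}) (isConj_iff.2 ⟨g, rfl⟩)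
    (IsConj.refl a) (mem_centralizer_singleton_iff.2 ((commute_conj_iff g).2 hta.symm))
    (mem_centralizer_singleton_iff.2 hxa.symm)
  have h1 : Commute (c * g) a := by
    rw [Commute, SemiconjBy, ← mul_inv_eq_iff_eq_mul]
    exact Eq.trans (by group) e
  obtain ⟨i, hi⟩ := h.gen (c * g)
  refine ⟨⟨_, hi, mem_centralizer_singleton_iff.2 (h1.mul_left ((Commute.refl a).pow_left i).inv_left)⟩,
    ?_⟩
  have h2 := (hta.pow_right i).inv_right.eq
  have h3 := mem_centralizer_singleton_iff.1 hc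
  calc c * g * (a ^ i)⁻¹ * t * (c * g * (a ^ i)⁻¹)⁻¹
      = c * g * ((a ^ i)⁻¹ * t) * (c * g * (a ^ i)⁻¹)⁻¹ := by group
    _ = c * (g * t * g⁻¹) * c⁻¹ := by rw [← h2]; group
    _ = g * t * g⁻¹ := by rw [h3]; group

theorem Mn.mem_W' (M : Mn r K) (h : Hy r K a s) {z : G} (hz : orderOf z = 2) (ha : Commute a z)
    (hs : Commute s z) : a ∈ W (ppart 2 z) := by
  rw [ppart_eq (isPPart_self ⟨1, hz⟩)]
  refine ⟨M.ih a s h _ (fun e => ?_) (mem_norm_of_comm ha) (mem_norm_of_comm hs),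
    mem_centralizer_iff.2 fun y hy => ?_⟩
  · refine M.cz _ hz (mem_center_iff.2 fun g => ?_)
    have hg : g ∈ normalizer (zpowers z : Set G) := e ▸ mem_top g
    exact mul_inv_eq_iff_eq_mul.1 (H6.ord2_unique_zpowers
      ((mem_normalizer_iff.1 hg _).1 (mem_zpowers _)) (mem_zpowers _) (H6.ord2_conj hz g) hz)
  · obtain ⟨k, rfl⟩ := hy
    exact (ha.symm.zpow_left k).eq

theorem Mn.char [CharP (kk O) 2] (M : Mn r K) (h : Hy r K a s) (ht : orderOf t = 2)
    (hn : ¬ IsConj s t) (hst : Commute s t) {χ : IrrCharacter G} (hχ : χ ∈ irr (B0 O G))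
    (h1 : (χ : G → ℂ) s ≠ 0) (h2 : (χ : G → ℂ) t ≠ 0) : (χ : G → ℂ) a = (χ : G → ℂ) 1 := by
  have := Fintype.ofFinite G
  have hta : Commute t a := h.cen t hst.symm
  have e1 := M.sum_eq h ht hn χ (B0_mul_W hχ)
  have e2 := sum_orbit (MonoidHom.id G) (c := cc t) (t := t) (fun x hx l => conj_mem_cc hx l)
    (fun x hx => isConj_iff.1 (mem_cc.1 hx)) fun x => (χ : G → ℂ) (s * x)
  simp only [MonoidHom.id_apply, classFun_mul_comm (irr_class χ) s] at e2
  rw [sum_conj_mul χ t s] at e2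
  have es := B0_mul_W hχ s a (M.mem_W' h h.os h.commute_as.symm (Commute.refl s))
  have et := B0_mul_W hχ t a (M.mem_W' h ht hta.symm hst)
  have e3 : ∑ x ∈ (cc t).filter fun x => Commute x a, (χ : G → ℂ) (s * x) =
      ∑ x ∈ (cc t).filter fun x => Commute x a, (χ : G → ℂ) (s * x * a) :=
    sum_congr rfl fun x hx => by
      obtain ⟨u, rfl⟩ := isConj_iff.1 (mem_cc.1 (mem_filter.1 hx).1)
      exact (B0_mul_W hχ _ a (M.mem_W h (H6.ord2_conj ht u)
        fun e => hn (e.trans (isConj_iff.2 ⟨u, rfl⟩ : IsConj t _).symm))).symm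
  have e4 := sum_orbit (K ⊓ centralizer {a}).subtype
    (c := (cc t).filter fun x => Commute x a) (t := t) (fun x hx l => mem_filter.2
      ⟨conj_mem_cc (mem_filter.1 hx).1 _, by
        have hl : Commute (l : G) a := mem_centralizer_singleton_iff.1 l.2.2
        exact (hl.mul_left (mem_filter.1 hx).2).mul_left hl.inv_left⟩)
    (fun x hx => h.exists_conj_cent hta (mem_cc.1 (mem_filter.1 hx).1) (mem_filter.1 hx).2)
    fun x => (χ : G → ℂ) (s * x * a)
  obtain ⟨c, ψ, e5⟩ := h.glau χ (es ▸ h1)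
  have hsC : s ∈ K ⊓ centralizer {a} := ⟨h.mem_of_two (H6.ord2_mul_self h.os),
    mem_centralizer_singleton_iff.2 h.commute_as⟩
  have htC : t ∈ K ⊓ centralizer {a} := ⟨h.mem_of_two (H6.ord2_mul_self ht),
    mem_centralizer_singleton_iff.2 hta⟩
  have e6 : ∀ l : ↥(K ⊓ centralizer {a}), (χ : G → ℂ) (s * (l * t * (l : G)⁻¹) * a) =
      c * (ψ : _ → ℂ) (l * ⟨t, htC⟩ * l⁻¹ * ⟨s, hsC⟩) := fun l => by
    rw [classFun_mul_comm (irr_class ψ)]
    exact e5 (⟨s, hsC⟩ * (l * ⟨t, htC⟩ * l⁻¹))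
  simp only [coe_subtype, e6] at e4
  rw [← mul_sum, sum_conj_mul ψ] at e4
  have f1 := e5 1
  have f2 := e5 ⟨s, hsC⟩
  have f3 := e5 ⟨t, htC⟩
  simp only [OneMemClass.coe_one, one_mul, es, et] at f1 f2 f3
  have e0 : (#(cc t) : ℂ) * #((cc a).filter fun b => Commute b t) =
      #(cc a) * #((cc t).filter fun x => Commute x a) := by exact_mod_cast total_eq a t
  have n1 : (#(cc a) : ℂ) ≠ 0 := by
    exact_mod_cast (card_pos.2 ⟨a, mem_cc.2 (IsConj.refl a)⟩).ne'
  have n2 : (#((cc t).filter fun x => Commute x a) : ℂ) ≠ 0 := by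
    exact_mod_cast (card_pos.2 ⟨t, mem_filter.2 ⟨mem_cc.2 (IsConj.refl t), hta⟩⟩).ne'
  have n3 : (Nat.card G : ℂ) ≠ 0 := card_ne_zero_complex
  have n4 : (Nat.card ↥(K ⊓ centralizer {a}) : ℂ) ≠ 0 := card_ne_zero_complex
  have n5 := irr_one_ne_zero χ
  have n6 := irr_one_ne_zero ψ
  rw [e3] at e1
  simp only [classFun_mul_comm (irr_class χ) s] at e1
  generalize ∑ x ∈ cc t, (χ : G → ℂ) (x * s) = A at e1 e2
  generalize ∑ x ∈ (cc t).filter fun x => Commute x a, (χ : G → ℂ) (s * x * a) = B at e1 e4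
  rw [mul_assoc, mul_div_assoc, mul_left_comm] at e2
  rw [mul_assoc, mul_div_assoc, mul_left_comm c, mul_left_comm] at e4
  rw [mul_left_cancel₀ n3 e2, mul_left_cancel₀ n4 e4, ← mul_assoc, mul_comm _ (#(cc t) : ℂ), e0,
    ← mul_assoc] at e1
  have e7 := mul_left_cancel₀ (mul_ne_zero n1 n2) e1
  field_simp at e7
  refine mul_left_cancel₀ (mul_ne_zero h2 h1) ?_
  rw [f1]
  linear_combination c * e7 - (χ : G → ℂ) 1 * (χ : G → ℂ) s * f3 -
    (χ : G → ℂ) 1 * c * (ψ : ↥(K ⊓ centralizer {a}) → ℂ) ⟨t, htC⟩ * f2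

theorem Hy.ne_one (h : Hy r K a s) : a ≠ 1 := fun e =>
  h.pr.one_lt.ne' (by rw [← h.oa, e, orderOf_one])

theorem Hy.not_central (h : Hy r K a s) (hO : pPrimeCore 2 G = ⊥) : ¬ ∀ g, Commute g a := fun hc => by
  have hn : (zpowers a).Normal := ⟨fun x hx g => by
    obtain ⟨k, rfl⟩ := hx
    rw [((hc g).zpow_right k).eq, mul_inv_cancel_right]
    exact zpow_mem (mem_zpowers a) k⟩
  have : zpowers a ≤ pPrimeCore 2 G := le_sSup ⟨hn, by
    rw [Nat.card_zpowers, h.oa]
    exact (Nat.coprime_primes h.pr Nat.prime_two).2 h.odd⟩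
  exact h.ne_one (by simpa [hO] using this)

theorem Mn.sup_eq (M : Mn r K) (h : Hy r K a s) : normalClosure {a} ⊔ zpowers s = ⊤ := by
  by_contra hne
  have ha : a ∈ normalClosure ({a} : Set G) := subset_normalClosure rfl
  have h1 := H5.oppOf_inf_le 2 le_sup_left
    ⟨M.ih a s h _ hne (mem_sup_left ha) (mem_sup_right (mem_zpowers s)), ha⟩
  have h2 : H5.oppOf 2 (normalClosure ({a} : Set G)) = ⊥ := by
    rw [H5.oppOf, pPrimeCore_normal_eq_bot M.core, Subgroup.map_bot]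
  exact h.ne_one (by simpa [h2] using h1)

theorem Mn.mem_or (M : Mn r K) (h : Hy r K a s) (g : G) :
    g ∈ normalClosure ({a} : Set G) ∨ s * g ∈ normalClosure ({a} : Set G) := by
  have hg : g ∈ zpowers s ⊔ normalClosure ({a} : Set G) := by
    rw [sup_comm, M.sup_eq h]; exact mem_top g
  obtain ⟨x, hx, k, hk, rfl⟩ := mem_sup_of_normal_right.1 hg
  rcases (H6.mem_zpowers_ord2 (H6.ord2_mul_self h.os)).1 hx with rfl | rfl
  · exact Or.inl (by simpa using hk)
  · exact Or.inr (by rwa [H6.ord2_mul_mul h.os])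

theorem Mn.false_of_mem (M : Mn r K) (h : Hy r K a s) (ht : orderOf t = 2) (hn : ¬ IsConj s t)
    (hst : Commute s t) (hm : s * t ∈ normalClosure ({a} : Set G)) : False := by
  obtain ⟨O, _⟩ := exists_val 2
  have h1 := Kr_eq_zero (B0 O G) (isPPart_self (p := 2) ⟨1, h.os⟩) (isPPart_self ⟨1, ht⟩) hn
  rw [Kr_eq, H6.ord2_inv ht] at h1
  have h2 := congrArg Complex.re h1
  rw [Complex.re_sum, Complex.zero_re] at h2
  refine (sum_pos' (fun χ hχ => ?_) ⟨triv G, mem_filter.2 ⟨mem_univ _, triv_mem_B0⟩, by simp⟩).ne' h2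
  by_cases h0 : (χ : G → ℂ) s * (χ : G → ℂ) t = 0
  · rw [h0]; simp
  have := χ.2.isCharacter.charKer_normal
  have h3 : normalClosure {a} ≤ charKer (χ : G → ℂ) := normalClosure_le_normal
    (Set.singleton_subset_iff.2 (χ.2.mem_charKer.2 (M.char h ht hn hst (by simpa using hχ)
      (left_ne_zero_of_mul h0) (right_ne_zero_of_mul h0))))
  have h4 := h3 hm s
  rw [hst.eq, mul_assoc, H6.ord2_mul_self h.os, mul_one] at h4
  have h5 := χ.2.isCharacter.apply_inv s
  rw [H6.ord2_inv h.os] at h5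
  rw [h4]
  nth_rewrite 2 [h5]
  rw [Complex.mul_conj, Complex.ofReal_re]
  exact Complex.normSq_nonneg _

theorem Mn.false_of_comm (M : Mn r K) (h : Hy r K a s) (ht : orderOf t = 2) (hn : ¬ IsConj s t)
    (hst : Commute s t) : False := by
  rcases M.mem_or h t with hm | hm
  swap
  · exact M.false_of_mem h ht hn hst hm
  have hz : orderOf (s * t) = 2 := H6.ord2_mul_of_commute (H6.ord2_mul_self h.os)
    (H6.ord2_mul_self ht) hst fun e => hn (e ▸ IsConj.refl s)
  refine M.false_of_mem h hz (fun hc => ?_) ((Commute.refl s).mul_right hst)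
    (by rwa [H6.ord2_mul_mul h.os])
  have := Fintype.ofFinite G
  have hta : Commute t a := h.cen t hst.symm
  obtain ⟨u, hu⟩ := isConj_iff.1 hc
  have h' := h.conj u
  rw [hu, ← h'.uniq (isConj_iff.2 ⟨u, rfl⟩ : IsConj a _).symm
    (hu ▸ (h.commute_as.mul_left hta).symm)] at h'
  have e := M.cl_eq' h ht hn t (mem_cc.2 (IsConj.refl t))
  have hp : ppart 2 (s * t) = s * t := ppart_eq (isPPart_self ⟨1, by rw [hz, pow_one]⟩)
  have hall : ∀ x ∈ cl s t, Commute x a := fun x hx => by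
    obtain ⟨w, hw, rfl⟩ := mem_cl.1 hx
    have hw' := W_comm hw
    rw [hp] at hw'
    have := h'.cen w hw'
    exact (this.mul_left hta).mul_left this.inv_left
  rw [filter_true_of_mem hall, mul_comm] at e
  have e1 := card_filter_eq_iff.1 (Nat.eq_of_mul_eq_mul_right (card_pos.2 ⟨t, self_mem_cl⟩) e)
  have hK : normalClosure ({a} : Set G) ≤ centralizer {t} := by
    rw [normalClosure, closure_le]
    intro x hx
    obtain ⟨y, rfl, hy⟩ := Group.mem_conjugatesOfSet_iff.1 hx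
    exact mem_centralizer_singleton_iff.2 (e1 x (mem_cc.2 hy))
  refine M.cz t ht ((centralizer_eq_top_iff_subset (s := {t})).1 (eq_top_iff.2 ?_) rfl)
  rw [← M.sup_eq h]
  exact sup_le hK (zpowers_le.2 (mem_centralizer_singleton_iff.2 hst))

theorem Mn.isConj (M : Mn r K) (h : Hy r K a s) (ht : orderOf t = 2) : IsConj s t := by
  by_contra hn
  obtain ⟨S, hS, hs⟩ := H10.exists_isSylowIn_ge (H10.isPGroup_zpowers_of_orderOf_eq h.os) le_top
  rw [zpowers_le] at hs
  obtain ⟨z, hzS, hz, hc⟩ := H6.exists_central_ord2 hS.isPGroup fun e =>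
    H6.ord2_ne_one h.os (by simpa [e] using hs)
  by_cases hsz : IsConj s z
  · obtain ⟨u, rfl⟩ := isConj_iff.1 hsz
    obtain ⟨g, -, hg⟩ := hS.exists_cj_le (H10.isPGroup_zpowers_of_orderOf_eq ht) le_top
    exact M.false_of_comm (h.conj u) (H6.ord2_conj ht g) (fun e => hn (hsz.trans (e.trans
      (isConj_iff.2 ⟨g, rfl⟩ : IsConj t _).symm))) (hc _ (hg (H10.conj_mem_cj (mem_zpowers t))))
  · exact M.false_of_comm h hz hsz (hc s hs).symm

theorem Mn.false (M : Mn r K) (h : Hy r K a s) : False := by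
  have := h.nK
  have hne : (centralizer {a}).subgroupOf K ≠ ⊤ := fun e => h.not_central M.core fun g => by
    have : (⊤ : Subgroup G) ≤ centralizer {a} := by
      rw [← h.sup_eq]
      exact sup_le (subgroupOf_eq_top.1 e) (zpowers_le.2 (mem_centralizer_singleton_iff.2 rfl))
    exact mem_centralizer_singleton_iff.1 (this (mem_top g))
  have hsK := h.mem_of_two (H6.ord2_mul_self h.os)
  have hSE : IsStronglyEmbedded ((centralizer {a}).subgroupOf K) := by
    refine ⟨hne, even_iff_two_dvd.2 ?_, fun g hg => ?_⟩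
    · have := ((centralizer {a}).subgroupOf K).orderOf_dvd_natCard (x := ⟨s, hsK⟩)
        (mem_centralizer_singleton_iff.2 h.commute_as)
      rwa [← orderOf_coe, h.os] at this
    rw [← Nat.not_even_iff_odd, even_iff_two_dvd]
    intro hd
    obtain ⟨x, ⟨hx1, y, hy, rfl⟩, hx⟩ := H10.exists_orderOf_eq_of_dvd hd
    rw [← orderOf_coe] at hx
    obtain ⟨u, hu⟩ := isConj_iff.1 (M.isConj h hx)
    have h' := h.conj u
    have hc : IsConj (u * a * u⁻¹) a := (isConj_iff.2 ⟨u, rfl⟩ : IsConj a _).symm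
    have e1 := h'.uniq hc (hu ▸ (mem_centralizer_singleton_iff.1 hx1).symm)
    have e2 := h'.uniq (hc.trans (isConj_iff.2 ⟨g, rfl⟩)) (hu ▸ (commute_conj_iff (g : G)).2
      (mem_centralizer_singleton_iff.1 hy).symm)
    exact hg (mem_centralizer_singleton_iff.2 (mul_inv_eq_iff_eq_mul.1 (e2.trans e1.symm)))
  rcases Cfsg.Agent.S1220.result _ hSE with h2 | ⟨-, h2⟩
  swap
  · rw [oddCore, pPrimeCore_normal_eq_bot M.core, bot_sup_eq] at h2
    exact hne h2
  obtain ⟨g, -, hg⟩ := SetLike.exists_of_lt (lt_top_iff_ne_top.2 hne)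
  have hg' : ¬ Commute (g : G) a := fun e => hg (mem_centralizer_singleton_iff.2 e)
  obtain ⟨x, hx, e⟩ := h2 g ⟨a * g * a⁻¹, this.conj_mem _ g.2 a⟩ hg fun e => hg' (by
    have := mem_centralizer_singleton_iff.1 e
    rw [← commute_conj_iff a, mul_inv_cancel_right]
    exact this)
  have hxa : Commute (x : G) a := mem_centralizer_singleton_iff.1 hx
  have e' : Commute ((a * g * a⁻¹)⁻¹ * (x * g) : G) a := mem_centralizer_singleton_iff.1 e
  have h3 : Commute (a⁻¹ * x) (g * a * (g : G)⁻¹) := by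
    convert (commute_conj_iff (g : G)).2 ((Commute.refl a).inv_left.mul_left e') using 1
    group
  have h4 := h3.pow_left (Nat.card K)
  rw [hxa.symm.inv_left.mul_pow, ← Subgroup.coe_pow, pow_card_eq_one', Subgroup.coe_one,
    mul_one, inv_pow] at h4
  obtain ⟨k, hk⟩ := mem_zpowers_pow_iff.2 (show (Nat.card K).gcd (orderOf a) = 1 by
    rw [h.oa]; exact ((Nat.Prime.coprime_iff_not_dvd h.pr).2 h.cop).symm)
  have h5 := (Commute.inv_left_iff.1 h4).zpow_left k
  simp only at hk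
  rw [hk] at h5
  exact hg' (mul_inv_eq_iff_eq_mul.1 (h.eq_of_commute (isConj_iff.2 ⟨_, rfl⟩) h5))

theorem main_aux (n : ℕ) : ∀ (G : Type u) [Group G] [Finite G], Nat.card G = n →
    ∀ (r : ℕ) (K : Subgroup G) (a s : G), Hy r K a s → a ∈ pPrimeCore 2 G := by
  induction n using Nat.strong_induction_on with | _ n IH => ?_
  intro G _ _ hG r K a s h
  have IHq : ∀ (N : Subgroup G) [N.Normal], N ≠ ⊥ → a ∉ N → s ∉ N →
      (∀ g, Commute (QuotientGroup.mk' N g) (QuotientGroup.mk' N s) →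
        Commute (QuotientGroup.mk' N g) (QuotientGroup.mk' N a)) →
      QuotientGroup.mk' N a ∈ pPrimeCore 2 (G ⧸ N) := fun N _ hN ha hs hc => by
    refine IH _ ?_ _ rfl _ _ _ _ (h.quot _ (QuotientGroup.mk'_surjective N)
      (fun e => ha ((QuotientGroup.eq_one_iff a).1 e))
      (fun e => hs ((QuotientGroup.eq_one_iff s).1 e)) hc)
    rw [← hG, ← N.card_mul_index]
    exact lt_mul_of_one_lt_left Nat.card_pos (N.one_lt_card_iff_ne_bot.2 hN)
  by_contra ha
  have hO : pPrimeCore 2 G = ⊥ := by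
    by_contra hO
    have := IHq _ hO ha (fun e => H1.not_dvd_card_pPrimeCore Nat.prime_two
      (h.os ▸ Subgroup.orderOf_dvd_natCard _ e)) fun g hg => by
      have e := H1.map_centralizer_mk' (pPrimeCore 2 G) (A := zpowers s) (by
        rw [Nat.card_zpowers, h.os]
        exact (Nat.Prime.coprime_iff_not_dvd Nat.prime_two).2
          (H1.not_dvd_card_pPrimeCore Nat.prime_two)) (Or.inl inferInstance)
      rw [MonoidHom.map_zpowers, H10.CC_zpowers, H10.CC_zpowers] at e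
      obtain ⟨c, hc, ec⟩ : _ ∈ (centralizer {s}).map (QuotientGroup.mk' (pPrimeCore 2 G)) :=
        e ▸ mem_centralizer_singleton_iff.2 hg
      exact ec ▸ (h.cen c (mem_centralizer_singleton_iff.1 hc)).map _
    rw [H1.pPrimeCore_quotient_pPrimeCore, mem_bot, QuotientGroup.mk'_apply,
      QuotientGroup.eq_one_iff] at this
    exact ha this
  refine Mn.false ⟨fun a s h N hN ha hs => ⟨_, IH _ (by
    rw [← hG, ← card_top (G := G)]; exact H10.card_lt_of_lt (lt_top_iff_ne_top.2 hN)) _ rfl _ _ _ _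
    (h.sub ha hs), rfl⟩, hO, fun z hz hc => ?_⟩ h
  have hzc : zpowers z ≤ center G := zpowers_le.2 hc
  have : (zpowers z).Normal :=
    ⟨fun x hx g => by rwa [mem_center_iff.1 (hzc hx) g, mul_inv_cancel_right]⟩
  have hodd : ¬ 2 ∣ orderOf a := fun e => h.odd
    ((Nat.prime_dvd_prime_iff_eq Nat.prime_two h.pr).1 (h.oa ▸ e)).symm
  have h1 := IHq _ (by simpa using H6.ord2_ne_one hz)
    (fun e => h.not_central hO fun g => mem_center_iff.1 (hzc e) g)
    (fun e => h.not_central hO fun g => h.cen g (mem_center_iff.1 (hzc e) g)) fun g hg => by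
      refine Commute.map (mul_inv_eq_iff_eq_mul.1 ((h.conj g).uniq
        (isConj_iff.2 ⟨g, rfl⟩ : IsConj a _).symm ?_).symm) _
      have h2 : g * s * g⁻¹ * s⁻¹ ∈ zpowers z := by
        rw [← QuotientGroup.eq_one_iff, ← QuotientGroup.mk'_apply]
        simp only [map_mul, map_inv]
        rw [hg.eq, mul_inv_cancel_right, mul_inv_cancel]
      have h3 := Commute.mul_right (mem_center_iff.1 (hzc h2) a) h.commute_as.symm
      rwa [inv_mul_cancel_right] at h3
  set M := (pPrimeCore 2 (G ⧸ zpowers z)).comap (QuotientGroup.mk' (zpowers z))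
  have h2 : IsSylowIn 2 (zpowers z) M := by
    refine H10.isSylowIn_of_not_dvd ((QuotientGroup.ker_mk' _).ge.trans (ker_le_comap _ _))
      (IsPElt.isPGroup_zpowers ⟨1, hz⟩) ?_
    nth_rewrite 1 [← QuotientGroup.ker_mk' (zpowers z)]
    rw [relIndex_ker, map_comap_eq_self_of_surjective (QuotientGroup.mk'_surjective _)]
    exact H1.not_dvd_card_pPrimeCore Nat.prime_two
  have h3 := isPGroup_of_npc (npc_of_isSylowIn h2 inferInstance) (pPrimeCore_normal_eq_bot hO M)
  exact h.ne_one ((isPElt_of_mem h3 h1).eq_one hodd)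

/-- Glauberman: a coprime operator of prime order centralizing the centralizer of an involution
lies in the odd core. -/
theorem Hy.mem_core (h : Hy r K a s) : a ∈ pPrimeCore 2 G := main_aux _ G rfl r K a s h

end H18.Ga
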