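import Mathlib

/-! Double coset lemmas: lower bounds for indices from functions supported on a subgroup. -/

set_option autoImplicit false

namespace H18.Su

open Module Finset

variable {G : Type*} [Group G] [Finite G]

/-- The span of the left translates of `f`. -/
def Sp (f : G → ℂ) : Submodule ℂ (G → ℂ) :=
  Submodule.span ℂ (Set.range fun g : G => fun x => f (g * x))

omit [Finite G] in
theorem Sp.mem (f : G → ℂ) (g : G) : (fun x => f (g * x)) ∈ Sp f := Submodule.subset_span ⟨g, rfl⟩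

omit [Finite G] in
theorem Sp.shift {f φ : G → ℂ} (h : φ ∈ Sp f) (a : G) : (fun x => φ (a * x)) ∈ Sp f := by
  induction h using Submodule.span_induction with
  | mem φ hφ =>
    obtain ⟨g, rfl⟩ := hφ
    simpa only [mul_assoc] using Sp.mem f (g * a)
  | zero => exact (Sp f).zero_mem
  | add φ ψ _ _ h1 h2 => exact (Sp f).add_mem h1 h2
  | smul c φ _ h1 => exact (Sp f).smul_mem c h1

theorem index_le_of_fun (B H : Subgroup G) (f : G → ℂ) (hf : ∀ h ∈ H, ∀ g, f (h * g) = f g)
    (f0 : G → ℂ) (hmem : f0 ∈ Sp f) (h1 : f0 1 ≠ 0) (hs : ∀ x, x ∉ B → f0 x = 0) :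
    B.index ≤ H.index := by
  classical
  have := Fintype.ofFinite (G ⧸ H)
  have := Fintype.ofFinite (G ⧸ B)
  have hU : finrank ℂ (Sp f) ≤ H.index := by
    have e : Sp f = Submodule.span ℂ (Set.range fun c : G ⧸ H => fun x => f (c.out⁻¹ * x)) := by
      apply le_antisymm
      · rw [Sp, Submodule.span_le]
        rintro _ ⟨g, rfl⟩
        apply Submodule.subset_span
        refine ⟨(g⁻¹ : G), ?_⟩
        obtain ⟨h, hh⟩ := QuotientGroup.mk_out_eq_mul H g⁻¹
        funext x
        simp only [hh, mul_inv_rev, inv_inv, mul_assoc]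
        exact hf _ (inv_mem h.2) _
      · rw [Submodule.span_le]
        rintro _ ⟨c, rfl⟩
        exact Sp.mem f _
    rw [e, Subgroup.index, Nat.card_eq_fintype_card]
    exact finrank_range_le_card _
  let E : G ⧸ B → Sp f := fun c => ⟨fun x => f0 (c.out⁻¹ * x), Sp.shift hmem _⟩
  have hE : LinearIndependent ℂ E := by
    rw [linearIndependent_iff']
    intro s a ha c hc
    have := congrArg (fun φ : Sp f => (φ : G → ℂ) c.out) ha
    simp only [Submodule.coe_sum, Finset.sum_apply, Submodule.coe_smul, Pi.smul_apply, smul_eq_mul,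
      ZeroMemClass.coe_zero, Pi.zero_apply, E] at this
    rw [Finset.sum_eq_single c] at this
    · simpa [h1] using this
    · intro d _ hd
      rw [hs, mul_zero]
      intro hm
      apply hd
      rw [← QuotientGroup.out_eq' d, ← QuotientGroup.out_eq' c, QuotientGroup.eq]
      exact hm
    · intro h; exact absurd hc h
  have := hE.fintype_card_le_finrank
  rw [Subgroup.index, Nat.card_eq_fintype_card]
  omega

variable {B H : Subgroup G} {w : G}

theorem trans_of_index (hB : ∀ g, g ∈ B ∨ ∃ b₁ ∈ B, ∃ b₂ ∈ B, g = b₁ * w * b₂)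
    (hlt : H.index < B.index) (g : G) : ∃ h ∈ H, ∃ b ∈ B, g = h * b := by
  classical
  have := Fintype.ofFinite G
  by_contra hg
  let f : G → ℂ := fun x => if ∃ h ∈ H, ∃ b ∈ B, x = h * b then 1 else 0
  have hfl : ∀ h ∈ H, ∀ x, f (h * x) = f x := by
    intro h hh x
    apply if_congr _ rfl rfl
    constructor
    · rintro ⟨k, hk, b, hb, e⟩
      exact ⟨h⁻¹ * k, mul_mem (inv_mem hh) hk, b, hb, by rw [mul_assoc, ← e]; simp⟩
    · rintro ⟨k, hk, b, hb, rfl⟩
      exact ⟨h * k, mul_mem hh hk, b, hb, by rw [mul_assoc]⟩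
  have hfr : ∀ b ∈ B, ∀ x, f (x * b) = f x := by
    intro c hc x
    apply if_congr _ rfl rfl
    constructor
    · rintro ⟨k, hk, b, hb, e⟩
      exact ⟨k, hk, b * c⁻¹, mul_mem hb (inv_mem hc), by rw [← mul_assoc, ← e]; simp⟩
    · rintro ⟨k, hk, b, hb, rfl⟩
      exact ⟨k, hk, b * c, mul_mem hb hc, by rw [mul_assoc]⟩
  have hfB : ∀ b ∈ B, f b = 1 := fun b hb => if_pos ⟨1, one_mem _, b, hb, by simp⟩
  let S : G → ℂ := fun x => ∑ b : B, f (b * x)
  have hS : S ∈ Sp f := by
    have : S = ∑ b : B, fun x => f (b * x) := by funext x; simp [S]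
    rw [this]
    exact Submodule.sum_mem _ fun b _ => Sp.mem f _
  have hc : (fun _ => (1 : ℂ)) ∈ Sp f := by
    have h0 : (∑ a : G, f a) ≠ 0 := by
      simp only [f, Finset.sum_boole]
      rw [Nat.cast_ne_zero, Finset.card_ne_zero]
      exact ⟨1, by simp only [mem_filter, mem_univ, true_and]; exact ⟨1, one_mem _, 1, one_mem _, by simp⟩⟩
    have h1 : (∑ a : G, fun x => f (a * x)) ∈ Sp f := Submodule.sum_mem _ fun a _ => Sp.mem f _
    have h2 : (fun _ : G => (1 : ℂ)) = (∑ a : G, f a)⁻¹ • ∑ a : G, fun x => f (a * x) := by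
      funext x
      simp only [Pi.smul_apply, Finset.sum_apply, smul_eq_mul]
      rw [Fintype.sum_equiv (Equiv.mulRight x) (fun a => f (a * x)) f (fun _ => rfl),
        inv_mul_cancel₀ h0]
    rw [h2]
    exact Submodule.smul_mem _ _ h1
  have hSw : ∀ x, x ∉ B → S x = S w := by
    intro x hx
    obtain ⟨b₁, h1, b₂, h2, rfl⟩ := (hB x).resolve_left hx
    simp only [S]
    refine Fintype.sum_equiv (Equiv.mulRight (⟨b₁, h1⟩ : B)) _ _ fun b => ?_
    simp only [Equiv.coe_mulRight, Subgroup.coe_mul]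
    rw [← mul_assoc, hfr _ h2, mul_assoc]
  have hS1 : S 1 = Fintype.card B := by
    simp only [S, mul_one]
    rw [Finset.sum_congr rfl fun (b : B) _ => hfB b b.2]
    simp
  have hne : S 1 ≠ S w := by
    intro he
    rw [hS1] at he
    simp only [S, f, Finset.sum_boole, Nat.cast_inj] at he
    have hu := Finset.eq_univ_of_card _ he.symm
    apply hg
    rcases hB g with hgB | ⟨b₁, h1, b₂, h2, rfl⟩
    · exact ⟨1, one_mem _, g, hgB, by simp⟩
    · have : (⟨b₁, h1⟩ : B) ∈ (univ : Finset B) := mem_univ _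
      rw [← hu, mem_filter] at this
      obtain ⟨k, hk, b, hb, e⟩ := this.2
      exact ⟨k, hk, b * b₂, mul_mem hb h2, by rw [← mul_assoc, ← e]⟩
  have := index_le_of_fun B H f hfl (S - S w • fun _ => (1 : ℂ))
    (Submodule.sub_mem _ hS (Submodule.smul_mem _ _ hc))
    (by simpa [sub_eq_zero] using hne) (fun x hx => by simp [hSw x hx])
  omega

theorem theta_eq (hB : ∀ g, g ∈ B ∨ ∃ b₁ ∈ B, ∃ b₂ ∈ B, g = b₁ * w * b₂)
    (hlt : H.index < B.index) (θ : B →* ℂˣ) (hθ : ∀ b : B, (b : G) ∈ H → θ b = 1)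
    (t s : B) (hts : (t : G) * w = w * s) : θ t = θ s := by
  classical
  have := Fintype.ofFinite G
  by_contra hne
  have hd := trans_of_index hB hlt
  choose h hh b hb e using hd
  let f : G → ℂ := fun x => θ ⟨b x, hb x⟩
  have key : ∀ k ∈ H, ∀ c : B, f (k * c) = θ c := by
    intro k hk c
    have e1 := e (k * c)
    have : (⟨b (k * c), hb _⟩ : B) = (⟨b (k * c), hb _⟩ * c⁻¹) * c := by simp
    simp only [f]
    rw [this, map_mul, hθ, one_mul]
    have e2 : ((⟨b (k * c), hb _⟩ * c⁻¹ : B) : G) = (h (k * c))⁻¹ * k := by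
      simp only [Subgroup.coe_mul, Subgroup.coe_inv]
      rw [mul_inv_eq_iff_eq_mul, mul_assoc, eq_inv_mul_iff_mul_eq]
      exact e1.symm
    rw [e2]
    exact mul_mem (inv_mem (hh _)) hk
  have hfl : ∀ k ∈ H, ∀ x, f (k * x) = f x := by
    intro k hk x
    conv_lhs => rw [e x, ← mul_assoc]
    exact key _ (mul_mem hk (hh x)) ⟨b x, hb x⟩
  have hfr : ∀ (c : B) x, f (x * c) = f x * θ c := by
    intro c x
    conv_lhs => rw [e x, mul_assoc]
    have := key _ (hh x) (⟨b x, hb x⟩ * c)
    rw [map_mul, Units.val_mul] at this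
    exact this
  let S : G → ℂ := fun x => ∑ c : B, ((θ c)⁻¹ : ℂˣ) * f (c * x)
  have hS : S ∈ Sp f := by
    have : S = ∑ c : B, (((θ c)⁻¹ : ℂˣ) : ℂ) • fun x => f (c * x) := by funext x; simp [S]
    rw [this]
    exact Submodule.sum_mem _ fun c _ => Submodule.smul_mem _ _ (Sp.mem f _)
  have hSl : ∀ (c : B) x, S (c * x) = θ c * S x := by
    intro c x
    simp only [S, Finset.mul_sum]
    refine Fintype.sum_equiv (Equiv.mulRight c) _ _ fun d => ?_
    simp only [Equiv.coe_mulRight, Subgroup.coe_mul, map_mul, mul_inv_rev, Units.val_mul, mul_assoc]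
    rw [← mul_assoc (θ c : ℂ), Units.mul_inv, one_mul]
  have hSr : ∀ (c : B) x, S (x * c) = S x * θ c := by
    intro c x
    simp only [S, Finset.sum_mul]
    refine Finset.sum_congr rfl fun d _ => ?_
    rw [← mul_assoc, hfr, mul_assoc]
  have hw : S w = 0 := by
    have h1 := hSl t w
    rw [hts, hSr, mul_comm] at h1
    by_contra h0
    exact hne (Units.ext (mul_right_cancel₀ h0 h1)).symm
  have hS1 : S 1 ≠ 0 := by
    have : ∀ c : B, (((θ c)⁻¹ : ℂˣ) : ℂ) * f (c * 1) = 1 := by
      intro c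
      have := key 1 (one_mem _) c
      rw [one_mul] at this
      rw [mul_one, this, Units.inv_mul]
    simp only [S, this]
    simp
  have := index_le_of_fun B H f hfl S hS hS1 (fun x hx => by
    obtain ⟨b₁, h1, b₂, h2, rfl⟩ := (hB x).resolve_left hx
    rw [hSr ⟨b₂, h2⟩, hSl ⟨b₁, h1⟩, hw]; simp)
  omega

end H18.Su
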