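import Cfsg.Prelude.Def_Classical
import Cfsg.Agent.H23.FieldSq
import Cfsg.Agent.H18.Su1

/-! A matrix model of `SU₃(q)` for the antidiagonal form. -/

set_option autoImplicit false

namespace H18.Su

open Matrix Cfsg H23

attribute [-simp] H23.conj_apply

variable {F : Type*} [Field F] [Fintype F] {q : ℕ}

/-- The antidiagonal Hermitian form. -/
def hJ (hF : Fintype.card F = q ^ 2) (u v : Fin 3 → F) : F :=
  u 0 * conj hF (v 2) - u 1 * conj hF (v 1) + u 2 * conj hF (v 0)

/-- The special unitary group of the antidiagonal form. -/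
def UU (hF : Fintype.card F = q ^ 2) : Subgroup (SpecialLinearGroup (Fin 3) F) :=
  preserving (slToMat 3 F) (hJ hF)

variable {hF : Fintype.card F = q ^ 2}

/-- The matrix of an element. -/
def mt (g : UU hF) : Matrix (Fin 3) (Fin 3) F := g.1.1

theorem mt_mul (g h : UU hF) : mt (g * h) = mt g * mt h := rfl
theorem mt_one : mt (1 : UU hF) = 1 := rfl
theorem mt_ext {g h : UU hF} (e : mt g = mt h) : g = h := Subtype.ext (Subtype.ext e)
theorem mt_det (g : UU hF) : (mt g).det = 1 := g.1.2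
theorem mt_hJ (g : UU hF) (u v : Fin 3 → F) : hJ hF (mt g *ᵥ u) (mt g *ᵥ v) = hJ hF u v := g.2 u v

/-- The action on vectors. -/
def ac (g : UU hF) (v : Fin 3 → F) : Fin 3 → F := mt g *ᵥ v

theorem ac_mul (g h : UU hF) (v : Fin 3 → F) : ac (g * h) v = ac g (ac h v) := by
  simp only [ac, mt_mul, mulVec_mulVec]
@[simp] theorem ac_one (v : Fin 3 → F) : ac (1 : UU hF) v = v := by simp [ac, mt_one]
theorem ac_smul (g : UU hF) (c : F) (v : Fin 3 → F) : ac g (c • v) = c • ac g v := by
  simp only [ac, mulVec_smul]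
@[simp] theorem ac_inv_ac (g : UU hF) (v : Fin 3 → F) : ac g⁻¹ (ac g v) = v := by
  rw [← ac_mul, inv_mul_cancel, ac_one]
@[simp] theorem ac_ac_inv (g : UU hF) (v : Fin 3 → F) : ac g (ac g⁻¹ v) = v := by
  rw [← ac_mul, mul_inv_cancel, ac_one]
theorem ac_ne_zero (g : UU hF) {v : Fin 3 → F} (hv : v ≠ 0) : ac g v ≠ 0 := by
  intro h
  apply hv
  rw [← ac_inv_ac g v, h]; simp [ac]
theorem ac_hJ (g : UU hF) (u v : Fin 3 → F) : hJ hF (ac g u) (ac g v) = hJ hF u v := g.2 u v
theorem ac_apply (g : UU hF) (v : Fin 3 → F) (i : Fin 3) :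
    ac g v i = mt g i 0 * v 0 + mt g i 1 * v 1 + mt g i 2 * v 2 := by
  simp [ac, mulVec, dotProduct, Fin.sum_univ_three]

/-- Build an element from a matrix. -/
def mkU (A : Matrix (Fin 3) (Fin 3) F) (h1 : A.det = 1)
    (h2 : ∀ u v, hJ hF (A *ᵥ u) (A *ᵥ v) = hJ hF u v) : UU hF := ⟨⟨A, h1⟩, h2⟩

/-- Parameters of the unipotent radical. -/
def PP (hF : Fintype.card F = q ^ 2) : Type _ :=
  {p : F × F // p.2 + conj hF p.2 = p.1 * conj hF p.1}

/-- Unipotent elements. -/
def xx (c b : F) (h : b + conj hF b = c * conj hF c) : UU hF :=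
  mkU !![1, conj hF c, b; 0, 1, c; 0, 0, 1] (by simp [det_fin_three]) (by
    intro u v
    simp [hJ, mulVec, dotProduct, Fin.sum_univ_three, conj_conj]
    linear_combination (u 2 * conj hF (v 2)) * h)

theorem mt_xx (c b : F) (h : b + conj hF b = c * conj hF c) :
    mt (xx c b h) = !![1, conj hF c, b; 0, 1, c; 0, 0, 1] := rfl

theorem conj_ne {l : F} (hl : l ≠ 0) : conj hF l ≠ 0 := (map_ne_zero _).2 hl

/-- Torus elements. -/
def tt (hF : Fintype.card F = q ^ 2) (l : Fˣ) : UU hF :=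
  mkU !![(l : F), 0, 0; 0, conj hF l / l, 0; 0, 0, (conj hF l)⁻¹] (by
    have := conj_ne (hF := hF) l.ne_zero
    simp [det_fin_three]
    field_simp) (by
    intro u v
    have := conj_ne (hF := hF) l.ne_zero
    have := l.ne_zero
    simp [hJ, mulVec, dotProduct, Fin.sum_univ_three, conj_conj]
    field_simp)

theorem mt_tt (l : Fˣ) :
    mt (tt hF l) = !![(l : F), 0, 0; 0, conj hF l / l, 0; 0, 0, (conj hF l)⁻¹] := rfl

/-- The Weyl element. -/
def ww (hF : Fintype.card F = q ^ 2) : UU hF :=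
  mkU !![0, 0, 1; 0, -1, 0; 1, 0, 0] (by simp [det_fin_three]) (by
    intro u v
    simp [hJ, mulVec, dotProduct, Fin.sum_univ_three, conj_conj]
    ring)

theorem mt_ww : mt (ww hF) = !![0, 0, 1; 0, -1, 0; 1, 0, 0] := rfl

theorem xx_congr {c b c' b' : F} {h : b + conj hF b = c * conj hF c}
    {h' : b' + conj hF b' = c' * conj hF c'} (e1 : c = c') (e2 : b = b') : xx c b h = xx c' b' h' := by
  subst e1 e2; rfl

theorem xx_inj {c b c' b' : F} {h : b + conj hF b = c * conj hF c}
    {h' : b' + conj hF b' = c' * conj hF c'} (e : xx c b h = xx c' b' h') : c = c' ∧ b = b' := by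
  have := congrArg mt e
  exact ⟨by simpa [mt_xx] using congrFun (congrFun this 1) 2,
    by simpa [mt_xx] using congrFun (congrFun this 0) 2⟩

theorem xx_zero : xx (hF := hF) 0 0 (by simp only [map_zero, add_zero, mul_zero]) = 1 := by
  apply mt_ext
  rw [mt_xx, mt_one, map_zero]
  ext i j; fin_cases i <;> fin_cases j <;> rfl

theorem xx_mul {c b c' b' : F} (h : b + conj hF b = c * conj hF c)
    (h' : b' + conj hF b' = c' * conj hF c') :
    xx c b h * xx c' b' h' = xx (c + c') (b + b' + conj hF c * c') (by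
      simp only [map_add, map_mul, conj_conj]; linear_combination h + h') := by
  apply mt_ext
  rw [mt_mul, mt_xx, mt_xx, mt_xx, map_add]
  ext i j; fin_cases i <;> fin_cases j <;> simp [Matrix.mul_apply, Fin.sum_univ_three] <;> ring

theorem tt_mul (l m : Fˣ) : tt hF (l * m) = tt hF l * tt hF m := by
  apply mt_ext
  rw [mt_mul, mt_tt, mt_tt, mt_tt, Units.val_mul, map_mul]
  ext i j; fin_cases i <;> fin_cases j <;> simp [Matrix.mul_apply, Fin.sum_univ_three] <;> ring

theorem tt_one : tt hF 1 = 1 := by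
  apply mt_ext
  rw [mt_tt, mt_one]
  ext i j; fin_cases i <;> fin_cases j <;> simp

/-- The torus as a homomorphism. -/
def tH (hF : Fintype.card F = q ^ 2) : Fˣ →* UU hF where
  toFun := tt hF
  map_one' := tt_one
  map_mul' := tt_mul

theorem tt_xx (l : Fˣ) {c b : F} (h : b + conj hF b = c * conj hF c) :
    tt hF l * xx c b h = xx (conj hF l ^ 2 / l * c) (l * conj hF l * b) (by
      have := conj_ne (hF := hF) l.ne_zero
      have := l.ne_zero
      simp only [map_mul, map_div₀, map_pow, conj_conj]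
      field_simp
      linear_combination h) * tt hF l := by
  have := conj_ne (hF := hF) l.ne_zero
  have := l.ne_zero
  apply mt_ext
  rw [mt_mul, mt_mul, mt_tt, mt_xx, mt_xx]
  simp only [map_mul, map_div₀, map_pow, conj_conj]
  ext i j; fin_cases i <;> fin_cases j <;> simp [Matrix.mul_apply, Fin.sum_univ_three] <;>
    field_simp

/-- The conjugate unit. -/
def cu (hF : Fintype.card F = q ^ 2) : Fˣ →* Fˣ := Units.map (conj hF : F →* F)

theorem cu_val (l : Fˣ) : (cu hF l : F) = conj hF l := rfl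

theorem tt_ww (l : Fˣ) : tt hF l * ww hF = ww hF * tt hF (cu hF l)⁻¹ := by
  have := conj_ne (hF := hF) l.ne_zero
  have := l.ne_zero
  apply mt_ext
  rw [mt_mul, mt_mul, mt_tt, mt_tt, mt_ww]
  simp only [Units.val_inv_eq_inv_val, cu_val, map_inv₀, conj_conj]
  ext i j; fin_cases i <;> fin_cases j <;> simp [Matrix.mul_apply, Fin.sum_univ_three] <;>
    field_simp

/-- Basis vectors. -/
def e0 : Fin 3 → F := ![1, 0, 0]
/-- Basis vectors. -/
def e2 : Fin 3 → F := ![0, 0, 1]

omit [Fintype F] in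
theorem e0_ne : (e0 : Fin 3 → F) ≠ 0 := fun h => by simpa [e0] using congrFun h 0
omit [Fintype F] in
theorem e2_ne : (e2 : Fin 3 → F) ≠ 0 := fun h => by simpa [e2] using congrFun h 2

/-- `g` fixes the point spanned by `v`. -/
def Fx (g : UU hF) (v : Fin 3 → F) : Prop := ∃ k : F, ac g v = k • v

theorem Fx.ne {g : UU hF} {v : Fin 3 → F} {k : F} (hv : v ≠ 0) (h : ac g v = k • v) : k ≠ 0 := by
  rintro rfl
  exact ac_ne_zero g hv (by rw [h, zero_smul])

theorem Fx.mul {g h : UU hF} {v : Fin 3 → F} (h1 : Fx g v) (h2 : Fx h v) : Fx (g * h) v := by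
  obtain ⟨k, hk⟩ := h1
  obtain ⟨l, hl⟩ := h2
  exact ⟨l * k, by rw [ac_mul, hl, ac_smul, hk, smul_smul]⟩

theorem Fx.inv {g : UU hF} {v : Fin 3 → F} (hv : v ≠ 0) (h1 : Fx g v) : Fx g⁻¹ v := by
  obtain ⟨k, hk⟩ := h1
  have h0 := Fx.ne hv hk
  refine ⟨k⁻¹, ?_⟩
  have := congrArg (ac g⁻¹) hk
  rw [ac_inv_ac, ac_smul] at this
  conv_rhs => rw [this]
  rw [smul_smul, inv_mul_cancel₀ h0, one_smul]

theorem Fx.smul {g : UU hF} {v : Fin 3 → F} (h1 : Fx g v) (c : F) : Fx g (c • v) := by
  obtain ⟨k, hk⟩ := h1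
  exact ⟨k, by rw [ac_smul, hk, smul_comm]⟩

theorem fx_smul_iff {g : UU hF} {v : Fin 3 → F} {c : F} (hc : c ≠ 0) : Fx g (c • v) ↔ Fx g v :=
  ⟨fun h => by simpa [smul_smul, inv_mul_cancel₀ hc] using h.smul c⁻¹, fun h => h.smul c⟩

theorem fx_conj {g h : UU hF} {v : Fin 3 → F} : Fx g (ac h v) ↔ Fx (h⁻¹ * g * h) v := by
  constructor
  · rintro ⟨k, hk⟩
    exact ⟨k, by rw [ac_mul, ac_mul, hk, ac_smul, ac_inv_ac]⟩
  · rintro ⟨k, hk⟩
    refine ⟨k, ?_⟩
    rw [← ac_smul, ← hk, ← ac_mul, ← ac_mul]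
    simp [mul_assoc]

/-- The Borel subgroup. -/
def BB (hF : Fintype.card F = q ^ 2) : Subgroup (UU hF) where
  carrier := {g | Fx g e0}
  mul_mem' := Fx.mul
  one_mem' := ⟨1, by simp⟩
  inv_mem' := Fx.inv e0_ne

theorem ac_e0 (g : UU hF) (i : Fin 3) : ac g e0 i = mt g i 0 := by simp [ac_apply, e0]
theorem ac_e2 (g : UU hF) (i : Fin 3) : ac g e2 i = mt g i 2 := by simp [ac_apply, e2]

theorem ac_xx (c b : F) (h : b + conj hF b = c * conj hF c) (v : Fin 3 → F) :
    ac (xx c b h) v = ![v 0 + conj hF c * v 1 + b * v 2, v 1 + c * v 2, v 2] := by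
  ext i; fin_cases i <;> simp [ac_apply, mt_xx]

theorem ac_tt (l : Fˣ) (v : Fin 3 → F) :
    ac (tt hF l) v = ![l * v 0, conj hF l / l * v 1, (conj hF l)⁻¹ * v 2] := by
  ext i; fin_cases i <;> simp [ac_apply, mt_tt]

theorem ac_ww (v : Fin 3 → F) : ac (ww hF) v = ![v 2, - v 1, v 0] := by
  ext i; fin_cases i <;> simp [ac_apply, mt_ww]

theorem xx_e0 (c b : F) (h : b + conj hF b = c * conj hF c) : ac (xx c b h) e0 = e0 := by
  rw [ac_xx]; simp [e0]

theorem tt_e0 (l : Fˣ) : ac (tt hF l) e0 = (l : F) • e0 := by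
  rw [ac_tt]; simp [e0]

theorem xx_mem (c b : F) (h : b + conj hF b = c * conj hF c) : xx c b h ∈ BB hF :=
  ⟨1, by rw [xx_e0, one_smul]⟩

theorem tt_mem (l : Fˣ) : tt hF l ∈ BB hF := ⟨l, tt_e0 l⟩

/-- Normal form in the Borel subgroup. -/
theorem exists_of_mem_BB {g : UU hF} (hg : g ∈ BB hF) :
    ∃ (l : Fˣ) (c b : F) (h : b + conj hF b = c * conj hF c), g = xx c b h * tt hF l := by
  obtain ⟨k, hk⟩ := hg
  have hk0 := Fx.ne e0_ne hk
  have g00 : mt g 0 0 = k := by rw [← ac_e0, hk]; simp [e0]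
  have g10 : mt g 1 0 = 0 := by rw [← ac_e0, hk]; simp [e0]
  have g20 : mt g 2 0 = 0 := by rw [← ac_e0, hk]; simp [e0]
  have hh := fun i j : Fin 3 => ac_hJ g (Pi.single i 1) (Pi.single j 1)
  have h01 := hh 0 1
  have h02 := hh 0 2
  have h11 := hh 1 1
  have h21 := hh 2 1
  have h22 := hh 2 2
  have hd := mt_det g
  simp [hJ, ac_apply, g00, g10, g20, hk0] at h01 h02 h11 h21 h22
  rw [det_fin_three, g00, g10, g20, h01] at hd
  simp only [h01, map_zero, mul_zero, zero_mul, add_zero, zero_sub, zero_add, sub_zero] at h11 h21 hd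
  have hck := conj_ne (hF := hF) hk0
  have g22 : mt g 2 2 = (conj hF k)⁻¹ := by
    have := congrArg (conj hF) h02
    rw [map_mul, conj_conj, map_one] at this
    field_simp
    linear_combination this
  have g11 : mt g 1 1 = conj hF k / k := by
    rw [g22] at hd
    field_simp at hd ⊢
    linear_combination hd
  refine ⟨Units.mk0 k hk0, mt g 1 2 * conj hF k, mt g 0 2 * conj hF k, ?_, ?_⟩
  · rw [g22] at h22
    simp only [map_mul, conj_conj, map_inv₀] at h22 ⊢
    field_simp at h22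
    linear_combination h22
  · apply mt_ext
    rw [mt_mul, mt_xx, mt_tt]
    have h21' := congrArg (conj hF) h21
    rw [g22, g11] at h21'
    simp only [map_add, map_neg, map_mul, conj_conj, map_inv₀, map_zero] at h21'
    ext i j; fin_cases i <;> fin_cases j <;>
      simp [Matrix.mul_apply, Fin.sum_univ_three, -conj_apply, g00, g10, g20, g11, g22, h01, conj_conj, hck]
    field_simp at h21' ⊢
    linear_combination h21'

/-- Isotropic vectors. -/
theorem iso_cases {v : Fin 3 → F} (h : hJ hF v v = 0) :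
    (∃ k : F, v = k • e0) ∨ ∃ (k c b : F) (h : b + conj hF b = c * conj hF c), k ≠ 0 ∧
      v = k • ac (xx c b h * ww hF) e0 := by
  by_cases h2 : v 2 = 0
  · left
    have h1 : v 1 = 0 := by simpa [hJ, h2] using h
    exact ⟨v 0, by ext i; fin_cases i <;> simp [e0, h1, h2]⟩
  · right
    have := conj_ne (hF := hF) h2
    refine ⟨v 2, v 1 / v 2, v 0 / v 2, ?_, h2, ?_⟩
    · simp only [map_div₀]
      unfold hJ at h
      field_simp
      linear_combination h
    · rw [ac_mul, ac_ww, ac_xx]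
      ext i; fin_cases i <;> simp [e0] <;> field_simp

theorem bruhat (g : UU hF) : g ∈ BB hF ∨ ∃ b₁ ∈ BB hF, ∃ b₂ ∈ BB hF, g = b₁ * ww hF * b₂ := by
  have h : hJ hF (ac g e0) (ac g e0) = 0 := by rw [ac_hJ]; simp [hJ, e0]
  rcases iso_cases h with ⟨k, hk⟩ | ⟨k, c, b, hb, -, hk⟩
  · exact Or.inl ⟨k, hk⟩
  · refine Or.inr ⟨_, xx_mem c b hb, (xx c b hb * ww hF)⁻¹ * g, ⟨k, ?_⟩, by simp [mul_assoc]⟩
    rw [ac_mul, hk, ac_smul, ac_inv_ac]

/-- The character of the Borel subgroup. -/
noncomputable def chi (hF : Fintype.card F = q ^ 2) : BB hF →* Fˣ where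
  toFun g := Units.mk0 (mt g.1 0 0) (by
    obtain ⟨k, hk⟩ := g.2
    have g00 : mt g.1 0 0 = k := by rw [← ac_e0, hk]; simp [e0]
    rw [g00]; exact Fx.ne e0_ne hk)
  map_one' := by ext; simp [mt_one]
  map_mul' g h := by
    obtain ⟨k, hk⟩ := h.2
    have g10 : mt h.1 1 0 = 0 := by rw [← ac_e0, hk]; simp [e0]
    have g20 : mt h.1 2 0 = 0 := by rw [← ac_e0, hk]; simp [e0]
    ext
    simp [mt_mul, Matrix.mul_apply, Fin.sum_univ_three, g10, g20]

theorem chi_eq {g : BB hF} {l : Fˣ} (h : ac g.1 e0 = (l : F) • e0) : chi hF g = l := by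
  ext
  show mt g.1 0 0 = l
  rw [← ac_e0, h]; simp [e0]

theorem chi_xt {g : BB hF} {l : Fˣ} {c b : F} {h : b + conj hF b = c * conj hF c}
    (e : g.1 = xx c b h * tt hF l) : chi hF g = l :=
  chi_eq (by rw [e, ac_mul, tt_e0, ac_smul, xx_e0])

theorem card_PP : Nat.card (PP hF) = q ^ 3 := by
  classical
  -- an element of trace one
  obtain ⟨a, ha⟩ : ∃ a : F, a + conj hF a = 1 := by
    by_cases h : ∀ a : F, a + conj hF a = 0
    · exfalso
      have h1 := card_trace_zero hF
      rw [Nat.card_congr (Equiv.subtypeUnivEquiv (p := fun x : F => x + x ^ q = 0) h),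
        Nat.card_eq_fintype_card, hF] at h1
      have := two_le_of_card_eq_sq hF
      nlinarith
    · push Not at h
      obtain ⟨a, ha⟩ := h
      refine ⟨a / (a + conj hF a), ?_⟩
      rw [map_div₀, map_add, conj_conj, add_comm (conj hF a)]
      field_simp
  let e : PP hF ≃ F × {x : F // x + x ^ q = 0} :=
    { toFun := fun p => (p.1.1, ⟨p.1.2 - p.1.1 * conj hF p.1.1 * a, by
        have := p.2
        rw [← conj_apply hF, map_sub, map_mul, map_mul, conj_conj]
        linear_combination this - p.1.1 * conj hF p.1.1 * ha⟩)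
      invFun := fun y => ⟨(y.1, y.2.1 + y.1 * conj hF y.1 * a), by
        have := y.2.2
        rw [← conj_apply hF] at this
        simp only [map_add, map_mul, conj_conj]
        linear_combination this + y.1 * conj hF y.1 * ha⟩
      left_inv := fun p => Subtype.ext (by simp)
      right_inv := fun y => by simp }
  rw [Nat.card_congr e, Nat.card_prod, card_trace_zero hF, Nat.card_eq_fintype_card, hF]
  ring

theorem card_BB : Nat.card (BB hF) = q ^ 3 * ((q + 1) * (q - 1)) := by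
  rw [← card_PP (hF := hF), ← card_units_eq hF, ← Nat.card_prod]
  symm
  refine Nat.card_congr (Equiv.ofBijective
    (fun y : PP hF × Fˣ => (⟨xx y.1.1.1 y.1.1.2 y.1.2 * tt hF y.2,
      mul_mem (xx_mem _ _ _) (tt_mem _)⟩ : BB hF)) ⟨?_, ?_⟩)
  · rintro ⟨p, l⟩ ⟨p', l'⟩ e
    have e1 : l = l' := by
      have := congrArg (chi hF) e
      rwa [chi_xt rfl, chi_xt rfl] at this
    subst e1
    have e2 := xx_inj (mul_right_cancel (congrArg Subtype.val e))
    exact Prod.ext (Subtype.ext (Prod.ext e2.1 e2.2)) rfl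
  · intro g
    obtain ⟨l, c, b, h, e⟩ := exists_of_mem_BB g.2
    exact ⟨(⟨(c, b), h⟩, l), Subtype.ext e.symm⟩

/-- The model is conjugate to the standard group. -/
theorem exists_equiv (hF : Fintype.card F = q ^ 2) : Nonempty (UU hF ≃* SU 3 F q) := by
  classical
  have hq := two_le_of_card_eq_sq hF
  have hm : (-1 : F) ^ q = -1 := by
    rw [← conj_apply hF, map_neg, map_one]
  have hc := card_norm_eq hF (-1) (by simp) hm
  have : Nontrivial {x : F // x ^ (q + 1) = -1} := Finite.one_lt_card_iff_nontrivial.1 (by omega)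
  obtain ⟨⟨a, ha⟩, ⟨a', ha'⟩, hne⟩ := exists_pair_ne {x : F // x ^ (q + 1) = -1}
  rw [pow_succ', ← conj_apply hF] at ha ha'
  have hne' : a ≠ a' := fun h => hne (Subtype.ext h)
  have h1 : 1 + a' * conj hF a ≠ 0 := by
    intro h
    have h0 : conj hF a ≠ 0 := by
      intro h0; rw [h0] at ha; simp at ha
    exact hne' (mul_right_cancel₀ h0 (by linear_combination ha - h))
  set k := (1 + a' * conj hF a)⁻¹ with hk
  have hk1 : k * (1 + a' * conj hF a) = 1 := inv_mul_cancel₀ h1
  have hk2 : conj hF k * (1 + conj hF a' * a) = 1 := by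
    have := congrArg (conj hF) hk1
    simpa only [map_mul, map_add, map_one, conj_conj] using this
  have hk0 : k ≠ 0 := inv_ne_zero h1
  clear_value k
  have hd : k * (a - a') ≠ 0 := mul_ne_zero hk0 (sub_ne_zero.2 hne')
  set m := (k * (a - a'))⁻¹ with hmd
  have hm1 : m * (k * (a - a')) = 1 := inv_mul_cancel₀ hd
  have hm2 : conj hF m * (conj hF k * (conj hF a - conj hF a')) = 1 := by
    have := congrArg (conj hF) hm1
    simpa only [map_mul, map_sub, map_one] using this
  clear_value m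
  have hmm : m * conj hF m = -1 := by
    have e : (k * (a - a')) * (conj hF k * (conj hF a - conj hF a')) = -1 := by
      have : (a - a') * (conj hF a - conj hF a') = -((1 + a' * conj hF a) * (1 + conj hF a' * a)) := by
        linear_combination ha + ha' + (a * conj hF a) * ha' - ha
      linear_combination (k * conj hF k) * this - (conj hF k * (1 + conj hF a' * a)) * hk1 - hk2
    linear_combination (m * conj hF m) * e - (conj hF m * (conj hF k * (conj hF a - conj hF a'))) * hm1 - hm2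
  let M : SpecialLinearGroup (Fin 3) F := ⟨!![1, 0, k; a, 0, k * a'; 0, m, 0], by
    simp [det_fin_three]
    linear_combination hm1⟩
  have hM : ∀ u v, hermForm 3 F q (M.1 *ᵥ u) (M.1 *ᵥ v) = hJ hF u v := by
    intro u v
    simp only [hermForm, ← conj_apply hF]
    simp [hJ, M, mulVec, dotProduct, Fin.sum_univ_three]
    linear_combination (u 0 * conj hF (v 0)) * ha + (u 0 * conj hF (v 2)) * hk2 +
      (u 2 * conj hF (v 0)) * hk1 + (u 2 * conj hF (v 2) * k * conj hF k) * ha' + (u 1 * conj hF (v 1)) * hmm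
  have hE : (UU hF).map (MulAut.conj M).toMonoidHom = SU 3 F q := by
    ext g
    rw [Subgroup.mem_map_equiv]
    simp only [MulAut.conj_symm_apply]
    have e1 : ∀ u, M.1 *ᵥ ((M⁻¹ * g * M).1 *ᵥ u) = g.1 *ᵥ (M.1 *ᵥ u) := by
      intro u
      rw [mulVec_mulVec, mulVec_mulVec]
      have : M * (M⁻¹ * g * M) = g * M := by group
      exact congrArg (fun A : SpecialLinearGroup (Fin 3) F => A.1 *ᵥ u) this
    constructor
    · intro h u v
      have hu : ∀ u : Fin 3 → F, M.1 *ᵥ ((M⁻¹).1 *ᵥ u) = u := by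
        intro u
        rw [mulVec_mulVec]
        have : M * M⁻¹ = 1 := by group
        exact (congrArg (fun A : SpecialLinearGroup (Fin 3) F => A.1 *ᵥ u) this).trans (one_mulVec u)
      have := h ((M⁻¹).1 *ᵥ u) ((M⁻¹).1 *ᵥ v)
      change hJ hF ((M⁻¹ * g * M).1 *ᵥ _) ((M⁻¹ * g * M).1 *ᵥ _) = _ at this
      rw [← hM, ← hM, e1, e1, hu, hu] at this
      exact this
    · intro h u v
      change hJ hF ((M⁻¹ * g * M).1 *ᵥ _) ((M⁻¹ * g * M).1 *ᵥ _) = _
      rw [← hM, ← hM, e1, e1]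
      exact h _ _
  exact ⟨((MulAut.conj M).subgroupMap (UU hF)).trans (MulEquiv.subgroupCongr hE)⟩

end H18.Su
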