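import Cfsg.Agent.H18.Su2
import Cfsg.Agent.S0278

/-! Subgroups of small index in `SU₃(q)`: structure of the point stabiliser. -/

set_option autoImplicit false

namespace H18.Su

open Matrix Cfsg H23

attribute [-simp] H23.conj_apply

variable {F : Type*} [Field F] [Fintype F] {q : ℕ} {hF : Fintype.card F = q ^ 2}

theorem card_UU : Nat.card (UU hF) = q ^ 3 * ((q + 1) * (q - 1)) * (q ^ 3 + 1) := by
  obtain ⟨e⟩ := exists_equiv hF
  have h := Cfsg.Agent.S0278.result hF 3 (by norm_num)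
  rw [Nat.card_congr e.toEquiv]
  have hq := two_le_of_card_eq_sq hF
  simp only [Finset.prod_range_succ, Finset.prod_range_zero] at h
  norm_num at h
  have e2 : q ^ 2 - 1 = (q + 1) * (q - 1) := by
    obtain ⟨r, rfl⟩ : ∃ r, q = r + 1 := ⟨q - 1, by omega⟩
    rw [Nat.add_sub_cancel]
    exact Nat.sub_eq_of_eq_add (by ring)
  rw [e2] at h
  apply Nat.eq_of_mul_eq_mul_left (show 0 < q + 1 by omega)
  rw [h]; ring

theorem index_BB : (BB hF).index = q ^ 3 + 1 := by
  have h := (BB hF).card_mul_index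
  rw [card_BB, card_UU] at h
  have hq := two_le_of_card_eq_sq hF
  refine Nat.eq_of_mul_eq_mul_left ?_ h
  have : 0 < q - 1 := by omega
  positivity

theorem xx_comm {c b c' b' : F} (h : b + conj hF b = c * conj hF c)
    (h' : b' + conj hF b' = c' * conj hF c') :
    xx c b h * xx c' b' h' = xx c' (b' + conj hF c * c' - conj hF c' * c) (by
      simp only [map_add, map_sub, map_mul, conj_conj]; linear_combination h') * xx c b h := by
  rw [xx_mul, xx_mul]
  exact xx_congr (by ring) (by ring)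

theorem conj_xx (g : BB hF) {c b : F} (h : b + conj hF b = c * conj hF c) :
    ∃ (b' : F) (h' : b' + conj hF b' = (conj hF (chi hF g) ^ 2 / chi hF g * c) *
        conj hF (conj hF (chi hF g) ^ 2 / chi hF g * c)),
      g.1 * xx c b h * g.1⁻¹ = xx _ b' h' ∧ (c = 0 → b' = chi hF g * conj hF (chi hF g) * b) := by
  obtain ⟨l, c1, b1, h1, e⟩ := exists_of_mem_BB g.2
  rw [chi_xt e, e, mul_assoc (xx c1 b1 h1), tt_xx, ← mul_assoc, xx_comm]
  refine ⟨_, _, by rw [mul_assoc _ (xx c1 b1 h1), mul_inv_cancel_right], ?_⟩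
  rintro rfl
  simp

/-- The image of the point stabiliser in the torus. -/
noncomputable def TT (H : Subgroup (UU hF)) : Subgroup Fˣ := (H.subgroupOf (BB hF)).map (chi hF)

variable {H : Subgroup (UU hF)}

theorem chi_mem {g : BB hF} (hg : g.1 ∈ H) : chi hF g ∈ TT H := ⟨g, hg, rfl⟩

theorem norm_mem (hlt : H.index ≤ q ^ 3) (l : Fˣ) : l * cu hF l ∈ TT H := by
  by_contra hn
  have h1 : ((l * cu hF l : Fˣ) : Fˣ ⧸ TT H) ≠ 1 := fun h => hn ((QuotientGroup.eq_one_iff _).1 h)
  have : NeZero (Monoid.exponent (Fˣ ⧸ TT H)) := ⟨Monoid.exponent_ne_zero_of_finite⟩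
  obtain ⟨φ, hφ⟩ := CommGroup.exists_apply_ne_one_of_hasEnoughRootsOfUnity (Fˣ ⧸ TT H) ℂ h1
  have := theta_eq (H := H) bruhat (by rw [index_BB]; omega)
    (φ.comp ((QuotientGroup.mk' _).comp (chi hF))) (fun b hb => by
      simp only [MonoidHom.comp_apply, QuotientGroup.mk'_apply]
      rw [(QuotientGroup.eq_one_iff _).2 (chi_mem hb), map_one])
    ⟨tt hF l, tt_mem l⟩ ⟨tt hF (cu hF l)⁻¹, tt_mem _⟩ (tt_ww l)
  simp only [MonoidHom.comp_apply, QuotientGroup.mk'_apply] at this
  rw [chi_eq (tt_e0 _), chi_eq (tt_e0 _)] at this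
  apply hφ
  rw [QuotientGroup.mk_mul, map_mul, this, ← map_mul, ← QuotientGroup.mk_mul, inv_mul_cancel]
  simp

theorem fix_mem (hlt : H.index ≤ q ^ 3) {l : Fˣ} (hl : conj hF l = l) : l ∈ TT H := by
  obtain ⟨x, hx⟩ := exists_norm_eq hF (μ := l) hl
  have hx0 : x ≠ 0 := by
    rintro rfl
    simp at hx
    exact l.ne_zero hx.symm
  have := norm_mem hlt (Units.mk0 x hx0)
  convert this using 1
  ext
  simp only [Units.val_mul, Units.val_mk0, cu_val, conj_apply]
  rw [← hx, pow_succ']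

theorem sq_mem (hlt : H.index ≤ q ^ 3) {b : F} {h : b + conj hF b = 0 * conj hF 0}
    (hb : xx 0 b h ∈ H) {s : F} (hs : conj hF s = s) :
    xx 0 (s ^ 2 * b) (by simp only [map_mul, map_pow, hs]; linear_combination s ^ 2 * h) ∈ H := by
  by_cases h0 : s = 0
  · subst h0
    rw [xx_congr (c' := 0) (b' := 0) (h' := by simp) rfl (by simp), xx_zero]
    exact one_mem _
  obtain ⟨g, hg, e⟩ := fix_mem hlt (l := Units.mk0 s h0) hs
  obtain ⟨b', h', e1, e2⟩ := conj_xx g h
  have hm : g.1 * xx 0 b h * g.1⁻¹ ∈ H := mul_mem (mul_mem hg hb) (inv_mem hg)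
  rw [e1] at hm
  convert hm using 1
  refine xx_congr (by simp) ?_
  rw [e2 rfl, e, Units.val_mk0, hs]; ring

theorem tv_mem (hlt : H.index ≤ q ^ 3) {b : F} {h : b + conj hF b = 0 * conj hF 0} (hb0 : b ≠ 0)
    (hb : xx 0 b h ∈ H) (b' : F) (h' : b' + conj hF b' = 0 * conj hF 0) : xx 0 b' h' ∈ H := by
  have hcb := conj_ne (hF := hF) hb0
  set k := b' / b with hk
  have hkc : conj hF k = k := by
    rw [hk, map_div₀]
    field_simp
    linear_combination b * h' - b' * h
  have hb' : b' = k * b := by rw [hk]; field_simp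
  by_cases h2 : (2 : F) = 0
  · have hc : CharP F 2 := CharTwo.of_one_ne_zero_of_two_eq_zero one_ne_zero h2
    obtain ⟨s, hs⟩ := FiniteField.isSquare_of_char_two (ringChar.eq F 2) k
    have hss : conj hF s = s := by
      have e : (conj hF s - s) ^ 2 = 0 := by
        have := congrArg (conj hF) hs
        rw [hkc, map_mul] at this
        linear_combination -this + hs + (s ^ 2 - conj hF s * s) * h2
      exact sub_eq_zero.1 (pow_eq_zero_iff (by norm_num) |>.1 e)
    convert sq_mem hlt hb hss using 1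
    exact xx_congr rfl (by rw [hb', hs]; ring)
  · have c2 : conj hF 2 = 2 := map_ofNat _ 2
    have h1 := sq_mem hlt hb (s := (k + 1) / 2) (by rw [map_div₀, map_add, hkc, c2, map_one])
    have h3 := sq_mem hlt hb (s := (k - 1) / 2) (by rw [map_div₀, map_sub, hkc, c2, map_one])
    have := mul_mem h1 (inv_mem h3)
    convert this using 1
    rw [eq_mul_inv_iff_mul_eq, xx_mul]
    refine xx_congr (by simp) ?_
    rw [hb']; field_simp; ring

theorem notv (hlt : H.index ≤ q ^ 3)
    (hcore : ∀ N : Subgroup (UU hF), N.Normal → N ≤ H → N ≤ Subgroup.center _)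
    {b : F} {h : b + conj hF b = 0 * conj hF 0} (hb : xx 0 b h ∈ H) : b = 0 := by
  by_contra hb0
  have hm : xx 0 b h ∈ H.normalCore := by
    intro g
    obtain ⟨k, hk, c, hc, rfl⟩ := trans_of_index (H := H) bruhat (by rw [index_BB]; omega) g
    obtain ⟨b', h', e1, -⟩ := conj_xx ⟨c, hc⟩ h
    have : k * c * xx 0 b h * (k * c)⁻¹ = k * (c * xx 0 b h * c⁻¹) * k⁻¹ := by group
    rw [this]
    refine mul_mem (mul_mem hk ?_) (inv_mem hk)
    simp only at e1
    rw [e1, xx_congr (c' := 0) (b' := b') (h' := by simpa using h') (by simp) rfl]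
    exact tv_mem hlt hb0 hb _ _
  have hc := Subgroup.mem_center_iff.1 (hcore _ inferInstance H.normalCore_le hm) (ww hF)
  have := congrArg (fun g => ac g e0 0) hc
  simp [ac_mul, ac_xx, ac_ww, e0] at this
  exact hb0 this.symm

/-- The unipotent part of the point stabiliser. -/
def RR (H : Subgroup (UU hF)) : Set (PP hF) := {p | xx p.1.1 p.1.2 p.2 ∈ H}

theorem card_eq (hlt : H.index ≤ q ^ 3) :
    H.index * (Nat.card (RR H) * Nat.card (TT H)) = q ^ 3 * ((q + 1) * (q - 1)) := by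
  have h1 : ((BB hF).subgroupOf H).index = q ^ 3 + 1 := by
    rw [← index_BB (hF := hF)]
    have : MulAction.IsPretransitive H (UU hF ⧸ BB hF) := by
      constructor
      intro x y
      obtain ⟨x, rfl⟩ := QuotientGroup.mk_surjective x
      obtain ⟨y, rfl⟩ := QuotientGroup.mk_surjective y
      obtain ⟨k, hk, c, hc, rfl⟩ := trans_of_index (H := H) bruhat (by rw [index_BB]; omega) x
      obtain ⟨k', hk', c', hc', rfl⟩ := trans_of_index (H := H) bruhat (by rw [index_BB]; omega) y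
      refine ⟨⟨k' * k⁻¹, mul_mem hk' (inv_mem hk)⟩, ?_⟩
      show ((k' * k⁻¹ * (k * c) : UU hF) : UU hF ⧸ BB hF) = _
      rw [QuotientGroup.eq]
      simpa [mul_assoc] using mul_mem (inv_mem hc) hc'
    have h2 := MulAction.index_stabilizer_of_transitive H ((1 : UU hF) : UU hF ⧸ BB hF)
    refine Eq.trans ?_ h2
    congr 1
    ext k
    rw [MulAction.mem_stabilizer_iff, Subgroup.mem_subgroupOf]
    show _ ↔ ((k.1 * 1 : UU hF) : UU hF ⧸ BB hF) = _
    rw [QuotientGroup.eq]
    simp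
  have h2 := ((BB hF).subgroupOf H).card_mul_index
  have h3 := H.card_mul_index
  have h4 : Nat.card ((BB hF).subgroupOf H) = Nat.card (H.subgroupOf (BB hF)) := by
    rw [← Subgroup.inf_subgroupOf_right, ← Subgroup.inf_subgroupOf_right H,
      Nat.card_congr (Subgroup.subgroupOfEquivOfLe inf_le_right).toEquiv,
      Nat.card_congr (Subgroup.subgroupOfEquivOfLe inf_le_right).toEquiv, inf_comm]
  let φ := (chi hF).comp (H.subgroupOf (BB hF)).subtype
  have h5 := φ.ker.card_mul_index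
  rw [Subgroup.index_ker] at h5
  have h6 : φ.range = TT H := by
    rw [MonoidHom.range_comp, Subgroup.range_subtype]; rfl
  have h7 : Nat.card (RR H) = Nat.card φ.ker := by
    refine Nat.card_congr (Equiv.ofBijective (fun p : RR H =>
      (⟨⟨⟨xx p.1.1.1 p.1.1.2 p.1.2, xx_mem _ _ _⟩, p.2⟩, chi_eq ((xx_e0 _ _ p.1.2).trans (by simp))⟩ : φ.ker)) ⟨?_, ?_⟩)
    · intro p p' e
      have := xx_inj (h := p.1.2) (h' := p'.1.2) (congrArg (fun g : φ.ker => g.1.1.1) e)
      exact Subtype.ext (Subtype.ext (Prod.ext this.1 this.2))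
    · rintro ⟨⟨g, hg⟩, hk⟩
      obtain ⟨l, c, b, h, e⟩ := exists_of_mem_BB g.2
      have hl : l = 1 := (chi_xt e).symm.trans hk
      rw [hl, tt_one, mul_one] at e
      refine ⟨⟨⟨(c, b), h⟩, ?_⟩, Subtype.ext (Subtype.ext (Subtype.ext e.symm))⟩
      show xx c b h ∈ H
      rw [← e]; exact hg
  rw [h1, h4, ← h5, h6, ← h7] at h2
  rw [← h2, card_UU] at h3
  apply Nat.eq_of_mul_eq_mul_right (show 0 < q ^ 3 + 1 by positivity)
  rw [← h3]; ring

theorem cases_index (hlt : H.index ≤ q ^ 3)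
    (hcore : ∀ N : Subgroup (UU hF), N.Normal → N ≤ H → N ≤ Subgroup.center _) :
    (H.index = q ^ 3 ∧ TT H = ⊤ ∧ ∀ c b h, xx c b h ∈ H → c = 0) ∨
    (3 * H.index = q ^ 2 * (q + 1) ∧ Nat.card (TT H) = 3 * (q - 1) ∧ (2 : F) ≠ 0) := by
  have hq := two_le_of_card_eq_sq hF
  have hc := card_eq hlt
  have hq1 : 0 < q - 1 := by omega
  by_cases h0 : ∀ c b h, xx c b h ∈ H → c = 0
  · left
    have h1 : Nat.card (RR H) = 1 := by
      rw [Nat.card_eq_one_iff_exists]
      refine ⟨⟨⟨(0, 0), by simp⟩, ?_⟩, ?_⟩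
      · show xx 0 0 _ ∈ H
        rw [xx_zero]; exact one_mem _
      · rintro ⟨⟨⟨c, b⟩, h⟩, hm⟩
        obtain rfl : c = 0 := h0 c b h hm
        obtain rfl : b = 0 := notv hlt hcore hm
        rfl
    rw [h1, one_mul] at hc
    have h2 : Nat.card (TT H) ≤ (q + 1) * (q - 1) := by
      rw [← card_units_eq hF]; exact Subgroup.card_le_card_group _
    have h3 : Nat.card (TT H) = (q + 1) * (q - 1) := by
      by_contra hne
      have : H.index * Nat.card (TT H) < q ^ 3 * ((q + 1) * (q - 1)) :=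
        Nat.mul_lt_mul_of_le_of_lt hlt (lt_of_le_of_ne h2 hne) (by positivity)
      omega
    refine ⟨?_, ?_, h0⟩
    · rw [h3] at hc
      exact Nat.eq_of_mul_eq_mul_right (by positivity) hc
    · rw [← Subgroup.card_eq_iff_eq_top, h3, card_units_eq hF]
  right
  push Not at h0
  obtain ⟨c0, b0, h0, hm0, hc0⟩ := h0
  have hcc0 := conj_ne (hF := hF) hc0
  -- commutators are trivial
  have hcomm : ∀ c b h, xx c b h ∈ H → conj hF c * c0 = conj hF c0 * c := by
    intro c b h hm
    have e := xx_comm h h0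
    have e2 : xx c0 (b0 + conj hF c * c0 - conj hF c0 * c) (by
        simp only [map_add, map_sub, map_mul, conj_conj]; linear_combination h0) =
        xx 0 (conj hF c * c0 - conj hF c0 * c) (by
        simp only [map_sub, map_mul, conj_conj]; ring) * xx c0 b0 h0 := by
      rw [xx_mul]; exact xx_congr (by simp) (by simp; ring)
    rw [e2] at e
    have : xx 0 (conj hF c * c0 - conj hF c0 * c) (by
        simp only [map_sub, map_mul, conj_conj]; ring) ∈ H := by
      rw [← mul_inv_eq_iff_eq_mul, ← mul_inv_eq_iff_eq_mul] at e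
      rw [← e]
      exact mul_mem (mul_mem (mul_mem hm hm0) (inv_mem hm)) (inv_mem hm0)
    exact sub_eq_zero.1 (notv hlt hcore this)
  have huniq : ∀ c b b' h h', xx c b h ∈ H → xx c b' h' ∈ H → b = b' := by
    intro c b b' h h' hm hm'
    have e : xx c b h = xx 0 (b - b') (by simp only [map_sub]; linear_combination h - h') * xx c b' h' := by
      rw [xx_mul]; exact xx_congr (by simp) (by simp)
    have : xx 0 (b - b') (by simp only [map_sub]; linear_combination h - h') ∈ H := by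
      rw [← mul_inv_eq_iff_eq_mul] at e
      rw [← e]; exact mul_mem hm (inv_mem hm')
    exact sub_eq_zero.1 (notv hlt hcore this)
  have hT : ∀ l ∈ TT H, ∃ b h, xx (conj hF l ^ 2 / l * c0) b h ∈ H := by
    rintro _ ⟨g, hg, rfl⟩
    obtain ⟨b', h', e1, -⟩ := conj_xx g h0
    exact ⟨b', h', e1 ▸ mul_mem (mul_mem hg hm0) (inv_mem hg)⟩
  have hR : Nat.card (RR H) = q := by
    refine Eq.trans ?_ (card_fixed hF)
    refine Nat.card_congr (Equiv.ofBijective (fun p : RR H => (⟨p.1.1.1 / c0, by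
      have := hcomm _ _ _ p.2
      rw [← conj_apply hF, map_div₀]
      field_simp
      linear_combination this⟩ : {x : F // x ^ q = x})) ⟨?_, ?_⟩)
    · rintro ⟨⟨⟨c, b⟩, h⟩, hm⟩ ⟨⟨⟨c', b'⟩, h'⟩, hm'⟩ e
      have e1 : c / c0 = c' / c0 := congrArg Subtype.val e
      obtain rfl : c = c' := by field_simp at e1; exact e1
      obtain rfl : b = b' := huniq c b b' h h' hm hm'
      rfl
    · rintro ⟨s, hs⟩
      by_cases hs0 : s = 0
      · refine ⟨⟨⟨(0, 0), by simp⟩, ?_⟩, Subtype.ext (by simp [hs0])⟩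
        show xx 0 0 _ ∈ H
        rw [xx_zero]; exact one_mem _
      · obtain ⟨b, h, hm⟩ := hT _ (fix_mem hlt (l := Units.mk0 s hs0) hs)
        refine ⟨⟨⟨(_, b), h⟩, hm⟩, Subtype.ext ?_⟩
        have : conj hF s = s := hs
        simp only [Units.val_mk0, this]
        field_simp
  have hle : TT H ≤ (powMonoidHom (3 * (q - 1)) : Fˣ →* Fˣ).ker := by
    intro l hl
    obtain ⟨b, h, hm⟩ := hT l hl
    have h1 := hcomm _ _ _ hm
    have := l.ne_zero
    have hcl := conj_ne (hF := hF) l.ne_zero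
    simp only [map_mul, map_div₀, map_pow, conj_conj] at h1
    field_simp at h1
    rw [MonoidHom.mem_ker, powMonoidHom_apply]
    ext
    rw [Units.val_pow_eq_pow_val, Units.val_one]
    have e : (l : F) ^ (3 * (q - 1)) * l ^ 3 = (l ^ q) ^ 3 := by
      rw [← pow_add, ← pow_mul]; congr 1; omega
    rw [← conj_apply hF, ← h1] at e
    exact mul_right_cancel₀ (pow_ne_zero 3 this) (by rw [e, one_mul])
  have hge : (powMonoidHom (q - 1) : Fˣ →* Fˣ).ker ≤ TT H := by
    intro l hl
    apply fix_mem hlt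
    rw [MonoidHom.mem_ker, powMonoidHom_apply] at hl
    have : (l : F) ^ (q - 1) = 1 := by rw [← Units.val_pow_eq_pow_val, hl, Units.val_one]
    rw [conj_apply, show q = q - 1 + 1 by omega, pow_succ, this, one_mul]
  have d1 := Subgroup.card_dvd_of_le hle
  have d2 := Subgroup.card_dvd_of_le hge
  rw [card_ker_pow_pred hF] at d2
  rw [IsCyclic.card_powMonoidHom_ker] at d1
  have d3 := d1.trans (Nat.gcd_dvd_right _ _)
  obtain ⟨k, hk⟩ := d2
  rw [hk, mul_comm 3] at d3
  have d4 := Nat.dvd_of_mul_dvd_mul_left hq1 d3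
  rw [hR, hk] at hc
  have hc' : H.index * k = q ^ 2 * (q + 1) := by
    apply Nat.eq_of_mul_eq_mul_left (show 0 < q * (q - 1) by positivity)
    calc q * (q - 1) * (H.index * k) = H.index * (q * ((q - 1) * k)) := by ring
      _ = _ := by rw [hc]; ring
  have hk3 : k = 3 := by
    rcases (Nat.dvd_prime Nat.prime_three).1 d4 with rfl | rfl
    · exfalso
      have : q ^ 2 * (q + 1) = q ^ 3 + q ^ 2 := by ring
      have : 0 < q ^ 2 := by positivity
      omega
    · rfl
  subst hk3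
  refine ⟨by rw [← hc', mul_comm], by rw [hk, mul_comm], ?_⟩
  intro h2
  have hm := mul_mem hm0 hm0
  rw [xx_mul, xx_congr (c' := 0) (b' := conj hF c0 * c0) (h' := by
    simp only [map_mul, conj_conj]; linear_combination (conj hF c0 * c0) * h2)
    (by linear_combination c0 * h2) (by linear_combination b0 * h2)] at hm
  exact mul_ne_zero hcc0 hc0 (notv hlt hcore hm)

/-- After conjugation the stabiliser contains diagonal matrices. -/
theorem exists_norm (hq : 4 ≤ q) (hlt : H.index ≤ q ^ 3) :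
    ∃ y : UU hF, ∀ l ∈ TT (H.map (MulAut.conj y).toMonoidHom),
      tt hF l ∈ H.map (MulAut.conj y).toMonoidHom := by
  classical
  obtain ⟨⟨l0, hl0⟩, hgen⟩ := IsCyclic.exists_generator (α := TT H)
  have hgen' : ∀ l ∈ TT H, ∃ k : ℤ, l0 ^ k = l := fun l hl => by
    obtain ⟨k, hk⟩ := hgen ⟨l, hl⟩
    exact ⟨k, congrArg Subtype.val hk⟩
  -- a fixed element with nontrivial square
  obtain ⟨s, hs, hs2⟩ : ∃ s : Fˣ, conj hF s = s ∧ s ^ 2 ≠ 1 := by
    by_contra hn
    push Not at hn
    have hle : (powMonoidHom (q - 1) : Fˣ →* Fˣ).ker ≤ (powMonoidHom 2 : Fˣ →* Fˣ).ker := by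
      intro l hl
      rw [MonoidHom.mem_ker, powMonoidHom_apply] at hl ⊢
      apply hn
      have : (l : F) ^ (q - 1) = 1 := by rw [← Units.val_pow_eq_pow_val, hl, Units.val_one]
      rw [conj_apply, show q = q - 1 + 1 by omega, pow_succ, this, one_mul]
    have d := Subgroup.card_dvd_of_le hle
    rw [card_ker_pow_pred hF, IsCyclic.card_powMonoidHom_ker] at d
    have := Nat.le_of_dvd (by norm_num) (d.trans (Nat.gcd_dvd_right _ _))
    omega
  obtain ⟨k, hk⟩ := hgen' s (fix_mem hlt hs)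
  have hcs : cu hF s = s := Units.ext hs
  have h1 : (l0 : F) * conj hF l0 ≠ 1 := by
    intro h
    have : l0 * cu hF l0 = 1 := Units.ext h
    apply hs2
    rw [sq]
    nth_rewrite 2 [← hcs]
    rw [← hk, map_zpow, ← mul_zpow, this, _root_.one_zpow]
  have h2 : conj hF l0 ^ 2 / l0 ≠ 1 := by
    intro h
    rw [div_eq_one_iff_eq l0.ne_zero] at h
    have : cu hF l0 ^ 2 = l0 := Units.ext h
    have h3 : s ^ 2 = s := by
      nth_rewrite 1 [← hcs]
      rw [← hk, map_zpow, ← zpow_natCast, ← _root_.zpow_mul, mul_comm, _root_.zpow_mul, zpow_natCast, this]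
    apply hs2
    have : s = 1 := by simpa [sq] using h3
    rw [this, one_pow]
  obtain ⟨g, hg, e⟩ := hl0
  obtain ⟨l, c, b, h, e1⟩ := exists_of_mem_BB g.2
  obtain rfl : l = l0 := (chi_xt e1).symm.trans e
  set μ := conj hF l ^ 2 / l with hμ
  set ν := (l : F) * conj hF l with hν
  have hl := l.ne_zero
  have hcl := conj_ne (hF := hF) hl
  have hμν : μ * conj hF μ = ν := by
    simp only [hμ, hν, map_div₀, map_pow, conj_conj]; field_simp
  have hνc : conj hF ν = ν := by simp only [hν, map_mul, conj_conj]; ring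
  have h1' : 1 - ν ≠ 0 := sub_ne_zero.2 h1.symm
  have h2' : 1 - μ ≠ 0 := sub_ne_zero.2 h2.symm
  obtain ⟨c', hc'⟩ : ∃ c', c = (1 - μ) * c' := ⟨c / (1 - μ), by field_simp⟩
  obtain ⟨b', hb'⟩ : ∃ b', (1 - ν) * b' = b + conj hF c * (μ * c') :=
    ⟨(b + conj hF c * (μ * c')) / (1 - ν), by field_simp⟩
  have h' : b' + conj hF b' = c' * conj hF c' := by
    apply mul_left_cancel₀ h1'
    have e2 := congrArg (conj hF) hb'
    have e3 := congrArg (conj hF) hc'
    simp only [map_mul, map_sub, map_add, map_one, hνc, conj_conj] at e2 e3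
    rw [e3, hc'] at h
    rw [e3] at hb'
    rw [hc'] at e2
    linear_combination hb' + e2 + h - c' * conj hF c' * hμν
  have hy : g.1 * xx c' b' h' = xx c' b' h' * tt hF l := by
    rw [e1, mul_assoc, tt_xx, ← mul_assoc, xx_mul]
    congr 1
    exact xx_congr (by rw [hc']; ring) (by linear_combination -hb')
  refine ⟨(xx c' b' h')⁻¹, ?_⟩
  rintro _ ⟨g', ⟨g0, hg0, e2⟩, rfl⟩
  have hB0 : g0 ∈ BB hF := by
    have : g0 = xx c' b' h' * g'.1 * (xx c' b' h')⁻¹ := by
      have e3 : g'.1 = (xx c' b' h')⁻¹ * g0 * xx c' b' h' := by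
        rw [show g'.1 = _ from e2.symm]; simp
      rw [e3]; group
    rw [this]
    exact mul_mem (mul_mem (xx_mem _ _ _) g'.2) (inv_mem (xx_mem _ _ _))
  have e4 : chi hF g' = chi hF ⟨g0, hB0⟩ := by
    have : g' = (⟨xx c' b' h', xx_mem _ _ _⟩ : BB hF)⁻¹ * ⟨g0, hB0⟩ * ⟨xx c' b' h', xx_mem _ _ _⟩ := by
      apply Subtype.ext
      rw [show g'.1 = _ from e2.symm]; simp
    rw [this, map_mul, map_mul, map_inv, mul_comm, ← mul_assoc, mul_inv_cancel, one_mul]
  obtain ⟨j, hj⟩ := hgen' _ (chi_mem (g := ⟨g0, hB0⟩) hg0)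
  rw [e4, ← hj]
  have : tt hF (l ^ j) = tt hF l ^ j := map_zpow (tH hF) l j
  rw [this]
  refine zpow_mem (Subgroup.mem_map.2 ⟨g.1, hg, ?_⟩) j
  simp only [MulEquiv.toMonoidHom_eq_coe, MonoidHom.coe_coe, MulAut.conj_apply, inv_inv]
  rw [mul_assoc, hy]; simp

end H18.Su
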