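import Cfsg.Agent.H18.SzC4
import Cfsg.Prelude.Def_DegreeGraph

/-! The character degrees of the Suzuki groups. -/

set_option autoImplicit false
set_option linter.unusedSectionVars false
open H17 Cfsg H15 CF H21 Finset H26
open scoped ComplexConjugate Classical

namespace H18.SzT

variable {G : Type*} [Group G] [Finite G]

theorem mem_charDegrees {d : ℕ} : d ∈ charDegrees G ↔ ∃ χ ∈ Irr (⊤ : Subgroup G), χ 1 = d := by
  constructor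
  · rintro ⟨χ, rfl⟩
    obtain ⟨n, -, hn⟩ := irr_pos_one (mem_Irr_top.2 χ.2)
    exact ⟨χ, mem_Irr_top.2 χ.2, by simp [charDegree, hn]⟩
  · rintro ⟨χ, h, hd⟩
    exact ⟨⟨χ, mem_Irr_top.1 h⟩, by simp [charDegree, hd]⟩

theorem SD.exists_deg {s : ℝ} {B Q Z : Subgroup G} {A : Fin 3 → Subgroup G} (h : SD s B Q Z A)
    {z : ℂ} : (∃ χ ∈ Irr (⊤ : Subgroup G), χ 1 = z) ↔ z = 1 ∨ z = (4 * s ^ 4 : ℝ) ∨
      (∃ i, z = dd s i) ∨ z = (s * (2 * s ^ 2 - 1) : ℝ) := by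
  obtain ⟨α, β, T⟩ := h.table
  constructor
  · rintro ⟨χ, hχ, rfl⟩
    rcases T.cases hχ with rfl | rfl | ⟨i, ψ, hψ, rfl⟩ | rfl | rfl
    exacts [Or.inl (by simp), Or.inr (Or.inl h.cv_St.one),
      Or.inr (Or.inr (Or.inl ⟨i, h.FF_one ((h.tor i).one_eq hψ)⟩)), Or.inr (Or.inr (Or.inr T.da)),
      Or.inr (Or.inr (Or.inr T.db))]
  · rintro (rfl | rfl | ⟨i, rfl⟩ | rfl)
    · exact ⟨_, one_mem_Irr _, by simp⟩
    · exact ⟨_, h.St_irr, h.cv_St.one⟩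
    · obtain ⟨ψ, hψ⟩ := IrrD_nonempty (K := 𝒩(A i)) (H := A i) (M := ⊥) bot_le
        Subgroup.le_normalizer_of_normal (by simpa using (h.tor i).ne)
      exact ⟨_, h.FF_irr hψ, h.FF_one ((h.tor i).one_eq hψ)⟩
    · exact ⟨α, T.ia, T.da⟩

theorem sz_degrees {F : Type*} [Field F] [Fintype F] {m : ℕ} (M : SzModel G F m) {d : ℕ} :
    d ∈ charDegrees G ↔ d = 1 ∨ d = (2 ^ (2 * m + 1)) ^ 2 ∨ d = (2 ^ (2 * m + 1)) ^ 2 + 1 ∨
      d = (2 ^ (2 * m + 1) - 2 ^ (m + 1) + 1) * (2 ^ (2 * m + 1) - 1) ∨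
      d = (2 ^ (2 * m + 1) + 2 ^ (m + 1) + 1) * (2 ^ (2 * m + 1) - 1) ∨
      d = 2 ^ m * (2 ^ (2 * m + 1) - 1) := by
  obtain ⟨A, h⟩ := exists_SD M
  have h1 : 2 ^ (m + 1) ≤ 2 ^ (2 * m + 1) := by gcongr <;> omega
  have h2 : 1 ≤ 2 ^ (2 * m + 1) := Nat.one_le_two_pow
  rw [mem_charDegrees, h.exists_deg, Fin.exists_fin_succ, Fin.exists_fin_two]
  simp only [← Nat.cast_inj (R := ℂ), or_assoc]
  refine or_congr (by simp) (or_congr ?_ (or_congr ?_ (or_congr ?_ (or_congr ?_ ?_)))) <;>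
    refine Eq.congr_right ?_ <;> simp [dd, h1, h2] <;> ring_nf

theorem sz_graph {F : Type*} [Field F] [Fintype F] {m : ℕ} (M : SzModel G F m) {q : ℕ}
    (hqm : q = 2 ^ (2 * m + 1)) :
    degreePrimes G = {r : ℕ | r.Prime ∧ (r = 2 ∨ r ∣ (q - 1) * (q ^ 2 + 1))} ∧
    ∀ r s : ℕ, (degreeGraph G).Adj r s ↔ (r ≠ s ∧ r.Prime ∧ s.Prime ∧
      ((r ∣ (q - 1) * (q ^ 2 + 1) ∧ s ∣ (q - 1) * (q ^ 2 + 1)) ∨ (r = 2 ∧ s ∣ q - 1) ∨
        (s = 2 ∧ r ∣ q - 1))) := by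
  have hd := fun d => sz_degrees M (d := d)
  have e := np_mul_nm m
  have h2 : ∀ {r : ℕ}, r.Prime → ∀ k, r ∣ 2 ^ k → r = 2 := fun hr k h =>
    (Nat.prime_dvd_prime_iff_eq hr Nat.prime_two).1 (hr.dvd_of_dvd_pow h)
  have h3 : ∀ {r : ℕ}, r.Prime → r ∣ q ^ 2 → r = 2 := fun hr h =>
    h2 hr _ (hqm ▸ hr.dvd_of_dvd_pow h)
  have h4 : 2 ∣ q ^ 2 := dvd_pow (hqm ▸ dvd_pow_self 2 (by omega)) two_ne_zero
  have h5 : 2 ∣ 2 ^ m := dvd_pow_self 2 (by have := M.hm; omega)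
  rw [← hqm] at hd e
  rw [← e] at hd ⊢
  generalize q + 2 ^ (m + 1) + 1 = b at *
  generalize q - 2 ^ (m + 1) + 1 = c at *
  generalize q - 1 = a at *
  have key : ∀ r s : ℕ, r.Prime → s.Prime → ((∃ d ∈ charDegrees G, r ∣ d ∧ s ∣ d) ↔
      (r = 2 ∧ s = 2) ∨ ((r ∣ a * (b * c) ∧ s ∣ a * (b * c)) ∨ (r = 2 ∧ s ∣ a) ∨
        (s = 2 ∧ r ∣ a))) := fun r s hr hs => by
    simp only [hd, exists_eq_or_imp, exists_eq_left, hr.dvd_mul, hs.dvd_mul, Nat.dvd_one,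
      hr.ne_one, false_and, false_or]
    constructor
    · rintro (⟨x, y⟩ | ⟨x, y⟩ | ⟨x, y⟩ | ⟨x, y⟩ | ⟨x | x, y | y⟩)
      · exact Or.inl ⟨h3 hr x, h3 hs y⟩
      · exact Or.inr (Or.inl ⟨Or.inr x, Or.inr y⟩)
      · exact Or.inr (Or.inl ⟨x.symm.imp_right Or.inr, y.symm.imp_right Or.inr⟩)
      · exact Or.inr (Or.inl ⟨x.symm.imp_right Or.inl, y.symm.imp_right Or.inl⟩)
      · exact Or.inl ⟨h2 hr m x, h2 hs m y⟩
      · exact Or.inr (Or.inr (Or.inl ⟨h2 hr m x, y⟩))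
      · exact Or.inr (Or.inr (Or.inr ⟨h2 hs m y, x⟩))
      · exact Or.inr (Or.inl ⟨Or.inl x, Or.inl y⟩)
    · rintro (⟨rfl, rfl⟩ | ⟨x | x | x, y | y | y⟩ | ⟨rfl, y⟩ | ⟨rfl, y⟩) <;> simp [*]
  refine ⟨Set.ext fun r => and_congr_right fun hr => ?_, fun r s => and_congr_right fun h =>
    and_congr_right fun hr => and_congr_right fun hs => ?_⟩
  · have := key r r hr hr
    simp only [and_self] at this
    rw [this]
    tauto
  · have := key r s hr hs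
    rw [or_iff_right fun e => h (e.1.trans e.2.symm)] at this
    rw [← this]
    exact exists_congr fun d => and_congr_right fun _ => ⟨fun h => ⟨(dvd_mul_right _ _).trans h,
      (dvd_mul_left _ _).trans h⟩, fun h' => ((Nat.coprime_primes hr hs).2 h).mul_dvd_of_dvd_of_dvd
        h'.1 h'.2⟩

end H18.SzT
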