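import Cfsg.Agent.H18.SzC4

/-! Squares of conjugacy classes in the Suzuki groups. -/

set_option autoImplicit false
set_option linter.unusedSectionVars false
open H17 Cfsg H15 CF H21 Finset
open scoped ComplexConjugate Classical

namespace H18.SzT

variable {G : Type*} [Group G] [Finite G]

theorem cls_zero {x g : G} (hn : ∀ u v, g ≠ u * x * u⁻¹ * (v * x * v⁻¹)) :
    ∑ χ ∈ Irr (⊤ : Subgroup G), χ x ^ 2 * conj (χ g) * (Nat.card G / χ 1) = 0 := by
  have h1 : pairSum x x (∑ χ ∈ Irr (⊤ : Subgroup G), conj (χ g) • χ) = 0 := by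
    rw [pairSum_apply]
    refine sum_fs_eq_zero fun _ ⟨u, hu⟩ => sum_fs_eq_zero fun _ ⟨v, hv⟩ => ?_
    simp only [Finset.sum_apply, Pi.smul_apply, smul_eq_mul, mul_comm (conj _)]
    rw [column_orth (Subgroup.mem_top _), if_neg]
    rintro ⟨t, -, rfl⟩
    exact hn (t * u) (t * v) (by rw [← hu, ← hv]; group)
  have h2 : ((ccls x).ncard : ℂ) ≠ 0 := by
    rw [ncard_ccls]; exact_mod_cast Subgroup.index_ne_zero_of_finite
  rw [map_sum, sum_congr rfl fun χ hχ => by rw [map_smul, pairSum_irr hχ]] at h1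
  apply mul_left_cancel₀ (mul_ne_zero h2 h2)
  rw [mul_sum, mul_zero, ← mul_zero (Nat.card G : ℂ), ← h1, mul_sum]
  exact sum_congr rfl fun χ _ => by rw [smul_eq_mul]; ring

variable {s : ℝ} {B Q Z : Subgroup G} {A : Fin 3 → Subgroup G} {u a lo : ℝ} {x g : G}
  {α β χ ψ : G → ℂ} {i j : Fin 3}

namespace SD
variable (h : SD s B Q Z A)
include h

theorem expand (T : Tab s B Q Z A α β) (hn : ∀ u v, g ≠ u * x * u⁻¹ * (v * x * v⁻¹)) :
    4 * s ^ 4 * ((2 * s ^ 2 - 1) * (4 * s ^ 4 + 1)) + St s B Q Z A x ^ 2 * conj (St s B Q Z A g) *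
      ((2 * s ^ 2 - 1) * (4 * s ^ 4 + 1)) + ∑ i, 4 * s ^ 4 * nn s i * ∑ ψ ∈ TS (A i),
        FF s B Q Z A i ψ x ^ 2 * conj (FF s B Q Z A i ψ g) +
      (α x ^ 2 * conj (α g) + β x ^ 2 * conj (β g)) * (4 * s ^ 3 * (4 * s ^ 4 + 1)) = 0 := by
  have e1 : (Nat.card G : ℂ) / (4 * s ^ 4 : ℝ) = (2 * s ^ 2 - 1) * (4 * s ^ 4 + 1) := by
    rw [div_eq_iff (by simpa using h.n0), h.kG]; push_cast; ring
  have e2 : ∀ i, (Nat.card G : ℂ) / dd s i = 4 * s ^ 4 * nn s i := fun i => by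
    rw [div_eq_iff (by exact_mod_cast (h.dd_pos i).ne'), h.kG]
    fin_cases i <;> simp [dd, nn, -mul_eq_mul_left_iff, -mul_eq_mul_right_iff] <;> ring
  have e3 : (Nat.card G : ℂ) / (s * (2 * s ^ 2 - 1) : ℝ) = 4 * s ^ 3 * (4 * s ^ 4 + 1) := by
    rw [div_eq_iff (by push_cast; exact mul_ne_zero h.n0 h.n1), h.kG]; push_cast; ring
  have := cls_zero hn
  rw [T.sum, T.da, T.db, h.cv_St.one, e1, e3, sum_congr rfl fun i _ => sum_congr rfl fun ψ hψ => by
    rw [h.FF_one ((h.tor i).one_eq hψ), e2, mul_comm]] at this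
  simp only [one_top, Pi.one_apply, ← mul_sum, h.kG, map_one] at this
  linear_combination this

theorem real_at (hx : x ∈ A i) (hχ : χ ∈ Irr (⊤ : Subgroup G)) : χ x ^ 2 = (‖χ x‖ ^ 2 : ℝ) := by
  obtain ⟨t, ht⟩ := (h.tor i).real (by fin_cases i <;> decide) (h.odd i) hx
  have : conj (χ x) = χ x := by
    rw [(irr_char hχ).conj_apply, ← ht, cf_conj (irr_cf hχ) _ (Subgroup.mem_top t)]
  rw [sq]
  nth_rewrite 2 [← this]
  rw [Complex.mul_conj']
  push_cast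
  rfl

theorem sum_FF_sq (hx : x ∈ A i) (h1 : x ≠ 1) :
    ∑ ψ ∈ TS (A i), ‖FF s B Q Z A i ψ x‖ ^ 2 = nn s i - ee i := by
  rw [← h.cA, ← (h.tor i).sum_sq hx h1]
  refine sum_congr rfl fun ψ hψ => ?_
  rw [h.FF_a ((h.tor i).on hψ) hx h1]
  fin_cases i <;> simp [st]

theorem ab_tor (T : Tab s B Q Z A α β) (hx : x ∈ A i) (h1 : x ≠ 1) :
    α x = al i / 2 ∧ β x = al i / 2 := by
  have e := sum_normSq_Irr (Subgroup.mem_top x)
  rw [T.sum, top_inf_eq, (h.tor i).cent x hx h1, h.cA, h.cv_St.a i x hx h1,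
    sum_eq_single i (fun j _ hj => sum_eq_zero fun ψ hψ => by
      simp [h.FF_a' ((h.tor j).on hψ).2 hx h1 hj]) (by simp), h.sum_FF_sq hx h1] at e
  have e1 : α x + β x = al i := by rw [← h.cv_Al.a i x hx h1, ← T.add]; rfl
  have e2 : α x ^ 2 + β x ^ 2 = al i ^ 2 / 2 := by
    rw [h.real_at hx T.ia, h.real_at hx T.ib]
    norm_cast
    fin_cases i <;> simp [st, ee, al, one_top] at e ⊢ <;> linarith
  have e3 : α x - β x = 0 := pow_eq_zero_iff (two_ne_zero) |>.1 (by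
    linear_combination 2 * e2 - (α x + β x + al i) * e1)
  exact ⟨by linear_combination e1 / 2 + e3 / 2, by linear_combination e1 / 2 - e3 / 2⟩

theorem key_tor (hx : x ∈ A i) (h1 : x ≠ 1) (hu : St s B Q Z A g = u) (ha : Al s B Q Z A g = a)
    (hlo : ∀ ψ ∈ TS (A i), lo ≤ (FF s B Q Z A i ψ g).re)
    (pos : 0 < (4 * s ^ 4 + u) * ((2 * s ^ 2 - 1) * (4 * s ^ 4 + 1)) +
      4 * s ^ 4 * nn s i * ((nn s i - ee i) * lo) + al i ^ 2 * a * (s ^ 3 * (4 * s ^ 4 + 1))) :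
    ∃ u v, g = u * x * u⁻¹ * (v * x * v⁻¹) := by
  by_contra hn
  push Not at hn
  obtain ⟨α, β, T⟩ := h.table
  have e := h.expand T hn
  have e1 : conj (α g) + conj (β g) = a := by
    rw [← map_add, ← Complex.conj_ofReal, ← ha, ← T.add]; rfl
  have e2 : (st i : ℂ) ^ 2 = 1 := by fin_cases i <;> simp [st]
  rw [(h.ab_tor T hx h1).1, (h.ab_tor T hx h1).2, ← mul_add, e1, hu, h.cv_St.a i x hx h1, e2,
    sum_eq_single i (fun j _ hj => by
      rw [sum_eq_zero fun ψ hψ => by simp [h.FF_a' ((h.tor j).on hψ).2 hx h1 hj], mul_zero])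
      (by simp), sum_congr rfl fun ψ hψ => by rw [h.real_at hx (h.FF_irr hψ)],
    Complex.conj_ofReal] at e
  have e3 : (nn s i - ee i) * lo ≤ (∑ ψ ∈ TS (A i), ((‖FF s B Q Z A i ψ x‖ ^ 2 : ℝ) : ℂ) *
      conj (FF s B Q Z A i ψ g)).re := by
    rw [← h.sum_FF_sq hx h1, sum_mul, Complex.re_sum]
    refine sum_le_sum fun ψ hψ => ?_
    rw [Complex.re_ofReal_mul, Complex.conj_re]
    exact mul_le_mul_of_nonneg_left (hlo ψ hψ) (sq_nonneg _)
  generalize (∑ ψ ∈ TS (A i), ((‖FF s B Q Z A i ψ x‖ ^ 2 : ℝ) : ℂ) *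
      conj (FF s B Q Z A i ψ g)) = y at e e3
  have e4 : (((4 * s ^ 4 + u) * ((2 * s ^ 2 - 1) * (4 * s ^ 4 + 1)) +
      al i ^ 2 * a * (s ^ 3 * (4 * s ^ 4 + 1)) : ℝ) : ℂ) + (4 * s ^ 4 * nn s i : ℝ) * y = 0 := by
    push_cast
    linear_combination e
  have e5 := congrArg Complex.re e4
  rw [Complex.add_re, Complex.re_ofReal_mul, Complex.ofReal_re, Complex.zero_re] at e5
  have : 0 ≤ 4 * s ^ 4 * nn s i := by rw [← h.cA]; positivity
  nlinarith [mul_le_mul_of_nonneg_left e3 this]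

theorem key_q (hx : x ∈ Q) (h1 : x ∉ Z) (ha : Al s B Q Z A g = a) {c : Fin 3 → ℝ}
    (hc : ∀ i, ∑ ψ ∈ TS (A i), FF s B Q Z A i ψ g = c i) (h2 : |a| ≤ lo)
    (pos : 0 < (2 * s ^ 2 - 1) * (4 * s ^ 4 + 1) + ∑ i, nn s i * c i - lo * (s * (4 * s ^ 4 + 1))) :
    ∃ u v, g = u * x * u⁻¹ * (v * x * v⁻¹) := by
  by_contra hn
  push Not at hn
  obtain ⟨α, β, T⟩ := h.table
  have e := h.expand T hn
  have e0 : β x = -α x := by
    have := h.cv_Al.q x hx h1
    rw [← T.add, Pi.add_apply] at this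
    linear_combination (norm := simp) this
  have e1 : conj (α g) + conj (β g) = a := by
    rw [← map_add, ← Complex.conj_ofReal, ← ha, ← T.add]; rfl
  have e2 : ∀ i, (st i : ℂ) ^ 2 = 1 := fun i => by fin_cases i <;> simp [st]
  have e3 := sum_normSq_Irr (Subgroup.mem_top x)
  rw [T.sum, top_inf_eq, h.cv_St.q x hx h1, e0, sum_congr rfl fun i _ =>
    show _ = tt s i by
      rw [sum_congr rfl fun ψ hψ => show _ = (1 : ℝ) by
        rw [h.FF_q ((h.tor i).on hψ).2 hx h1]; fin_cases i <;> simp [st]]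
      have := h.card_TS i
      simp; exact_mod_cast this, Fin.sum_univ_three] at e3
  have e4 : ‖α x‖ ^ 2 ≤ s ^ 2 := by
    have := h.cent x hx h1
    simp [tt, one_top] at e3
    linarith
  rw [e0, neg_sq, ← mul_add, e1, h.cv_St.q x hx h1, sum_congr rfl fun i _ => by
    rw [sum_congr rfl fun ψ hψ => by rw [h.FF_q ((h.tor i).on hψ).2 hx h1, e2, one_mul],
      ← map_sum, hc, Complex.conj_ofReal]] at e
  have e5 : ((s * ((2 * s ^ 2 - 1) * (4 * s ^ 4 + 1) + ∑ i, nn s i * c i) : ℝ) : ℂ) =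
      -(α x ^ 2 * a * (4 * s ^ 4 + 1 : ℝ)) := by
    apply mul_left_cancel₀ (mul_ne_zero (show (4 : ℂ) ≠ 0 by norm_num) (pow_ne_zero 3 h.n0))
    simp only [Fin.sum_univ_three] at e ⊢
    push_cast at e ⊢
    linear_combination e
  have e6 := (Complex.re_le_norm _).trans (congrArg norm e5).le
  have s0 : 0 < s := by linarith [h.hs]
  rw [Complex.ofReal_re, norm_neg, norm_mul, norm_mul, norm_pow, Complex.norm_real,
    Complex.norm_real, Real.norm_eq_abs, Real.norm_eq_abs, abs_of_pos (a := 4 * s ^ 4 + 1)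
      (by positivity)] at e6
  have e7 : ‖α x‖ ^ 2 * |a| * (4 * s ^ 4 + 1) ≤ s ^ 2 * lo * (4 * s ^ 4 + 1) := by gcongr
  nlinarith [mul_pos s0 pos]

theorem sq_cover (hx : x * x ≠ 1) (hg : g ≠ 1) : ∃ u v, g = u * x * u⁻¹ * (v * x * v⁻¹) := by
  obtain ⟨t, ht, hs⟩ : ∃ t, 0 ≤ t ∧ s = t + 2 := ⟨s - 2, by linarith [h.hs], by ring⟩
  revert hx hg
  refine h.cases (P := fun x => x * x ≠ 1 → g ≠ 1 → ∃ u v, g = u * x * u⁻¹ * (v * x * v⁻¹))
    (fun t x H h1 h2 => ?_) (by simp) (fun x hx _ h1 => absurd ((h.sqZ x (h.ZQ hx)).2 hx) h1)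
    (fun x hx h1 h2 => ?_) (fun i x hx h1 _ => ?_) x
  · obtain ⟨u, v, e⟩ := H (fun e => h1 (by simpa using e)) h2
    exact ⟨u * t, v * t, by rw [e]; group⟩
  all_goals
    refine h.cases (P := fun g => g ≠ 1 → ∃ u v, g = u * x * u⁻¹ * (v * x * v⁻¹))
      (fun t g H h1 => let ⟨u, v, e⟩ := H (by simpa using h1); ⟨t⁻¹ * u, t⁻¹ * v, by
        rw [show g = t⁻¹ * (t * g * t⁻¹) * t by group, e]; group⟩) (by simp)
      (fun g hg h3 _ => ?_) (fun g hg h3 _ => ?_) (fun j g hg h3 _ => ?_) g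
  · obtain ⟨k, rfl⟩ := h.conjZ _ (h.sqQ x hx) h2 g hg h3
    exact ⟨k, k, by group⟩
  · refine h.key_q (lo := 0) hx h1 (h.cv_Al.q g hg h3) (c := fun i => tt s i * st i) (fun i => by
      rw [h.sum_const' fun ψ hψ => h.FF_q ((h.tor i).on hψ).2 hg h3]; simp) (by simp) ?_
    simp [Fin.sum_univ_three, nn, tt, st, hs]; ring_nf; positivity
  · refine h.key_q (lo := 2) hx h1 (h.cv_Al.a j g hg h3) (c := fun i => if i = j then -st i else 0)
      (fun i => by rw [h.sum_FF_a hg h3]; split_ifs <;> simp) (by fin_cases j <;> simp [al]) ?_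
    fin_cases j <;> simp only [Fin.sum_univ_three] <;> simp [-sub_pos, nn, st, hs] <;> ring_nf <;>
      positivity
  · refine h.key_tor (lo := bb s i) hx h1 (h.cv_St.z g hg h3) (h.cv_Al.z g hg h3) (fun ψ hψ => by
      rw [h.FF_z ((h.tor i).on hψ).2 hg h3, Complex.ofReal_re]) ?_
    fin_cases i <;> simp [nn, ee, al, bb, hs] <;> rw [← sub_pos] <;>
      ring_nf <;> positivity
  · refine h.key_tor (lo := st i) hx h1 (h.cv_St.q g hg h3) (h.cv_Al.q g hg h3) (fun ψ hψ => by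
      rw [h.FF_q ((h.tor i).on hψ).2 hg h3, Complex.ofReal_re]) ?_
    fin_cases i <;> simp [nn, ee, al, st, hs] <;> rw [← sub_pos] <;>
      ring_nf <;> positivity
  · by_cases e : i = j
    · subst e
      refine h.key_tor (lo := -ee i) hx h1 (h.cv_St.a i g hg h3) (h.cv_Al.a i g hg h3) (fun ψ hψ => by
        have := (h.tor i).norm_le hψ g
        have h4 := (abs_le.1 (Complex.abs_re_le_norm (FF s B Q Z A i ψ g))).1
        rw [h.FF_a ((h.tor i).on hψ) hg h3] at h4 ⊢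
        refine le_trans ?_ h4
        fin_cases i <;> simpa [st] using this) ?_
      fin_cases i <;> simp [nn, ee, al, st, hs] <;> rw [← sub_pos] <;>
      ring_nf <;> positivity
    · refine h.key_tor (lo := 0) hx h1 (h.cv_St.a j g hg h3) (h.cv_Al.a j g hg h3) (fun ψ hψ => by
        simp [h.FF_a' ((h.tor i).on hψ).2 hg h3 e]) ?_
      fin_cases i <;> fin_cases j <;> simp [nn, ee, al, st, hs] <;> rw [← sub_pos] <;>
      ring_nf <;> positivity

end SD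
end H18.SzT
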